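/-
Self-centralizing elementary abelian subgroups of order eight in 2-groups: basics.
`Phi H` is the subgroup generated by the squares of `H`; its index bounds the sectional 2-rank.
-/
import Cfsg.Agent.Lib.PGroups.Frattini
import Cfsg.Prelude.Def_CaseTheorems
import Mathlib.Tactic.Group
import Mathlib.GroupTheory.Index

set_option autoImplicit false

namespace CfsgLib.TwoFusion.SelfCent

variable {S : Type*} [Group S]

/-- The subgroup generated by the squares of the elements of `H`. -/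
def Phi (H : Subgroup S) : Subgroup S := Subgroup.closure ((fun x => x * x) '' (H : Set S))

theorem sq_mem_phi {H : Subgroup S} {x : S} (hx : x ∈ H) : x * x ∈ Phi H :=
  Subgroup.subset_closure ⟨x, hx, rfl⟩

theorem phi_le {H N : Subgroup S} (h : ∀ x ∈ H, x * x ∈ N) : Phi H ≤ N :=
  (Subgroup.closure_le _).2 (by rintro _ ⟨x, hx, rfl⟩; exact h x hx)

theorem phi_le_self (H : Subgroup S) : Phi H ≤ H := phi_le fun _ hx => H.mul_mem hx hx

theorem phi_mono {H K : Subgroup S} (h : H ≤ K) : Phi H ≤ Phi K :=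
  phi_le fun _ hx => sq_mem_phi (h hx)

theorem comm_mem_phi {H : Subgroup S} {x y : S} (hx : x ∈ H) (hy : y ∈ H) :
    x * y * x⁻¹ * y⁻¹ ∈ Phi H := by
  have e : x * y * x⁻¹ * y⁻¹
      = (x * y) * (x * y) * ((y⁻¹ * x⁻¹ * y) * (y⁻¹ * x⁻¹ * y)) * (y⁻¹ * y⁻¹) := by
    group
  rw [e]
  exact mul_mem (mul_mem (sq_mem_phi (mul_mem hx hy))
    (sq_mem_phi (mul_mem (mul_mem (inv_mem hy) (inv_mem hx)) hy))) (sq_mem_phi (inv_mem hy))

theorem phi_map {T : Type*} [Group T] (f : S →* T) (H : Subgroup S) :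
    (Phi H).map f = Phi (H.map f) := by
  rw [Phi, MonoidHom.map_closure, Phi]
  congr 1
  ext t
  constructor
  · rintro ⟨_, ⟨x, hx, rfl⟩, rfl⟩
    exact ⟨f x, ⟨x, hx, rfl⟩, (map_mul f x x).symm⟩
  · rintro ⟨_, ⟨x, hx, rfl⟩, rfl⟩
    exact ⟨x * x, ⟨x, hx, rfl⟩, map_mul f x x⟩

theorem conj_mem_phi {H : Subgroup S} {g : S} (hg : ∀ x ∈ H, g * x * g⁻¹ ∈ H) {p : S}
    (hp : p ∈ Phi H) : g * p * g⁻¹ ∈ Phi H := by
  have h1 : g * p * g⁻¹ ∈ (Phi H).map (MulAut.conj g).toMonoidHom :=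
    ⟨p, hp, by simp⟩
  rw [phi_map] at h1
  refine phi_mono ?_ h1
  rintro _ ⟨x, hx, rfl⟩
  simpa using hg x hx

instance phi_normal (H : Subgroup S) [hn : H.Normal] : (Phi H).Normal :=
  ⟨fun _ hp g => conj_mem_phi (fun x hx => hn.conj_mem x hx g) hp⟩

/-- The index of the subgroup generated by squares bounds the sectional 2-rank. -/
theorem sectional_of_phi [Finite S] {k : ℕ}
    (h : ∀ H : Subgroup S, (Phi H).relIndex H ≤ 2 ^ k) : Cfsg.SectionalPRankLE 2 k S := by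
  intro H N hN A _ hA2
  set K0 : Subgroup H := A.comap (QuotientGroup.mk' N) with hK0
  have hcard : N.relIndex K0 = Nat.card A := by
    conv_lhs => rw [← QuotientGroup.ker_mk' N]
    rw [Subgroup.relIndex_ker, hK0, Subgroup.map_comap_eq_self_of_surjective
      (QuotientGroup.mk'_surjective N)]
  have hle : Phi K0 ≤ N := by
    refine phi_le fun x hx => ?_
    rw [← QuotientGroup.eq_one_iff]
    have := hA2 _ hx
    rwa [pow_two] at this
  have h1 : N.relIndex K0 ∣ (Phi K0).relIndex K0 := Subgroup.relIndex_dvd_of_le_left _ hle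
  have h2 : (Phi K0).relIndex K0 = (Phi (K0.map H.subtype)).relIndex (K0.map H.subtype) := by
    rw [← phi_map, Subgroup.relIndex_map_map_of_injective _ _ H.subtype_injective]
  have h3 := h (K0.map H.subtype)
  rw [← h2] at h3
  rw [← hcard]
  refine (Nat.le_of_dvd ?_ h1).trans h3
  exact Nat.pos_of_ne_zero Subgroup.index_ne_zero_of_finite

theorem card_map_mul_inf (C : Subgroup S) [C.Normal] (X : Subgroup S) :
    Nat.card ↥(X ⊓ C) * Nat.card ↥(X.map (QuotientGroup.mk' C)) = Nat.card X := by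
  rw [← Subgroup.relIndex_ker, QuotientGroup.ker_mk', ← Subgroup.inf_relIndex_left X C]
  have := Subgroup.relIndex_mul_relIndex ⊥ (X ⊓ C) X bot_le inf_le_left
  rwa [Subgroup.relIndex_bot_left, Subgroup.relIndex_bot_left] at this

theorem relIndex_mul_card {X Y : Subgroup S} (h : X ≤ Y) :
    Nat.card X * X.relIndex Y = Nat.card Y := by
  have := Subgroup.relIndex_mul_relIndex ⊥ X Y bot_le h
  rwa [Subgroup.relIndex_bot_left, Subgroup.relIndex_bot_left] at this

/-- The index of `Phi H` splits along a normal subgroup `C`. -/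
theorem relIndex_phi_split [Finite S] (C : Subgroup S) [C.Normal] (H : Subgroup S) :
    (Phi H).relIndex H = (Phi H ⊓ C).relIndex (H ⊓ C)
      * (Phi (H.map (QuotientGroup.mk' C))).relIndex (H.map (QuotientGroup.mk' C)) := by
  have e1 := relIndex_mul_card (phi_le_self H)
  have e2 := relIndex_mul_card (inf_le_inf_right C (phi_le_self H))
  have e3 := relIndex_mul_card (phi_le_self (H.map (QuotientGroup.mk' C)))
  have e4 := card_map_mul_inf C H
  have e5 := card_map_mul_inf C (Phi H)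
  rw [← phi_map] at e3 ⊢
  rw [← e4, ← e2, ← e3, ← e5] at e1
  have hp : 0 < Nat.card ↥(Phi H ⊓ C) * Nat.card ↥((Phi H).map (QuotientGroup.mk' C)) :=
    Nat.mul_pos Nat.card_pos Nat.card_pos
  apply Nat.eq_of_mul_eq_mul_left hp
  rw [e1]; ring

/-- If `x * x = y * y` and elements of order dividing four of `C` are central in `C`, then
`x * y⁻¹` squares to one. -/
theorem sq_eq_sq [Finite S] (hS : IsPGroup 2 S) {C : Subgroup S}
    (hΩ : ∀ w ∈ C, w ^ 4 = 1 → ∀ c ∈ C, Commute w c) {x y : S} (hx : x ∈ C) (hy : y ∈ C)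
    (h : x * x = y * y) : (x * y⁻¹) * (x * y⁻¹) = 1 := by
  set u := x * y⁻¹ with hu
  have hinv : x * u * x⁻¹ = u⁻¹ := by
    calc x * u * x⁻¹ = (x * x) * y⁻¹ * x⁻¹ := by rw [hu]; group
      _ = (y * y) * y⁻¹ * x⁻¹ := by rw [h]
      _ = u⁻¹ := by rw [hu]; group
  have huC : u ∈ C := mul_mem hx (inv_mem hy)
  obtain ⟨k, hk⟩ := hS u
  induction k with
  | zero => rw [pow_zero, pow_one] at hk; rw [hk, one_mul]
  | succ k ih =>
    by_cases hk0 : k = 0
    · rw [hk0, zero_add, pow_one, pow_two] at hk; exact hk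
    obtain ⟨j, rfl⟩ := Nat.exists_eq_add_of_le' (Nat.one_le_iff_ne_zero.2 hk0)
    refine ih ?_
    set w := u ^ 2 ^ j with hw
    have hw4 : w ^ 4 = 1 := by
      rw [hw, ← pow_mul, show 2 ^ j * 4 = 2 ^ (j + 1 + 1) by ring]; exact hk
    have hwx : Commute w x := hΩ w (pow_mem huC _) hw4 x hx
    have h1 : x * w * x⁻¹ = w⁻¹ := by
      rw [hw, ← MulAut.conj_apply, map_pow, MulAut.conj_apply, hinv, inv_pow]
    rw [hwx.symm.eq, mul_inv_cancel_right] at h1
    rw [pow_succ, pow_mul, ← hw, pow_two]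
    exact mul_eq_one_iff_eq_inv.2 h1

/-- Squaring has fibres of size at most `|D ⊓ E|`. -/
theorem card_le_sq [Finite S] {D E : Subgroup S}
    (hsq : ∀ x ∈ D, ∀ y ∈ D, x * x = y * y → x * y⁻¹ ∈ E) :
    Nat.card D ≤ Set.ncard ((fun x => x * x) '' (D : Set S)) * Nat.card ↥(D ⊓ E) := by
  classical
  set Q := ((fun x => x * x) '' (D : Set S))
  rw [← Nat.card_coe_set_eq, ← Nat.card_prod]
  have hex : ∀ q : Q, ∃ x ∈ D, x * x = (q : S) := fun q => by
    obtain ⟨x, hx, h⟩ := q.2; exact ⟨x, hx, h⟩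
  choose r hrD hr using hex
  refine Nat.card_le_card_of_injective
    (fun x : D => ((⟨(x : S) * x, ⟨x, x.2, rfl⟩⟩ : Q),
      (⟨(x : S) * (r ⟨(x : S) * x, ⟨x, x.2, rfl⟩⟩)⁻¹,
        Subgroup.mem_inf.2 ⟨D.mul_mem x.2 (D.inv_mem (hrD _)),
          hsq (x : S) x.2 (r ⟨(x : S) * x, ⟨x, x.2, rfl⟩⟩) (hrD _)
            (hr ⟨(x : S) * x, ⟨x, x.2, rfl⟩⟩).symm⟩⟩ : ↥(D ⊓ E)))) ?_
  intro x y hxy
  simp only [Prod.mk.injEq, Subtype.mk.injEq] at hxy
  obtain ⟨h1, h2⟩ := hxy
  have e : r ⟨(x : S) * x, ⟨x, x.2, rfl⟩⟩ = r ⟨(y : S) * y, ⟨y, y.2, rfl⟩⟩ :=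
    congrArg r h1
  rw [e, mul_left_inj] at h2
  exact Subtype.ext h2

theorem ncard_sq_le [Finite S] (D : Subgroup S) :
    Set.ncard ((fun x => x * x) '' (D : Set S)) ≤ Nat.card ↥(Phi D) := by
  rw [← Nat.card_coe_set_eq]
  exact Nat.card_mono (Set.toFinite _) Subgroup.subset_closure

theorem relIndex_phi_le [Finite S] {D E : Subgroup S}
    (hsq : ∀ x ∈ D, ∀ y ∈ D, x * x = y * y → x * y⁻¹ ∈ E) :
    (Phi D).relIndex D ≤ Nat.card ↥(D ⊓ E) := by
  have h := (card_le_sq hsq).trans (Nat.mul_le_mul_right _ (ncard_sq_le D))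
  rw [← relIndex_mul_card (phi_le_self D)] at h
  exact Nat.le_of_mul_le_mul_left h Nat.card_pos

theorem exists_sq_of_mem_phi [Finite S] {D E : Subgroup S}
    (hsq : ∀ x ∈ D, ∀ y ∈ D, x * x = y * y → x * y⁻¹ ∈ E)
    (h : Nat.card ↥(D ⊓ E) ≤ (Phi D).relIndex D) {p : S} (hp : p ∈ Phi D) :
    ∃ x ∈ D, x * x = p := by
  have h1 := card_le_sq hsq
  rw [← relIndex_mul_card (phi_le_self D)] at h1
  have h2 : Nat.card ↥(Phi D) ≤ Set.ncard ((fun x => x * x) '' (D : Set S)) :=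
    Nat.le_of_mul_le_mul_right ((Nat.mul_le_mul_left _ h).trans h1) Nat.card_pos
  have heq : ((fun x => x * x) '' (D : Set S)) = (Phi D : Set S) := by
    refine Set.eq_of_subset_of_ncard_le Subgroup.subset_closure ?_ (Set.toFinite _)
    rw [← Nat.card_coe_set_eq]
    exact h2
  obtain ⟨x, hx, hxp⟩ : p ∈ ((fun x => x * x) '' (D : Set S)) := by rw [heq]; exact hp
  exact ⟨x, hx, hxp⟩

/-- `Phi C` consists of non-generators of `C`. -/
theorem eq_of_sup_phi [Finite S] (hS : IsPGroup 2 S) {X C : Subgroup S} (hX : X ≤ C)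
    (h : C ≤ X ⊔ Phi C) : X = C := by
  haveI : Fact (Nat.Prime 2) := ⟨Nat.prime_two⟩
  have hphi : Phi C = (Phi (⊤ : Subgroup C)).map C.subtype := by
    rw [phi_map, ← MonoidHom.range_eq_map, Subgroup.range_subtype]
  have hfr : Phi (⊤ : Subgroup C) ≤ frattini C := phi_le fun x _ => by
    rw [← pow_two]; exact CfsgLib.PGroups.pow_mem_frattini (hS.to_subgroup C) x
  have h1 : X.subgroupOf C ⊔ frattini C = ⊤ := by
    rw [eq_top_iff]
    intro x _
    refine (sup_le_sup_left hfr _) ?_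
    have hx := h x.2
    rw [← Subgroup.map_subgroupOf_eq_of_le hX, hphi, ← Subgroup.map_sup] at hx
    exact (Subgroup.mem_map_iff_mem C.subtype_injective).1 hx
  have h2 := frattini_nongenerating h1
  exact le_antisymm hX (Subgroup.subgroupOf_eq_top.1 h2)

end CfsgLib.TwoFusion.SelfCent
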