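/-
Involutions with small centralizers in 2-groups: counting lemmas used for the sectional rank bound
when the centralizer is the product of a dihedral or quasi-dihedral group and a four-group.
-/
import Cfsg.Agent.Lib.TwoFusion.SelfCentBase
import Mathlib.GroupTheory.Sylow
import Mathlib.GroupTheory.Nilpotent

set_option autoImplicit false

namespace CfsgLib.TwoFusion.KleinFactor

open CfsgLib.TwoFusion.SelfCent

variable {S : Type*} [Group S]

theorem comm_of_sq {A : Subgroup S} (hA : ∀ a ∈ A, a * a = 1) {a b : S} (ha : a ∈ A) (hb : b ∈ A) :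
    a * b = b * a := by
  have hi : ∀ c ∈ A, c⁻¹ = c := fun c hc => (eq_inv_of_mul_eq_one_left (hA c hc)).symm
  have h := hi _ (A.mul_mem ha hb)
  rw [mul_inv_rev, hi a ha, hi b hb] at h
  exact h.symm

/-- An involutory action on an elementary abelian 2-group fixes at least a square root. -/
theorem card_le_fix_sq [Finite S] (A : Subgroup S) (hA : ∀ a ∈ A, a * a = 1) (g : S)
    (hg : ∀ a ∈ A, g * a * g⁻¹ ∈ A) (hg2 : ∀ a ∈ A, Commute (g * g) a) :
    Nat.card A ≤ Nat.card ↥(A ⊓ Subgroup.centralizer ({g} : Set S)) ^ 2 := by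
  set F := A ⊓ Subgroup.centralizer ({g} : Set S) with hF
  let f : A →* A :=
    { toFun := fun a => a * ⟨g * a * g⁻¹, hg a a.2⟩
      map_one' := by ext; simp
      map_mul' := fun a b => by
        ext
        have h := comm_of_sq hA b.2 (hg a a.2)
        simp only [Subgroup.coe_mul]
        calc (a : S) * b * (g * (a * b) * g⁻¹) = a * ((b : S) * (g * a * g⁻¹)) * (g * b * g⁻¹) := by
              group
          _ = a * ((g * a * g⁻¹) * b) * (g * b * g⁻¹) := by rw [h]
          _ = a * (g * a * g⁻¹) * (b * (g * b * g⁻¹)) := by group }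
  have hcard := f.ker.index_mul_card
  rw [Subgroup.index_ker] at hcard
  have hi : ∀ c ∈ A, c⁻¹ = c := fun c hc => (eq_inv_of_mul_eq_one_left (hA c hc)).symm
  have hk : Nat.card f.ker ≤ Nat.card F := by
    refine Nat.card_le_card_of_injective (fun a => (⟨((a : A) : S), ?_⟩ : F)) ?_
    · refine Subgroup.mem_inf.2 ⟨(a : A).2, Subgroup.mem_centralizer_singleton_iff.2 ?_⟩
      have h := congrArg (fun x : A => (x : S)) a.2
      simp only [f, MonoidHom.coe_mk, OneHom.coe_mk, Subgroup.coe_mul, Subgroup.coe_one] at h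
      have h2 := eq_inv_of_mul_eq_one_right h
      rw [hi _ (a : A).2] at h2
      exact (mul_inv_eq_iff_eq_mul.1 h2).symm
    · intro a b h; exact Subtype.ext (Subtype.ext (congrArg (fun x : F => (x : S)) h))
  have hr : Nat.card f.range ≤ Nat.card F := by
    refine Nat.card_le_card_of_injective (fun a => (⟨((a : A) : S), ?_⟩ : F)) ?_
    · refine Subgroup.mem_inf.2 ⟨(a : A).2, Subgroup.mem_centralizer_singleton_iff.2 ?_⟩
      obtain ⟨x, hx⟩ := a.2
      rw [← hx]
      simp only [f, MonoidHom.coe_mk, OneHom.coe_mk, Subgroup.coe_mul]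
      have h1 : g * (g * x * g⁻¹) * g⁻¹ = (x : S) := by
        rw [show g * (g * x * g⁻¹) * g⁻¹ = g * g * x * (g * g)⁻¹ by group,
          (hg2 x x.2).eq, mul_inv_cancel_right]
      have h2 : g * ((x : S) * (g * x * g⁻¹)) * g⁻¹ = (x : S) * (g * x * g⁻¹) := by
        rw [show g * ((x : S) * (g * x * g⁻¹)) * g⁻¹
            = (g * x * g⁻¹) * (g * (g * x * g⁻¹) * g⁻¹) by group, h1]
        exact comm_of_sq hA (hg x x.2) x.2
      exact (mul_inv_eq_iff_eq_mul.1 h2).symm
    · intro a b h; exact Subtype.ext (Subtype.ext (congrArg (fun x : F => (x : S)) h))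
  rw [← hcard, pow_two]
  exact Nat.mul_le_mul hr hk

theorem card_mul_le_of_inf_bot [Finite S] {A B C : Subgroup S} (hA : A ≤ C) (hB : B ≤ C)
    (h : A ⊓ B = ⊥) : Nat.card A * Nat.card B ≤ Nat.card C := by
  rw [← Nat.card_prod]
  refine Nat.card_le_card_of_injective
    (fun x : A × B => (⟨x.1 * x.2, C.mul_mem (hA x.1.2) (hB x.2.2)⟩ : C)) ?_
  rintro ⟨a, b⟩ ⟨a', b'⟩ hab
  have hab' : (a : S) * b = a' * b' := congrArg (fun x : C => (x : S)) hab
  have h2 : (a' : S)⁻¹ * a = b' * (b : S)⁻¹ := by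
    rw [eq_mul_inv_iff_mul_eq, mul_assoc, hab', inv_mul_cancel_left]
  have hm : (a' : S)⁻¹ * a ∈ A ⊓ B :=
    ⟨A.mul_mem (A.inv_mem a'.2) a.2, h2 ▸ B.mul_mem b'.2 (B.inv_mem b.2)⟩
  rw [h, Subgroup.mem_bot] at hm
  have e1 : (a : S) = a' := (inv_mul_eq_one.1 hm).symm
  rw [e1, mul_left_cancel_iff] at hab'
  exact Prod.ext (Subtype.ext e1) (Subtype.ext hab')

/-- Centralizers do not grow in quotients. -/
theorem card_centralizer_quotient_le [Finite S] (K : Subgroup S) [K.Normal] (y : S) :
    Nat.card ↥(Subgroup.centralizer ({(y : S ⧸ K)} : Set (S ⧸ K))) ≤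
      Nat.card ↥(Subgroup.centralizer ({y} : Set S)) := by
  set P := (Subgroup.centralizer ({(y : S ⧸ K)} : Set (S ⧸ K))).comap (QuotientGroup.mk' K) with hP
  have hmem : ∀ g ∈ P, g * y * g⁻¹ * y⁻¹ ∈ K := by
    intro g hg
    rw [← QuotientGroup.eq_one_iff]
    have h := Subgroup.mem_centralizer_singleton_iff.1 (Subgroup.mem_comap.1 hg)
    simp only [QuotientGroup.mk'_apply] at h
    simp only [QuotientGroup.mk_mul, QuotientGroup.mk_inv]
    rw [h, mul_inv_cancel_right, mul_inv_cancel]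
  let c : P → K := fun g => ⟨g * y * (g : S)⁻¹ * y⁻¹, hmem g g.2⟩
  let s : K → P := Function.invFun c
  have hs : ∀ g : P, c (s (c g)) = c g := fun g => Function.invFun_eq ⟨g, rfl⟩
  have hP' : Nat.card P ≤ Nat.card ↥(Subgroup.centralizer ({y} : Set S)) * Nat.card K := by
    rw [← Nat.card_prod]
    refine Nat.card_le_card_of_injective (fun g : P => ((⟨(s (c g) : S)⁻¹ * g, ?_⟩ :
      ↥(Subgroup.centralizer ({y} : Set S))), c g)) ?_
    · rw [Subgroup.mem_centralizer_singleton_iff]
      have h := congrArg (fun x : K => (x : S)) (hs g)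
      simp only [c, mul_left_inj] at h
      set a : S := (s (c g) : S)
      calc a⁻¹ * (g : S) * y = a⁻¹ * ((g : S) * y * (g : S)⁻¹) * g := by group
        _ = a⁻¹ * (a * y * a⁻¹) * g := by rw [h]
        _ = y * (a⁻¹ * g) := by group
    · intro g g' h
      simp only [Prod.mk.injEq, Subtype.mk.injEq] at h
      rw [h.2] at h
      exact Subtype.ext (mul_left_cancel h.1)
  have h1 := card_map_mul_inf K P
  have hKP : P ⊓ K = K := inf_eq_right.2 fun k hk => by
    rw [hP, Subgroup.mem_comap, show QuotientGroup.mk' K k = 1 from (QuotientGroup.eq_one_iff k).2 hk]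
    exact one_mem _
  rw [hKP, hP, Subgroup.map_comap_eq_self_of_surjective (QuotientGroup.mk'_surjective K), ← hP] at h1
  rw [← h1, mul_comm (Nat.card K)] at hP'
  exact Nat.le_of_mul_le_mul_right hP' Nat.card_pos

/-- If a four-group of involutions with centralizers of order at most `16` normalizes `H`, then
`H` modulo its squares has order at most `16`. -/
theorem phi_le_sixteen_of_normalized [Finite S] (hS : IsPGroup 2 S) (B H : Subgroup S)
    (hB4 : Nat.card B = 4) (hB2 : ∀ b ∈ B, b * b = 1)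
    (hC : ∀ b ∈ B, b ≠ 1 → Nat.card ↥(Subgroup.centralizer ({b} : Set S)) ≤ 16)
    (hBH : B ≤ Subgroup.normalizer (H : Set S)) : (Phi H).relIndex H ≤ 16 := by
  set Y := Subgroup.normalizer (H : Set S) with hY
  set H' := H.subgroupOf Y with hH'
  have : H'.Normal := Subgroup.normal_in_normalizer
  have hmap : H'.map Y.subtype = H := Subgroup.map_subgroupOf_eq_of_le Subgroup.le_normalizer
  have hrel : (Phi H).relIndex H = (Phi H').relIndex H' := by
    conv_lhs => rw [← hmap]
    rw [← phi_map, Subgroup.relIndex_map_map_of_injective _ _ Y.subtype_injective]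
  set q := QuotientGroup.mk' (Phi H') with hq
  set E := H'.map q with hE
  have hEcard : Nat.card E = (Phi H').relIndex H' := by
    rw [hE, ← Subgroup.relIndex_ker, hq, QuotientGroup.ker_mk']
  have hE2 : ∀ e ∈ E, e * e = 1 := by
    rintro _ ⟨h, hh, rfl⟩
    rw [← map_mul]
    exact (QuotientGroup.eq_one_iff _).2 (sq_mem_phi hh)
  have hEn : E.Normal := Subgroup.Normal.map inferInstance q (QuotientGroup.mk'_surjective _)
  let β : B →* ↥Y ⧸ Phi H' := q.comp (Subgroup.inclusion hBH)
  have hCb : ∀ b : B, b ≠ 1 →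
      Nat.card ↥(Subgroup.centralizer ({β b} : Set (↥Y ⧸ Phi H'))) ≤ 16 := by
    intro b hb
    refine (card_centralizer_quotient_le (Phi H') (Subgroup.inclusion hBH b)).trans
      (le_trans ?_ (hC b b.2 (fun h => hb (Subtype.ext h))))
    refine Nat.card_le_card_of_injective
      (fun x => (⟨((x : Y) : S), ?_⟩ : ↥(Subgroup.centralizer ({(b : S)} : Set S)))) ?_
    · exact Subgroup.mem_centralizer_singleton_iff.2
        (congrArg (fun z : Y => (z : S)) (Subgroup.mem_centralizer_singleton_iff.1 x.2))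
    · intro x y h
      exact Subtype.ext (Subtype.ext (congrArg (fun z :
        ↥(Subgroup.centralizer ({(b : S)} : Set S)) => (z : S)) h))
  by_contra hbig
  rw [hrel, ← hEcard, not_le] at hbig
  have hEC : ∀ b : B, b ≠ 1 → β b ∉ E := by
    intro b hb hmem
    have h : E ≤ Subgroup.centralizer ({β b} : Set (↥Y ⧸ Phi H')) := fun e he =>
      Subgroup.mem_centralizer_singleton_iff.2 (comm_of_sq hE2 he hmem)
    exact absurd ((Subgroup.card_le_of_le h).trans (hCb b hb)) (not_le.2 hbig)
  have hB1 : ∃ b : B, b ≠ 1 := by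
    have : Nontrivial B := (Finite.one_lt_card_iff_nontrivial).1 (by rw [hB4]; norm_num)
    exact exists_ne 1
  obtain ⟨b, hb⟩ := hB1
  set W := Subgroup.centralizer ({β b} : Set (↥Y ⧸ Phi H')) with hW
  have hF : 8 ≤ Nat.card ↥(E ⊓ W) := by
    have hsq := card_le_fix_sq E hE2 (β b) (fun a ha => hEn.conj_mem a ha _) (fun a _ => by
      rw [← map_mul, show b * b = 1 from Subtype.ext (hB2 b b.2), map_one]; exact Commute.one_left a)
    obtain ⟨j, hj⟩ := ((hS.to_subgroup Y).to_quotient (Phi H')).to_subgroup (E ⊓ W)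
      |>.exists_card_eq
    rw [← hW, hj] at hsq
    rw [hj]
    by_contra hlt
    have : j ≤ 2 := by
      by_contra hj3
      exact hlt ((show (8 : ℕ) = 2 ^ 3 by norm_num) ▸ Nat.pow_le_pow_right two_pos (by omega))
    have : (2 ^ j) ^ 2 ≤ (2 ^ 2) ^ 2 := Nat.pow_le_pow_left (Nat.pow_le_pow_right two_pos this) 2
    omega
  have hβW : ∀ b' : B, β b' ∈ W := fun b' => Subgroup.mem_centralizer_singleton_iff.2 (by
    rw [← map_mul, ← map_mul, show b' * b = b * b' from Subtype.ext (comm_of_sq hB2 b'.2 b.2)])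
  have hdisj : (E ⊓ W) ⊓ β.range = ⊥ := by
    rw [eq_bot_iff]
    rintro x ⟨⟨hxE, -⟩, ⟨b', rfl⟩⟩
    by_cases hb' : b' = 1
    · rw [hb', map_one]; exact one_mem _
    · exact absurd hxE (hEC b' hb')
  have hinj : Function.Injective β := by
    rw [injective_iff_map_eq_one]
    intro b' hb'
    by_contra hne
    exact hEC b' hne (hb' ▸ E.one_mem)
  have hr4 : Nat.card β.range = 4 := by
    rw [← hB4]
    exact (Nat.card_congr (MonoidHom.ofInjective hinj).toEquiv).symm
  have h32 := card_mul_le_of_inf_bot (C := W) inf_le_right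
    (by rintro _ ⟨b', rfl⟩; exact hβW b') hdisj
  rw [hr4] at h32
  have h16 : Nat.card W ≤ 16 := hCb b hb
  omega

theorem relIndex_zpowers_sq_le_two [Finite S] (g : S) :
    (Subgroup.zpowers (g * g)).relIndex (Subgroup.zpowers g) ≤ 2 := by
  have h := relIndex_mul_card (show Subgroup.zpowers (g * g) ≤ Subgroup.zpowers g from
    Subgroup.zpowers_le.2 (mul_mem (Subgroup.mem_zpowers g) (Subgroup.mem_zpowers g)))
  rw [Nat.card_zpowers, Nat.card_zpowers, ← pow_two, orderOf_pow' g two_ne_zero] at h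
  have h2 : Nat.gcd (orderOf g) 2 ≤ 2 := Nat.gcd_le_right _ two_pos
  have hd := Nat.gcd_dvd_left (orderOf g) 2
  have hpos : 0 < orderOf g / Nat.gcd (orderOf g) 2 :=
    Nat.div_pos (Nat.le_of_dvd (orderOf_pos g) hd) (Nat.gcd_pos_of_pos_right _ two_pos)
  have he : orderOf g / Nat.gcd (orderOf g) 2 * Nat.gcd (orderOf g) 2 = orderOf g :=
    Nat.div_mul_cancel hd
  rw [← pow_two]
  nlinarith

/-- A group with a cyclic normal subgroup of index at most `8`. -/
theorem phi_le_sixteen_of_cyclic [Finite S] (C : Subgroup S) [C.Normal] [IsCyclic C]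
    (hC : C.index ≤ 8) (H : Subgroup S) : (Phi H).relIndex H ≤ 16 := by
  rw [relIndex_phi_split C H]
  have h1 : (Phi H ⊓ C).relIndex (H ⊓ C) ≤ 2 := by
    have : IsCyclic ↥(H ⊓ C) := Subgroup.isCyclic_of_le inf_le_right
    obtain ⟨g, hg⟩ := (Subgroup.isCyclic_iff_exists_zpowers_eq_top _).1 this
    have hle : Subgroup.zpowers (g * g) ≤ Phi H ⊓ C := by
      have hgm : g ∈ H ⊓ C := hg ▸ Subgroup.mem_zpowers g
      exact Subgroup.zpowers_le.2 ⟨sq_mem_phi hgm.1, C.mul_mem hgm.2 hgm.2⟩
    rw [← hg]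
    refine le_trans ?_ (relIndex_zpowers_sq_le_two g)
    exact Nat.le_of_dvd (Nat.pos_of_ne_zero Subgroup.index_ne_zero_of_finite)
      (Subgroup.relIndex_dvd_of_le_left _ hle)
  have h2 : (Phi (H.map (QuotientGroup.mk' C))).relIndex (H.map (QuotientGroup.mk' C)) ≤ 8 := by
    refine le_trans ?_ ((Subgroup.index_eq_card C).symm.le.trans hC)
    exact (Nat.le_of_dvd Nat.card_pos (Subgroup.relIndex_dvd_card _ _)).trans
      (Nat.card_le_card_of_injective _ Subtype.val_injective)
  calc _ ≤ 2 * 8 := Nat.mul_le_mul h1 h2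
    _ = 16 := rfl

/-- The sectional 2-rank is determined by a Sylow 2-subgroup. -/
theorem sectional_of_sylow [Finite S] {k : ℕ} (P : Sylow 2 S)
    (h : ∀ H : Subgroup S, H ≤ (P : Subgroup S) → (Phi H).relIndex H ≤ 2 ^ k) :
    Cfsg.SectionalPRankLE 2 k S := by
  have : Fact (Nat.Prime 2) := ⟨Nat.prime_two⟩
  refine sectional_of_phi fun H => ?_
  let Φ' : Subgroup H := Phi (⊤ : Subgroup H)
  have hΦ : Φ'.map H.subtype = Phi H := by
    rw [phi_map, ← MonoidHom.range_eq_map, Subgroup.range_subtype]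
  have : Φ'.Normal := inferInstanceAs (Phi (⊤ : Subgroup H)).Normal
  have hq2 : IsPGroup 2 (↥H ⧸ Φ') := fun x => by
    induction x using QuotientGroup.induction_on with
    | _ x =>
      refine ⟨1, ?_⟩
      rw [pow_one, pow_two, ← QuotientGroup.mk_mul, QuotientGroup.eq_one_iff]
      exact sq_mem_phi (Subgroup.mem_top x)
  have hrel : (Phi H).relIndex H = Nat.card (↥H ⧸ Φ') := by
    rw [← hΦ]
    conv_lhs => arg 2; rw [← Subgroup.range_subtype H, MonoidHom.range_eq_map]
    rw [Subgroup.relIndex_map_map_of_injective _ _ H.subtype_injective, Subgroup.relIndex_top_right,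
      Subgroup.index_eq_card]
  let Q : Sylow 2 H := default
  have hsurj : (Q : Subgroup H).map (QuotientGroup.mk' Φ') = ⊤ := by
    have hQ := Q.mapSurjective (QuotientGroup.mk'_surjective Φ')
    have h1 : (Q.mapSurjective (QuotientGroup.mk'_surjective Φ') : Subgroup (↥H ⧸ Φ')) = ⊤ :=
      ((Q.mapSurjective (QuotientGroup.mk'_surjective Φ')).3
        (hq2.to_subgroup ⊤) le_top).symm
    rwa [Sylow.coe_mapSurjective] at h1
  set QS := (Q : Subgroup H).map H.subtype with hQS
  obtain ⟨g, hg⟩ : ∃ g : S, QS.map (MulAut.conj g).toMonoidHom ≤ (P : Subgroup S) := by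
    obtain ⟨P', hP'⟩ := IsPGroup.exists_le_sylow (Q.2.map H.subtype)
    obtain ⟨g, hg⟩ := MulAction.exists_smul_eq S P' P
    refine ⟨g, ?_⟩
    rw [← hg]
    exact Subgroup.map_mono hP'
  have h1 := h _ hg
  rw [← phi_map, Subgroup.relIndex_map_map_of_injective _ _ (MulAut.conj g).injective, hQS,
    ← phi_map, Subgroup.relIndex_map_map_of_injective _ _ H.subtype_injective] at h1
  rw [hrel, ← Subgroup.card_top, ← hsurj, ← Subgroup.relIndex_ker, QuotientGroup.ker_mk']
  refine le_trans (Nat.le_of_dvd ?_ (Subgroup.relIndex_dvd_of_le_left _ (phi_mono le_top))) h1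
  exact Nat.pos_of_ne_zero Subgroup.index_ne_zero_of_finite

end CfsgLib.TwoFusion.KleinFactor
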