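/-
Self-centralizing elementary abelian subgroups of order eight in 2-groups: the set-up with a
maximal normal abelian subgroup `A0` of exponent dividing four and `E` its elements of order ≤ 2.
-/
import Cfsg.Agent.Lib.TwoFusion.SelfCentBase
import Cfsg.Agent.Lib.PGroups.NormalAbelian

set_option autoImplicit false

namespace CfsgLib.TwoFusion.SelfCent

variable {S : Type*} [Group S]

/-- A self-centralizing elementary abelian `A` of order 8 with auxiliary normal subgroups. -/
structure Data (S : Type*) [Group S] where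
  A : Subgroup S
  E : Subgroup S
  A0 : Subgroup S
  isP : IsPGroup 2 S
  A_sq : ∀ a ∈ A, a * a = 1
  A_card : Nat.card A = 8
  A_self : ∀ x, (∀ a ∈ A, Commute x a) → x ∈ A
  E_normal : E.Normal
  A0_normal : A0.Normal
  A0_comm : ∀ x ∈ A0, ∀ y ∈ A0, Commute x y
  A0_four : ∀ x ∈ A0, x ^ 4 = 1
  mem_E : ∀ x, x ∈ E ↔ x ∈ A0 ∧ x * x = 1
  omega : ∀ x, (∀ y ∈ A0, Commute x y) → x ^ 4 = 1 → x ∈ A0

theorem exists_data [Finite S] (hS : IsPGroup 2 S) (A : Subgroup S)
    (hA2 : ∀ a ∈ A, a * a = 1) (hA8 : Nat.card A = 8)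
    (hC : ∀ x, (∀ a ∈ A, Commute x a) → x ∈ A) : ∃ D : Data S, D.A = A := by
  haveI : Fact (Nat.Prime 2) := ⟨Nat.prime_two⟩
  obtain ⟨A0, ⟨hn, hc, h4⟩, hmax⟩ := Set.Finite.exists_maximal
    (s := {B : Subgroup S | B.Normal ∧ IsMulCommutative B ∧ ∀ b ∈ B, b ^ 4 = 1}) (Set.toFinite _)
    ⟨⊥, inferInstance, inferInstance, fun b hb => by rw [Subgroup.mem_bot.1 hb, one_pow]⟩
  haveI := hn
  have hcomm : ∀ x ∈ A0, ∀ y ∈ A0, Commute x y := fun x hx y hy =>
    congrArg Subtype.val (hc.is_comm.comm ⟨x, hx⟩ ⟨y, hy⟩)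
  let E : Subgroup S :=
    { carrier := {x | x ∈ A0 ∧ x * x = 1}
      one_mem' := ⟨one_mem _, one_mul 1⟩
      mul_mem' := fun {p q} hp hq => ⟨mul_mem hp.1 hq.1, by
        rw [(hcomm q hq.1 p hp.1).mul_mul_mul_comm p q, hp.2, hq.2, one_mul]⟩
      inv_mem' := fun {p} hp => ⟨inv_mem hp.1, by rw [← mul_inv_rev, hp.2, inv_one]⟩ }
  have hEn : E.Normal := ⟨fun x hx g => ⟨hn.conj_mem x hx.1 g, by
    rw [show g * x * g⁻¹ * (g * x * g⁻¹) = g * (x * x) * g⁻¹ by group, hx.2]; group⟩⟩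
  refine ⟨⟨A, E, A0, hS, hA2, hA8, hC, hEn, hn, hcomm, h4, fun x => Iff.rfl, fun x hx hx4 => ?_⟩,
    rfl⟩
  refine CfsgLib.PGroups.mem_of_maximal_exponent hS 2 (by norm_num) A0 hc (fun b hb => h4 b hb)
    (fun B hB1 hB2 hB3 hle => le_antisymm (hmax ⟨hB1, hB2, fun b hb => hB3 b hb⟩ hle) hle)
    (Subgroup.mem_centralizer_iff.2 fun y hy => (hx y hy).symm.eq) hx4

/-- `|F| ≤ |C_F(b)| ^ 2` for an involution `b` acting on an elementary abelian group `F`. -/
theorem card_le_fix_sq [Finite S] {F : Subgroup S} {b : S} (hb : b * b = 1)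
    (hF : ∀ x ∈ F, x * x = 1) (hinv : ∀ x ∈ F, b * x * b ∈ F) :
    Nat.card F ≤ Nat.card ↥(F ⊓ Subgroup.centralizer ({b} : Set S)) *
      Nat.card ↥(F ⊓ Subgroup.centralizer ({b} : Set S)) := by
  have hcomm : ∀ x ∈ F, ∀ y ∈ F, Commute x y := fun x hx y hy => by
    have h : (x * y)⁻¹ = x * y := inv_eq_of_mul_eq_one_right (hF _ (mul_mem hx hy))
    rw [mul_inv_rev, inv_eq_of_mul_eq_one_right (hF x hx),
      inv_eq_of_mul_eq_one_right (hF y hy)] at h
    exact h.symm
  let f : F →* F := MonoidHom.mk' (fun e => ⟨(e : S) * (b * e * b), mul_mem e.2 (hinv _ e.2)⟩)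
    (fun e₁ e₂ => Subtype.ext (by
      show (e₁ : S) * e₂ * (b * (e₁ * e₂) * b) = e₁ * (b * e₁ * b) * (e₂ * (b * e₂ * b))
      rw [show b * ((e₁ : S) * e₂) * b = (b * e₁ * b) * (b * e₂ * b) by
        calc b * ((e₁ : S) * e₂) * b = b * e₁ * 1 * e₂ * b := by group
          _ = b * e₁ * (b * b) * e₂ * b := by rw [hb]
          _ = _ := by group]
      rw [(hcomm _ e₂.2 _ (hinv _ e₁.2)).mul_mul_mul_comm]))
  have hk : Nat.card f.ker ≤ Nat.card ↥(F ⊓ Subgroup.centralizer ({b} : Set S)) := by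
    refine Nat.card_le_card_of_injective (fun e : f.ker => (⟨((e : F) : S), ?_⟩ :
      ↥(F ⊓ Subgroup.centralizer ({b} : Set S)))) ?_
    · refine Subgroup.mem_inf.2 ⟨(e : F).2, ?_⟩
      have h : ((e : F) : S) * (b * (e : F) * b) = 1 := congrArg Subtype.val e.2
      rw [Subgroup.mem_centralizer_singleton_iff]
      set x := ((e : F) : S)
      have h2 : b * x * b = x := by
        rw [mul_eq_one_iff_eq_inv'.1 h, inv_eq_of_mul_eq_one_right (hF x (e : F).2)]
      calc x * b = (b * x * b) * b := by rw [h2]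
        _ = b * x * (b * b) := by group
        _ = b * x := by rw [hb, mul_one]
    · intro p q h
      simp only [Subtype.mk.injEq] at h
      have h' : ((p : F) : S) = ((q : F) : S) := h
      exact Subtype.ext (Subtype.ext h')
  have hr : Nat.card f.range ≤ Nat.card ↥(F ⊓ Subgroup.centralizer ({b} : Set S)) := by
    refine Nat.card_le_card_of_injective (fun e : f.range => (⟨((e : F) : S), ?_⟩ :
      ↥(F ⊓ Subgroup.centralizer ({b} : Set S)))) ?_
    · refine Subgroup.mem_inf.2 ⟨(e : F).2, ?_⟩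
      obtain ⟨x, hx⟩ := e.2
      rw [← hx, Subgroup.mem_centralizer_singleton_iff]
      show (x : S) * (b * x * b) * b = b * (x * (b * x * b))
      rw [(hcomm _ x.2 _ (hinv _ x.2)).eq]
      calc b * x * b * x * b = b * x * b * x * b * 1 := (mul_one _).symm
        _ = b * x * b * x * b := by rw [mul_one]
        _ = b * (x * (b * x * b)) := by group
      rw [← (hcomm _ x.2 _ (hinv _ x.2)).eq]
    · intro p q h
      simp only [Subtype.mk.injEq] at h
      have h' : ((p : F) : S) = ((q : F) : S) := h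
      exact Subtype.ext (Subtype.ext h')
  calc Nat.card F = Nat.card f.ker * f.ker.index := f.ker.card_mul_index.symm
    _ ≤ _ := by rw [Subgroup.index_ker]; exact Nat.mul_le_mul hk hr

namespace Data

variable (D : Data S)

/-- The centralizer of `A0`. -/
abbrev C : Subgroup S := Subgroup.centralizer (D.A0 : Set S)

theorem normal_C : D.C.Normal := by
  haveI := D.A0_normal
  infer_instance

theorem mem_C {x : S} : x ∈ D.C ↔ ∀ y ∈ D.A0, Commute x y :=
  ⟨fun h y hy => (Subgroup.mem_centralizer_iff.1 h y hy).symm,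
    fun h => Subgroup.mem_centralizer_iff.2 fun y hy => (h y hy).symm.eq⟩

theorem E_le : D.E ≤ D.A0 := fun x hx => ((D.mem_E x).1 hx).1

theorem E_sq {x : S} (hx : x ∈ D.E) : x * x = 1 := ((D.mem_E x).1 hx).2

theorem E_inv {x : S} (hx : x ∈ D.E) : x⁻¹ = x := inv_eq_of_mul_eq_one_right (D.E_sq hx)

theorem A_inv {x : S} (hx : x ∈ D.A) : x⁻¹ = x := inv_eq_of_mul_eq_one_right (D.A_sq x hx)

theorem A_comm {x y : S} (hx : x ∈ D.A) (hy : y ∈ D.A) : Commute x y := by
  have h := D.A_inv (mul_mem hx hy)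
  rw [mul_inv_rev, D.A_inv hx, D.A_inv hy] at h
  exact h.symm

theorem A0_le_C : D.A0 ≤ D.C := fun _ hx => D.mem_C.2 fun y hy => D.A0_comm _ hx y hy

theorem E_le_C : D.E ≤ D.C := D.E_le.trans D.A0_le_C

theorem E_comm {x y : S} (hx : x ∈ D.E) (hy : y ∈ D.E) : Commute x y :=
  D.A0_comm x (D.E_le hx) y (D.E_le hy)

theorem C_four {x : S} (hx : x ∈ D.C) (h : x ^ 4 = 1) : x ∈ D.A0 :=
  D.omega x (D.mem_C.1 hx) h

theorem C_sq_one {x : S} (hx : x ∈ D.C) (h : x * x = 1) : x ∈ D.E :=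
  (D.mem_E x).2 ⟨D.C_four hx (by rw [show x ^ 4 = (x * x) * (x * x) by
    rw [pow_succ, pow_succ, pow_succ, pow_one]; group, h, one_mul]), h⟩

theorem A_inf_C {x : S} (hA : x ∈ D.A) (hC : x ∈ D.C) : x ∈ D.E := D.C_sq_one hC (D.A_sq x hA)

theorem sq_ratio [Finite S] {x y : S} (hx : x ∈ D.C) (hy : y ∈ D.C) (h : x * x = y * y) :
    x * y⁻¹ ∈ D.E :=
  D.C_sq_one (mul_mem hx (inv_mem hy)) (sq_eq_sq D.isP (C := D.C)
    (fun w hw hw4 c hc => (D.mem_C.1 hc w (D.C_four hw hw4)).symm) hx hy h)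

theorem relIndex_phi_le_E [Finite S] {H : Subgroup S} (hH : H ≤ D.C) :
    (Phi H).relIndex H ≤ Nat.card ↥(H ⊓ D.E) :=
  relIndex_phi_le fun _ hx _ hy h => D.sq_ratio (hH hx) (hH hy) h

theorem relIndex_phi_le_card [Finite S] {H : Subgroup S} (hH : H ≤ D.C) :
    (Phi H).relIndex H ≤ Nat.card D.E :=
  (D.relIndex_phi_le_E hH).trans (Subgroup.card_le_of_le inf_le_right)

theorem A0_ne_bot [Finite S] : D.A0 ≠ ⊥ := by
  intro h
  have hA : D.A ≤ ⊥ := by
    intro x hx
    rw [← h]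
    refine D.omega x (fun y hy => ?_) ?_
    · rw [h, Subgroup.mem_bot] at hy; rw [hy]; exact Commute.one_right x
    · rw [show x ^ 4 = (x * x) * (x * x) by
        rw [pow_succ, pow_succ, pow_succ, pow_one]; group, D.A_sq x hx, one_mul]
  have := Subgroup.card_le_of_le hA
  rw [D.A_card, Subgroup.card_bot] at this
  omega

/-- A central involution in `A ⊓ E`. -/
theorem exists_z [Finite S] : ∃ z, z ∈ D.A ∧ z ∈ D.E ∧ z ≠ 1 ∧ ∀ g, Commute g z := by
  haveI : Fact (Nat.Prime 2) := ⟨Nat.prime_two⟩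
  haveI := D.E_normal
  have hE : D.E ≠ ⊥ := by
    intro h
    refine D.A0_ne_bot ((Subgroup.eq_bot_iff_forall _).2 fun x hx => ?_)
    have h1 : x * x ∈ D.E := (D.mem_E _).2 ⟨mul_mem hx hx, by
      rw [← D.A0_four x hx, pow_succ, pow_succ, pow_succ, pow_one]; group⟩
    rw [h, Subgroup.mem_bot] at h1
    have h2 : x ∈ D.E := (D.mem_E x).2 ⟨hx, h1⟩
    rwa [h, Subgroup.mem_bot] at h2
  obtain ⟨z, hzE, hz1, hzZ⟩ := CfsgLib.TwoGroups.exists_mem_center_of_normal D.isP hE
  have hzc : ∀ g, Commute g z := fun g => Subgroup.mem_center_iff.1 hzZ g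
  exact ⟨z, D.A_self z fun a _ => (hzc a).symm, hzE, hz1, hzc⟩

theorem card_AE [Finite S] :
    Nat.card ↥(D.A ⊓ D.E) = 2 ∨ Nat.card ↥(D.A ⊓ D.E) = 4 ∨ Nat.card ↥(D.A ⊓ D.E) = 8 := by
  obtain ⟨z, hzA, hzE, hz1, -⟩ := D.exists_z
  have hd : Nat.card ↥(D.A ⊓ D.E) ∣ 8 := D.A_card ▸ Subgroup.card_dvd_of_le inf_le_left
  have h1 : Nat.card ↥(D.A ⊓ D.E) ≠ 1 := fun h => hz1 (by
    have := Subgroup.card_eq_one.1 h
    exact Subgroup.mem_bot.1 (this ▸ ⟨hzA, hzE⟩))
  have := Nat.le_of_dvd (by norm_num) hd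
  interval_cases (Nat.card ↥(D.A ⊓ D.E)) <;> simp_all

theorem A_le_E_of_eight [Finite S] (h : Nat.card ↥(D.A ⊓ D.E) = 8) : D.A = D.E := by
  have h1 : D.A ⊓ D.E = D.A := Subgroup.eq_of_le_of_card_ge inf_le_left (by rw [h, D.A_card])
  have hle : D.A ≤ D.E := inf_eq_left.1 h1
  exact le_antisymm hle fun e he => D.A_self e fun a ha => D.E_comm he (hle ha)

theorem mul_mem_E_of_four [Finite S] (h : Nat.card ↥(D.A ⊓ D.E) = 4) {a x : S} (ha : a ∈ D.A)
    (haE : a ∉ D.E) (hx : x ∈ D.A) (hxE : x ∉ D.E) : x * a ∈ D.E := by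
  have hidx : ((D.A ⊓ D.E).subgroupOf D.A).index = 2 := by
    have := relIndex_mul_card (inf_le_left : D.A ⊓ D.E ≤ D.A)
    rw [h, D.A_card] at this
    rw [Subgroup.relIndex] at this
    omega
  have := Subgroup.mul_mem_iff_of_index_two hidx (a := ⟨x, hx⟩) (b := ⟨a, ha⟩)
  simp only [Subgroup.mem_subgroupOf, Subgroup.coe_mul, Subgroup.mem_inf] at this
  exact (this.2 (iff_of_false (fun h => hxE h.2) (fun h => haE h.2))).2

theorem fix_eq_of_four [Finite S] (h : Nat.card ↥(D.A ⊓ D.E) = 4) {a e : S} (ha : a ∈ D.A)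
    (haE : a ∉ D.E) (he : e ∈ D.E) (hc : Commute e a) : e ∈ D.A := by
  refine D.A_self e fun x hx => ?_
  by_cases hxE : x ∈ D.E
  · exact D.E_comm he hxE
  have := (D.E_comm he (D.mul_mem_E_of_four h ha haE hx hxE)).mul_right hc.inv_right
  rwa [mul_inv_cancel_right] at this

/-- The data used when `|A ⊓ E| = 2`: `A = ⟨z, a, b⟩`. -/
structure Frame (D : Data S) (z a b : S) : Prop where
  zA : z ∈ D.A
  zE : z ∈ D.E
  z1 : z ≠ 1
  zc : ∀ g, Commute g z
  aA : a ∈ D.A
  bA : b ∈ D.A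
  aE : a ∉ D.E
  bE : b ∉ D.E
  abE : a * b ∉ D.E
  AE : ∀ x, x ∈ D.A → x ∈ D.E → x = 1 ∨ x = z

theorem exists_frame [Finite S] (h : Nat.card ↥(D.A ⊓ D.E) = 2) {a : S} (ha : a ∈ D.A)
    (haE : a ∉ D.E) : ∃ z b, Frame D z a b := by
  classical
  obtain ⟨z, hzA, hzE, hz1, hzc⟩ := D.exists_z
  have hAE : ∀ x, x ∈ D.A → x ∈ D.E → x = 1 ∨ x = z := by
    intro x hx hxE
    by_contra hcon
    push Not at hcon
    have hsub : (↑({1, z, x} : Finset S) : Set S) ⊆ ↑(D.A ⊓ D.E) := by
      intro t ht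
      simp only [Finset.coe_insert, Finset.coe_singleton, Set.mem_insert_iff,
        Set.mem_singleton_iff] at ht
      rcases ht with rfl | rfl | rfl
      exacts [one_mem _, ⟨hzA, hzE⟩, ⟨hx, hxE⟩]
    have h1 := Set.ncard_le_ncard hsub (Set.toFinite _)
    rw [Set.ncard_coe_finset, ← Nat.card_coe_set_eq] at h1
    have h2 : ({1, z, x} : Finset S).card = 3 := by
      simp [hz1.symm, Ne.symm hcon.1, Ne.symm hcon.2]
    have h3 : Nat.card ↥(↑(D.A ⊓ D.E) : Set S) = Nat.card ↥(D.A ⊓ D.E) := rfl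
    omega
  obtain ⟨b, hb, hb'⟩ : ∃ b ∈ D.A, b ∉ ({1, z, a, a * z} : Finset S) := by
    by_contra hcon
    push Not at hcon
    have h1 := Set.ncard_le_ncard (s := (D.A : Set S)) (t := ↑({1, z, a, a * z} : Finset S))
      (fun x hx => hcon x hx) (Finset.finite_toSet _)
    rw [Set.ncard_coe_finset, ← Nat.card_coe_set_eq] at h1
    have h2 : ({1, z, a, a * z} : Finset S).card ≤ 4 := Finset.card_le_four
    have h3 : Nat.card ↥(↑D.A : Set S) = 8 := D.A_card
    omega
  simp only [Finset.mem_insert, Finset.mem_singleton, not_or] at hb'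
  refine ⟨z, b, hzA, hzE, hz1, hzc, ha, hb, haE, ?_, ?_, hAE⟩
  · intro hbE
    rcases hAE b hb hbE with h | h
    exacts [hb'.1 h, hb'.2.1 h]
  · intro habE
    rcases hAE _ (mul_mem ha hb) habE with h | h
    · refine hb'.2.2.1 ?_
      rw [← inv_eq_of_mul_eq_one_right h, D.A_inv ha]
    · refine hb'.2.2.2 ?_
      rw [← h, ← mul_assoc, D.A_sq a ha, one_mul]

namespace Frame

variable {D} {z a b : S} (hf : Frame D z a b)
include hf

/-- An element commuting with `a` and `b` centralizes `A`. -/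
theorem mem_A [Finite S] {x : S} (hxa : Commute x a) (hxb : Commute x b) : x ∈ D.A := by
  classical
  refine D.A_self x fun y hy => ?_
  have hle : D.A ⊓ Subgroup.centralizer ({x} : Set S) = D.A := by
    refine Subgroup.eq_of_le_of_card_ge inf_le_left ?_
    have hd : Nat.card ↥(D.A ⊓ Subgroup.centralizer ({x} : Set S)) ∣ 8 :=
      D.A_card ▸ Subgroup.card_dvd_of_le inf_le_left
    have hsub : (↑({1, z, a, b, a * b} : Finset S) : Set S)
        ⊆ ↑(D.A ⊓ Subgroup.centralizer ({x} : Set S)) := by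
      intro t ht
      simp only [Finset.coe_insert, Finset.coe_singleton, Set.mem_insert_iff,
        Set.mem_singleton_iff] at ht
      rw [SetLike.mem_coe, Subgroup.mem_inf, Subgroup.mem_centralizer_singleton_iff]
      rcases ht with rfl | rfl | rfl | rfl | rfl
      exacts [⟨one_mem _, by simp⟩, ⟨hf.zA, (hf.zc x).symm.eq⟩, ⟨hf.aA, hxa.symm.eq⟩,
        ⟨hf.bA, hxb.symm.eq⟩, ⟨mul_mem hf.aA hf.bA, (hxa.mul_right hxb).symm.eq⟩]
    have h2 : ({1, z, a, b, a * b} : Finset S).card = 5 := by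
      have n1 : a ≠ 1 := fun h => hf.aE (h ▸ one_mem _)
      have n2 : b ≠ 1 := fun h => hf.bE (h ▸ one_mem _)
      have n3 : a * b ≠ 1 := fun h => hf.abE (h ▸ one_mem _)
      have n4 : a ≠ z := fun h => hf.aE (h ▸ hf.zE)
      have n5 : b ≠ z := fun h => hf.bE (h ▸ hf.zE)
      have n6 : a * b ≠ z := fun h => hf.abE (h ▸ hf.zE)
      have n7 : a ≠ b := fun h => n3 (by rw [h, D.A_sq b hf.bA])
      simp [hf.z1.symm, n1.symm, n2.symm, n3.symm, n4.symm, n5.symm, n6.symm, n7, n1, n2]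
    have h1 := Set.ncard_le_ncard hsub (Set.toFinite _)
    rw [Set.ncard_coe_finset, h2, ← Nat.card_coe_set_eq] at h1
    rw [D.A_card]
    have h3 : 5 ≤ Nat.card ↥(D.A ⊓ Subgroup.centralizer ({x} : Set S)) := h1
    have h4 := Nat.le_of_dvd (by norm_num) hd
    generalize Nat.card ↥(D.A ⊓ Subgroup.centralizer ({x} : Set S)) = n at hd h3 h4 ⊢
    interval_cases n <;> omega
  have hy' : y ∈ D.A ⊓ Subgroup.centralizer ({x} : Set S) := by rw [hle]; exact hy
  exact (Subgroup.mem_centralizer_singleton_iff.1 hy'.2).symm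

theorem fix_eq [Finite S] {e : S} (he : e ∈ D.E) (hea : Commute e a) (heb : Commute e b) :
    e = 1 ∨ e = z :=
  hf.AE e (hf.mem_A hea heb) he

theorem card_fix_le [Finite S] :
    Nat.card ↥(D.E ⊓ Subgroup.centralizer ({a} : Set S)) ≤ 4 := by
  classical
  haveI := D.E_normal
  refine (card_le_fix_sq (D.A_sq b hf.bA)
    (fun x hx => D.E_sq (Subgroup.mem_inf.1 hx).1) ?_).trans ?_
  · intro x hx
    refine Subgroup.mem_inf.2 ⟨?_, ?_⟩
    · have := ‹D.E.Normal›.conj_mem x (Subgroup.mem_inf.1 hx).1 b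
      rwa [D.A_inv hf.bA] at this
    · rw [Subgroup.mem_centralizer_singleton_iff]
      have hxa : Commute x a :=
        Subgroup.mem_centralizer_singleton_iff.1 (Subgroup.mem_inf.1 hx).2
      exact (((D.A_comm hf.bA hf.aA).mul_left hxa).mul_left (D.A_comm hf.bA hf.aA)).eq
  · have h2 : Nat.card ↥(D.E ⊓ Subgroup.centralizer ({a} : Set S) ⊓
        Subgroup.centralizer ({b} : Set S)) ≤ 2 := by
      have h1 := Set.ncard_le_ncard (s := ((D.E ⊓ Subgroup.centralizer ({a} : Set S) ⊓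
        Subgroup.centralizer ({b} : Set S) : Subgroup S) : Set S))
        (t := ↑({1, z} : Finset S)) (fun x hx => by
          have := hf.fix_eq hx.1.1 (Subgroup.mem_centralizer_singleton_iff.1 hx.1.2)
            (Subgroup.mem_centralizer_singleton_iff.1 hx.2)
          simpa using this) (Finset.finite_toSet _)
      rw [Set.ncard_coe_finset, ← Nat.card_coe_set_eq] at h1
      exact h1.trans Finset.card_le_two
    exact (Nat.mul_le_mul h2 h2).trans_eq (by norm_num)

theorem move [Finite S] {e : S} (he : e ∈ D.E) (hea : Commute e a) (h1 : e ≠ 1) (hz : e ≠ z) :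
    b * e * b = e * z := by
  haveI := D.E_normal
  have hbe : b * e * b ∈ D.E := by
    have := ‹D.E.Normal›.conj_mem e he b
    rwa [D.A_inv hf.bA] at this
  have hbea : Commute (b * e * b) a :=
    ((D.A_comm hf.bA hf.aA).mul_left hea).mul_left (D.A_comm hf.bA hf.aA)
  have hw : Commute (e * (b * e * b)) b := by
    show e * (b * e * b) * b = b * (e * (b * e * b))
    calc e * (b * e * b) * b = e * b * e * (b * b) := by group
      _ = (b * b) * (e * b * e) := by rw [D.A_sq b hf.bA, mul_one, one_mul]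
      _ = b * ((b * e * b) * e) := by group
      _ = b * (e * (b * e * b)) := by rw [(D.E_comm hbe he).eq]
  rcases hf.fix_eq (mul_mem he hbe) (hea.mul_left hbea) hw with h | h
  · rw [mul_eq_one_iff_inv_eq, D.E_inv he] at h
    refine absurd ?_ (not_or_intro h1 hz)
    refine hf.fix_eq he hea ?_
    show e * b = b * e
    calc e * b = b * e * b * b := by rw [← h]
      _ = b * e := by rw [mul_assoc, D.A_sq b hf.bA, mul_one]
  · calc b * e * b = (e * e) * (b * e * b) := by rw [D.E_sq he, one_mul]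
      _ = e * z := by rw [mul_assoc, h]

/-- Fixed points of `a` on `A0` are elementary. -/
theorem fixed_le_E [Finite S] {e : S} (he : e ∈ D.E) (hea : Commute e a) (he1 : e ≠ 1)
    (hez : e ≠ z) {x : S} (hx : x ∈ D.A0) (hxa : Commute x a) : x ∈ D.E := by
  haveI := D.A0_normal
  have hb := D.A_sq b hf.bA
  have hbx : b * x * b ∈ D.A0 := by
    have := ‹D.A0.Normal›.conj_mem x hx b
    rwa [D.A_inv hf.bA] at this
  have hwb : Commute (x * (b * x * b)) b := by
    show x * (b * x * b) * b = b * (x * (b * x * b))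
    calc x * (b * x * b) * b = x * b * x * (b * b) := by group
      _ = (b * b) * (x * b * x) := by rw [hb, mul_one, one_mul]
      _ = b * ((b * x * b) * x) := by group
      _ = b * (x * (b * x * b)) := by rw [(D.A0_comm _ hbx _ hx).eq]
  have hwa : Commute (x * (b * x * b)) a := hxa.mul_left
    (((D.A_comm hf.bA hf.aA).mul_left hxa).mul_left (D.A_comm hf.bA hf.aA))
  have hwA := hf.mem_A hwa hwb
  have hw := hf.AE _ hwA ((D.mem_E _).2 ⟨mul_mem hx hbx, D.A_sq _ hwA⟩)
  have hbxb : b * x * b = x⁻¹ * (x * (b * x * b)) := by group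
  have hx2 : x * x ∈ D.E := (D.mem_E _).2 ⟨mul_mem hx hx, by
    rw [← D.A0_four x hx, pow_succ, pow_succ, pow_succ, pow_one]; group⟩
  have hbx2 : Commute (x * x) b := by
    show x * x * b = b * (x * x)
    have h1 : b * (x * x) * b = x * x := by
      calc b * (x * x) * b = b * x * 1 * x * b := by group
        _ = b * x * (b * b) * x * b := by rw [hb]
        _ = (b * x * b) * (b * x * b) := by group
        _ = (x⁻¹ * (x * (b * x * b))) * (x⁻¹ * (x * (b * x * b))) := by rw [← hbxb]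
        _ = (x⁻¹ * x⁻¹) * ((x * (b * x * b)) * (x * (b * x * b))) := by
          rw [(D.A0_comm _ (mul_mem hx hbx) _ (inv_mem hx)).mul_mul_mul_comm]
        _ = (x * x)⁻¹ := by rw [D.A_sq _ hwA, mul_one, mul_inv_rev]
        _ = x * x := D.E_inv hx2
    calc x * x * b = b * (x * x) * b * b := by rw [h1]
      _ = b * (x * x) := by rw [mul_assoc _ b b, hb, mul_one]
  rcases hf.fix_eq hx2 (hxa.mul_left hxa) hbx2 with h | h
  · exact (D.mem_E x).2 ⟨hx, h⟩
  exfalso
  rcases hw with hw | hw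
  · -- `x` inverted by `b`: then `x * e` is fixed
    rw [hw, mul_one] at hbxb
    have hfix : Commute (x * e) b := by
      show x * e * b = b * (x * e)
      have h1 : b * (x * e) * b = x * e := by
        calc b * (x * e) * b = b * x * 1 * e * b := by group
          _ = b * x * (b * b) * e * b := by rw [hb]
          _ = (b * x * b) * (b * e * b) := by group
          _ = x⁻¹ * (e * z) := by rw [hbxb, hf.move he hea he1 hez]
          _ = x⁻¹ * (e * (x * x)) := by rw [h]
          _ = (x⁻¹ * x) * (x * e) := by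
            rw [(D.A0_comm _ (D.E_le he) _ (mul_mem hx hx)).eq]; group
          _ = x * e := by group
      calc x * e * b = b * (x * e) * b * b := by rw [h1]
        _ = b * (x * e) := by rw [mul_assoc _ b b, hb, mul_one]
    have hxe := hf.mem_A (hxa.mul_left hea) hfix
    have h2 := D.A_sq _ hxe
    rw [(D.A0_comm _ (D.E_le he) _ hx).mul_mul_mul_comm, D.E_sq he, mul_one, h] at h2
    exact hf.z1 h2
  · have hfix : Commute x b := by
      have h1 : b * x * b = x := by
        rw [hbxb, hw, ← h]; group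
      show x * b = b * x
      calc x * b = b * x * b * b := by rw [h1]
        _ = b * x := by rw [mul_assoc _ b b, hb, mul_one]
    have h2 := D.A_sq _ (hf.mem_A hxa hfix)
    rw [h] at h2
    exact hf.z1 h2

/-- An element fixing `a` and fixing `b` modulo `C` lies in `A C`. -/
theorem adjust [Finite S] {e : S} (he : e ∈ D.E) (hea : Commute e a) (he1 : e ≠ 1) (hez : e ≠ z)
    (hCfix : ∀ c ∈ D.C, Commute c a → c ∈ D.E) {g : S} (hga : Commute g a)
    (hgb : b * (g * b * g⁻¹) ∈ D.C) : g ∈ D.A ∨ g * e ∈ D.A := by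
  have hb := D.A_sq b hf.bA
  set j := b * (g * b * g⁻¹) with hj
  have hja : Commute j a :=
    (D.A_comm hf.bA hf.aA).mul_left ((hga.mul_left (D.A_comm hf.bA hf.aA)).mul_left hga.inv_left)
  have hjE := hCfix j hgb hja
  have hjb : Commute j b := by
    have h1 : b * j * b = j⁻¹ := by
      calc b * j * b = (b * b) * (g * b * g⁻¹) * b := by rw [hj]; group
        _ = g * b⁻¹ * g⁻¹ * b⁻¹ := by rw [hb, one_mul, D.A_inv hf.bA]
        _ = j⁻¹ := by rw [hj]; group
    rw [D.E_inv hjE] at h1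
    show j * b = b * j
    calc j * b = b * j * b * b := by rw [h1]
      _ = b * j := by rw [mul_assoc _ b b, hb, mul_one]
  have hgbj : g * b * g⁻¹ = b * j := by
    rw [hj, ← mul_assoc, hb, one_mul]
  rcases hf.fix_eq hjE hja hjb with h | h
  · left
    rw [h, mul_one] at hgbj
    exact hf.mem_A hga (mul_inv_eq_iff_eq_mul.1 hgbj)
  · right
    rw [h] at hgbj
    refine hf.mem_A (hga.mul_left hea) ?_
    have h1 : g * e * b * (g * e)⁻¹ = b := by
      calc g * e * b * (g * e)⁻¹ = g * (e * b * e⁻¹) * g⁻¹ := by group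
        _ = g * ((b * b) * (e * b * e)) * g⁻¹ := by rw [hb, one_mul, D.E_inv he]
        _ = g * (b * ((b * e * b) * e)) * g⁻¹ := by group
        _ = g * (b * ((e * e) * z)) * g⁻¹ := by
          rw [hf.move he hea he1 hez, mul_assoc e z e, ← (hf.zc e).eq, ← mul_assoc e e z]
        _ = (g * b * g⁻¹) * (g * z * g⁻¹) := by rw [D.E_sq he]; group
        _ = b * (z * z) := by rw [hgbj, (hf.zc g).eq, mul_inv_cancel_right, mul_assoc]
        _ = b := by rw [D.E_sq hf.zE, mul_one]
    exact mul_inv_eq_iff_eq_mul.1 h1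

end Frame

theorem card_E_le [Finite S] : Nat.card D.E ≤ 16 := by
  classical
  haveI := D.E_normal
  rcases D.card_AE with h | h | h
  rotate_left 2
  · rw [← D.A_le_E_of_eight h, D.A_card]; norm_num
  all_goals
    obtain ⟨a, ha, haE⟩ : ∃ a ∈ D.A, a ∉ D.E := by
      by_contra hcon
      push Not at hcon
      rw [inf_eq_left.2 hcon, D.A_card] at h
      omega
    refine (card_le_fix_sq (D.A_sq a ha) (fun x hx => D.E_sq hx) fun x hx => ?_).trans ?_
    · have := ‹D.E.Normal›.conj_mem x hx a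
      rwa [D.A_inv ha] at this
  · obtain ⟨z, b, hf⟩ := D.exists_frame h ha haE
    exact (Nat.mul_le_mul hf.card_fix_le hf.card_fix_le).trans_eq (by norm_num)
  · have hle : D.E ⊓ Subgroup.centralizer ({a} : Set S) ≤ D.A ⊓ D.E := fun x hx =>
      ⟨D.fix_eq_of_four h ha haE hx.1 (Subgroup.mem_centralizer_singleton_iff.1 hx.2), hx.1⟩
    have := Subgroup.card_le_of_le hle
    rw [h] at this
    exact (Nat.mul_le_mul this this).trans_eq (by norm_num)

/-- An element inverted by `a` whose square is a norm from `E` lies in `E`, if the fixed points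
of `a` on `A0` do. -/
theorem inverted_sq {a : S} (ha : a * a = 1) (hfix : ∀ x ∈ D.A0, Commute x a → x ∈ D.E)
    {y f : S} (hy : y ∈ D.A0) (hinv : a * y * a = y⁻¹) (hf : f ∈ D.E)
    (hsq : y * y = f * (a * f * a)) : y ∈ D.E := by
  have h1 : a * (y * f) * a = y * f := by
    calc a * (y * f) * a = a * y * 1 * f * a := by group
      _ = a * y * (a * a) * f * a := by rw [ha]
      _ = (a * y * a) * (a * f * a) := by group
      _ = y⁻¹ * (f⁻¹ * (y * y)) := by rw [hinv, hsq]; group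
      _ = y⁻¹ * ((y * y) * f) := by
        rw [D.E_inv hf, (D.A0_comm _ (D.E_le hf) _ (mul_mem hy hy)).eq]
      _ = y * f := by group
  have hyf : y * f ∈ D.E := hfix _ (mul_mem hy (D.E_le hf)) (by
    show y * f * a = a * (y * f)
    calc y * f * a = a * (y * f) * a * a := by rw [h1]
      _ = a * (y * f) := by rw [mul_assoc _ a a, ha, mul_one])
  exact (Subgroup.mul_mem_cancel_right _ hf).1 hyf

end Data

end CfsgLib.TwoFusion.SelfCent
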