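/-
Self-centralizing elementary abelian subgroups of order eight in 2-groups: the quotient.
A 2-group of exponent dividing 4 with an involution whose centralizer has order at most 4 has
order at most 8 and is generated by two elements, as is each of its subgroups.
-/
import Cfsg.Agent.Lib.TwoFusion.SelfCentBase

set_option autoImplicit false

namespace CfsgLib.TwoFusion.SelfCent

variable {M : Type*} [Group M] [Finite M]

/-- Structure of a 2-group of exponent dividing four with a small involution centralizer. -/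
theorem mx_elements (hM : IsPGroup 2 M) (h4 : ∀ g : M, g ^ 4 = 1) {a : M} (ha : a * a = 1)
    (hC : Nat.card (Subgroup.centralizer ({a} : Set M)) ≤ 4) (hne : ∃ g : M, ¬ Commute g a) :
    ∃ ζ τ : M, ζ ≠ 1 ∧ ζ ≠ a ∧ ζ * ζ = 1 ∧ (∀ g, Commute g ζ) ∧ τ * a * τ⁻¹ = a * ζ ∧
      (∀ g : M, Commute g a → g = 1 ∨ g = a ∨ g = ζ ∨ g = a * ζ) ∧
      (∀ g : M, g * a * g⁻¹ = a ∨ g * a * g⁻¹ = a * ζ) := by
  classical
  haveI : Fact (Nat.Prime 2) := ⟨Nat.prime_two⟩
  obtain ⟨g0, hg0⟩ := hne
  have ha1 : a ≠ 1 := fun h => hg0 (h ▸ Commute.one_right _)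
  have hnt : Nontrivial M := ⟨⟨a, 1, ha1⟩⟩
  have hZ := hM.center_nontrivial
  obtain ⟨n, hn0, hn⟩ := (hM.to_subgroup (Subgroup.center M)).nontrivial_iff_card.1 hZ
  obtain ⟨z, hz⟩ := exists_prime_orderOf_dvd_card' (G := Subgroup.center M) 2
    (by rw [hn]; exact dvd_pow_self 2 hn0.ne')
  set ζ : M := (z : M) with hζdef
  have hzc : ∀ g, Commute g ζ := fun g => Subgroup.mem_center_iff.1 z.2 g
  have hz2 : orderOf ζ = 2 := by rw [hζdef, Subgroup.orderOf_coe, hz]
  have hzz : ζ * ζ = 1 := by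
    have := pow_orderOf_eq_one ζ
    rwa [hz2, pow_two] at this
  have hz1 : ζ ≠ 1 := fun h => by
    have := orderOf_eq_one_iff.2 h
    omega
  have hza : ζ ≠ a := fun h => hg0 (h ▸ hzc g0)
  have haz1 : a * ζ ≠ 1 := fun h => hza (by
    rw [mul_eq_one_iff_eq_inv, inv_eq_of_mul_eq_one_right hzz] at h; exact h.symm)
  have haza : a * ζ ≠ a := fun h => hz1 (mul_eq_left.1 h)
  have hazz : a * ζ ≠ ζ := fun h => ha1 (mul_eq_right.1 h)
  have hCz : ∀ g : M, Commute g a → g = 1 ∨ g = a ∨ g = ζ ∨ g = a * ζ := by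
    intro g hg
    by_contra h
    push Not at h
    obtain ⟨h1, h2, h3, h5⟩ := h
    have hsub : (↑({1, a, ζ, a * ζ, g} : Finset M) : Set M)
        ⊆ (Subgroup.centralizer ({a} : Set M) : Set M) := by
      intro t ht
      simp only [Finset.coe_insert, Finset.coe_singleton, Set.mem_insert_iff,
        Set.mem_singleton_iff] at ht
      rw [SetLike.mem_coe, Subgroup.mem_centralizer_singleton_iff]
      rcases ht with rfl | rfl | rfl | rfl | rfl
      · simp
      · rfl
      · exact (hzc a).symm.eq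
      · exact (Commute.mul_left (Commute.refl a) (hzc a).symm).eq
      · exact hg.eq
    have hcard : ({1, a, ζ, a * ζ, g} : Finset M).card = 5 := by
      simp [ha1.symm, hz1.symm, haz1.symm, hza.symm, haza.symm, hazz.symm, Ne.symm h1, Ne.symm h2,
        Ne.symm h3, Ne.symm h5]
    have := Nat.card_mono (Set.toFinite _) hsub
    rw [Nat.card_coe_set_eq, Set.ncard_coe_finset, hcard] at this
    exact absurd (this.trans hC) (by norm_num)
  -- the normalizer `N` of the centralizer
  let N : Subgroup M :=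
    { carrier := {g | g * a * g⁻¹ = a ∨ g * a * g⁻¹ = a * ζ}
      one_mem' := Or.inl (by simp)
      mul_mem' := by
        intro p q hp hq
        have e : p * q * a * (p * q)⁻¹ = p * (q * a * q⁻¹) * p⁻¹ := by group
        have ez : p * (a * ζ) * p⁻¹ = p * a * p⁻¹ * ζ := by
          rw [mul_assoc p, mul_assoc a, ← (hzc p⁻¹).eq]; group
        show _ ∨ _
        rw [e]
        rcases hq with hq | hq <;> rw [hq]
        · exact hp
        · rw [ez]
          rcases hp with hp | hp <;> rw [hp]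
          · exact Or.inr rfl
          · rw [mul_assoc, hzz, mul_one]; exact Or.inl rfl
      inv_mem' := by
        intro p hp
        show _ ∨ _
        rw [inv_inv]
        rcases hp with hp | hp
        · left
          calc p⁻¹ * a * p = p⁻¹ * (p * a * p⁻¹) * p := by rw [hp]
            _ = a := by group
        · right
          have h' : p * (a * ζ) * p⁻¹ = a := by
            rw [mul_assoc p, mul_assoc a, ← (hzc p⁻¹).eq, show p * (a * (p⁻¹ * ζ)) = p * a * p⁻¹ * ζ
              by group, hp, mul_assoc, hzz, mul_one]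
          calc p⁻¹ * a * p = p⁻¹ * (p * (a * ζ) * p⁻¹) * p := by rw [h']
            _ = a * ζ := by group }
  have hall : ∀ g : M, g * a * g⁻¹ = a ∨ g * a * g⁻¹ = a * ζ := by
    by_contra hNtop
    push Not at hNtop
    obtain ⟨g1, hg1a, hg1b⟩ := hNtop
    have hlt : N < ⊤ := lt_top_iff_ne_top.2 fun h => by
      have : g1 ∈ N := h ▸ Subgroup.mem_top _
      rcases this with h | h
      · exact hg1a h
      · exact hg1b h
    haveI := hM.isNilpotent
    have hgrow := normalizerCondition_of_isNilpotent (G := M) N hlt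
    obtain ⟨g, hgn, hgN⟩ := SetLike.exists_of_lt hgrow
    rw [Subgroup.mem_normalizer_iff] at hgn
    have haN : a ∈ N := Or.inl (by group)
    set τ := g * a * g⁻¹ with hτ
    have hτN : τ ∈ N := (hgn a).1 haN
    have hττ : τ * τ = 1 := by
      rw [hτ, show g * a * g⁻¹ * (g * a * g⁻¹) = g * (a * a) * g⁻¹ by group, ha]; group
    have hτi : τ⁻¹ = τ := inv_eq_of_mul_eq_one_right hττ
    have hτa : ¬ Commute τ a := by
      intro hc
      rcases hCz τ hc with h | h | h | h
      · exact ha1 (conj_eq_one_iff.1 h)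
      · exact hgN (Or.inl h)
      · refine hza ?_
        calc ζ = g⁻¹ * ζ * g := by rw [(hzc g⁻¹).eq, mul_assoc, inv_mul_cancel, mul_one]
          _ = g⁻¹ * (g * a * g⁻¹) * g := by rw [← hτ, h]
          _ = a := by group
      · exact hgN (Or.inr h)
    have hτaτ : τ * a * τ⁻¹ = a * ζ := hτN.resolve_left fun h => hτa (mul_inv_eq_iff_eq_mul.1 h)
    have hata : a * τ * a = τ * ζ := by
      calc a * τ * a = a * (τ * a * τ⁻¹) * τ := by group
        _ = (a * a) * ζ * τ := by rw [hτaτ]; group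
        _ = τ * ζ := by rw [ha, one_mul, (hzc τ).eq]
    set n := g * τ * g⁻¹ with hn'
    have hnN : n ∈ N := (hgn τ).1 hτN
    have hnτ : ¬ Commute n τ := by
      intro hc
      apply hτa
      have h1 := hc.map (MulAut.conj g⁻¹).toMonoidHom
      simp only [MulEquiv.coe_toMonoidHom, MulAut.conj_apply] at h1
      rwa [show g⁻¹ * n * g⁻¹⁻¹ = τ by rw [hn']; group,
        show g⁻¹ * τ * g⁻¹⁻¹ = a by rw [hτ]; group] at h1
    have hn2 : n * n = 1 := by
      rw [hn', show g * τ * g⁻¹ * (g * τ * g⁻¹) = g * (τ * τ) * g⁻¹ by group, hττ]; group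
    have hnC : Commute n a := by
      rcases hnN with h | h
      · exact mul_inv_eq_iff_eq_mul.1 h
      exfalso
      have hc : Commute (τ⁻¹ * n) a := by
        show τ⁻¹ * n * a = a * (τ⁻¹ * n)
        calc τ⁻¹ * n * a = τ⁻¹ * (n * a * n⁻¹) * n := by group
          _ = τ⁻¹ * (τ * a * τ⁻¹) * n := by rw [h, hτaτ]
          _ = a * (τ⁻¹ * n) := by group
      have hn'' : n = τ * (τ⁻¹ * n) := by group
      rcases hCz _ hc with h' | h' | h' | h' <;> rw [h'] at hn''
      · exact hnτ (by rw [hn'', mul_one])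
      · refine hz1 ?_
        calc ζ = (a * ζ) * a := by rw [mul_assoc, (hzc a).symm.eq, ← mul_assoc, ha, one_mul]
          _ = (τ * a) * (τ * a) := by rw [← hτaτ, hτi]; group
          _ = 1 := by rw [← hn'', hn2]
      · exact hnτ (by rw [hn'']; exact (Commute.refl τ).mul_left (hzc τ).symm)
      · refine hz1 ?_
        calc ζ = (a * ζ) * a := by rw [mul_assoc, (hzc a).symm.eq, ← mul_assoc, ha, one_mul]
          _ = (τ * a) * (τ * a) := by rw [← hτaτ, hτi]; group
          _ = (τ * (a * ζ)) * (τ * (a * ζ)) := by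
            rw [show τ * (a * ζ) * (τ * (a * ζ)) = τ * a * (ζ * τ) * a * ζ by group,
              ← (hzc τ).eq, show τ * a * (τ * ζ) * a * ζ = τ * a * τ * (ζ * a) * ζ by group,
              ← (hzc a).eq, show τ * a * τ * (a * ζ) * ζ = τ * a * (τ * a) * (ζ * ζ) by group,
              hzz, mul_one]
          _ = 1 := by rw [← hn'', hn2]
    have hn0 : n = a ∨ n = a * ζ := by
      rcases hCz n hnC with h | h | h | h
      · exact absurd (h ▸ Commute.one_left τ) hnτ
      · exact Or.inl h
      · exact absurd (h ▸ (hzc τ).symm) hnτ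
      · exact Or.inr h
    -- now `g` may be chosen to map `a ↦ τ ↦ a ζ`
    obtain ⟨k, hka, hkτ⟩ : ∃ k : M, k * a * k⁻¹ = τ ∧ k * τ * k⁻¹ = a * ζ := by
      rcases hn0 with h | h
      · refine ⟨g * a, by rw [hτ]; group, ?_⟩
        calc g * a * τ * (g * a)⁻¹ = g * (a * τ * a⁻¹) * g⁻¹ := by group
          _ = g * (τ * ζ) * g⁻¹ := by rw [inv_eq_of_mul_eq_one_right ha, hata]
          _ = (g * τ * g⁻¹) * ζ := by rw [mul_assoc g, mul_assoc τ, ← (hzc g⁻¹).eq]; group
          _ = a * ζ := by rw [← hn', h]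
      · exact ⟨g, hτ.symm, h⟩
    set r := a * τ with hr
    have hkz : k * ζ * k⁻¹ = ζ := by rw [(hzc k).eq, mul_inv_cancel_right]
    have hta : τ * a = a * τ * ζ := by
      calc τ * a = (τ * a * τ⁻¹) * τ := by group
        _ = a * τ * ζ := by rw [hτaτ, mul_assoc a ζ, ← (hzc τ).eq, ← mul_assoc]
    set s := r⁻¹ * (k * k) with hs
    have hsa : Commute s a := by
      show s * a = a * s
      have e1 : k * k * a * (k * k)⁻¹ = a * ζ := by
        rw [show k * k * a * (k * k)⁻¹ = k * (k * a * k⁻¹) * k⁻¹ by group, hka, hkτ]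
      have e2 : r * a * r⁻¹ = a * ζ := by
        calc r * a * r⁻¹ = a * (τ * a * τ⁻¹) * a⁻¹ := by rw [hr]; group
          _ = a * ζ := by rw [hτaτ, mul_assoc, mul_assoc, ← (hzc a⁻¹).eq]; group
      calc s * a = r⁻¹ * (k * k * a * (k * k)⁻¹) * (k * k) := by rw [hs]; group
        _ = r⁻¹ * (r * a * r⁻¹) * (k * k) := by rw [e1, e2]
        _ = a * s := by rw [hs]; group
    have hsτ : Commute s τ := by
      show s * τ = τ * s
      have e1 : k * k * τ * (k * k)⁻¹ = τ * ζ := by
        rw [show k * k * τ * (k * k)⁻¹ = k * (k * τ * k⁻¹) * k⁻¹ by group, hkτ,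
          show k * (a * ζ) * k⁻¹ = (k * a * k⁻¹) * (k * ζ * k⁻¹) by group, hka, hkz]
      have e2 : r * τ * r⁻¹ = τ * ζ := by
        calc r * τ * r⁻¹ = a * τ * a⁻¹ := by rw [hr]; group
          _ = τ * ζ := by rw [inv_eq_of_mul_eq_one_right ha, hata]
      calc s * τ = r⁻¹ * (k * k * τ * (k * k)⁻¹) * (k * k) := by rw [hs]; group
        _ = r⁻¹ * (r * τ * r⁻¹) * (k * k) := by rw [e1, e2]
        _ = τ * s := by rw [hs]; group
    have hs1 : s = 1 ∨ s = ζ := by
      rcases hCz s hsa with h | h | h | h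
      · exact Or.inl h
      · rw [h] at hsτ; exact absurd hsτ.symm hτa
      · exact Or.inr h
      · rw [h] at hsτ
        refine absurd ?_ hτa
        have h2 := (hsτ.mul_left (hzc τ).symm).symm
        rwa [mul_assoc, hzz, mul_one] at h2
    have hkk : k * k = r * s := by rw [hs]; group
    have h44 := h4 k
    rw [show k ^ 4 = (k * k) * (k * k) by rw [pow_succ, pow_succ, pow_succ, pow_one]; group,
      hkk] at h44
    refine hz1 ?_
    have hrr : r * r = ζ := by
      rw [hr, show a * τ * (a * τ) = a * (τ * a) * τ by group, hta,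
        show a * (a * τ * ζ) * τ = (a * a) * τ * (ζ * τ) by group, ha, ← (hzc τ).eq, one_mul,
        ← mul_assoc, hττ, one_mul]
    rcases hs1 with h | h <;> rw [h] at h44
    · rw [mul_one, hrr] at h44; exact h44
    · rw [show r * ζ * (r * ζ) = r * (ζ * r) * ζ by group, ← (hzc r).eq,
        show r * (r * ζ) * ζ = (r * r) * (ζ * ζ) by group, hrr, hzz, mul_one] at h44
      exact h44
  refine ⟨ζ, g0, hz1, hza, hzz, hzc, ?_, hCz, hall⟩
  exact (hall g0).resolve_left fun h => hg0 (mul_inv_eq_iff_eq_mul.1 h)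

/-- Subgroups of such a group need at most two generators; those needing two contain the
involution or are four-groups through a central involution. -/
theorem mx (hM : IsPGroup 2 M) (h4 : ∀ g : M, g ^ 4 = 1) {a : M} (ha : a * a = 1)
    (hC : Nat.card (Subgroup.centralizer ({a} : Set M)) ≤ 4) (H : Subgroup M) :
    (Phi H).relIndex H ≤ 4 ∧ (4 ≤ (Phi H).relIndex H → a ∈ H ∨ ((∀ h ∈ H, h * h = 1) ∧
      ∃ ζ ∈ H, ∃ τ ∈ H, ζ ≠ 1 ∧ ζ ≠ a ∧ (∀ g, Commute g ζ) ∧ τ * a * τ⁻¹ = a * ζ)) := by
  classical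
  have e := relIndex_mul_card (phi_le_self H)
  have hpos : 0 < Nat.card ↥(Phi H) := Nat.card_pos
  have hidx : (Phi H).relIndex H ≤ Nat.card H := by
    rw [← e]; exact Nat.le_mul_of_pos_left _ hpos
  by_cases hcomm : ∀ g : M, Commute g a
  · have htop : Subgroup.centralizer ({a} : Set M) = ⊤ := eq_top_iff.2 fun g _ =>
      Subgroup.mem_centralizer_singleton_iff.2 (hcomm g).eq
    rw [htop, Subgroup.card_top] at hC
    have h2 := Subgroup.card_le_card_group H
    refine ⟨hidx.trans (h2.trans hC), fun h => Or.inl ?_⟩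
    have : H = ⊤ := Subgroup.eq_top_of_card_eq _ (le_antisymm h2 (by omega))
    rw [this]; exact Subgroup.mem_top _
  push Not at hcomm
  obtain ⟨ζ, τ, hz1, hza, hzz, hzc, hτ, hCz, hall⟩ := mx_elements hM h4 ha hC hcomm
  have hcard : Nat.card M ≤ 8 := by
    let F : Finset M := {1, a, ζ, a * ζ, τ * 1, τ * a, τ * ζ, τ * (a * ζ)}
    have hF : ∀ g : M, g ∈ F := by
      intro g
      rcases hall g with h | h
      · rcases hCz g (mul_inv_eq_iff_eq_mul.1 h) with h' | h' | h' | h' <;>
          simp [F, h']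
      · have hc : Commute (τ⁻¹ * g) a := by
          show τ⁻¹ * g * a = a * (τ⁻¹ * g)
          calc τ⁻¹ * g * a = τ⁻¹ * (g * a * g⁻¹) * g := by group
            _ = τ⁻¹ * (τ * a * τ⁻¹) * g := by rw [h, hτ]
            _ = a * (τ⁻¹ * g) := by group
        have hg : g = τ * (τ⁻¹ * g) := by group
        rcases hCz _ hc with h' | h' | h' | h' <;> rw [h'] at hg <;> simp [F, hg]
    haveI := Fintype.ofFinite M
    rw [Nat.card_eq_fintype_card]
    calc Fintype.card M = (Finset.univ : Finset M).card := rfl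
      _ ≤ F.card := Finset.card_le_card fun g _ => hF g
      _ ≤ 8 := (Finset.card_insert_le _ _).trans (Nat.succ_le_succ
        ((Finset.card_insert_le _ _).trans (Nat.succ_le_succ Finset.card_le_six)))
  have hHle := Subgroup.card_le_card_group H
  have hne8 : (Phi H).relIndex H ≠ 8 := by
    intro h8
    have hH8 : Nat.card H = 8 := by omega
    have htop : H = ⊤ := Subgroup.eq_top_of_card_eq _ (by omega)
    have hphi1 : Nat.card ↥(Phi H) = 1 := by
      rw [h8, hH8] at e; omega
    have hbot : Phi H = ⊥ := Subgroup.card_eq_one.1 hphi1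
    have h := comm_mem_phi (H := H) (x := τ) (y := a) (htop ▸ Subgroup.mem_top _)
      (htop ▸ Subgroup.mem_top _)
    rw [hbot, Subgroup.mem_bot, hτ, mul_assoc, (hzc a⁻¹).symm.eq, ← mul_assoc, mul_inv_cancel,
      one_mul] at h
    exact hz1 h
  have hdvd : (Phi H).relIndex H ∣ Nat.card M :=
    (Dvd.intro_left _ e).trans (Subgroup.card_subgroup_dvd_card H)
  obtain ⟨n, hn⟩ := hM.exists_card_eq
  obtain ⟨i, -, hi⟩ := (Nat.dvd_prime_pow Nat.prime_two).1 (hn ▸ hdvd)
  have hle4 : (Phi H).relIndex H ≤ 4 := by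
    have h8 : (Phi H).relIndex H ≤ 8 := hidx.trans (hHle.trans hcard)
    rw [hi] at h8 hne8 ⊢
    have : i ≤ 3 := (Nat.pow_le_pow_iff_right (le_refl 2)).1 (h8.trans_eq (by norm_num))
    interval_cases i <;> simp_all
  refine ⟨hle4, fun h4' => ?_⟩
  by_cases haH : a ∈ H
  · exact Or.inl haH
  have hH4 : Nat.card H ≤ 4 := by
    have hne : H ≠ ⊤ := fun h => haH (h ▸ Subgroup.mem_top a)
    have h1 : H.index ≠ 1 := fun h => hne (Subgroup.index_eq_one.1 h)
    have h2 := H.card_mul_index
    have h3 : 2 ≤ H.index := by have := Subgroup.index_ne_zero_of_finite (H := H); omega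
    have h5 : Nat.card H * 2 ≤ Nat.card H * H.index := Nat.mul_le_mul_left _ h3
    omega
  have hH4' : Nat.card H = 4 := le_antisymm hH4 (h4'.trans hidx)
  have hphi1 : Phi H = ⊥ := by
    refine Subgroup.card_eq_one.1 ?_
    have h6 : Nat.card ↥(Phi H) * 4 ≤ Nat.card ↥(Phi H) * (Phi H).relIndex H :=
      Nat.mul_le_mul_left _ h4'
    omega
  have hsq : ∀ h ∈ H, h * h = 1 := fun h hh => by
    have := sq_mem_phi hh
    rwa [hphi1, Subgroup.mem_bot] at this
  have hcommH : ∀ x ∈ H, ∀ y ∈ H, Commute x y := fun x hx y hy => by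
    have := comm_mem_phi hx hy
    rwa [hphi1, Subgroup.mem_bot, mul_inv_eq_one, mul_inv_eq_iff_eq_mul] at this
  refine Or.inr ⟨hsq, ?_⟩
  -- an element of `H` moving `a`
  obtain ⟨t, htH, htC⟩ : ∃ t ∈ H, ¬ Commute t a := by
    by_contra hall'
    push Not at hall'
    have hle : H ≤ Subgroup.centralizer ({a} : Set M) := fun x hx =>
      Subgroup.mem_centralizer_singleton_iff.2 (hall' x hx).eq
    exact haH ((Subgroup.eq_of_le_of_card_ge hle (hC.trans hH4'.ge)) ▸
      Subgroup.mem_centralizer_singleton_iff.2 rfl)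
  have hta : t * a * t⁻¹ = a * ζ :=
    (hall t).resolve_left fun h => htC (mul_inv_eq_iff_eq_mul.1 h)
  refine ⟨ζ, ?_, t, htH, hz1, hza, hzc, hta⟩
  by_contra hzH
  -- a second element
  obtain ⟨u, huH, hu1, hut⟩ : ∃ u ∈ H, u ≠ 1 ∧ u ≠ t := by
    by_contra hcon
    push Not at hcon
    have hsub : (H : Set M) ⊆ ↑({1, t} : Finset M) := fun x hx => by
      by_cases hx1 : x = 1
      · simp [hx1]
      · simp [hcon x hx hx1]
    have h7 := Set.ncard_le_ncard hsub (Finset.finite_toSet _)
    rw [Set.ncard_coe_finset, ← Nat.card_coe_set_eq] at h7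
    have h9 : ({1, t} : Finset M).card ≤ 2 := Finset.card_le_two
    have h10 : Nat.card ↥(H : Set M) = Nat.card ↥H := rfl
    omega
  have hfin : ∀ x ∈ H, x ≠ 1 → ¬ Commute x a := by
    intro x hx hx1 hc
    rcases hCz x hc with h | h | h | h
    · exact hx1 h
    · exact haH (h ▸ hx)
    · exact hzH (h ▸ hx)
    · refine htC ?_
      have h2 := (hcommH t htH x hx).mul_right (hzc t)
      rwa [h, mul_assoc, hzz, mul_one] at h2
  have hua : u * a * u⁻¹ = a * ζ :=
    (hall u).resolve_left fun h => hfin u huH hu1 (mul_inv_eq_iff_eq_mul.1 h)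
  refine hfin (t⁻¹ * u) (mul_mem (inv_mem htH) huH) ?_ ?_
  · intro h
    exact hut (inv_mul_eq_one.1 h).symm
  · show t⁻¹ * u * a = a * (t⁻¹ * u)
    calc t⁻¹ * u * a = t⁻¹ * (u * a * u⁻¹) * u := by group
      _ = t⁻¹ * (t * a * t⁻¹) * u := by rw [hua, hta]
      _ = a * (t⁻¹ * u) := by group

end CfsgLib.TwoFusion.SelfCent
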