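/-
Self-centralizing elementary abelian subgroups of order eight in 2-groups: tools shared by the
rank three and rank four cases.
-/
import Cfsg.Agent.Lib.TwoFusion.SelfCentMX
import Cfsg.Agent.Lib.TwoFusion.SelfCentData

set_option autoImplicit false

namespace CfsgLib.TwoFusion.SelfCent

variable {S : Type*} [Group S]

/-- `x ↦ g x g⁻¹ x⁻¹`. -/
def dlt (g x : S) : S := g * x * g⁻¹ * x⁻¹

theorem mul_comm_of_sq {F : Subgroup S} (hF : ∀ x ∈ F, x * x = 1) {x y : S} (hx : x ∈ F)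
    (hy : y ∈ F) : Commute x y := by
  have h : (x * y)⁻¹ = x * y := inv_eq_of_mul_eq_one_right (hF _ (mul_mem hx hy))
  rw [mul_inv_rev, inv_eq_of_mul_eq_one_right (hF x hx),
    inv_eq_of_mul_eq_one_right (hF y hy)] at h
  exact h.symm

theorem dlt_mem {F : Subgroup S} {g x : S} (hg : ∀ x ∈ F, g * x * g⁻¹ ∈ F) (hx : x ∈ F) :
    dlt g x ∈ F := mul_mem (hg x hx) (inv_mem hx)

theorem conj_sq_mem {F : Subgroup S} {g : S} (hg : ∀ x ∈ F, g * x * g⁻¹ ∈ F) :
    ∀ x ∈ F, g * g * x * (g * g)⁻¹ ∈ F := fun x hx => by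
  rw [show g * g * x * (g * g)⁻¹ = g * (g * x * g⁻¹) * g⁻¹ by group]
  exact hg _ (hg _ hx)

theorem dlt_dlt {F : Subgroup S} (hF : ∀ x ∈ F, x * x = 1) {g x : S}
    (hg : ∀ x ∈ F, g * x * g⁻¹ ∈ F) (hx : x ∈ F) : dlt g (dlt g x) = dlt (g * g) x := by
  have hi : ∀ y ∈ F, y⁻¹ = y := fun y hy => inv_eq_of_mul_eq_one_right (hF y hy)
  simp only [dlt]
  rw [hi _ hx, hi (g * x * g⁻¹ * x) (mul_mem (hg x hx) hx)]
  calc g * (g * x * g⁻¹ * x) * g⁻¹ * (g * x * g⁻¹ * x)
      = g * (g * x * g⁻¹) * g⁻¹ * ((g * x * g⁻¹) * (g * x * g⁻¹)) * x := by group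
    _ = g * g * x * (g * g)⁻¹ * x := by rw [hF _ (hg x hx)]; group

theorem dlt_pow {F : Subgroup S} (hF : ∀ x ∈ F, x * x = 1) (k : ℕ) :
    ∀ g : S, (∀ x ∈ F, g * x * g⁻¹ ∈ F) → ∀ x ∈ F,
      (dlt g)^[2 ^ k] x = dlt (g ^ 2 ^ k) x := by
  induction k with
  | zero => intro g _ x _; simp
  | succ k ih =>
    intro g hg
    have hcomp : ∀ (m : ℕ) (y : S), y ∈ F →
        (dlt g)^[2 * m] y = (dlt (g * g))^[m] y ∧ (dlt (g * g))^[m] y ∈ F := by
      intro m
      induction m with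
      | zero => intro y hy; exact ⟨rfl, hy⟩
      | succ m ihm =>
        intro y hy
        rw [show 2 * (m + 1) = 2 + 2 * m by ring, Function.iterate_add_apply, (ihm y hy).1,
          Function.iterate_succ_apply' (dlt (g * g))]
        exact ⟨dlt_dlt hF hg (ihm y hy).2, dlt_mem (conj_sq_mem hg) (ihm y hy).2⟩
    intro x hx
    rw [pow_succ' 2 k, (hcomp _ x hx).1, ih _ (conj_sq_mem hg) x hx, pow_mul, pow_two g]

/-- A 2-element acts nilpotently on an elementary abelian group. -/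
theorem dlt_iterate_eq_one [Finite S] (hS : IsPGroup 2 S) (g : S) (n : ℕ) :
    ∀ F : Subgroup S, (∀ x ∈ F, x * x = 1) → (∀ x ∈ F, g * x * g⁻¹ ∈ F) →
      Nat.card F ≤ 2 ^ n → ∀ x ∈ F, (dlt g)^[n] x = 1 := by
  induction n with
  | zero =>
    intro F _ _ hc x hx
    have : F = ⊥ := Subgroup.card_eq_one.1 (le_antisymm (by simpa using hc) Nat.card_pos)
    rw [this, Subgroup.mem_bot] at hx
    simp [hx]
  | succ n ih =>
    intro F hF hg hcard x hx
    have hc := @mul_comm_of_sq S _ F hF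
    have hhom : ∀ x ∈ F, ∀ y ∈ F, dlt g (x * y) = dlt g x * dlt g y := fun x hx y hy => by
      simp only [dlt]
      rw [show g * (x * y) * g⁻¹ * (x * y)⁻¹
          = g * x * g⁻¹ * ((g * y * g⁻¹ * y⁻¹) * x⁻¹) by group,
        (hc (mul_mem (hg y hy) (inv_mem hy)) (inv_mem hx)).eq]
      group
    let f : F →* S := MonoidHom.mk' (fun x => dlt g (x : S)) fun a b => hhom _ a.2 _ b.2
    have hle : f.range ≤ F := by
      rintro _ ⟨y, rfl⟩; exact dlt_mem hg y.2
    have hinv : ∀ y ∈ f.range, g * y * g⁻¹ ∈ f.range := by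
      rintro _ ⟨y, rfl⟩
      refine ⟨⟨g * y * g⁻¹, hg y y.2⟩, ?_⟩
      show dlt g (g * (y : S) * g⁻¹) = g * dlt g y * g⁻¹
      simp only [dlt]; group
    have hlt : f.range = ⊥ ∨ f.range ≠ F := by
      by_contra hcon
      push Not at hcon
      obtain ⟨hne, heq⟩ := hcon
      have hsurj : ∀ m : ℕ, ∀ y ∈ F, ∃ w ∈ F, (dlt g)^[m] w = y := by
        intro m
        induction m with
        | zero => exact fun y hy => ⟨y, hy, rfl⟩
        | succ m ihm =>
          intro y hy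
          rw [← heq] at hy
          obtain ⟨v, rfl⟩ := hy
          obtain ⟨w, hw, hwv⟩ := ihm v v.2
          exact ⟨w, hw, by rw [Function.iterate_succ_apply', hwv]; rfl⟩
      obtain ⟨k, hk⟩ := hS g
      refine hne ((Subgroup.eq_bot_iff_forall _).2 fun y hy => ?_)
      obtain ⟨w, hw, hwy⟩ := hsurj (2 ^ k) y (hle hy)
      rw [dlt_pow hF k g hg w hw, hk] at hwy
      rw [← hwy]; simp [dlt]
    have hsmall : Nat.card f.range ≤ 2 ^ n := by
      rcases hlt with h | h
      · rw [h, Subgroup.card_bot]; exact Nat.one_le_two_pow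
      · have h1 := relIndex_mul_card hle
        have h2 : f.range.relIndex F ≠ 1 := fun h' => h (le_antisymm hle
          (Subgroup.relIndex_eq_one.1 h'))
        have h3 : 2 ≤ f.range.relIndex F := by
          have : f.range.relIndex F ≠ 0 := Subgroup.index_ne_zero_of_finite
          omega
        have h4 : Nat.card f.range * 2 ≤ Nat.card f.range * f.range.relIndex F :=
          Nat.mul_le_mul_left _ h3
        rw [pow_succ] at hcard
        omega
    rw [Function.iterate_succ_apply]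
    exact ih f.range (fun y hy => hF y (hle hy)) hinv hsmall _ ⟨⟨x, hx⟩, rfl⟩

/-- `|F|` is at most the number of norms times the number of fixed points. -/
theorem card_le_norm_mul [Finite S] {F : Subgroup S} {b : S} (hb : b * b = 1)
    (hF : ∀ x ∈ F, x * x = 1) (hinv : ∀ x ∈ F, b * x * b ∈ F) :
    Nat.card F ≤ Set.ncard ((fun x => x * (b * x * b)) '' (F : Set S)) *
      Nat.card ↥(F ⊓ Subgroup.centralizer ({b} : Set S)) := by
  classical
  have hc := @mul_comm_of_sq S _ F hF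
  set Q := ((fun x => x * (b * x * b)) '' (F : Set S))
  rw [← Nat.card_coe_set_eq, ← Nat.card_prod]
  have hex : ∀ q : Q, ∃ x ∈ F, x * (b * x * b) = (q : S) := fun q => by
    obtain ⟨x, hx, h⟩ := q.2; exact ⟨x, hx, h⟩
  choose r hrF hr using hex
  have hfix : ∀ x ∈ F, ∀ y ∈ F, x * (b * x * b) = y * (b * y * b) →
      x * y ∈ F ⊓ Subgroup.centralizer ({b} : Set S) := by
    intro x hx y hy h
    refine Subgroup.mem_inf.2 ⟨mul_mem hx hy, ?_⟩
    rw [Subgroup.mem_centralizer_singleton_iff]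
    have h1 : b * (x * y) * b = x * y := by
      calc b * (x * y) * b = b * x * 1 * y * b := by group
        _ = b * x * (b * b) * y * b := by rw [hb]
        _ = (x * x) * ((b * x * b) * (b * y * b)) := by rw [hF x hx, one_mul]; group
        _ = x * ((x * (b * x * b)) * (b * y * b)) := by group
        _ = x * (y * ((b * y * b) * (b * y * b))) := by rw [h]; group
        _ = x * y := by rw [hF _ (hinv y hy), mul_one]
    calc x * y * b = b * (x * y) * b * b := by rw [h1]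
      _ = b * (x * y) := by rw [mul_assoc _ b b, hb, mul_one]
  refine Nat.card_le_card_of_injective
    (fun x : F => ((⟨(x : S) * (b * x * b), ⟨x, x.2, rfl⟩⟩ : Q),
      (⟨(x : S) * r ⟨(x : S) * (b * x * b), ⟨x, x.2, rfl⟩⟩,
        hfix (x : S) x.2 (r ⟨(x : S) * (b * x * b), ⟨x, x.2, rfl⟩⟩) (hrF _)
          (hr ⟨(x : S) * (b * x * b), ⟨x, x.2, rfl⟩⟩).symm⟩ :
          ↥(F ⊓ Subgroup.centralizer ({b} : Set S))))) ?_
  intro x y hxy
  simp only [Prod.mk.injEq, Subtype.mk.injEq] at hxy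
  obtain ⟨h1, h2⟩ := hxy
  have e : r ⟨(x : S) * (b * x * b), ⟨x, x.2, rfl⟩⟩ = r ⟨(y : S) * (b * y * b), ⟨y, y.2, rfl⟩⟩ :=
    congrArg r h1
  rw [e, mul_left_inj] at h2
  exact Subtype.ext h2

namespace Data

variable (D : Data S)

theorem C_fix_four [Finite S] (h : Nat.card ↥(D.A ⊓ D.E) = 4) {a c : S} (ha : a ∈ D.A)
    (haE : a ∉ D.E) (hc : c ∈ D.C) (hca : Commute c a) : c ∈ D.E := by
  refine D.A_inf_C (D.A_self c fun x hx => ?_) hc
  by_cases hxE : x ∈ D.E
  · exact D.mem_C.1 hc x (D.E_le hxE)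
  have := (D.mem_C.1 hc _ (D.E_le (D.mul_mem_E_of_four h ha haE hx hxE))).mul_right hca.inv_right
  rwa [mul_inv_cancel_right] at this

theorem C_fix_of [Finite S] {a : S} (h : ∀ x ∈ D.A0, Commute x a → x ∈ D.E) {c : S}
    (hc : c ∈ D.C) (hca : Commute c a) : c ∈ D.E := by
  obtain ⟨k, hk⟩ := D.isP c
  induction k generalizing c with
  | zero =>
    rw [pow_zero, pow_one] at hk
    rw [hk]; exact one_mem _
  | succ k ih =>
    have h2 := ih (mul_mem hc hc) (hca.mul_left hca) (by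
      rw [← pow_two, ← pow_mul, ← pow_succ']; exact hk)
    refine h c (D.C_four hc ?_) hca
    rw [show c ^ 4 = (c * c) * (c * c) by rw [pow_succ, pow_succ, pow_succ, pow_one]; group,
      D.E_sq h2]

theorem conj_E_mem {a : S} (ha : a ∈ D.A) {x : S} (hx : x ∈ D.E) : a * x * a ∈ D.E := by
  have := D.E_normal.conj_mem x hx a
  rwa [D.A_inv ha] at this

theorem conj_A0_mem {a : S} (ha : a ∈ D.A) {x : S} (hx : x ∈ D.A0) : a * x * a ∈ D.A0 := by
  have := D.A0_normal.conj_mem x hx a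
  rwa [D.A_inv ha] at this

/-- `a` is inverted, resp. fixed, by conjugation with `a`. -/
theorem norm_fixed {a : S} (ha : a ∈ D.A) {x : S} (hx : x ∈ D.A0) :
    Commute (x * (a * x * a)) a := by
  have h := D.A_sq a ha
  show x * (a * x * a) * a = a * (x * (a * x * a))
  calc x * (a * x * a) * a = x * a * x * (a * a) := by group
    _ = (a * a) * (x * a * x) := by rw [h, mul_one, one_mul]
    _ = a * ((a * x * a) * x) := by group
    _ = a * (x * (a * x * a)) := by rw [(D.A0_comm _ (D.conj_A0_mem ha hx) _ hx).eq]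

/-- An element of `C` (abelian part) by which a conjugate of `a` differs from `a` is inverted. -/
theorem inverted_of_conj {a g : S} (ha : a ∈ D.A) :
    a * (a * (g * a * g⁻¹)) * a = (a * (g * a * g⁻¹))⁻¹ := by
  calc a * (a * (g * a * g⁻¹)) * a = (a * a) * (g * a⁻¹ * g⁻¹) * a := by
        rw [D.A_inv ha]; group
    _ = g * a⁻¹ * g⁻¹ * a⁻¹ := by rw [D.A_sq a ha, one_mul, D.A_inv ha]
    _ = (a * (g * a * g⁻¹))⁻¹ := by group

/-- The centralizer of the image of `a` in `S ⧸ C` from coset representatives. -/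
theorem card_cent_le [Finite S] [D.C.Normal] (a r₁ r₂ r₃ : S)
    (h : ∀ g : S, a⁻¹ * (g * a * g⁻¹) ∈ D.C →
      g ∈ D.C ∨ r₁⁻¹ * g ∈ D.C ∨ r₂⁻¹ * g ∈ D.C ∨ r₃⁻¹ * g ∈ D.C) :
    Nat.card (Subgroup.centralizer ({(QuotientGroup.mk' D.C a)} : Set (S ⧸ D.C))) ≤ 4 := by
  classical
  let π := QuotientGroup.mk' D.C
  have hsub : ((Subgroup.centralizer ({π a} : Set (S ⧸ D.C)) : Subgroup _) : Set (S ⧸ D.C))
      ⊆ ↑({1, π r₁, π r₂, π r₃} : Finset (S ⧸ D.C)) := by
    intro q hq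
    obtain ⟨g, rfl⟩ := QuotientGroup.mk'_surjective D.C q
    rw [SetLike.mem_coe, Subgroup.mem_centralizer_singleton_iff] at hq
    have hmem : a⁻¹ * (g * a * g⁻¹) ∈ D.C := by
      rw [← QuotientGroup.eq_one_iff]
      change π (a⁻¹ * (g * a * g⁻¹)) = 1
      simp only [π, map_mul, map_inv] at hq ⊢
      rw [hq]; group
    have hmk : ∀ r : S, r⁻¹ * g ∈ D.C → π g = π r := fun r hr =>
      (QuotientGroup.eq.2 hr).symm
    simp only [Finset.coe_insert, Finset.coe_singleton, Set.mem_insert_iff,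
      Set.mem_singleton_iff]
    rcases h g hmem with h' | h' | h' | h'
    · exact Or.inl ((QuotientGroup.eq_one_iff g).2 h')
    · exact Or.inr (Or.inl (hmk _ h'))
    · exact Or.inr (Or.inr (Or.inl (hmk _ h')))
    · exact Or.inr (Or.inr (Or.inr (hmk _ h')))
  have h1 := Set.ncard_le_ncard hsub (Finset.finite_toSet _)
  rw [Set.ncard_coe_finset, ← Nat.card_coe_set_eq] at h1
  exact h1.trans Finset.card_le_four

namespace Frame

variable {D} {z a b : S} (hf : Frame D z a b)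
include hf

theorem swap : Frame D z b a :=
  ⟨hf.zA, hf.zE, hf.z1, hf.zc, hf.bA, hf.aA, hf.bE, hf.aE,
    by rw [(D.A_comm hf.bA hf.aA).eq]; exact hf.abE, hf.AE⟩

theorem rot : Frame D z a (a * b) :=
  ⟨hf.zA, hf.zE, hf.z1, hf.zc, hf.aA, mul_mem hf.aA hf.bA, hf.aE, hf.abE,
    by rw [← mul_assoc, D.A_sq a hf.aA, one_mul]; exact hf.bE, hf.AE⟩

theorem decomp [Finite S] {x : S} (hx : x ∈ D.A) :
    x ∈ D.E ∨ a⁻¹ * x ∈ D.E ∨ b⁻¹ * x ∈ D.E ∨ (a * b)⁻¹ * x ∈ D.E := by
  classical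
  have hs : ({1, z, a, a * z, b, b * z, a * b, a * b * z} : Finset S).card = 8 := by
    have hz := D.E_sq hf.zE
    have ne : ∀ {p q : S}, p * q ∉ D.E → ∀ {u v : S}, u ∈ D.E → v ∈ D.E →
        p * u ≠ q⁻¹ * v := fun {p q} hpq {u v} hu hv he => hpq (by
      have hp : p = q⁻¹ * v * u⁻¹ := by rw [← he]; group
      rw [hp, show q⁻¹ * v * u⁻¹ * q = q⁻¹ * (v * u⁻¹) * q⁻¹⁻¹ by group]
      exact D.E_normal.conj_mem _ (mul_mem hv (inv_mem hu)) _)
    have ai := D.A_inv hf.aA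
    have bi := D.A_inv hf.bA
    have abi := D.A_inv (mul_mem hf.aA hf.bA)
    have aab : a * (a * b) = b := by rw [← mul_assoc, D.A_sq a hf.aA, one_mul]
    have bab : b * (a * b) = a := by
      rw [(D.A_comm hf.aA hf.bA).eq, ← mul_assoc, D.A_sq b hf.bA, one_mul]
    have one := D.E.one_mem
    have n1 : a ≠ b := by
      simpa [bi] using ne hf.abE one one
    have n2 : a * z ≠ b := by
      simpa [bi] using ne hf.abE hf.zE one
    have n3 : a ≠ b * z := by
      simpa [bi] using ne hf.abE one hf.zE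
    have n5 : a ≠ a * b := by
      simpa [abi] using ne (p := a) (q := a * b) (by rw [aab]; exact hf.bE) one one
    have n6 : a * z ≠ a * b := by
      simpa [abi] using ne (p := a) (q := a * b) (by rw [aab]; exact hf.bE) hf.zE one
    have n7 : a ≠ a * b * z := by
      simpa [abi] using ne (p := a) (q := a * b) (by rw [aab]; exact hf.bE) one hf.zE
    have n8 : b ≠ a * b := by
      simpa [abi] using ne (p := b) (q := a * b) (by rw [bab]; exact hf.aE) one one
    have n9 : b * z ≠ a * b := by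
      simpa [abi] using ne (p := b) (q := a * b) (by rw [bab]; exact hf.aE) hf.zE one
    have n10 : b ≠ a * b * z := by
      simpa [abi] using ne (p := b) (q := a * b) (by rw [bab]; exact hf.aE) one hf.zE
    have m : ∀ {p : S}, p ∉ D.E → 1 ≠ p ∧ 1 ≠ p * z ∧ z ≠ p ∧ z ≠ p * z ∧ p ≠ p * z :=
      fun {p} hp => ⟨fun h => hp (h ▸ one),
        fun h => hp ((Subgroup.mul_mem_cancel_right _ hf.zE).1 (h ▸ one)),
        fun h => hp (h ▸ hf.zE),
        fun h => hp ((Subgroup.mul_mem_cancel_right _ hf.zE).1 (h ▸ hf.zE)),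
        fun h => hf.z1 (mul_eq_left.1 h.symm)⟩
    obtain ⟨a1, a2, a3, a4, a5⟩ := m hf.aE
    obtain ⟨b1, b2, b3, b4, b5⟩ := m hf.bE
    obtain ⟨c1, c2, c3, c4, c5⟩ := m hf.abE
    rw [Finset.card_insert_of_notMem, Finset.card_insert_of_notMem, Finset.card_insert_of_notMem,
      Finset.card_insert_of_notMem, Finset.card_insert_of_notMem, Finset.card_insert_of_notMem,
      Finset.card_insert_of_notMem, Finset.card_singleton] <;>
      simp only [Finset.mem_insert, Finset.mem_singleton, not_or]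
    · exact c5
    · exact ⟨n9, fun h => n8 (mul_right_cancel h)⟩
    · exact ⟨b5, n8, n10⟩
    · exact ⟨fun h => n2 h, fun h => n1 (mul_right_cancel h), n6,
        fun h => n5 (mul_right_cancel h)⟩
    · exact ⟨a5, n1, n3, n5, n7⟩
    · exact ⟨a3, a4, b3, b4, c3, c4⟩
    · exact ⟨hf.z1.symm, a1, a2, b1, b2, c1, c2⟩
  have hsub : (↑({1, z, a, a * z, b, b * z, a * b, a * b * z} : Finset S) : Set S) ⊆ ↑D.A := by
    intro t ht
    simp only [Finset.coe_insert, Finset.coe_singleton, Set.mem_insert_iff,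
      Set.mem_singleton_iff] at ht
    rcases ht with rfl | rfl | rfl | rfl | rfl | rfl | rfl | rfl
    exacts [one_mem _, hf.zA, hf.aA, mul_mem hf.aA hf.zA, hf.bA, mul_mem hf.bA hf.zA,
      mul_mem hf.aA hf.bA, mul_mem (mul_mem hf.aA hf.bA) hf.zA]
  have heq := Set.eq_of_subset_of_ncard_le hsub (by
    rw [Set.ncard_coe_finset, hs, ← Nat.card_coe_set_eq]; exact D.A_card.le) (Set.toFinite _)
  have hx' : x ∈ ({1, z, a, a * z, b, b * z, a * b, a * b * z} : Finset S) := by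
    rw [← Finset.mem_coe, heq]; exact hx
  simp only [Finset.mem_insert, Finset.mem_singleton] at hx'
  have one := D.E.one_mem
  rcases hx' with h | h | h | h | h | h | h | h <;> rw [h]
  exacts [Or.inl one, Or.inl hf.zE,
    Or.inr (Or.inl (by simpa using one)), Or.inr (Or.inl (by simpa using hf.zE)),
    Or.inr (Or.inr (Or.inl (by simpa using one))),
    Or.inr (Or.inr (Or.inl (by simpa using hf.zE))),
    Or.inr (Or.inr (Or.inr (by simpa using one))),
    Or.inr (Or.inr (Or.inr (by rw [show (a * b)⁻¹ * (a * b * z) = z by group]; exact hf.zE)))]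

theorem exists_move [Finite S] (h : 8 ≤ Nat.card D.E) :
    ∃ e, e ∈ D.E ∧ Commute e a ∧ e ≠ 1 ∧ e ≠ z := by
  classical
  by_contra hcon
  push Not at hcon
  have h1 := Set.ncard_le_ncard
    (s := ((D.E ⊓ Subgroup.centralizer ({a} : Set S) : Subgroup S) : Set S))
    (t := ↑({1, z} : Finset S)) (fun x hx => by
      have hx' := Subgroup.mem_inf.1 hx
      by_cases h1 : x = 1
      · simp [h1]
      · simp [hcon x hx'.1 (Subgroup.mem_centralizer_singleton_iff.1 hx'.2) h1])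
    (Finset.finite_toSet _)
  rw [Set.ncard_coe_finset, ← Nat.card_coe_set_eq] at h1
  have h2 : Nat.card ↥(D.E ⊓ Subgroup.centralizer ({a} : Set S)) ≤ 2 :=
    h1.trans Finset.card_le_two
  have h3 := card_le_fix_sq (D.A_sq a hf.aA) (fun x hx => D.E_sq hx)
    fun x hx => D.conj_E_mem hf.aA hx
  have h4 := Nat.mul_le_mul h2 h2
  omega

end Frame

/-- The hypothesis that every conjugate of `a` in `a C` is a `C`-conjugate. -/
def FullClass (a : S) : Prop :=
  ∀ g : S, a⁻¹ * (g * a * g⁻¹) ∈ D.C → ∃ c ∈ D.C, Commute (c * g) a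

theorem mem_AC {g x : S} [D.C.Normal] {c : S} (hc : c ∈ D.C) (h : x⁻¹ * (c * g) ∈ D.E) :
    x⁻¹ * g ∈ D.C := by
  rw [show x⁻¹ * g = (x⁻¹ * c⁻¹ * x⁻¹⁻¹) * (x⁻¹ * (c * g)) by group]
  exact mul_mem (Subgroup.Normal.conj_mem ‹D.C.Normal› _ (inv_mem hc) _) (D.E_le_C h)

/-- `Ā` is self-centralizing in `S ⧸ C`. -/
theorem Frame.self_cent [Finite S] [D.C.Normal] {z a b : S} (hf : Frame D z a b)
    (hE : 8 ≤ Nat.card D.E) (hfull : D.FullClass a) {g : S}
    (hga : a⁻¹ * (g * a * g⁻¹) ∈ D.C) (hgb : b⁻¹ * (g * b * g⁻¹) ∈ D.C) :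
    g ∈ D.C ∨ a⁻¹ * g ∈ D.C ∨ b⁻¹ * g ∈ D.C ∨ (a * b)⁻¹ * g ∈ D.C := by
  obtain ⟨e, he, hea, he1, hez⟩ := hf.exists_move hE
  obtain ⟨c, hc, hcg⟩ := hfull g hga
  have hfix : ∀ x ∈ D.C, Commute x a → x ∈ D.E := fun x hx hxa =>
    D.C_fix_of (fun y hy hya => hf.fixed_le_E he hea he1 hez hy hya) hx hxa
  have hgb' : b * (c * g * b * (c * g)⁻¹) ∈ D.C := by
    have e1 : b * (c * g * b * (c * g)⁻¹)
        = (b * c * b⁻¹) * (b * (g * b * g⁻¹)) * c⁻¹ := by group
    rw [e1]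
    rw [D.A_inv hf.bA] at hgb
    exact mul_mem (mul_mem (Subgroup.Normal.conj_mem ‹D.C.Normal› c hc b)
      (by simpa [D.A_inv hf.bA] using hgb)) (inv_mem hc)
  obtain ⟨x, hxA, hxg⟩ : ∃ x ∈ D.A, x⁻¹ * (c * g) ∈ D.E := by
    rcases hf.adjust he hea he1 hez hfix hcg hgb' with h | h
    · exact ⟨_, h, by rw [inv_mul_cancel]; exact one_mem _⟩
    · exact ⟨_, h, by rw [mul_inv_rev, inv_mul_cancel_right]; exact inv_mem he⟩
  have key : ∀ r : S, r⁻¹ * x ∈ D.E → r⁻¹ * g ∈ D.C := fun r hr =>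
    D.mem_AC hc (by rw [show r⁻¹ * (c * g) = (r⁻¹ * x) * (x⁻¹ * (c * g)) by group]
                    exact mul_mem hr hxg)
  rcases hf.decomp hxA with h | h | h | h
  · left
    have := key 1 (by simpa using h)
    simpa using this
  · exact Or.inr (Or.inl (key _ h))
  · exact Or.inr (Or.inr (Or.inl (key _ h)))
  · exact Or.inr (Or.inr (Or.inr (key _ h)))

/-- A frame in which the image of `a` has centralizer of order at most four, the other involution
of the frame being central modulo `C`. -/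
theorem exists_good_frame [Finite S] [D.C.Normal] (hE : 8 ≤ Nat.card D.E)
    (h2 : Nat.card ↥(D.A ⊓ D.E) = 2)
    (hfull : ∀ z a b, Frame D z a b → D.FullClass a) :
    ∃ z a b, Frame D z a b ∧
      Nat.card (Subgroup.centralizer ({(QuotientGroup.mk' D.C a)} : Set (S ⧸ D.C))) ≤ 4 := by
  haveI : Fact (Nat.Prime 2) := ⟨Nat.prime_two⟩
  obtain ⟨a, ha, haE⟩ : ∃ a ∈ D.A, a ∉ D.E := by
    by_contra hcon
    push Not at hcon
    rw [inf_eq_left.2 hcon, D.A_card] at h2
    omega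
  obtain ⟨z, b, hf⟩ := D.exists_frame h2 ha haE
  have hπa : QuotientGroup.mk' D.C a ≠ 1 := fun h =>
    haE (D.A_inf_C ha ((QuotientGroup.eq_one_iff a).1 h))
  haveI : Nontrivial (S ⧸ D.C) := ⟨⟨_, _, hπa⟩⟩
  haveI := (D.isP.to_quotient D.C).center_nontrivial
  obtain ⟨w, hw1⟩ := exists_ne (1 : Subgroup.center (S ⧸ D.C))
  obtain ⟨g, hg⟩ := QuotientGroup.mk'_surjective D.C (w : S ⧸ D.C)
  have hgc : ∀ t : S, t⁻¹ * (g * t * g⁻¹) ∈ D.C := fun t => by
    rw [← QuotientGroup.eq_one_iff]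
    change QuotientGroup.mk' D.C (t⁻¹ * (g * t * g⁻¹)) = 1
    simp only [map_mul, map_inv, hg]
    rw [← Subgroup.mem_center_iff.1 w.2 (QuotientGroup.mk' D.C t)]; group
  have hw : ∀ r : S, r⁻¹ * g ∈ D.C → ∀ t : S, t⁻¹ * (r * t * r⁻¹) ∈ D.C := fun r hr t => by
    rw [← QuotientGroup.eq_one_iff]
    change QuotientGroup.mk' D.C (t⁻¹ * (r * t * r⁻¹)) = 1
    have he : QuotientGroup.mk' D.C r = QuotientGroup.mk' D.C g := QuotientGroup.eq.2 hr
    simp only [map_mul, map_inv, he, hg]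
    rw [← Subgroup.mem_center_iff.1 w.2 (QuotientGroup.mk' D.C t)]; group
  have finish : ∀ z a b, Frame D z a b → (∀ t : S, t⁻¹ * (b * t * b⁻¹) ∈ D.C) →
      ∃ z a b, Frame D z a b ∧
        Nat.card (Subgroup.centralizer ({(QuotientGroup.mk' D.C a)} : Set (S ⧸ D.C))) ≤ 4 := by
    intro z a b hf hb
    refine ⟨z, a, b, hf, D.card_cent_le a a b (a * b) fun g hga => ?_⟩
    refine hf.self_cent D hE (hfull z a b hf) hga ?_
    have := hb g
    rw [← QuotientGroup.eq_one_iff] at this ⊢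
    change QuotientGroup.mk' D.C (g⁻¹ * (b * g * b⁻¹)) = 1 at this
    change QuotientGroup.mk' D.C (b⁻¹ * (g * b * g⁻¹)) = 1
    simp only [map_mul, map_inv] at this ⊢
    rw [inv_mul_eq_one, eq_mul_inv_iff_mul_eq] at this
    rw [this]; group
  rcases hf.self_cent D hE (hfull z a b hf) (hgc a) (hgc b) with h | h | h | h
  · exact absurd (by rw [← hg]; exact (QuotientGroup.eq_one_iff g).2 h) (fun h' => hw1 (Subtype.ext h'))
  · exact finish z b a hf.swap (hw a h)
  · exact finish z a b hf (hw b h)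
  · exact finish z a (a * b) hf.rot (hw (a * b) h)

end Data

end CfsgLib.TwoFusion.SelfCent
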