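/-
Self-centralizing elementary abelian subgroups of order eight in 2-groups: `|E| = 16`.
-/
import Cfsg.Agent.Lib.TwoFusion.SelfCentTools

set_option autoImplicit false

namespace CfsgLib.TwoFusion.SelfCent

variable {S : Type*} [Group S]

namespace Data

variable (D : Data S)

/-- An element `a ∈ A` behaving as the module `E` prescribes when `|E| = 16`. -/
structure GoodFour (D : Data S) (a : S) : Prop where
  aA : a ∈ D.A
  fix : ∀ x ∈ D.C, Commute x a → x ∈ D.E
  small : Nat.card ↥(D.E ⊓ Subgroup.centralizer ({a} : Set S)) ≤ 4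

theorem GoodFour.norm {D : Data S} [Finite S] {a : S} (hg : GoodFour D a)
    (h16 : Nat.card D.E = 16) {f : S} (hf : f ∈ D.E) (hfa : Commute f a) :
    ∃ e ∈ D.E, e * (a * e * a) = f := by
  have h1 := card_le_norm_mul (F := D.E) (D.A_sq a hg.aA) (fun x hx => D.E_sq hx)
    fun x hx => D.conj_E_mem hg.aA hx
  rw [h16] at h1
  have hsub : ((fun x => x * (a * x * a)) '' (D.E : Set S))
      ⊆ ((D.E ⊓ Subgroup.centralizer ({a} : Set S) : Subgroup S) : Set S) := by
    rintro _ ⟨x, hx, rfl⟩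
    exact Subgroup.mem_inf.2 ⟨mul_mem hx (D.conj_E_mem hg.aA hx),
      Subgroup.mem_centralizer_singleton_iff.2 (D.norm_fixed hg.aA (D.E_le hx)).eq⟩
  have heq := Set.eq_of_subset_of_ncard_le hsub (by
    rw [← Nat.card_coe_set_eq]
    refine hg.small.trans ?_
    have h2 := Nat.mul_le_mul_left (Set.ncard ((fun x => x * (a * x * a)) '' (D.E : Set S))) hg.small
    omega) (Set.toFinite _)
  have hmem : f ∈ ((D.E ⊓ Subgroup.centralizer ({a} : Set S) : Subgroup S) : Set S) :=
    Subgroup.mem_inf.2 ⟨hf, Subgroup.mem_centralizer_singleton_iff.2 hfa.eq⟩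
  rw [← heq] at hmem
  obtain ⟨e, he, hee⟩ := hmem
  exact ⟨e, he, hee⟩

theorem GoodFour.C_le {D : Data S} [Finite S] {a : S} (hg : GoodFour D a)
    (h16 : Nat.card D.E = 16) : D.C ≤ D.E := by
  have ha := D.A_sq a hg.aA
  have hfix : ∀ x ∈ D.A0, Commute x a → x ∈ D.E := fun x hx => hg.fix x (D.A0_le_C hx)
  have hA0 : D.A0 ≤ D.E := by
    intro x hx
    obtain ⟨e, he, hee⟩ := hg.norm h16
      (hfix _ (mul_mem hx (D.conj_A0_mem hg.aA hx)) (D.norm_fixed hg.aA hx))
      (D.norm_fixed hg.aA hx)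
    have hye : x * e ∈ D.A0 := mul_mem hx (D.E_le he)
    have hinv : a * (x * e) * a = (x * e)⁻¹ := by
      refine eq_inv_of_mul_eq_one_right ?_
      calc x * e * (a * (x * e) * a) = x * e * (a * x * 1 * e * a) := by group
        _ = x * e * ((a * x * a) * (a * e * a)) := by rw [← ha]; group
        _ = (x * (a * x * a)) * (e * (a * e * a)) := by
          rw [(D.A0_comm _ (D.conj_A0_mem hg.aA hx) _ (D.E_le he)).mul_mul_mul_comm]
        _ = 1 := by
          rw [hee]
          exact D.E_sq (hfix _ (mul_mem hx (D.conj_A0_mem hg.aA hx)) (D.norm_fixed hg.aA hx))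
    have hy2 : (x * e) * (x * e) ∈ D.E := (D.mem_E _).2 ⟨mul_mem hye hye, by
      rw [← D.A0_four _ hye, pow_succ, pow_succ, pow_succ, pow_one]; group⟩
    have hy2a : Commute ((x * e) * (x * e)) a := by
      have h1 : a * ((x * e) * (x * e)) * a = (x * e) * (x * e) := by
        calc a * ((x * e) * (x * e)) * a = a * (x * e) * 1 * (x * e) * a := by group
          _ = (a * (x * e) * a) * (a * (x * e) * a) := by rw [← ha]; group
          _ = ((x * e) * (x * e))⁻¹ := by rw [hinv, ← mul_inv_rev]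
          _ = (x * e) * (x * e) := D.E_inv hy2
      show (x * e) * (x * e) * a = a * ((x * e) * (x * e))
      calc (x * e) * (x * e) * a = a * ((x * e) * (x * e)) * a * a := by rw [h1]
        _ = a * ((x * e) * (x * e)) := by rw [mul_assoc _ a a, ha, mul_one]
    obtain ⟨f, hf, hff⟩ := hg.norm h16 hy2 hy2a
    exact (Subgroup.mul_mem_cancel_right _ he).1 (D.inverted_sq ha hfix hye hinv hf hff.symm)
  intro c hc
  obtain ⟨k, hk⟩ := D.isP c
  induction k generalizing c with
  | zero =>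
    rw [pow_zero, pow_one] at hk
    rw [hk]; exact one_mem _
  | succ k ih =>
    have h2 := ih (mul_mem hc hc) (by rw [← pow_two, ← pow_mul, ← pow_succ']; exact hk)
    refine hA0 (D.C_four hc ?_)
    rw [show c ^ 4 = (c * c) * (c * c) by rw [pow_succ, pow_succ, pow_succ, pow_one]; group,
      D.E_sq h2]

theorem GoodFour.full {D : Data S} [Finite S] {a : S} (hg : GoodFour D a)
    (h16 : Nat.card D.E = 16) : D.FullClass a := by
  intro g hga
  have ha := D.A_sq a hg.aA
  rw [D.A_inv hg.aA] at hga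
  have hjE := hg.C_le h16 hga
  have hinv := D.inverted_of_conj (g := g) hg.aA
  rw [D.E_inv hjE] at hinv
  have hja : Commute (a * (g * a * g⁻¹)) a := by
    show a * (g * a * g⁻¹) * a = a * (a * (g * a * g⁻¹))
    calc a * (g * a * g⁻¹) * a = (a * a) * (a * (g * a * g⁻¹)) * a := by rw [ha, one_mul]
      _ = a * (a * (a * (g * a * g⁻¹)) * a) := by group
      _ = a * (a * (g * a * g⁻¹)) := by rw [hinv]
  obtain ⟨e, he, hee⟩ := hg.norm h16 hjE hja
  refine ⟨e, D.E_le_C he, ?_⟩
  have h1 : e * g * a * (e * g)⁻¹ = a := by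
    calc e * g * a * (e * g)⁻¹ = (a * a) * (e * (g * a * g⁻¹) * e⁻¹) := by rw [ha]; group
      _ = a * ((a * e * a⁻¹) * (a * (g * a * g⁻¹)) * e⁻¹) := by group
      _ = a * ((a * e * a) * (e * (a * e * a)) * e) := by rw [D.A_inv hg.aA, ← hee, D.E_inv he]
      _ = a * ((a * e * a) * ((a * e * a) * e) * e) := by
        rw [(D.E_comm (D.conj_E_mem hg.aA he) he).eq]
      _ = a * (((a * e * a) * (a * e * a)) * (e * e)) := by group
      _ = a := by rw [D.E_sq (D.conj_E_mem hg.aA he), D.E_sq he, one_mul, mul_one]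
  exact mul_inv_eq_iff_eq_mul.1 h1

theorem goodFour_of_four [Finite S] (h : Nat.card ↥(D.A ⊓ D.E) = 4) {a : S} (ha : a ∈ D.A)
    (haE : a ∉ D.E) : GoodFour D a := by
  refine ⟨ha, fun x hx hxa => D.C_fix_four h ha haE hx hxa, ?_⟩
  refine (Subgroup.card_le_of_le (K := D.A ⊓ D.E) fun x hx => ?_).trans h.le
  have hx' := Subgroup.mem_inf.1 hx
  exact ⟨D.fix_eq_of_four h ha haE hx'.1 (Subgroup.mem_centralizer_singleton_iff.1 hx'.2), hx'.1⟩

theorem Frame.goodFour [Finite S] {D : Data S} {z a b : S} (hf : Frame D z a b)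
    (h16 : Nat.card D.E = 16) : GoodFour D a := by
  obtain ⟨e, he, hea, he1, hez⟩ := hf.exists_move (by omega)
  exact ⟨hf.aA, fun x hx hxa => D.C_fix_of
    (fun y hy hya => hf.fixed_le_E he hea he1 hez hy hya) hx hxa, hf.card_fix_le⟩

theorem card_centralizer_mul {a g : S} (c : S) (hc : ∀ e ∈ D.E, Commute c e)
    (h : g = a * c) :
    D.E ⊓ Subgroup.centralizer ({g} : Set S) ≤ D.E ⊓ Subgroup.centralizer ({a} : Set S) := by
  intro x hx
  obtain ⟨hxE, hxg⟩ := Subgroup.mem_inf.1 hx
  refine Subgroup.mem_inf.2 ⟨hxE, Subgroup.mem_centralizer_singleton_iff.2 ?_⟩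
  have h1 : Commute x (a * c) := h ▸ Subgroup.mem_centralizer_singleton_iff.1 hxg
  have h2 := h1.mul_right (hc x hxE).symm.inv_right
  rw [mul_inv_cancel_right] at h2
  exact h2.eq

/-- The small centralizer and the rank-two elements centralizing `ā`. -/
theorem exists_four [Finite S] [D.C.Normal] (h16 : Nat.card D.E = 16) :
    ∃ a, GoodFour D a ∧
      Nat.card (Subgroup.centralizer ({(QuotientGroup.mk' D.C a)} : Set (S ⧸ D.C))) ≤ 4 ∧
      ∀ g : S, a⁻¹ * (g * a * g⁻¹) ∈ D.C → g ∉ D.C → a⁻¹ * g ∉ D.C →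
        (∀ t : S, t⁻¹ * (g * t * g⁻¹) ∈ D.C) →
        Nat.card ↥(D.E ⊓ Subgroup.centralizer ({g} : Set S)) ≤ 4 := by
  classical
  have hEA : Nat.card ↥(D.A ⊓ D.E) = 2 ∨ Nat.card ↥(D.A ⊓ D.E) = 4 := by
    rcases D.card_AE with h | h | h
    · exact Or.inl h
    · exact Or.inr h
    · rw [← D.A_le_E_of_eight h, D.A_card] at h16; omega
  rcases hEA with h2 | h4
  · have hfull : ∀ z a b, Frame D z a b → D.FullClass a := fun z a b hf =>
      (hf.goodFour h16).full h16
    obtain ⟨z, a, b, hf, hcent⟩ := D.exists_good_frame (by omega) h2 hfull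
    refine ⟨a, hf.goodFour h16, hcent, fun g hga hgC hagC hgz => ?_⟩
    have hgb := hgz b
    have hgb' : b⁻¹ * (g * b * g⁻¹) ∈ D.C := hgb
    have hcC : ∀ c ∈ D.C, ∀ e ∈ D.E, Commute c e := fun c hc e he =>
      D.mem_C.1 hc e (D.E_le he)
    rcases hf.self_cent D (by omega) (hfull z a b hf) hga hgb' with h | h | h | h
    · exact absurd h hgC
    · exact absurd h hagC
    · exact (Subgroup.card_le_of_le (D.card_centralizer_mul (b⁻¹ * g) (hcC _ h)
        (mul_inv_cancel_left b g).symm)).trans hf.swap.card_fix_le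
    · exact (Subgroup.card_le_of_le (D.card_centralizer_mul ((a * b)⁻¹ * g) (hcC _ h)
        (mul_inv_cancel_left (a * b) g).symm)).trans hf.rot.swap.card_fix_le
  · obtain ⟨a, ha, haE⟩ : ∃ a ∈ D.A, a ∉ D.E := by
      by_contra hcon
      push Not at hcon
      rw [inf_eq_left.2 hcon, D.A_card] at h4
      omega
    have hg := D.goodFour_of_four h4 ha haE
    have hfull := hg.full h16
    obtain ⟨z, hzA, hzE, hz1, hzc⟩ := D.exists_z
    obtain ⟨v, hvA, hvE, hv1, hvz⟩ : ∃ v ∈ D.A, v ∈ D.E ∧ v ≠ 1 ∧ v ≠ z := by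
      by_contra hcon
      push Not at hcon
      have h1 := Set.ncard_le_ncard (s := ((D.A ⊓ D.E : Subgroup S) : Set S))
        (t := ↑({1, z} : Finset S)) (fun x hx => by
          have hx' := Subgroup.mem_inf.1 hx
          by_cases h1 : x = 1
          · simp [h1]
          · simp [hcon x hx'.1 hx'.2 h1]) (Finset.finite_toSet _)
      rw [Set.ncard_coe_finset, ← Nat.card_coe_set_eq] at h1
      have h2 : Nat.card ↥(D.A ⊓ D.E) ≤ 2 := h1.trans Finset.card_le_two
      omega
    have hvcomm : ∀ h : S, Commute h a → h * v * h⁻¹ = v ∨ h * v * h⁻¹ = v * z := by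
      intro h hha
      have hm : h * v * h⁻¹ ∈ D.E ∧ Commute (h * v * h⁻¹) a :=
        ⟨D.E_normal.conj_mem v hvE h,
          (hha.mul_left (D.A_comm hvA ha)).mul_left hha.inv_left⟩
      have hmA := D.fix_eq_of_four h4 ha haE hm.1 hm.2
      have hsub : (↑({1, z, v, v * z} : Finset S) : Set S) ⊆ ↑(D.A ⊓ D.E) := by
        intro t ht
        simp only [Finset.coe_insert, Finset.coe_singleton, Set.mem_insert_iff,
          Set.mem_singleton_iff] at ht
        rcases ht with rfl | rfl | rfl | rfl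
        exacts [one_mem _, ⟨hzA, hzE⟩, ⟨hvA, hvE⟩, ⟨mul_mem hvA hzA, mul_mem hvE hzE⟩]
      have n1 : v * z ≠ 1 := fun h' => hvz (by
        rw [mul_eq_one_iff_eq_inv.1 h', D.E_inv hzE])
      have n2 : v * z ≠ v := fun h' => hz1 (mul_eq_left.1 h')
      have n3 : v * z ≠ z := fun h' => hv1 (mul_eq_right.1 h')
      have hc4 : ({1, z, v, v * z} : Finset S).card = 4 := by
        simp [hz1.symm, hv1.symm, hvz.symm, n1.symm, n2.symm, n3.symm]
      have heq := Set.eq_of_subset_of_ncard_le hsub (by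
        rw [Set.ncard_coe_finset, hc4, ← Nat.card_coe_set_eq]; exact h4.le) (Set.toFinite _)
      have hmem : h * v * h⁻¹ ∈ (↑(D.A ⊓ D.E) : Set S) := ⟨hmA, hm.1⟩
      rw [← heq] at hmem
      simp only [Finset.coe_insert, Finset.coe_singleton, Set.mem_insert_iff,
        Set.mem_singleton_iff] at hmem
      rcases hmem with h' | h' | h' | h'
      · exact absurd (conj_eq_one_iff.1 h') hv1
      · refine absurd ?_ hvz
        calc v = h⁻¹ * (h * v * h⁻¹) * h := by group
          _ = z := by rw [h', mul_assoc, ← (hzc h).eq, ← mul_assoc, inv_mul_cancel, one_mul]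
      · exact Or.inl h'
      · exact Or.inr h'
    -- elements fixing `a` and `v` lie in `A`
    have hfixA : ∀ h : S, Commute h a → h * v * h⁻¹ = v → h ∈ D.A := by
      intro h hha hv
      refine D.A_self h fun x hx => ?_
      have hle : D.A ⊓ Subgroup.centralizer ({h} : Set S) = D.A := by
        refine Subgroup.eq_of_le_of_card_ge inf_le_left ?_
        have hd : Nat.card ↥(D.A ⊓ Subgroup.centralizer ({h} : Set S)) ∣ 8 :=
          D.A_card ▸ Subgroup.card_dvd_of_le inf_le_left
        have hsub : (↑({1, z, v, a, a * z} : Finset S) : Set S)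
            ⊆ ↑(D.A ⊓ Subgroup.centralizer ({h} : Set S)) := by
          intro t ht
          simp only [Finset.coe_insert, Finset.coe_singleton, Set.mem_insert_iff,
            Set.mem_singleton_iff] at ht
          rw [SetLike.mem_coe, Subgroup.mem_inf, Subgroup.mem_centralizer_singleton_iff]
          rcases ht with rfl | rfl | rfl | rfl | rfl
          exacts [⟨one_mem _, by simp⟩, ⟨hzA, (hzc h).symm.eq⟩,
            ⟨hvA, (mul_inv_eq_iff_eq_mul.1 hv).symm⟩, ⟨ha, hha.symm.eq⟩,
            ⟨mul_mem ha hzA, (hha.mul_right (hzc h)).symm.eq⟩]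
        have n1 : a ≠ 1 := fun h' => haE (h' ▸ one_mem _)
        have n2 : a ≠ z := fun h' => haE (h' ▸ hzE)
        have n3 : a ≠ v := fun h' => haE (h' ▸ hvE)
        have n4 : a * z ∉ D.E := fun h' => haE ((Subgroup.mul_mem_cancel_right _ hzE).1 h')
        have n5 : a * z ≠ 1 := fun h' => n4 (h' ▸ one_mem _)
        have n6 : a * z ≠ v := fun h' => n4 (h' ▸ hvE)
        have n7 : a * z ≠ z := fun h' => n4 (by rw [h']; exact hzE)
        have n8 : a * z ≠ a := fun h' => hz1 (mul_eq_left.1 h')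
        have h2 : ({1, z, v, a, a * z} : Finset S).card = 5 := by
          simp [hz1.symm, hv1.symm, hvz.symm, n1.symm, n2.symm, n3.symm, n5.symm, n6.symm,
            n7.symm, n8.symm]
        have h1 := Set.ncard_le_ncard hsub (Set.toFinite _)
        rw [Set.ncard_coe_finset, h2, ← Nat.card_coe_set_eq] at h1
        rw [D.A_card]
        have h3 : 5 ≤ Nat.card ↥(D.A ⊓ Subgroup.centralizer ({h} : Set S)) := h1
        have h4' := Nat.le_of_dvd (by norm_num) hd
        generalize Nat.card ↥(D.A ⊓ Subgroup.centralizer ({h} : Set S)) = n at hd h3 h4' ⊢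
        interval_cases n <;> omega
      have hx' : x ∈ D.A ⊓ Subgroup.centralizer ({h} : Set S) := by rw [hle]; exact hx
      exact (Subgroup.mem_centralizer_singleton_iff.1 hx'.2).symm
    have hAcos : ∀ x ∈ D.A, x ∈ D.E ∨ a⁻¹ * x ∈ D.E := by
      intro x hx
      by_cases hxE : x ∈ D.E
      · exact Or.inl hxE
      · refine Or.inr ?_
        rw [D.A_inv ha, (D.A_comm ha hx).eq]
        exact D.mul_mem_E_of_four h4 ha haE hx hxE
    -- elements of `W` fixing `v` lie in `C ∪ a C`
    have hWv : ∀ g : S, a⁻¹ * (g * a * g⁻¹) ∈ D.C → g * v * g⁻¹ = v →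
        g ∈ D.C ∨ a⁻¹ * g ∈ D.C := by
      intro g hga hgv
      obtain ⟨c, hc, hcg⟩ := hfull g hga
      have hA : c * g ∈ D.A := hfixA _ hcg (by
        rw [show c * g * v * (c * g)⁻¹ = c * (g * v * g⁻¹) * c⁻¹ by group, hgv,
          (D.mem_C.1 hc v (D.E_le hvE)).eq, mul_inv_cancel_right])
      rcases hAcos _ hA with h | h
      · left
        rw [show g = c⁻¹ * (c * g) by group]
        exact mul_mem (inv_mem hc) (D.E_le_C h)
      · exact Or.inr (D.mem_AC hc h)
    have hWmove : ∀ g : S, a⁻¹ * (g * a * g⁻¹) ∈ D.C →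
        g * v * g⁻¹ = v ∨ g * v * g⁻¹ = v * z := by
      intro g hga
      obtain ⟨c, hc, hcg⟩ := hfull g hga
      have := hvcomm _ hcg
      have e1 : c * g * v * (c * g)⁻¹ = g * v * g⁻¹ := by
        rw [show c * g * v * (c * g)⁻¹ = c * (g * v * g⁻¹) * c⁻¹ by group,
          (D.mem_C.1 hc _ (D.E_le (D.E_normal.conj_mem v hvE g))).eq, mul_inv_cancel_right]
      rwa [e1] at this
    refine ⟨a, hg, ?_, ?_⟩
    · by_cases hex : ∃ g0, a⁻¹ * (g0 * a * g0⁻¹) ∈ D.C ∧ g0 * v * g0⁻¹ = v * z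
      · obtain ⟨g0, hg0, hg0v⟩ := hex
        refine D.card_cent_le a a g0 (g0 * a) fun g hga => ?_
        rcases hWmove g hga with hgv | hgv
        · rcases hWv g hga hgv with h | h
          · exact Or.inl h
          · exact Or.inr (Or.inl h)
        · have hh : a⁻¹ * (g0⁻¹ * g * a * (g0⁻¹ * g)⁻¹) ∈ D.C := by
            rw [← QuotientGroup.eq_one_iff] at hg0 hga ⊢
            change QuotientGroup.mk' D.C (a⁻¹ * (g0⁻¹ * g * a * (g0⁻¹ * g)⁻¹)) = 1
            change QuotientGroup.mk' D.C (a⁻¹ * (g0 * a * g0⁻¹)) = 1 at hg0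
            change QuotientGroup.mk' D.C (a⁻¹ * (g * a * g⁻¹)) = 1 at hga
            simp only [map_mul, map_inv, inv_mul_eq_one] at hg0 hga ⊢
            set π := QuotientGroup.mk' D.C
            calc π a = (π g0)⁻¹ * π a * π g0 := by
                  conv_rhs => rw [hg0]
                  group
              _ = (π g0)⁻¹ * (π g * π a * (π g)⁻¹) * π g0 := by rw [← hga]
              _ = _ := by group
          have hv' : g0⁻¹ * g * v * (g0⁻¹ * g)⁻¹ = v := by
            calc g0⁻¹ * g * v * (g0⁻¹ * g)⁻¹ = g0⁻¹ * (g * v * g⁻¹) * g0 := by group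
              _ = g0⁻¹ * (g0 * v * g0⁻¹) * g0 := by rw [hgv, hg0v]
              _ = v := by group
          rcases hWv _ hh hv' with h | h
          · exact Or.inr (Or.inr (Or.inl h))
          · refine Or.inr (Or.inr (Or.inr ?_))
            rwa [mul_inv_rev, mul_assoc]
      · push Not at hex
        refine D.card_cent_le a a a a fun g hga => ?_
        rcases hWv g hga ((hWmove g hga).resolve_right (hex g hga)) with h | h
        · exact Or.inl h
        · exact Or.inr (Or.inl h)
    · intro g hga hgC hagC hgz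
      by_contra hbig
      push Not at hbig
      have hgv : ¬ g * v * g⁻¹ = v := fun hgv => by
        rcases hWv g hga hgv with h | h
        exacts [hgC h, hagC h]
      apply hgv
      set F := D.E ⊓ Subgroup.centralizer ({g} : Set S) with hF
      have hFle : F ≤ D.E := inf_le_left
      have hidx := relIndex_mul_card hFle
      rw [h16] at hidx
      have hdvd : Nat.card F ∣ 16 := ⟨_, hidx.symm⟩
      have hFa : ∀ e ∈ F, a * e * a ∈ F := by
        intro e he
        obtain ⟨heE, heg⟩ := Subgroup.mem_inf.1 he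
        refine Subgroup.mem_inf.2 ⟨D.conj_E_mem ha heE, Subgroup.mem_centralizer_singleton_iff.2 ?_⟩
        have hcC : g⁻¹ * (a * g * a⁻¹) ∈ D.C := by
          rw [← QuotientGroup.eq_one_iff] at hga ⊢
          change QuotientGroup.mk' D.C (g⁻¹ * (a * g * a⁻¹)) = 1
          change QuotientGroup.mk' D.C (a⁻¹ * (g * a * g⁻¹)) = 1 at hga
          simp only [map_mul, map_inv, inv_mul_eq_one] at hga ⊢
          rw [eq_mul_inv_iff_mul_eq, ← eq_mul_inv_iff_mul_eq.1 hga]
        have h1 : Commute (a * e * a⁻¹) (a * g * a⁻¹) := by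
          have this : Commute e g := Subgroup.mem_centralizer_singleton_iff.1 heg
          simpa using Commute.map this (MulAut.conj a).toMonoidHom
        rw [D.A_inv ha] at h1 hcC
        have h2 : Commute (a * e * a) (g⁻¹ * (a * g * a)) :=
          (D.mem_C.1 hcC _ (D.E_le (D.conj_E_mem ha heE))).symm
        have h3 := (h2.inv_right).mul_left (Commute.one_left _)
        have h4 : Commute (a * e * a) ((a * g * a) * (g⁻¹ * (a * g * a))⁻¹) :=
          h1.mul_right h2.inv_right
        rw [show (a * g * a) * (g⁻¹ * (a * g * a))⁻¹ = g by group] at h4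
        exact h4.eq
      obtain ⟨e, he, hev⟩ := hg.norm h16 hvE (D.A_comm hvA ha)
      have hmem : v ∈ F := by
        rw [← hev]
        by_cases heF : e ∈ F
        · exact mul_mem heF (hFa e heF)
        · have hne : F ≠ D.E := fun h' => heF (h' ▸ he)
          have h16' : Nat.card F ≠ 16 := fun h' =>
            hne (Subgroup.eq_of_le_of_card_ge hFle (by omega))
          have hF8 : Nat.card F = 8 := by
            have := Nat.le_of_dvd (by norm_num) hdvd
            generalize Nat.card F = n at hbig hdvd h16' this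
            interval_cases n <;> omega
          have hi2 : (F.subgroupOf D.E).index = 2 := by
            rw [hF8] at hidx
            have : F.relIndex D.E = 2 := by omega
            exact this
          have := Subgroup.mul_mem_iff_of_index_two hi2 (a := ⟨e, he⟩)
            (b := ⟨a * e * a, D.conj_E_mem ha he⟩)
          simp only [Subgroup.mem_subgroupOf, Subgroup.coe_mul] at this
          refine this.2 (iff_of_false heF fun h' => heF ?_)
          have := hFa _ h'
          rwa [show a * (a * e * a) * a = (a * a) * e * (a * a) by group, D.A_sq a ha, one_mul,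
            mul_one] at this
      exact mul_inv_eq_iff_eq_mul.2
        (Subgroup.mem_centralizer_singleton_iff.1 (Subgroup.mem_inf.1 hmem).2).symm

/-- Enough commutators of `x` with the intersection. -/
theorem relIndex_le_of_fix [Finite S] [D.C.Normal] {H : Subgroup S} (hHC : H ⊓ D.C ≤ D.E) {x : S}
    (hx : x ∈ H) {k : ℕ} (hk : Nat.card ↥(D.E ⊓ Subgroup.centralizer ({x} : Set S)) ≤ k) :
    (Phi H ⊓ D.C).relIndex (H ⊓ D.C) ≤ k := by
  classical
  set F := H ⊓ D.C
  have hFn : ∀ d ∈ F, dlt x d ∈ Phi H ⊓ D.C := fun d hd => Subgroup.mem_inf.2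
    ⟨comm_mem_phi hx (Subgroup.mem_inf.1 hd).1,
      mul_mem (Subgroup.Normal.conj_mem ‹D.C.Normal› d (Subgroup.mem_inf.1 hd).2 x)
        (inv_mem (Subgroup.mem_inf.1 hd).2)⟩
  let f : F →* S := MonoidHom.mk' (fun d => dlt x (d : S)) fun p q => by
    simp only [dlt, Subgroup.coe_mul]
    rw [show x * ((p : S) * q) * x⁻¹ * ((p : S) * q)⁻¹
        = x * p * x⁻¹ * ((x * q * x⁻¹ * (q : S)⁻¹) * (p : S)⁻¹) by group,
      (D.E_comm (mul_mem (D.E_normal.conj_mem _ (hHC q.2) x) (inv_mem (hHC q.2)))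
        (inv_mem (hHC p.2))).eq]
    group
  have hr : Nat.card f.range ≤ Nat.card ↥(Phi H ⊓ D.C) := Subgroup.card_le_of_le (by
    rintro _ ⟨d, rfl⟩; exact hFn d d.2)
  have hker : Nat.card f.ker ≤ k := by
    refine le_trans ?_ hk
    refine Nat.card_le_card_of_injective (fun d : f.ker => (⟨((d : F) : S), ?_⟩ :
      ↥(D.E ⊓ Subgroup.centralizer ({x} : Set S)))) ?_
    · refine Subgroup.mem_inf.2 ⟨hHC (d : F).2, Subgroup.mem_centralizer_singleton_iff.2 ?_⟩
      have h : x * ((d : F) : S) * x⁻¹ * ((d : F) : S)⁻¹ = 1 := d.2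
      exact (mul_inv_eq_iff_eq_mul.1 (mul_inv_eq_one.1 h)).symm
    · intro p q h
      simp only [Subtype.mk.injEq] at h
      exact Subtype.ext (Subtype.ext h)
  have h1 := f.ker.card_mul_index
  rw [Subgroup.index_ker] at h1
  have h2 := relIndex_mul_card (inf_le_inf_right D.C (phi_le_self H))
  refine Nat.le_of_mul_le_mul_left ?_ (Nat.card_pos (α := ↥(Phi H ⊓ D.C)))
  rw [h2, ← h1, mul_comm (Nat.card ↥(Phi H ⊓ D.C)) k]
  exact Nat.mul_le_mul hker hr

theorem quot_relIndex_one {H : Subgroup S} [D.C.Normal] (h : H ≤ D.C) :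
    (Phi (H.map (QuotientGroup.mk' D.C))).relIndex (H.map (QuotientGroup.mk' D.C)) = 1 := by
  have hb : H.map (QuotientGroup.mk' D.C) = ⊥ := by
    rw [Subgroup.map_eq_bot_iff, QuotientGroup.ker_mk']; exact h
  rw [hb]; exact Subgroup.relIndex_bot_right _

theorem pow_four_mem [Finite S] (hC : D.C ≤ D.E) (hA0 : Nat.card D.A0 ≤ 16)
    (hEA : D.A0 ≤ D.E) (g : S) : g ^ 4 ∈ D.C := by
  refine D.mem_C.2 fun y hy => ?_
  have hF : ∀ x ∈ D.A0, g * x * g⁻¹ ∈ D.A0 := fun x hx => D.A0_normal.conj_mem x hx g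
  have hsq : ∀ x ∈ D.A0, x * x = 1 := fun x hx => D.E_sq (hEA hx)
  have h1 := dlt_iterate_eq_one D.isP g 4 D.A0 hsq hF hA0 y hy
  rw [show (4 : ℕ) = 2 ^ 2 by norm_num, dlt_pow hsq 2 g hF y hy] at h1
  exact mul_inv_eq_iff_eq_mul.1 (mul_inv_eq_one.1 h1)

theorem bound_four [Finite S] (h16 : Nat.card D.E = 16) (H : Subgroup S) :
    (Phi H).relIndex H ≤ 16 := by
  classical
  haveI := D.normal_C
  haveI : Fact (Nat.Prime 2) := ⟨Nat.prime_two⟩
  obtain ⟨a, hga, hcent, hrank⟩ := D.exists_four h16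
  have hCE := hga.C_le h16
  have hA0E : D.A0 ≤ D.E := fun x hx => hCE (D.A0_le_C hx)
  have hA0c : Nat.card D.A0 ≤ 16 := (Subgroup.card_le_of_le hA0E).trans h16.le
  have h4 : ∀ q : S ⧸ D.C, q ^ 4 = 1 := fun q => by
    obtain ⟨g, rfl⟩ := QuotientGroup.mk'_surjective D.C q
    rw [← map_pow]
    exact (QuotientGroup.eq_one_iff _).2 (D.pow_four_mem hCE hA0c hA0E g)
  have hMX := mx (D.isP.to_quotient D.C) h4 (a := QuotientGroup.mk' D.C a)
    (by rw [← map_mul, D.A_sq a hga.aA, map_one]) hcent (H.map (QuotientGroup.mk' D.C))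
  have hX16 : (Phi H ⊓ D.C).relIndex (H ⊓ D.C) ≤ 16 := by
    have := relIndex_mul_card (inf_le_inf_right D.C (phi_le_self H))
    have h2 : Nat.card ↥(H ⊓ D.C) ≤ 16 :=
      (Subgroup.card_le_of_le (inf_le_right.trans hCE)).trans h16.le
    have h3 : 1 ≤ Nat.card ↥(Phi H ⊓ D.C) := Nat.card_pos
    have h4 : 1 * (Phi H ⊓ D.C).relIndex (H ⊓ D.C) ≤
        Nat.card ↥(Phi H ⊓ D.C) * (Phi H ⊓ D.C).relIndex (H ⊓ D.C) := Nat.mul_le_mul_right _ h3
    omega
  rw [relIndex_phi_split D.C H]
  set X := (Phi H ⊓ D.C).relIndex (H ⊓ D.C)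
  set Y := (Phi (H.map (QuotientGroup.mk' D.C))).relIndex (H.map (QuotientGroup.mk' D.C)) with hY
  have hHC : H ⊓ D.C ≤ D.E := inf_le_right.trans hCE
  by_cases hY1 : Y ≤ 1
  · exact (Nat.mul_le_mul hX16 hY1).trans_eq (by norm_num)
  -- an element of `H` outside `C`
  obtain ⟨h0, hh0, hh0C⟩ : ∃ h ∈ H, h ∉ D.C := by
    by_contra hcon
    push Not at hcon
    have := D.quot_relIndex_one hcon
    rw [← hY] at this
    omega
  have hX8 : X ≤ 8 := by
    refine D.relIndex_le_of_fix hHC hh0 ?_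
    have hne : D.E ⊓ Subgroup.centralizer ({h0} : Set S) ≠ D.E := by
      intro heq
      refine hh0C (D.mem_C.2 fun y hy => ?_)
      have hy' : y ∈ D.E ⊓ Subgroup.centralizer ({h0} : Set S) := by
        rw [heq]; exact hA0E hy
      exact (Subgroup.mem_centralizer_singleton_iff.1 (Subgroup.mem_inf.1 hy').2).symm
    have h1 := relIndex_mul_card (inf_le_left : D.E ⊓ Subgroup.centralizer ({h0} : Set S) ≤ D.E)
    rw [h16] at h1
    have h2 : Nat.card ↥(D.E ⊓ Subgroup.centralizer ({h0} : Set S)) ∣ 16 := ⟨_, h1.symm⟩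
    have h3 : Nat.card ↥(D.E ⊓ Subgroup.centralizer ({h0} : Set S)) ≠ 16 := fun h' =>
      hne (Subgroup.eq_of_le_of_card_ge inf_le_left (by omega))
    have h4 := Nat.le_of_dvd (by norm_num) h2
    generalize Nat.card ↥(D.E ⊓ Subgroup.centralizer ({h0} : Set S)) = n at h2 h3 h4 ⊢
    interval_cases n <;> omega
  by_cases hY2 : Y ≤ 2
  · exact (Nat.mul_le_mul hX8 hY2).trans_eq (by norm_num)
  have hY4 : 4 ≤ Y := by
    have hdvd : Y ∣ Nat.card (S ⧸ D.C) :=
      (Dvd.intro_left _ (relIndex_mul_card (phi_le_self _))).trans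
        (Subgroup.card_subgroup_dvd_card _)
    obtain ⟨n, hn⟩ := (D.isP.to_quotient D.C).exists_card_eq
    obtain ⟨i, -, hi⟩ := (Nat.dvd_prime_pow Nat.prime_two).1 (hn ▸ hdvd)
    rw [hi] at hY2 ⊢
    have : 2 ≤ i := by
      by_contra hcon
      push Not at hcon
      interval_cases i <;> simp at hY2
    exact (Nat.pow_le_pow_right (by norm_num) this).trans' (by norm_num)
  have hX4 : X ≤ 4 := by
    rcases hMX.2 hY4 with hmem | ⟨-, ζ, hζ, τ, -, hz1, hza, hzc, -⟩
    · obtain ⟨x, hx, hxa⟩ := hmem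
      refine D.relIndex_le_of_fix hHC hx ?_
      refine (Subgroup.card_le_of_le ?_).trans hga.small
      exact D.card_centralizer_mul (a⁻¹ * x)
        (fun e he => D.mem_C.1 (QuotientGroup.eq.1 hxa.symm) e (D.E_le he))
        (mul_inv_cancel_left a x).symm
    · obtain ⟨g, hg, rfl⟩ := hζ
      refine D.relIndex_le_of_fix hHC hg ?_
      have hgC : g ∉ D.C := fun h => hz1 ((QuotientGroup.eq_one_iff g).2 h)
      have hagC : a⁻¹ * g ∉ D.C := fun h => hza (QuotientGroup.eq.2 h).symm
      have hcomm : ∀ t : S, t⁻¹ * (g * t * g⁻¹) ∈ D.C := fun t => by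
        rw [← QuotientGroup.eq_one_iff]
        change QuotientGroup.mk' D.C (t⁻¹ * (g * t * g⁻¹)) = 1
        simp only [map_mul, map_inv]
        rw [← (hzc (QuotientGroup.mk' D.C t)).eq]; group
      exact hrank g (hcomm a) hgC hagC hcomm
  exact (Nat.mul_le_mul hX4 hMX.1).trans_eq (by norm_num)

end Data

end CfsgLib.TwoFusion.SelfCent
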