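/-
Self-centralizing elementary abelian subgroups of order eight in 2-groups: an abelian
automorphism group of a normal abelian group of order eight has order at most four; the
four-step nilpotency of the action on groups of order sixteen.
-/
import Cfsg.Agent.Lib.TwoFusion.SelfCentTools

set_option autoImplicit false

namespace CfsgLib.TwoFusion.SelfCent

variable {S : Type*} [Group S]

/-- A subgroup inducing a commutative group of automorphisms on a normal abelian group of order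
eight induces at most four of them. -/
theorem card_map_le_four [Finite S] (hS : IsPGroup 2 S) {N C : Subgroup S} [N.Normal] [C.Normal]
    (hN8 : Nat.card N = 8) (hNc : ∀ x ∈ N, ∀ y ∈ N, Commute x y)
    (hC : ∀ x, (∀ y ∈ N, Commute x y) → x ∈ C) (hCN : ∀ x ∈ C, ∀ y ∈ N, Commute x y)
    {H : Subgroup S} (hH : ∀ g ∈ H, ∀ h ∈ H, g * h * g⁻¹ * h⁻¹ ∈ C) :
    Nat.card (H.map (QuotientGroup.mk' C)) ≤ 4 := by
  classical
  haveI : Fact (Nat.Prime 2) := ⟨Nat.prime_two⟩
  obtain ⟨M, hMn, hMN, hMc⟩ := CfsgLib.PGroups.exists_normal_card_le hS (N := N) (k := 2) (m := 3)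
    (by rw [hN8]; norm_num) (by norm_num)
  haveI := hMn
  have hM4 : Nat.card M = 4 := by rw [hMc]; norm_num
  have hMne : M ≠ ⊥ := fun h => by rw [h, Subgroup.card_bot] at hM4; omega
  obtain ⟨z, hzM, hz1, hzZ⟩ := CfsgLib.TwoGroups.exists_mem_center_of_normal hS hMne
  have hzc : ∀ g, Commute g z := fun g => Subgroup.mem_center_iff.1 hzZ g
  obtain ⟨f, hfM, hf1, hfz⟩ : ∃ f ∈ M, f ≠ 1 ∧ f ≠ z := by
    by_contra hcon
    push Not at hcon
    have h1 := Set.ncard_le_ncard (s := (M : Set S)) (t := ↑({1, z} : Finset S)) (fun x hx => by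
      by_cases h1 : x = 1
      · simp [h1]
      · simp [hcon x hx h1]) (Finset.finite_toSet _)
    rw [Set.ncard_coe_finset, ← Nat.card_coe_set_eq] at h1
    have h2 : Nat.card M ≤ 2 := h1.trans Finset.card_le_two
    omega
  have hMlt : M ≠ N := fun h => by rw [h, hN8] at hM4; omega
  obtain ⟨y, hyN, hyM⟩ : ∃ y ∈ N, y ∉ M := by
    by_contra hcon
    push Not at hcon
    exact hMlt (le_antisymm hMN hcon)
  -- the possible images of `f`
  obtain ⟨f', hf'M, hff'⟩ : ∃ f' ∈ M, ∀ x ∈ M, x ≠ 1 → x ≠ z → x = f ∨ x = f' := by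
    by_cases hex : ∃ f' ∈ M, f' ≠ 1 ∧ f' ≠ z ∧ f' ≠ f
    · obtain ⟨f', hf', h1, h2, h3⟩ := hex
      refine ⟨f', hf', fun x hx hx1 hxz => ?_⟩
      by_contra hcon
      push Not at hcon
      have hsub : (↑({1, z, f, f', x} : Finset S) : Set S) ⊆ ↑M := by
        intro t ht
        simp only [Finset.coe_insert, Finset.coe_singleton, Set.mem_insert_iff,
          Set.mem_singleton_iff] at ht
        rcases ht with rfl | rfl | rfl | rfl | rfl
        exacts [one_mem _, hzM, hfM, hf', hx]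
      have hc5 : ({1, z, f, f', x} : Finset S).card = 5 := by
        simp [hz1.symm, hf1.symm, hfz.symm, h1.symm, h2.symm, h3.symm, hx1.symm, hxz.symm,
          Ne.symm hcon.1, Ne.symm hcon.2]
      have h5 := Set.ncard_le_ncard hsub (Set.toFinite _)
      rw [Set.ncard_coe_finset, hc5, ← Nat.card_coe_set_eq] at h5
      have h6 : 5 ≤ Nat.card M := h5
      omega
    · push Not at hex
      exact ⟨f, hfM, fun x hx hx1 hxz => Or.inl (hex x hx hx1 hxz)⟩
  have himg : ∀ g : S, g * f * g⁻¹ = f ∨ g * f * g⁻¹ = f' := by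
    intro g
    refine hff' _ (hMn.conj_mem f hfM g) (fun h => hf1 (conj_eq_one_iff.1 h)) fun h => hfz ?_
    calc f = g⁻¹ * (g * f * g⁻¹) * g := by group
      _ = z := by rw [h, mul_assoc, ← (hzc g).eq, ← mul_assoc, inv_mul_cancel, one_mul]
  have hidx : (M.subgroupOf N).index = 2 := by
    have := relIndex_mul_card hMN
    rw [hM4, hN8] at this
    show M.relIndex N = 2
    omega
  have hyimg : ∀ g : S, y⁻¹ * (g * y * g⁻¹) ∈ M := by
    intro g
    have hgy : g * y * g⁻¹ ∈ N := ‹N.Normal›.conj_mem y hyN g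
    have hgyM : g * y * g⁻¹ ∉ M := fun h => hyM (by
      have := hMn.conj_mem _ h g⁻¹
      rwa [show g⁻¹ * (g * y * g⁻¹) * g⁻¹⁻¹ = y by group] at this)
    have := Subgroup.mul_mem_iff_of_index_two hidx (a := ⟨y⁻¹, inv_mem hyN⟩)
      (b := ⟨g * y * g⁻¹, hgy⟩)
    simp only [Subgroup.mem_subgroupOf, Subgroup.coe_mul] at this
    exact this.2 (iff_of_false (fun h => hyM ((Subgroup.inv_mem_iff M).1 h)) hgyM)
  -- a subgroup containing `f` and `y` is all of `N`
  have hgen : ∀ K : Subgroup S, z ∈ K → f ∈ K → y ∈ K → N ≤ K := by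
    intro K hz hf hy
    have hMK : M ≤ K := by
      intro x hx
      have hd : Nat.card ↥(M ⊓ K) ∣ 4 := hM4 ▸ Subgroup.card_dvd_of_le inf_le_left
      have hsub : (↑({1, z, f} : Finset S) : Set S) ⊆ ↑(M ⊓ K) := by
        intro t ht
        simp only [Finset.coe_insert, Finset.coe_singleton, Set.mem_insert_iff,
          Set.mem_singleton_iff] at ht
        rcases ht with rfl | rfl | rfl
        exacts [one_mem _, ⟨hzM, hz⟩, ⟨hfM, hf⟩]
      have h3 := Set.ncard_le_ncard hsub (Set.toFinite _)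
      have hc3 : ({1, z, f} : Finset S).card = 3 := by simp [hz1.symm, hf1.symm, hfz.symm]
      rw [Set.ncard_coe_finset, hc3, ← Nat.card_coe_set_eq] at h3
      have h4 : 3 ≤ Nat.card ↥(M ⊓ K) := h3
      have h5 := Nat.le_of_dvd (by norm_num) hd
      have h6 : M ⊓ K = M := Subgroup.eq_of_le_of_card_ge inf_le_left (by
        rw [hM4]
        generalize Nat.card ↥(M ⊓ K) = n at hd h4 h5 ⊢
        interval_cases n <;> omega)
      exact (Subgroup.mem_inf.1 (h6.symm ▸ hx : x ∈ M ⊓ K)).2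
    intro x hx
    by_cases hxM : x ∈ M
    · exact hMK hxM
    have := Subgroup.mul_mem_iff_of_index_two hidx (a := ⟨y⁻¹, inv_mem hyN⟩) (b := ⟨x, hx⟩)
    simp only [Subgroup.mem_subgroupOf, Subgroup.coe_mul] at this
    have h := hMK (this.2 (iff_of_false (fun h => hyM ((Subgroup.inv_mem_iff M).1 h)) hxM))
    rw [show x = y * (y⁻¹ * x) by group]
    exact mul_mem hy h
  let π := QuotientGroup.mk' C
  have hrep : ∀ q : H.map π, ∃ g ∈ H, π g = (q : S ⧸ C) := fun q => q.2
  choose r hrH hr using hrep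
  let F : H.map π → ({f, f'} : Finset S) × M := fun q =>
    (⟨r q * f * (r q)⁻¹, by simpa using himg (r q)⟩,
      ⟨y⁻¹ * (r q * y * (r q)⁻¹), hyimg (r q)⟩)
  have hinj : Function.Injective F := by
    intro p q hpq
    simp only [F, Prod.mk.injEq, Subtype.mk.injEq, mul_right_inj] at hpq
    obtain ⟨h1, h2⟩ := hpq
    let K : Subgroup S := Subgroup.centralizer ({(r p)⁻¹ * r q} : Set S)
    have hmem : ∀ t : S, r p * t * (r p)⁻¹ = r q * t * (r q)⁻¹ → t ∈ K := by
      intro t ht
      rw [Subgroup.mem_centralizer_singleton_iff]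
      calc t * ((r p)⁻¹ * r q) = (r p)⁻¹ * (r p * t * (r p)⁻¹) * r q := by group
        _ = (r p)⁻¹ * (r q * t * (r q)⁻¹) * r q := by rw [ht]
        _ = (r p)⁻¹ * r q * t := by group
    have hle := hgen K (Subgroup.mem_centralizer_singleton_iff.2 (hzc _).symm.eq) (hmem f h1)
      (hmem y h2)
    have hin : (r p)⁻¹ * r q ∈ C := hC _ fun t ht =>
      (Subgroup.mem_centralizer_singleton_iff.1 (hle ht)).symm
    refine Subtype.ext ?_
    rw [← hr p, ← hr q]
    exact QuotientGroup.eq.2 hin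
  have hcard := Nat.card_le_card_of_injective F hinj
  have hprod : Nat.card (({f, f'} : Finset S) × M) ≤ 8 := by
    rw [Nat.card_prod, hM4, Nat.card_eq_fintype_card, Fintype.card_coe]
    exact (Nat.mul_le_mul_right 4 Finset.card_le_two).trans_eq (by norm_num)
  by_contra hlt
  push Not at hlt
  obtain ⟨n, hn⟩ := ((hS.to_quotient C).to_subgroup (H.map π)).exists_card_eq
  have h8 : Nat.card (H.map π) = 8 := by
    have hle8 := hcard.trans hprod
    rw [hn] at hlt hle8
    have h1 : 3 ≤ n := by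
      by_contra h'
      push Not at h'
      interval_cases n <;> simp at hlt
    have h2 : n ≤ 3 := (Nat.pow_le_pow_iff_right (le_refl 2)).1 (hle8.trans_eq (by norm_num))
    rw [hn, le_antisymm h2 h1]; norm_num
  have hne : f ≠ f' := by
    intro h
    subst h
    have h4 : Nat.card (({f, f} : Finset S) × M) ≤ 4 := by
      rw [Nat.card_prod, hM4, Nat.card_eq_fintype_card, Fintype.card_coe]
      simp
    have := hcard.trans h4
    omega
  have hbij : Function.Bijective F := by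
    refine Nat.bijective_iff_injective_and_card F |>.2 ⟨hinj, ?_⟩
    exact le_antisymm hcard (hprod.trans h8.ge)
  obtain ⟨p, hp⟩ := hbij.2 (⟨f, by simp⟩, ⟨f, hfM⟩)
  obtain ⟨q, hq⟩ := hbij.2 (⟨f', by simp⟩, ⟨1, one_mem _⟩)
  simp only [F, Prod.mk.injEq, Subtype.mk.injEq] at hp hq
  obtain ⟨hgf, hgy⟩ := hp
  obtain ⟨hhf, hhy⟩ := hq
  have hgy' : r p * y * (r p)⁻¹ = y * f := by rw [← hgy]; group
  have hhy' : r q * y * (r q)⁻¹ = y := by
    rw [inv_mul_eq_one] at hhy; exact hhy.symm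
  have hcomm := hCN _ (hH _ (hrH q) _ (hrH p)) y hyN
  have e1 : r q * r p * y * (r q * r p)⁻¹ = y * f' := by
    calc r q * r p * y * (r q * r p)⁻¹ = r q * (r p * y * (r p)⁻¹) * (r q)⁻¹ := by group
      _ = (r q * y * (r q)⁻¹) * (r q * f * (r q)⁻¹) := by rw [hgy']; group
      _ = y * f' := by rw [hhy', hhf]
  have e2 : r p * r q * y * (r p * r q)⁻¹ = y * f := by
    calc r p * r q * y * (r p * r q)⁻¹ = r p * (r q * y * (r q)⁻¹) * (r p)⁻¹ := by group
      _ = y * f := by rw [hhy', hgy']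
  refine hne.symm (mul_left_cancel (a := y) ?_)
  set k := r q * r p * (r q)⁻¹ * (r p)⁻¹ with hk
  have hcomm2 := hCN _ (hH _ (hrH q) _ (hrH p)) (y * f) (mul_mem hyN (hMN hfM))
  calc y * f' = r q * r p * y * (r q * r p)⁻¹ := e1.symm
    _ = k * (r p * r q * y * (r p * r q)⁻¹) * k⁻¹ := by rw [hk]; group
    _ = k * (y * f) * k⁻¹ := by rw [e2]
    _ = y * f := by rw [hcomm2.eq, mul_inv_cancel_right]

namespace Data

variable (D : Data S)

theorem sq_mem_E {x : S} (hx : x ∈ D.A0) : x * x ∈ D.E := (D.mem_E _).2 ⟨mul_mem hx hx, by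
  rw [← D.A0_four x hx, pow_succ, pow_succ, pow_succ, pow_one]; group⟩

/-- A fourth power centralizes `A0` when `|E| = 8` and every coset of `E` is preserved. -/
theorem pow_four_mem_eight [Finite S] (h8 : Nat.card D.E ≤ 8)
    (hfix : ∀ (g : S), ∀ x ∈ D.A0, dlt g x ∈ D.E) (g : S) : g ^ 4 ∈ D.C := by
  refine D.mem_C.2 fun y hy => ?_
  have hsq : ∀ x ∈ D.E, x * x = 1 := fun x hx => D.E_sq hx
  have hF : ∀ x ∈ D.E, g * x * g⁻¹ ∈ D.E := fun x hx => D.E_normal.conj_mem x hx g
  have he := hfix g y hy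
  have h1 : dlt g (dlt g (dlt g (dlt g y))) = 1 :=
    dlt_iterate_eq_one D.isP g 3 D.E hsq hF (h8.trans_eq (by norm_num)) _ he
  set e := dlt g y with hedef
  have hde := dlt_mem hF he
  rw [dlt_dlt hsq hF hde] at h1
  have hfix2 : g * g * dlt g e * (g * g)⁻¹ = dlt g e := mul_inv_eq_one.1 h1
  have hy2 : g * g * y * (g * g)⁻¹ = dlt g e * y := by
    simp only [dlt, D.E_inv he]
    calc g * g * y * (g * g)⁻¹ = g * (g * y * g⁻¹) * g⁻¹ := by group
      _ = g * (e * y) * g⁻¹ := by rw [hedef, dlt, inv_mul_cancel_right]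
      _ = g * e * g⁻¹ * (g * y * g⁻¹) := by group
      _ = g * e * g⁻¹ * (e * y) := by rw [hedef, dlt, inv_mul_cancel_right]
      _ = g * e * g⁻¹ * e * y := by group
  have h4 : g ^ 4 * y * (g ^ 4)⁻¹ = y := by
    calc g ^ 4 * y * (g ^ 4)⁻¹ = g * g * (g * g * y * (g * g)⁻¹) * (g * g)⁻¹ := by
          rw [pow_succ, pow_succ, pow_succ, pow_one]; group
      _ = g * g * (dlt g e * y) * (g * g)⁻¹ := by rw [hy2]
      _ = g * g * dlt g e * (g * g)⁻¹ * (g * g * y * (g * g)⁻¹) := by group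
      _ = (dlt g e * dlt g e) * y := by rw [hfix2, hy2, mul_assoc]
      _ = y := by rw [D.E_sq hde, one_mul]
  exact mul_inv_eq_iff_eq_mul.1 h4

end Data

end CfsgLib.TwoFusion.SelfCent
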