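/-
Self-centralizing elementary abelian subgroups of order eight in 2-groups: the action of `A` on
`A0` when `|E| = 8`, and the structure of `C = C(A0)` when `|A0| = 16`.
-/
import Cfsg.Agent.Lib.TwoFusion.SelfCentEight
import Cfsg.Agent.Lib.TwoGroups.RankOne
import Cfsg.Agent.Lib.TwoGroups.CentralizerPrep

set_option autoImplicit false

namespace CfsgLib.TwoFusion.SelfCent

variable {S : Type*} [Group S]

theorem conj_mul (a x y : S) (ha : a * a = 1) : a * (x * y) * a = (a * x * a) * (a * y * a) := by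
  calc a * (x * y) * a = a * x * 1 * y * a := by group
    _ = a * x * (a * a) * y * a := by rw [ha]
    _ = _ := by group

theorem commute_of_conj_eq {a x : S} (ha : a * a = 1) (h : a * x * a = x) : Commute x a := by
  show x * a = a * x
  calc x * a = a * x * a * a := by rw [h]
    _ = a * x := by rw [mul_assoc _ a a, ha, mul_one]

theorem conj_eq_of_commute {a x : S} (ha : a * a = 1) (h : Commute x a) : a * x * a = x := by
  rw [mul_assoc, h.eq, ← mul_assoc, ha, one_mul]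

namespace Data

variable (D : Data S)

/-- An element `a ∈ A` behaving as the action on `A0` prescribes when `|E| = 8`. -/
structure GoodThree (D : Data S) (a : S) : Prop where
  aA : a ∈ D.A
  fix : ∀ x ∈ D.C, Commute x a → x ∈ D.E
  cardfix : Nat.card ↥(D.E ⊓ Subgroup.centralizer ({a} : Set S)) = 4

theorem goodThree_of_four [Finite S] (h : Nat.card ↥(D.A ⊓ D.E) = 4) {a : S} (ha : a ∈ D.A)
    (haE : a ∉ D.E) : GoodThree D a := by
  refine ⟨ha, fun x hx hxa => D.C_fix_four h ha haE hx hxa, ?_⟩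
  have heq : D.E ⊓ Subgroup.centralizer ({a} : Set S) = D.A ⊓ D.E := by
    refine le_antisymm (fun x hx => ?_) (fun x hx => ?_)
    · have hx' := Subgroup.mem_inf.1 hx
      exact ⟨D.fix_eq_of_four h ha haE hx'.1 (Subgroup.mem_centralizer_singleton_iff.1 hx'.2),
        hx'.1⟩
    · exact Subgroup.mem_inf.2 ⟨hx.2,
        Subgroup.mem_centralizer_singleton_iff.2 (D.A_comm hx.1 ha).eq⟩
  rw [heq, h]

theorem Frame.goodThree [Finite S] {D : Data S} {z a b : S} (hf : Frame D z a b)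
    (h8 : Nat.card D.E = 8) : GoodThree D a := by
  obtain ⟨e, he, hea, he1, hez⟩ := hf.exists_move (by omega)
  refine ⟨hf.aA, fun x hx hxa => D.C_fix_of
    (fun y hy hya => hf.fixed_le_E he hea he1 hez hy hya) hx hxa, ?_⟩
  have h1 := card_le_fix_sq (D.A_sq a hf.aA) (fun x hx => D.E_sq hx)
    fun x hx => D.conj_E_mem hf.aA hx
  have h2 := hf.card_fix_le
  have h3 : Nat.card ↥(D.E ⊓ Subgroup.centralizer ({a} : Set S)) ∣ 8 :=
    h8 ▸ Subgroup.card_dvd_of_le inf_le_left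
  rw [h8] at h1
  generalize Nat.card ↥(D.E ⊓ Subgroup.centralizer ({a} : Set S)) = n at h1 h2 h3 ⊢
  interval_cases n <;> omega

namespace GoodThree

variable {D} {a : S} (hg : GoodThree D a)
include hg

theorem mem_fix {x : S} (hx : x ∈ D.E) (hxa : Commute x a) :
    x ∈ D.E ⊓ Subgroup.centralizer ({a} : Set S) :=
  Subgroup.mem_inf.2 ⟨hx, Subgroup.mem_centralizer_singleton_iff.2 hxa.eq⟩

theorem fix_cases [Finite S] {u v : S} (hu : u ∈ D.E) (hua : Commute u a) (hv : v ∈ D.E)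
    (hva : Commute v a) (hu1 : u ≠ 1) (hv1 : v ≠ 1) (huv : u ≠ v) {x : S} (hx : x ∈ D.E)
    (hxa : Commute x a) : x = 1 ∨ x = u ∨ x = v ∨ x = u * v := by
  classical
  have hsub : (↑({1, u, v, u * v} : Finset S) : Set S)
      ⊆ ↑(D.E ⊓ Subgroup.centralizer ({a} : Set S)) := by
    intro t ht
    simp only [Finset.coe_insert, Finset.coe_singleton, Set.mem_insert_iff,
      Set.mem_singleton_iff] at ht
    rcases ht with rfl | rfl | rfl | rfl
    exacts [one_mem _, hg.mem_fix hu hua, hg.mem_fix hv hva,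
      hg.mem_fix (mul_mem hu hv) (hua.mul_left hva)]
  have n1 : u * v ≠ 1 := fun h => huv (by rw [mul_eq_one_iff_eq_inv.1 h, D.E_inv hv])
  have n2 : u * v ≠ u := fun h => hv1 (mul_eq_left.1 h)
  have n3 : u * v ≠ v := fun h => hu1 (mul_eq_right.1 h)
  have hc : ({1, u, v, u * v} : Finset S).card = 4 := by
    simp [hu1.symm, hv1.symm, huv, n1.symm, n2.symm, n3.symm, hu1, hv1]
  have heq := Set.eq_of_subset_of_ncard_le hsub (by
    rw [Set.ncard_coe_finset, hc, ← Nat.card_coe_set_eq]; exact hg.cardfix.le) (Set.toFinite _)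
  have hmem : x ∈ (↑(D.E ⊓ Subgroup.centralizer ({a} : Set S)) : Set S) := hg.mem_fix hx hxa
  rw [← heq] at hmem
  simpa using hmem

theorem norm_mem {x : S} (hx : x ∈ D.A0) :
    x * (a * x * a) ∈ D.E ∧ Commute (x * (a * x * a)) a :=
  ⟨hg.fix _ (D.A0_le_C (mul_mem hx (D.conj_A0_mem hg.aA hx))) (D.norm_fixed hg.aA hx),
    D.norm_fixed hg.aA hx⟩

/-- The unique nontrivial norm from `E`. -/
theorem exists_e0 [Finite S] (h8 : Nat.card D.E = 8) :
    ∃ e0 f, f ∈ D.E ∧ f * (a * f * a) = e0 ∧ e0 ≠ 1 ∧ e0 ∈ D.E ∧ Commute e0 a ∧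
      ∀ e ∈ D.E, e * (a * e * a) = 1 ∨ e * (a * e * a) = e0 := by
  have ha := D.A_sq a hg.aA
  set F := D.E ⊓ Subgroup.centralizer ({a} : Set S)
  have hidx : (F.subgroupOf D.E).index = 2 := by
    have hle : F ≤ D.E := inf_le_left
    have h4 : Nat.card F = 4 := hg.cardfix
    have := relIndex_mul_card hle
    rw [h4, h8] at this
    show F.relIndex D.E = 2
    omega
  obtain ⟨f, hf, hfF⟩ : ∃ f ∈ D.E, f ∉ F := by
    by_contra hcon
    push Not at hcon
    have := Subgroup.card_le_of_le (fun x hx => hcon x hx : D.E ≤ F)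
    rw [hg.cardfix, h8] at this
    omega
  have hfix : ∀ e ∈ D.E, Commute e a → e * (a * e * a) = 1 := fun e he hea => by
    rw [conj_eq_of_commute ha hea, D.E_sq he]
  refine ⟨f * (a * f * a), f, hf, rfl, fun h => hfF ?_,
    (hg.norm_mem (D.E_le hf)).1, (hg.norm_mem (D.E_le hf)).2, fun e he => ?_⟩
  · refine hg.mem_fix hf (commute_of_conj_eq ha ?_)
    rw [mul_eq_one_iff_inv_eq, D.E_inv hf] at h
    exact h.symm
  by_cases heF : e ∈ F
  · exact Or.inl (hfix e he (Subgroup.mem_centralizer_singleton_iff.1 (Subgroup.mem_inf.1 heF).2))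
  right
  have := Subgroup.mul_mem_iff_of_index_two hidx (a := ⟨e, he⟩) (b := ⟨f, hf⟩)
  simp only [Subgroup.mem_subgroupOf, Subgroup.coe_mul] at this
  have hef := this.2 (iff_of_false heF hfF)
  have h1 := hfix _ (mul_mem he hf)
    (Subgroup.mem_centralizer_singleton_iff.1 (Subgroup.mem_inf.1 hef).2)
  rw [conj_mul a e f ha, (D.E_comm hf (D.conj_E_mem hg.aA he)).mul_mul_mul_comm,
    mul_eq_one_iff_eq_inv,
    D.E_inv (mul_mem hf (D.conj_E_mem hg.aA hf))] at h1
  exact h1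

theorem inverted_adjust [Finite S] {x e : S} (hx : x ∈ D.A0) (he : e ∈ D.E)
    (h : e * (a * e * a) = x * (a * x * a)) : a * (x * e) * a = (x * e)⁻¹ := by
  have ha := D.A_sq a hg.aA
  refine eq_inv_of_mul_eq_one_right ?_
  rw [conj_mul a x e ha,
    (D.A0_comm _ (D.E_le he) _ (D.conj_A0_mem hg.aA hx)).mul_mul_mul_comm, h]
  exact D.E_sq (hg.norm_mem hx).1

theorem sq_mul {x e : S} (hx : x ∈ D.A0) (he : e ∈ D.E) : (x * e) * (x * e) = x * x := by
  rw [(D.A0_comm _ (D.E_le he) _ hx).mul_mul_mul_comm, D.E_sq he, mul_one]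

/-- `|A0| ≤ 16`. -/
theorem card_A0_le [Finite S] (h8 : Nat.card D.E = 8) : Nat.card D.A0 ≤ 16 := by
  classical
  obtain ⟨e0, f, hf, hfe0, he01, he0E, he0a, hnorm⟩ := hg.exists_e0 h8
  have ha := D.A_sq a hg.aA
  have hfixA : ∀ x ∈ D.A0, Commute x a → x ∈ D.E := fun x hx => hg.fix x (D.A0_le_C hx)
  let sqh : D.A0 →* S := MonoidHom.mk' (fun x => (x : S) * x) fun x y => by
    show (x : S) * y * (x * y) = x * x * (y * y)
    exact (D.A0_comm _ y.2 _ x.2).mul_mul_mul_comm _ _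
  have hker : Nat.card sqh.ker ≤ 8 := by
    rw [← h8]
    refine Nat.card_le_card_of_injective (fun x : sqh.ker => (⟨((x : D.A0) : S),
      (D.mem_E _).2 ⟨(x : D.A0).2, x.2⟩⟩ : D.E)) fun p q h => ?_
    simp only [Subtype.mk.injEq] at h
    exact Subtype.ext (Subtype.ext h)
  have hrle : sqh.range ≤ D.E ⊓ Subgroup.centralizer ({a} : Set S) := by
    rintro _ ⟨⟨x, hx⟩, rfl⟩
    show x * x ∈ D.E ⊓ Subgroup.centralizer ({a} : Set S)
    refine hg.mem_fix (D.sq_mem_E hx) (commute_of_conj_eq ha ?_)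
    have e : a * x * a = x⁻¹ * (x * (a * x * a)) := by group
    rw [conj_mul a x x ha, e,
      (D.A0_comm _ (D.E_le (hg.norm_mem hx).1) _ (inv_mem hx)).mul_mul_mul_comm,
      D.E_sq (hg.norm_mem hx).1, mul_one, ← mul_inv_rev, D.E_inv (D.sq_mem_E hx)]
  have hr2 : Nat.card sqh.range ≤ 2 := by
    by_contra hcon
    push Not at hcon
    have hd : Nat.card sqh.range ∣ 4 := hg.cardfix ▸ Subgroup.card_dvd_of_le hrle
    have h4 := Nat.le_of_dvd (by norm_num) hd
    have heq : sqh.range = D.E ⊓ Subgroup.centralizer ({a} : Set S) :=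
      Subgroup.eq_of_le_of_card_ge hrle (by
        rw [hg.cardfix]
        generalize Nat.card sqh.range = n at hcon hd h4 ⊢
        interval_cases n <;> omega)
    have hsqof : ∀ v, v ∈ D.E → Commute v a → ∃ x ∈ D.A0, x * x = v := by
      intro v hv hva
      have : v ∈ sqh.range := heq ▸ hg.mem_fix hv hva
      obtain ⟨⟨x, hx⟩, rfl⟩ := this
      exact ⟨x, hx, rfl⟩
    obtain ⟨x, hx, hx2⟩ := hsqof e0 he0E he0a
    set w := x * (a * x * a) with hw
    obtain ⟨hwE, hwa⟩ := hg.norm_mem hx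
    have hxi : x⁻¹ = x * e0 := by
      refine inv_eq_of_mul_eq_one_right ?_
      rw [← mul_assoc, hx2, D.E_sq he0E]
    have hcontra : ∀ y ∈ D.A0, a * y * a = y⁻¹ → y * y = e0 → False := fun y hy hinv hy2 => by
      have := D.E_sq (D.inverted_sq ha hfixA hy hinv hf (hy2.trans hfe0.symm))
      exact he01 (hy2.symm.trans this)
    have hw1 : w ≠ 1 := fun h => hcontra x hx
      (eq_inv_of_mul_eq_one_right (hw.symm.trans h)) hx2
    have hwe0 : w ≠ e0 := fun h => hcontra (x * f) (mul_mem hx (D.E_le hf))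
      (hg.inverted_adjust hx hf (hfe0.trans (h.symm.trans hw))) ((hg.sq_mul hx hf).trans hx2)
    have hbad : ∀ y ∈ D.A0, a * y * a = y⁻¹ → y * y = e0 * w → False := by
      intro y hy hinv hy2
      have h1 : a * (x * y) * a = x * y := by
        rw [conj_mul a x y ha, hinv, show a * x * a = x⁻¹ * w by rw [hw]; group]
        have h4 : x⁻¹ * w * y⁻¹ = x * y := by
          have hyi : y⁻¹ = y * (y * y) := by
            refine inv_eq_of_mul_eq_one_right ?_
            rw [← mul_assoc]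
            exact D.E_sq (D.sq_mem_E hy)
          rw [hxi, hyi, hy2, (D.A0_comm _ hy _ (mul_mem (D.E_le he0E) (D.E_le hwE))).eq]
          calc x * e0 * w * (e0 * w * y) = x * ((e0 * w) * (e0 * w)) * y := by group
            _ = x * y := by rw [D.E_sq (mul_mem he0E hwE), mul_one]
        exact h4
      have hfx := hfixA _ (mul_mem hx hy) (commute_of_conj_eq ha h1)
      have h2 := D.E_sq hfx
      rw [(D.A0_comm _ hy _ hx).mul_mul_mul_comm, hx2, hy2, ← mul_assoc, D.E_sq he0E, one_mul]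
        at h2
      exact hw1 h2
    obtain ⟨y, hy, hy2⟩ := hsqof w hwE hwa
    set w' := y * (a * y * a) with hw'
    obtain ⟨hw'E, hw'a⟩ := hg.norm_mem hy
    have hcases := hg.fix_cases he0E he0a hwE hwa he01 hw1 (Ne.symm hwe0) hw'E hw'a
    have hcase1 : ∀ y' ∈ D.A0, a * y' * a = y'⁻¹ → y' * y' = w → False := by
      intro y' hy' hinv hy'2
      -- then `x y' f` is fixed
      have h1 : a * (x * y' * f) * a = x * y' * f := by
        rw [conj_mul a (x * y') f ha, conj_mul a x y' ha, hinv,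
          show a * x * a = x⁻¹ * w by rw [hw]; group]
        have hwf : a * f * a = f * e0 := by
          rw [← hfe0, ← mul_assoc, D.E_sq hf, one_mul]
        rw [hwf]
        have hc := D.A0_comm
        have e1 : x⁻¹ * w * y'⁻¹ = x * e0 * y' := by
          have hyi : y'⁻¹ = y' * w := by
            refine inv_eq_of_mul_eq_one_right ?_
            rw [← mul_assoc, hy'2]
            exact D.E_sq hwE
          rw [hxi, hyi, (D.A0_comm _ hy' _ (D.E_le hwE)).eq]
          calc x * e0 * w * (w * y') = x * e0 * (w * w) * y' := by group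
            _ = x * e0 * y' := by rw [D.E_sq hwE, mul_one]
        rw [e1]
        calc x * e0 * y' * (f * e0) = x * (e0 * (y' * f)) * e0 := by group
          _ = x * ((y' * f) * e0) * e0 := by
            rw [(hc _ (D.E_le he0E) _ (mul_mem hy' (D.E_le hf))).eq]
          _ = x * (y' * f) * (e0 * e0) := by group
          _ = x * y' * f := by rw [D.E_sq he0E, mul_one, mul_assoc]
      have hm : x * y' * f ∈ D.A0 := mul_mem (mul_mem hx hy') (D.E_le hf)
      have h2 := D.E_sq (hfixA _ hm (commute_of_conj_eq ha h1))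
      rw [hg.sq_mul (mul_mem hx hy') hf, (D.A0_comm _ hy' _ hx).mul_mul_mul_comm, hx2, hy'2,
        mul_eq_one_iff_eq_inv, D.E_inv hwE] at h2
      exact hwe0 h2.symm
    have hxy : x * y ∈ D.A0 := mul_mem hx hy
    have hsqxy : (x * y) * (x * y) = e0 * w := by
      rw [(D.A0_comm _ hy _ hx).mul_mul_mul_comm, hx2, hy2]
    have hnxy : x * y * (a * (x * y) * a) = w * w' := by
      rw [conj_mul a x y ha, (D.A0_comm _ hy _ (D.conj_A0_mem hg.aA hx)).mul_mul_mul_comm]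
    rcases hcases with h | h | h | h
    · exact hcase1 y hy (eq_inv_of_mul_eq_one_right (hw'.symm.trans h)) hy2
    · exact hcase1 (y * f) (mul_mem hy (D.E_le hf))
        (hg.inverted_adjust hy hf (hfe0.trans (h.symm.trans hw')))
        ((hg.sq_mul hy hf).trans hy2)
    · refine hbad (x * y) hxy (eq_inv_of_mul_eq_one_right ?_) hsqxy
      rw [hnxy, show w' = w from h, D.E_sq hwE]
    · refine hbad (x * y * f) (mul_mem hxy (D.E_le hf))
        (hg.inverted_adjust hxy hf ?_) ((hg.sq_mul hxy hf).trans hsqxy)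
      rw [hfe0, hnxy, show w' = e0 * w from h, ← mul_assoc, (D.E_comm hwE he0E).eq, mul_assoc,
        D.E_sq hwE, mul_one]
  have h1 := sqh.ker.card_mul_index
  rw [Subgroup.index_ker] at h1
  rw [← h1]
  exact (Nat.mul_le_mul hker hr2).trans_eq (by norm_num)

end GoodThree

theorem C_le_E [Finite S] (h : D.A0 ≤ D.E) : D.C ≤ D.E := by
  intro c hc
  obtain ⟨k, hk⟩ := D.isP c
  induction k generalizing c with
  | zero =>
    rw [pow_zero, pow_one] at hk
    rw [hk]; exact one_mem _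
  | succ k ih =>
    have h2 := ih (mul_mem hc hc) (by rw [← pow_two, ← pow_mul, ← pow_succ']; exact hk)
    refine h (D.C_four hc ?_)
    rw [show c ^ 4 = (c * c) * (c * c) by rw [pow_succ, pow_succ, pow_succ, pow_one]; group,
      D.E_sq h2]

/-- The structure of `C` when `|E| = 8` and `|A0| = 16`. -/
structure One (D : Data S) (y0 c : S) : Prop where
  yA0 : y0 ∈ D.A0
  yE : y0 ∉ D.E
  cos : ∀ x ∈ D.A0, x ∈ D.E ∨ y0⁻¹ * x ∈ D.E
  cC : c ∈ D.C
  gen : ∀ x ∈ D.C, ∃ i : ℤ, (c ^ i)⁻¹ * x ∈ D.E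

theorem exists_one [Finite S] (h8 : Nat.card D.E = 8) (h16 : Nat.card D.A0 = 16) :
    ∃ y0 c, One D y0 c := by
  classical
  haveI : Fact (Nat.Prime 2) := ⟨Nat.prime_two⟩
  haveI := D.E_normal
  obtain ⟨y0, hy, hyE⟩ : ∃ y ∈ D.A0, y ∉ D.E := by
    by_contra hcon
    push Not at hcon
    have := Subgroup.card_le_of_le (fun x hx => hcon x hx : D.A0 ≤ D.E)
    omega
  have hidx : (D.E.subgroupOf D.A0).index = 2 := by
    have := relIndex_mul_card D.E_le
    rw [h8, h16] at this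
    show D.E.relIndex D.A0 = 2
    omega
  have hcos : ∀ x ∈ D.A0, x ∈ D.E ∨ y0⁻¹ * x ∈ D.E := by
    intro x hx
    by_cases hxE : x ∈ D.E
    · exact Or.inl hxE
    right
    have := Subgroup.mul_mem_iff_of_index_two hidx (a := ⟨y0⁻¹, inv_mem hy⟩) (b := ⟨x, hx⟩)
    simp only [Subgroup.mem_subgroupOf, Subgroup.coe_mul] at this
    exact this.2 (iff_of_false (fun h => hyE ((Subgroup.inv_mem_iff _).1 h)) hxE)
  set N : Subgroup D.C := D.E.subgroupOf D.C with hN
  haveI : N.Normal := Subgroup.normal_subgroupOf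
  let Q := D.C ⧸ N
  have hQ : IsPGroup 2 Q := (D.isP.to_subgroup D.C).to_quotient N
  have hA0of : ∀ x : D.C, (QuotientGroup.mk x : Q) * QuotientGroup.mk x = 1 → (x : S) ∈ D.A0 := by
    intro x hx
    rw [← QuotientGroup.mk_mul, QuotientGroup.eq_one_iff, hN, Subgroup.mem_subgroupOf,
      Subgroup.coe_mul] at hx
    refine D.C_four x.2 ?_
    rw [show (x : S) ^ 4 = ((x : S) * x) * ((x : S) * x) by
      rw [pow_succ, pow_succ, pow_succ, pow_one]; group, D.E_sq hx]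
  have hu : CfsgLib.TwoGroups.UniqueOrderP 2 Q := by
    intro p q hp hq
    obtain ⟨x, rfl⟩ := QuotientGroup.mk_surjective p
    obtain ⟨w, rfl⟩ := QuotientGroup.mk_surjective q
    have key : ∀ v : D.C, orderOf (QuotientGroup.mk v : Q) = 2 →
        (QuotientGroup.mk v : Q) = QuotientGroup.mk ⟨y0, D.A0_le_C hy⟩ := by
      intro v hv
      have h1 := pow_orderOf_eq_one (QuotientGroup.mk v : Q)
      rw [hv, pow_two] at h1
      have hvA := hA0of v h1
      have hvE : (v : S) ∉ D.E := fun h => by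
        have : (QuotientGroup.mk v : Q) = 1 := (QuotientGroup.eq_one_iff v).2 h
        rw [this, orderOf_one] at hv
        omega
      symm
      rw [QuotientGroup.eq, hN, Subgroup.mem_subgroupOf]
      exact (hcos v hvA).resolve_left hvE
    rw [key w hq, ← key x hp]
    exact Subgroup.mem_zpowers _
  rcases CfsgLib.TwoGroups.isCyclic_or_quaternion hQ hu with hcyc | ⟨-, m, hm, ⟨φ⟩⟩
  · obtain ⟨g, hgen⟩ := hcyc.exists_generator
    obtain ⟨c, rfl⟩ := QuotientGroup.mk_surjective g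
    refine ⟨y0, c, hy, hyE, hcos, c.2, fun x hx => ?_⟩
    obtain ⟨i, hi⟩ := Subgroup.mem_zpowers_iff.1 (hgen (QuotientGroup.mk ⟨x, hx⟩))
    rw [← QuotientGroup.mk_zpow, QuotientGroup.eq, hN, Subgroup.mem_subgroupOf] at hi
    exact ⟨i, by simpa using hi⟩
  exfalso
  obtain ⟨k, hk⟩ : ∃ k : ℕ, 2 ^ m = 2 * k := ⟨2 ^ (m - 1), by
    rw [← pow_succ', Nat.sub_add_cancel hm]⟩
  set P : QuaternionGroup (2 ^ m) := QuaternionGroup.a (k : ZMod (2 * 2 ^ m))
  set R : QuaternionGroup (2 ^ m) := QuaternionGroup.xa 0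
  have hkk : (k : ZMod (2 * 2 ^ m)) + k = ((2 ^ m : ℕ) : ZMod (2 * 2 ^ m)) := by
    rw [hk]; push_cast; ring
  set n' : ZMod (2 * 2 ^ m) := ((2 ^ m : ℕ) : ZMod (2 * 2 ^ m)) with hn'
  have hn0 : n' + n' = 0 := by
    rw [hn', ← Nat.cast_add, ← two_mul]; exact ZMod.natCast_self _
  have hne : QuaternionGroup.a n' ≠ (1 : QuaternionGroup (2 ^ m)) := by
    rw [QuaternionGroup.one_def, Ne, QuaternionGroup.a.injEq, hn', ZMod.natCast_eq_zero_iff]
    intro h
    have h1 := Nat.le_of_dvd (Nat.two_pow_pos m) h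
    have h2 : 1 ≤ 2 ^ m := Nat.one_le_two_pow
    generalize 2 ^ m = t at h1 h2
    omega
  have e1 : P * P * (P * P) = 1 := by
    simp only [P, QuaternionGroup.a_mul_a, hkk, hn0, QuaternionGroup.one_def]
  have e2 : P * R * P⁻¹ * R⁻¹ = QuaternionGroup.a n' := by
    rw [mul_inv_eq_iff_eq_mul, mul_inv_eq_iff_eq_mul]
    simp only [P, R, QuaternionGroup.a_mul_xa, QuaternionGroup.xa_mul_a]
    congr 1
    linear_combination -hkk
  obtain ⟨x, hx⟩ := QuotientGroup.mk_surjective (φ.symm P)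
  obtain ⟨r, hr⟩ := QuotientGroup.mk_surjective (φ.symm R)
  have hxx : (x : S) * x ∈ D.A0 := by
    have := hA0of (x * x) (by rw [QuotientGroup.mk_mul, hx, ← map_mul, ← map_mul, e1, map_one])
    simpa using this
  have hwQ : (QuotientGroup.mk (x * r * x⁻¹ * r⁻¹) : Q) = φ.symm (QuaternionGroup.a n') := by
    rw [QuotientGroup.mk_mul, QuotientGroup.mk_mul, QuotientGroup.mk_mul, QuotientGroup.mk_inv,
      QuotientGroup.mk_inv, hx, hr, ← map_inv, ← map_inv, ← map_mul, ← map_mul, ← map_mul, e2]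
  have hwA : (x : S) * r * (x : S)⁻¹ * (r : S)⁻¹ ∈ D.A0 := by
    have := hA0of (x * r * x⁻¹ * r⁻¹) (by
      rw [hwQ, ← map_mul, QuaternionGroup.a_mul_a, hn0, ← QuaternionGroup.one_def, map_one])
    simpa using this
  have hsq : ((x : S) * r * (x : S)⁻¹ * (r : S)⁻¹) * ((x : S) * r * (x : S)⁻¹ * (r : S)⁻¹) = 1 := by
    set w := (x : S) * r * (x : S)⁻¹ * (r : S)⁻¹ with hw
    have h1 : (x : S) * x * r * ((x : S) * x)⁻¹ * (r : S)⁻¹ = 1 := by
      rw [← (D.mem_C.1 r.2 _ hxx).eq]; group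
    calc w * w = (x : S) * w * (x : S)⁻¹ * w := by
          rw [(D.mem_C.1 x.2 _ hwA).eq, mul_inv_cancel_right]
      _ = 1 := by rw [← h1, hw]; group
  apply hne
  apply φ.symm.injective
  rw [map_one, ← hwQ, QuotientGroup.eq_one_iff, hN, Subgroup.mem_subgroupOf]
  have : ((x * r * x⁻¹ * r⁻¹ : D.C) : S) = (x : S) * r * (x : S)⁻¹ * (r : S)⁻¹ := by simp
  rw [this]
  exact (D.mem_E _).2 ⟨hwA, hsq⟩

namespace One

variable {D} {y0 c : S} (ho : One D y0 c)
include ho

theorem comm {x y : S} (hx : x ∈ D.C) (hy : y ∈ D.C) : Commute x y := by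
  obtain ⟨i, hi⟩ := ho.gen x hx
  obtain ⟨j, hj⟩ := ho.gen y hy
  have ex : x = c ^ i * ((c ^ i)⁻¹ * x) := by group
  have ey : y = c ^ j * ((c ^ j)⁻¹ * y) := by group
  rw [ex, ey]
  have hcE : ∀ e ∈ D.E, ∀ k : ℤ, Commute (c ^ k) e := fun e he k =>
    D.mem_C.1 (zpow_mem ho.cC k) e (D.E_le he)
  exact (((Commute.refl c).zpow_zpow i j).mul_right (hcE _ hj i)).mul_left
    ((hcE _ hi j).symm.mul_right (D.E_comm hi hj))

theorem sq_A0 {x : S} (hx : x ∈ D.A0) : x * x = 1 ∨ x * x = y0 * y0 := by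
  rcases ho.cos x hx with h | h
  · exact Or.inl (D.E_sq h)
  · right
    have e : x = y0 * (y0⁻¹ * x) := by group
    rw [e, (D.A0_comm _ (D.E_le h) _ ho.yA0).mul_mul_mul_comm, D.E_sq h, mul_one]

theorem q_ne : y0 * y0 ≠ 1 := fun h => ho.yE ((D.mem_E _).2 ⟨ho.yA0, h⟩)

theorem q_central : ∀ g : S, Commute g (y0 * y0) := by
  intro g
  have h := ho.sq_A0 (D.A0_normal.conj_mem _ ho.yA0 g)
  have e : g * y0 * g⁻¹ * (g * y0 * g⁻¹) = g * (y0 * y0) * g⁻¹ := by group
  rw [e] at h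
  rcases h with h | h
  · exact absurd (conj_eq_one_iff.1 h) ho.q_ne
  · exact mul_inv_eq_iff_eq_mul.1 h

theorem sq_mem {x : S} (hx : x ∈ D.C) : x * x ∈ Subgroup.zpowers (c * c) := by
  obtain ⟨i, hi⟩ := ho.gen x hx
  refine ⟨i, ?_⟩
  have ex : x = c ^ i * ((c ^ i)⁻¹ * x) := by group
  show (c * c) ^ i = x * x
  conv_rhs => rw [ex]
  rw [(ho.comm (D.E_le_C hi) (zpow_mem ho.cC i)).mul_mul_mul_comm, D.E_sq hi, mul_one,
    (Commute.refl c).mul_zpow]

theorem q_mem : y0 * y0 ∈ Subgroup.zpowers (c * c) := ho.sq_mem (D.A0_le_C ho.yA0)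

theorem zpowers_inf [Finite S] {x : S} (hx : x ∈ Subgroup.zpowers (c * c)) (hxE : x ∈ D.E) :
    x = 1 ∨ x = y0 * y0 := by
  haveI : Fact (Nat.Prime 2) := ⟨Nat.prime_two⟩
  by_cases h1 : x = 1
  · exact Or.inl h1
  right
  have h2 : ∀ t : S, t ∈ D.E → t ≠ 1 → orderOf t = 2 := fun t ht ht1 =>
    orderOf_eq_prime (by rw [pow_two]; exact D.E_sq ht) ht1
  have := CfsgLib.TwoGroups.involution_unique (H := Subgroup.zpowers (c * c))
    (a := ⟨x, hx⟩) (b := ⟨_, ho.q_mem⟩)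
    (by rw [← Subgroup.orderOf_coe]; exact h2 x hxE h1)
    (by rw [← Subgroup.orderOf_coe]; exact h2 _ (D.sq_mem_E ho.yA0) ho.q_ne)
  exact congrArg Subtype.val this

theorem L_normal : (Subgroup.zpowers (c * c) ⊔ D.E).Normal := by
  haveI := D.E_normal
  haveI := D.normal_C
  haveI : (Subgroup.zpowers (c * c)).Normal := by
    refine ⟨fun x hx g => ?_⟩
    obtain ⟨i, rfl⟩ := Subgroup.mem_zpowers_iff.1 hx
    have h1 : g * (c * c) * g⁻¹ ∈ Subgroup.zpowers (c * c) := by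
      rw [show g * (c * c) * g⁻¹ = (g * c * g⁻¹) * (g * c * g⁻¹) by group]
      exact ho.sq_mem (D.normal_C.conj_mem c ho.cC g)
    rw [← MulAut.conj_apply, map_zpow, MulAut.conj_apply]
    exact zpow_mem h1 i
  exact Subgroup.sup_normal _ _

theorem L_le : Subgroup.zpowers (c * c) ⊔ D.E ≤ D.C :=
  sup_le (Subgroup.zpowers_le.2 (mul_mem ho.cC ho.cC)) D.E_le_C

theorem c_notMem [Finite S] : c ∉ Subgroup.zpowers (c * c) ⊔ D.E := by
  haveI := D.E_normal
  intro h
  obtain ⟨p, hp, e, he, hpe⟩ := Subgroup.mem_sup_of_normal_right.1 h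
  obtain ⟨j, rfl⟩ := Subgroup.mem_zpowers_iff.1 hp
  have h2 : c ^ (2 : ℤ) = c ^ (4 * j) := by
    have hc2 : c * c = ((c * c) ^ j * (c * c) ^ j) := by
      conv_lhs => rw [← hpe]
      rw [(ho.comm (D.E_le_C he) (zpow_mem (mul_mem ho.cC ho.cC) j)).mul_mul_mul_comm, D.E_sq he,
        mul_one]
    rw [show (4 : ℤ) * j = 2 * j + 2 * j by ring, zpow_add, zpow_mul]
    simp only [zpow_two]
    exact hc2
  have h3 : c ^ (2 - 4 * j) = 1 := by rw [zpow_sub, h2, mul_inv_cancel]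
  obtain ⟨k, hk⟩ := D.isP c
  have h4 := orderOf_dvd_iff_zpow_eq_one.2 h3
  obtain ⟨i, -, hi⟩ := (Nat.dvd_prime_pow Nat.prime_two).1 (orderOf_dvd_of_pow_eq_one hk)
  rw [hi] at h4
  have hi1 : i ≤ 1 := by
    by_contra hcon
    push Not at hcon
    have h5 : (4 : ℤ) ∣ ((2 ^ i : ℕ) : ℤ) := by
      obtain ⟨t, rfl⟩ := Nat.exists_eq_add_of_le' hcon
      exact ⟨2 ^ t, by push_cast; ring⟩
    have h6 : (4 : ℤ) ∣ 2 - 4 * j := h5.trans h4
    omega
  have hc1 : c * c = 1 := by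
    rw [← pow_two, ← orderOf_dvd_iff_pow_eq_one, hi]
    exact (Nat.pow_dvd_pow 2 hi1).trans (by norm_num)
  have hcE := D.C_sq_one ho.cC hc1
  obtain ⟨i', hi'⟩ := ho.gen y0 (D.A0_le_C ho.yA0)
  refine ho.yE ?_
  rw [show y0 = c ^ i' * ((c ^ i')⁻¹ * y0) by group]
  exact mul_mem (zpow_mem hcE i') hi'

theorem L_cases [Finite S] {x : S} (hx : x ∈ D.C) :
    x ∈ Subgroup.zpowers (c * c) ⊔ D.E ∨ c⁻¹ * x ∈ Subgroup.zpowers (c * c) ⊔ D.E := by
  obtain ⟨i, hi⟩ := ho.gen x hx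
  rcases Int.even_or_odd i with ⟨j, rfl⟩ | ⟨j, rfl⟩
  · left
    rw [show x = c ^ (j + j) * ((c ^ (j + j))⁻¹ * x) by group]
    refine mul_mem (Subgroup.mem_sup_left ⟨j, ?_⟩) (Subgroup.mem_sup_right hi)
    show (c * c) ^ j = c ^ (j + j)
    rw [(Commute.refl c).mul_zpow, zpow_add]
  · right
    rw [show c⁻¹ * x = c ^ (2 * j) * ((c ^ (2 * j + 1))⁻¹ * x) by group]
    refine mul_mem (Subgroup.mem_sup_left ⟨j, ?_⟩) (Subgroup.mem_sup_right hi)
    show (c * c) ^ j = c ^ (2 * j)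
    rw [zpow_mul, zpow_two]

/-- `S` acts trivially on `C / L`. -/
theorem conj_L [Finite S] (g : S) {x : S} (hx : x ∈ D.C) :
    g * x * g⁻¹ * x⁻¹ ∈ Subgroup.zpowers (c * c) ⊔ D.E := by
  have hLn := ho.L_normal
  set L := Subgroup.zpowers (c * c) ⊔ D.E with hL
  have hgx : g * x * g⁻¹ ∈ D.C := D.normal_C.conj_mem x hx g
  by_cases hxL : x ∈ L
  · exact mul_mem (hLn.conj_mem x hxL g) (inv_mem hxL)
  have hgxL : g * x * g⁻¹ ∉ L := fun h => hxL (by
    have := hLn.conj_mem _ h g⁻¹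
    rwa [show g⁻¹ * (g * x * g⁻¹) * g⁻¹⁻¹ = x by group] at this)
  have h1 := (ho.L_cases hx).resolve_left hxL
  have h2 := (ho.L_cases hgx).resolve_left hgxL
  have h3 : c * ((c⁻¹ * (g * x * g⁻¹)) * (c⁻¹ * x)⁻¹) * c⁻¹ ∈ L :=
    hLn.conj_mem _ (mul_mem h2 (inv_mem h1)) c
  rwa [show c * ((c⁻¹ * (g * x * g⁻¹)) * (c⁻¹ * x)⁻¹) * c⁻¹ = g * x * g⁻¹ * x⁻¹ by group] at h3

theorem dlt_mem_E [Finite S] (g : S) {x : S} (hx : x ∈ D.A0) : dlt g x ∈ D.E := by
  rcases ho.cos x hx with h | h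
  · exact mul_mem (D.E_normal.conj_mem x h g) (inv_mem h)
  have hgx := D.A0_normal.conj_mem x hx g
  rcases ho.cos _ hgx with h' | h'
  · have hxE : x ∈ D.E := by
      have := D.E_normal.conj_mem _ h' g⁻¹
      rwa [show g⁻¹ * (g * x * g⁻¹) * g⁻¹⁻¹ = x by group] at this
    exact mul_mem (D.E_normal.conj_mem x hxE g) (inv_mem hxE)
  · show g * x * g⁻¹ * x⁻¹ ∈ D.E
    have h3 := D.E_normal.conj_mem _ (mul_mem h' (inv_mem h)) y0
    rwa [show y0 * ((y0⁻¹ * (g * x * g⁻¹)) * (y0⁻¹ * x)⁻¹) * y0⁻¹ = g * x * g⁻¹ * x⁻¹ by group]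
      at h3

theorem pow_four [Finite S] (h8 : Nat.card D.E = 8) (g : S) : g ^ 4 ∈ D.C :=
  D.pow_four_mem_eight h8.le (fun g x hx => ho.dlt_mem_E g hx) g

end One

end Data

end CfsgLib.TwoFusion.SelfCent
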