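/-
Self-centralizing elementary abelian subgroups of order eight in 2-groups: the bound for `|E| = 8`.
-/
import Cfsg.Agent.Lib.TwoFusion.SelfCentThree
import Cfsg.Agent.Lib.TwoFusion.SelfCentFour

set_option autoImplicit false

namespace CfsgLib.TwoFusion.SelfCent

variable {S : Type*} [Group S]

namespace Data

variable (D : Data S)

/-- `j = x (a x a)⁻¹` for some `x ∈ C`. -/
def InP (a j : S) : Prop := ∃ x ∈ D.C, j = x * (a * x * a)⁻¹

theorem conj_C_mem {a : S} (ha : a ∈ D.A) {x : S} (hx : x ∈ D.C) : a * x * a ∈ D.C := by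
  have := D.normal_C.conj_mem x hx a
  rwa [D.A_inv ha] at this

variable {D}

namespace One

variable {y0 c a : S} (ho : One D y0 c) (hg : GoodThree D a)
include ho hg

theorem inP_mul {i j : S} (hi : D.InP a i) (hj : D.InP a j) : D.InP a (i * j) := by
  obtain ⟨x, hx, rfl⟩ := hi
  obtain ⟨y, hy, rfl⟩ := hj
  refine ⟨x * y, mul_mem hx hy, ?_⟩
  rw [conj_mul a x y (D.A_sq a hg.aA), mul_inv_rev (a * x * a) (a * y * a),
    (ho.comm (inv_mem (D.conj_C_mem hg.aA hy)) (inv_mem (D.conj_C_mem hg.aA hx))).eq,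
    (ho.comm hy (inv_mem (D.conj_C_mem hg.aA hx))).mul_mul_mul_comm]

theorem inP_one : D.InP a 1 := by
  refine ⟨1, one_mem _, ?_⟩
  rw [mul_one, D.A_sq a hg.aA]; simp

theorem inP_inv {i : S} (hi : D.InP a i) : D.InP a i⁻¹ := by
  obtain ⟨x, hx, rfl⟩ := hi
  refine ⟨x⁻¹, inv_mem hx, ?_⟩
  have h : a * x⁻¹ * a = (a * x * a)⁻¹ := by
    rw [mul_inv_rev, mul_inv_rev, D.A_inv hg.aA]; group
  rw [h, inv_inv, mul_inv_rev, inv_inv]
  exact (ho.comm (inv_mem hx) (D.conj_C_mem hg.aA hx)).symm.eq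

theorem inP_inverted {i : S} (hi : D.InP a i) : a * i * a = i⁻¹ := by
  obtain ⟨x, hx, rfl⟩ := hi
  have ha := D.A_sq a hg.aA
  have h1 : (a * x * a)⁻¹ = a * x⁻¹ * a := by
    rw [mul_inv_rev, mul_inv_rev, D.A_inv hg.aA, mul_assoc]
  rw [conj_mul a x _ ha, h1, mul_inv_rev x, mul_inv_rev (a * x⁻¹) a, mul_inv_rev a, inv_inv,
    D.A_inv hg.aA]
  calc a * x * a * (a * (a * x⁻¹ * a) * a) = a * x * a * ((a * a) * x⁻¹ * (a * a)) := by group
    _ = a * x * a * x⁻¹ := by rw [ha, one_mul, mul_one]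
    _ = _ := by group

theorem inP_zpow {i : S} (hi : D.InP a i) (k : ℤ) : D.InP a (i ^ k) := by
  induction k with
  | zero => rw [zpow_zero]; exact ho.inP_one hg
  | succ k ih => rw [zpow_add_one]; exact ho.inP_mul hg ih hi
  | pred k ih => rw [zpow_sub_one]; exact ho.inP_mul hg ih (ho.inP_inv hg hi)

theorem full_of_inP {g : S} (h : D.InP a (a * (g * a * g⁻¹))) :
    ∃ u ∈ D.C, Commute (u * g) a := by
  obtain ⟨x, hx, hj⟩ := h
  refine ⟨x, hx, ?_⟩
  have ha := D.A_sq a hg.aA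
  have hax := D.conj_C_mem hg.aA hx
  have h1 : x * g * a * (x * g)⁻¹ = a := by
    calc x * g * a * (x * g)⁻¹ = (a * a) * x * ((a * a) * (g * a * g⁻¹)) * x⁻¹ := by
          rw [ha]; group
      _ = a * ((a * x * a) * (a * (g * a * g⁻¹))) * x⁻¹ := by group
      _ = a * ((a * x * a) * (x * (a * x * a)⁻¹)) * x⁻¹ := by rw [hj]
      _ = a := by rw [(ho.comm hax (mul_mem hx (inv_mem hax))).eq]; group
  exact mul_inv_eq_iff_eq_mul.1 h1

omit hg in
theorem q_commute (a : S) : Commute (y0 * y0) a := (ho.q_central a).symm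

/-- Facts when the norms from `E` lie in the squares of `A0`. -/
theorem caseI [Finite S] (h8 : Nat.card D.E = 8) {f : S} (hf : f ∈ D.E)
    (hfe : f * (a * f * a) = y0 * y0) :
    (∀ y ∈ D.A0, y ∉ D.E → y * (a * y * a) ≠ 1 ∧ y * (a * y * a) ≠ y0 * y0) ∧
      D.C ≤ D.A0 ∧ ∀ j ∈ D.C, a * j * a = j⁻¹ → D.InP a j := by
  have ha := D.A_sq a hg.aA
  have hfixA : ∀ x ∈ D.A0, Commute x a → x ∈ D.E := fun x hx => hg.fix x (D.A0_le_C hx)
  have hsq : ∀ y ∈ D.A0, y ∉ D.E → y * y = y0 * y0 := fun y hy hyE =>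
    (ho.sq_A0 hy).resolve_left fun h => hyE ((D.mem_E y).2 ⟨hy, h⟩)
  have hnorm : ∀ y ∈ D.A0, y ∉ D.E →
      y * (a * y * a) ≠ 1 ∧ y * (a * y * a) ≠ y0 * y0 := by
    intro y hy hyE
    refine ⟨fun h => hyE (D.inverted_sq ha hfixA hy (eq_inv_of_mul_eq_one_right h) hf
      ((hsq y hy hyE).trans hfe.symm)), fun h => hyE (hfixA y hy (commute_of_conj_eq ha ?_))⟩
    exact mul_left_cancel (h.trans (hsq y hy hyE).symm)
  have hCA : D.C ≤ D.A0 := by
    have hcA : c ∈ D.A0 := by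
      obtain ⟨i, hi⟩ := ho.gen y0 (D.A0_le_C ho.yA0)
      have hci : c ^ i ∈ D.A0 := by
        have h := mul_mem ho.yA0 (inv_mem (D.E_le hi))
        rwa [show y0 * ((c ^ i)⁻¹ * y0)⁻¹ = c ^ i by group] at h
      rcases Int.even_or_odd i with ⟨m, rfl⟩ | hodd
      · exfalso
        have hcm : c ^ m ∈ D.C := zpow_mem ho.cC m
        set e := (c ^ (m + m))⁻¹ * y0 with he
        have hy : y0 = c ^ m * c ^ m * e := by rw [he, ← zpow_add]; group
        -- the norm of `y0` is a norm from `E`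
        obtain ⟨e0, f', hf', hfe', he01, he0E, he0a, hN⟩ :
            ∃ e0 f', f' ∈ D.E ∧ f' * (a * f' * a) = e0 ∧ e0 ≠ 1 ∧ e0 ∈ D.E ∧ Commute e0 a ∧
              ∀ u ∈ D.E, u * (a * u * a) = 1 ∨ u * (a * u * a) = e0 := by
          exact hg.exists_e0 h8
        have hnc : c ^ m * c ^ m * (a * (c ^ m * c ^ m) * a) = 1 := by
          have h1 := ho.comm (D.conj_C_mem hg.aA hcm) hcm
          rw [conj_mul a _ _ ha, (ho.comm hcm (D.conj_C_mem hg.aA hcm)).mul_mul_mul_comm]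
          refine D.E_sq (hg.fix _ (mul_mem hcm (D.conj_C_mem hg.aA hcm)) ?_)
          show c ^ m * (a * c ^ m * a) * a = a * (c ^ m * (a * c ^ m * a))
          calc c ^ m * (a * c ^ m * a) * a = c ^ m * a * c ^ m * (a * a) := by group
            _ = (a * a) * (c ^ m * a * c ^ m) := by rw [ha, mul_one, one_mul]
            _ = a * ((a * c ^ m * a) * c ^ m) := by group
            _ = a * (c ^ m * (a * c ^ m * a)) := by rw [h1.eq]
        have hny : y0 * (a * y0 * a) = e * (a * e * a) := by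
          conv_lhs => rw [hy, conj_mul a _ e ha]
          rw [(ho.comm (D.E_le_C hi) (D.conj_C_mem hg.aA (mul_mem hcm hcm))).mul_mul_mul_comm,
            hnc, one_mul]
        have hq' : y0 * y0 = e0 := by
          rcases hN f hf with h | h
          · exact absurd (hfe.symm.trans h) ho.q_ne
          · exact hfe.symm.trans h
        obtain ⟨h1, h2⟩ := hnorm y0 ho.yA0 ho.yE
        rcases hN e hi with h | h
        · exact h1 (hny.trans h)
        · exact h2 (hny.trans (h.trans hq'.symm))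
      · refine D.C_four ho.cC ?_
        have h4 : (c ^ i) ^ 4 = 1 := D.A0_four _ hci
        obtain ⟨k, hk⟩ := D.isP c
        have h5 : (orderOf c : ℤ) ∣ i * 4 := by
          rw [orderOf_dvd_iff_zpow_eq_one, zpow_mul, ← h4]
          exact zpow_natCast _ 4
        obtain ⟨n, -, hn⟩ := (Nat.dvd_prime_pow Nat.prime_two).1 (orderOf_dvd_of_pow_eq_one hk)
        have hcop : IsCoprime (orderOf c : ℤ) i := by
          rw [hn]
          push_cast
          refine IsCoprime.pow_left ?_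
          rw [Int.prime_two.coprime_iff_not_dvd]
          obtain ⟨r, rfl⟩ := hodd
          omega
        have h6 : orderOf c ∣ 4 := by exact_mod_cast (hcop.dvd_of_dvd_mul_left h5)
        exact orderOf_dvd_iff_pow_eq_one.1 h6
    intro x hx
    obtain ⟨i, hi⟩ := ho.gen x hx
    rw [show x = c ^ i * ((c ^ i)⁻¹ * x) by group]
    exact mul_mem (zpow_mem hcA i) (D.E_le hi)
  refine ⟨hnorm, hCA, fun j hjC hinv => ?_⟩
  have hjA := hCA hjC
  have hjE : j ∈ D.E := by
    by_contra hjE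
    exact (hnorm j hjA hjE).1 (by rw [hinv, mul_inv_cancel])
  rw [D.E_inv hjE] at hinv
  obtain ⟨hwE, hwa⟩ := hg.norm_mem ho.yA0
  obtain ⟨h1, h2⟩ := hnorm y0 ho.yA0 ho.yE
  have hqP : D.InP a (y0 * y0) := ⟨f, D.E_le_C hf, by
    rw [D.E_inv (D.conj_E_mem hg.aA hf), hfe]⟩
  have hqwP : D.InP a (y0 * y0 * (y0 * (a * y0 * a))) := ⟨y0, D.A0_le_C ho.yA0, by
    rw [← D.E_inv hwE, (D.A0_comm _ ho.yA0 _ (D.conj_A0_mem hg.aA ho.yA0)).eq]; group⟩
  have hwP : D.InP a (y0 * (a * y0 * a)) := by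
    have := ho.inP_mul hg hqP hqwP
    rwa [← mul_assoc, D.E_sq (D.sq_mem_E ho.yA0), one_mul] at this
  rcases hg.fix_cases (D.sq_mem_E ho.yA0) (ho.q_commute a) hwE hwa ho.q_ne h1 (Ne.symm h2) hjE
    (commute_of_conj_eq ha hinv) with h | h | h | h <;> rw [h]
  exacts [ho.inP_one hg, hqP, hwP, ho.inP_mul hg hqP hwP]

/-- Facts when the norms from `E` avoid the squares of `A0`. -/
theorem caseII [Finite S] {f : S} (hf : f ∈ D.E) (h1e : f * (a * f * a) ≠ 1)
    (hfe : f * (a * f * a) ≠ y0 * y0) :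
    (∀ x ∈ D.E, Commute x a →
      x = 1 ∨ x = y0 * y0 ∨ x = f * (a * f * a) ∨ x = y0 * y0 * (f * (a * f * a))) ∧
    ∀ j ∈ D.C, a * j * a = j⁻¹ → j ∈ Subgroup.zpowers (c * c) ⊔ D.E → D.InP a j := by
  have ha := D.A_sq a hg.aA
  have hfixA : ∀ x ∈ D.A0, Commute x a → x ∈ D.E := fun x hx => hg.fix x (D.A0_le_C hx)
  obtain ⟨he0E, he0a⟩ := hg.norm_mem (D.E_le hf)
  have hqE := D.sq_mem_E ho.yA0
  have hcases : ∀ x ∈ D.E, Commute x a →
      x = 1 ∨ x = y0 * y0 ∨ x = f * (a * f * a) ∨ x = y0 * y0 * (f * (a * f * a)) :=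
    fun x hx hxa => hg.fix_cases hqE (ho.q_commute a) he0E he0a ho.q_ne h1e (Ne.symm hfe) hx hxa
  refine ⟨hcases, fun j hjC hinv hjL => ?_⟩
  have he0P : D.InP a (f * (a * f * a)) := ⟨f, D.E_le_C hf, by
    rw [D.E_inv (D.conj_E_mem hg.aA hf)]⟩
  obtain ⟨hwE, hwa⟩ := hg.norm_mem ho.yA0
  have hy0P : D.InP a (y0 * y0 * (y0 * (a * y0 * a))) := ⟨y0, D.A0_le_C ho.yA0, by
    rw [← D.E_inv hwE, (D.A0_comm _ ho.yA0 _ (D.conj_A0_mem hg.aA ho.yA0)).eq]; group⟩
  have hqP : D.InP a (y0 * y0) := by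
    rcases hcases _ hwE hwa with h | h | h | h
    · rwa [h, mul_one] at hy0P
    · exfalso
      refine ho.yE (hfixA _ ho.yA0 (commute_of_conj_eq ha ?_))
      exact mul_left_cancel h
    · rw [h] at hy0P
      have := ho.inP_mul hg hy0P he0P
      rwa [mul_assoc, D.E_sq he0E, mul_one] at this
    · exfalso
      -- `y0 f` is fixed
      have e : a * y0 * a = y0 * (f * (a * f * a)) :=
        mul_left_cancel (a := y0) (h.trans (by group))
      refine ho.yE ((Subgroup.mul_mem_cancel_right _ hf).1 (hfixA _ (mul_mem ho.yA0 (D.E_le hf))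
        (commute_of_conj_eq ha ?_)))
      rw [conj_mul a y0 f ha, e, mul_assoc, mul_assoc f, D.E_sq (D.conj_E_mem hg.aA hf), mul_one]
  have hfixP : ∀ x ∈ D.E, Commute x a → D.InP a x := by
    intro x hx hxa
    rcases hcases x hx hxa with h | h | h | h <;> rw [h]
    exacts [ho.inP_one hg, hqP, he0P, ho.inP_mul hg hqP he0P]
  have hcC := ho.cC
  have hcac := D.conj_C_mem hg.aA hcC
  have hwc : Commute (c * (a * c * a)) a := commute_of_conj_eq ha (by
    rw [conj_mul a c _ ha, show a * (a * c * a) * a = (a * a) * c * (a * a) by group, ha, one_mul,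
      mul_one, (ho.comm hcac hcC).eq])
  have hwcE := hg.fix _ (mul_mem hcC hcac) hwc
  have hccP : D.InP a (c * c) := by
    have h1 : D.InP a (c * c * (c * (a * c * a))) := ⟨c, hcC, by
      rw [← D.E_inv hwcE, (ho.comm hcC hcac).eq]; group⟩
    have := ho.inP_mul hg h1 (hfixP _ hwcE hwc)
    rwa [mul_assoc, D.E_sq hwcE, mul_one] at this
  haveI := D.E_normal
  obtain ⟨p, hp, e, he, hpe⟩ := Subgroup.mem_sup_of_normal_right.1 hjL
  obtain ⟨k, rfl⟩ := Subgroup.mem_zpowers_iff.1 hp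
  have hpP := ho.inP_zpow hg hccP k
  rw [← hpe]
  refine ho.inP_mul hg hpP (hfixP e he (commute_of_conj_eq ha ?_))
  rw [← hpe, conj_mul a _ e ha, ho.inP_inverted hg hpP, mul_inv_rev,
    ← (ho.comm (inv_mem (zpow_mem (mul_mem hcC hcC) k)) (inv_mem (D.E_le_C he))).eq] at hinv
  rw [mul_left_cancel hinv, D.E_inv he]

end One

variable (D)

/-- With `|A ⊓ E| = 4`, elements fixing `a` up to `C` and the fixed points lie in `C ∪ a C`. -/
theorem mem_of_fix [Finite S] [D.C.Normal] (h4 : Nat.card ↥(D.A ⊓ D.E) = 4) {a : S} (ha : a ∈ D.A)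
    (haE : a ∉ D.E) {g : S} (hu : ∃ u ∈ D.C, Commute (u * g) a)
    (hv : ∀ x ∈ D.E, Commute x a → g * x * g⁻¹ = x) : g ∈ D.C ∨ a⁻¹ * g ∈ D.C := by
  obtain ⟨u, hu, hug⟩ := hu
  have hA : u * g ∈ D.A := D.A_self _ fun x hx => by
    have hfix : ∀ t ∈ D.E, Commute t a → Commute (u * g) t := fun t ht hta => by
      refine mul_inv_eq_iff_eq_mul.1 ?_
      rw [show u * g * t * (u * g)⁻¹ = u * (g * t * g⁻¹) * u⁻¹ by group, hv t ht hta,
        (D.mem_C.1 hu t (D.E_le ht)).eq, mul_inv_cancel_right]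
    by_cases hxE : x ∈ D.E
    · exact hfix x hxE (D.A_comm hx ha)
    have hm := hfix _ (D.mul_mem_E_of_four h4 ha haE hx hxE) ((D.A_comm hx ha).mul_left (Commute.refl a))
    have := hm.mul_right hug.inv_right
    rwa [mul_inv_cancel_right] at this
  by_cases hE : u * g ∈ D.E
  · left
    rw [show g = u⁻¹ * (u * g) by group]
    exact mul_mem (inv_mem hu) (D.E_le_C hE)
  · right
    refine D.mem_AC hu ?_
    rw [D.A_inv ha, (D.A_comm ha hA).eq]
    exact D.mul_mem_E_of_four h4 ha haE hA hE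

/-- A centralizer with a kernel of index at most two and trivial modulo `C ∪ a C`. -/
theorem card_cent_of_kernel [Finite S] [D.C.Normal] (a : S) (K : S → Prop)
    (hker : ∀ g, a⁻¹ * (g * a * g⁻¹) ∈ D.C → K g → g ∈ D.C ∨ a⁻¹ * g ∈ D.C)
    (hmul : ∀ g h, a⁻¹ * (g * a * g⁻¹) ∈ D.C → a⁻¹ * (h * a * h⁻¹) ∈ D.C → ¬ K g → ¬ K h →
      K (g⁻¹ * h)) :
    Nat.card (Subgroup.centralizer ({(QuotientGroup.mk' D.C a)} : Set (S ⧸ D.C))) ≤ 4 := by
  by_cases hex : ∃ g0, a⁻¹ * (g0 * a * g0⁻¹) ∈ D.C ∧ ¬ K g0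
  · obtain ⟨g0, hg0, hK0⟩ := hex
    refine D.card_cent_le a a g0 (g0 * a) fun g hga => ?_
    by_cases hK : K g
    · rcases hker g hga hK with h | h
      · exact Or.inl h
      · exact Or.inr (Or.inl h)
    have hh : a⁻¹ * (g0⁻¹ * g * a * (g0⁻¹ * g)⁻¹) ∈ D.C := by
      rw [← QuotientGroup.eq_one_iff] at hg0 hga ⊢
      change QuotientGroup.mk' D.C (a⁻¹ * (g0⁻¹ * g * a * (g0⁻¹ * g)⁻¹)) = 1
      change QuotientGroup.mk' D.C (a⁻¹ * (g0 * a * g0⁻¹)) = 1 at hg0
      change QuotientGroup.mk' D.C (a⁻¹ * (g * a * g⁻¹)) = 1 at hga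
      simp only [map_mul, map_inv, inv_mul_eq_one] at hg0 hga ⊢
      set π := QuotientGroup.mk' D.C
      calc π a = (π g0)⁻¹ * π a * π g0 := by
            conv_rhs => rw [hg0]
            group
        _ = (π g0)⁻¹ * (π g * π a * (π g)⁻¹) * π g0 := by rw [← hga]
        _ = _ := by group
    rcases hker _ hh (hmul g0 g hg0 hga hK0 hK) with h | h
    · exact Or.inr (Or.inr (Or.inl h))
    · refine Or.inr (Or.inr (Or.inr ?_))
      rwa [mul_inv_rev, mul_assoc]
  · push Not at hex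
    refine D.card_cent_le a a a a fun g hga => ?_
    rcases hker g hga (hex g hga) with h | h
    · exact Or.inl h
    · exact Or.inr (Or.inl h)

/-- Commutators of `g` with `A0` are as small as a rank five section forces. -/
def Bad (y0 g : S) : Prop :=
  (∀ e ∈ D.E, Commute g e) ∨ ∀ x ∈ D.A0, dlt g x = 1 ∨ dlt g x = y0 * y0

theorem bad_congr {y0 g h : S} [D.C.Normal] (hgh : g⁻¹ * h ∈ D.C) (hb : D.Bad y0 h) :
    D.Bad y0 g := by
  have hc : ∀ x ∈ D.A0, g * x * g⁻¹ = h * x * h⁻¹ := fun x hx => by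
    calc g * x * g⁻¹ = g * (g⁻¹ * h * x * (g⁻¹ * h)⁻¹) * g⁻¹ := by
          rw [(D.mem_C.1 hgh x hx).eq, mul_inv_cancel_right]
      _ = h * x * h⁻¹ := by group
  rcases hb with hb | hb
  · left
    intro e he
    refine mul_inv_eq_iff_eq_mul.1 ?_
    rw [hc e (D.E_le he), (hb e he).eq, mul_inv_cancel_right]
  · right
    intro x hx
    simp only [dlt] at hb ⊢
    rw [hc x hx]
    exact hb x hx

/-- A rank five section forces the commutators to be small. -/
theorem bad_of_big [Finite S] [D.C.Normal] {y0 c : S} (ho : One D y0 c) (h8 : Nat.card D.E = 8)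
    {H : Subgroup S} (hX : 4 < (Phi H ⊓ D.C).relIndex (H ⊓ D.C)) :
    (∀ p ∈ Phi H, p ∈ D.C → p ∈ Subgroup.zpowers (c * c)) ∧ ∀ h ∈ H, D.Bad y0 h := by
  classical
  have hle : Phi (H ⊓ D.C) ≤ Phi H ⊓ D.C :=
    le_inf (phi_mono inf_le_left) ((phi_le_self _).trans inf_le_right)
  have hC : H ⊓ D.C ≤ D.C := inf_le_right
  have h1 := D.relIndex_phi_le_E hC
  have h2 : Nat.card ↥(H ⊓ D.C ⊓ D.E) ≤ 8 := h8 ▸ Subgroup.card_le_of_le inf_le_right
  have h3 := Subgroup.relIndex_dvd_of_le_left (H ⊓ D.C) hle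
  have hne : (Phi (H ⊓ D.C)).relIndex (H ⊓ D.C) ≠ 0 := Subgroup.index_ne_zero_of_finite
  have hXle := Nat.le_of_dvd (Nat.pos_of_ne_zero hne) h3
  haveI : Fact (Nat.Prime 2) := ⟨Nat.prime_two⟩
  have hdvd : (Phi H ⊓ D.C).relIndex (H ⊓ D.C) ∣ Nat.card S :=
    (Dvd.intro_left _ (relIndex_mul_card (inf_le_inf_right D.C (phi_le_self H)))).trans
      (Subgroup.card_subgroup_dvd_card _)
  obtain ⟨n, hn⟩ := D.isP.exists_card_eq
  obtain ⟨i, -, hi⟩ := (Nat.dvd_prime_pow Nat.prime_two).1 (hn ▸ hdvd)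
  have hX8 : (Phi H ⊓ D.C).relIndex (H ⊓ D.C) = 8 := by
    have hup := (hXle.trans h1).trans h2
    rw [hi] at hX hup ⊢
    have : i ≤ 3 := (Nat.pow_le_pow_iff_right (le_refl 2)).1 (hup.trans_eq (by norm_num))
    interval_cases i <;> simp_all
  have hEH : D.E ≤ H ⊓ D.C := by
    have : H ⊓ D.C ⊓ D.E = D.E := Subgroup.eq_of_le_of_card_ge inf_le_right (by omega)
    exact inf_eq_right.1 this
  have hPhi : Phi H ⊓ D.C = Phi (H ⊓ D.C) := by
    refine (Subgroup.eq_of_le_of_card_ge hle ?_).symm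
    have e1 := relIndex_mul_card (inf_le_inf_right D.C (phi_le_self H))
    have e2 := relIndex_mul_card (phi_le_self (H ⊓ D.C))
    rw [hX8] at e1
    have h8' : (Phi (H ⊓ D.C)).relIndex (H ⊓ D.C) = 8 := by omega
    rw [h8'] at e2
    omega
  have hz : ∀ p ∈ Phi H, p ∈ D.C → p ∈ Subgroup.zpowers (c * c) := by
    intro p hp hpC
    have : p ∈ Phi (H ⊓ D.C) := hPhi ▸ Subgroup.mem_inf.2 ⟨hp, hpC⟩
    exact (phi_le (N := Subgroup.zpowers (c * c)) fun x hx => ho.sq_mem (hC hx)) this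
  refine ⟨hz, fun h hh => ?_⟩
  by_cases hEq : H ⊓ D.C ≤ D.E
  · left
    intro e he
    have hbot : Phi (H ⊓ D.C) = ⊥ := by
      rw [eq_bot_iff]
      exact phi_le fun x hx => Subgroup.mem_bot.2 (D.E_sq (hEq hx))
    have hm : dlt h e ∈ Phi H ⊓ D.C :=
      Subgroup.mem_inf.2 ⟨comm_mem_phi hh (Subgroup.mem_inf.1 (hEH he)).1,
        D.E_le_C (mul_mem (D.E_normal.conj_mem e he h) (inv_mem he))⟩
    rw [hPhi, hbot, Subgroup.mem_bot] at hm
    exact mul_inv_eq_iff_eq_mul.1 (mul_inv_eq_one.1 hm)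
  · right
    obtain ⟨d, hd, hdE⟩ := SetLike.not_le_iff_exists.1 hEq
    obtain ⟨x0, hx0, hx0A, hx0E⟩ : ∃ x ∈ H ⊓ D.C, x ∈ D.A0 ∧ x ∉ D.E := by
      obtain ⟨k, hk⟩ := D.isP d
      induction k generalizing d with
      | zero => rw [pow_zero, pow_one] at hk; exact absurd (hk ▸ one_mem _) hdE
      | succ k ih =>
        by_cases h2E : d * d ∈ D.E
        · refine ⟨d, hd, D.C_four (hC hd) ?_, hdE⟩
          rw [show d ^ 4 = (d * d) * (d * d) by rw [pow_succ, pow_succ, pow_succ, pow_one]; group,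
            D.E_sq h2E]
        · exact ih (d * d) (mul_mem hd hd) h2E (by rw [← pow_two, ← pow_mul, ← pow_succ']; exact hk)
    have hA0H : D.A0 ≤ H ⊓ D.C := by
      intro x hx
      rcases ho.cos x hx with h' | h'
      · exact hEH h'
      · have h3 := (ho.cos x0 hx0A).resolve_left hx0E
        rw [show x = x0 * ((y0⁻¹ * x0)⁻¹ * (y0⁻¹ * x)) by group]
        exact mul_mem hx0 (hEH (mul_mem (inv_mem h3) h'))
    intro x hx
    have hdE' := ho.dlt_mem_E h hx
    exact ho.zpowers_inf (hz _ (comm_mem_phi hh (Subgroup.mem_inf.1 (hA0H hx)).1)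
      (D.E_le_C hdE')) hdE'

/-- The image of `a` is never bad. -/
theorem not_bad_of [Finite S] {y0 c a f : S} (ho : One D y0 c) (hg : GoodThree D a)
    (h8 : Nat.card D.E = 8) (hf : f ∈ D.E) (h1e : f * (a * f * a) ≠ 1) : ¬ D.Bad y0 a := by
  have ha := D.A_sq a hg.aA
  rintro (hb | hb)
  · exact h1e (by rw [conj_eq_of_commute ha (hb f hf).symm, D.E_sq hf])
  have hq : f * (a * f * a) = y0 * y0 := by
    have e : dlt a f = f * (a * f * a) := by
      rw [dlt, D.A_inv hg.aA, D.E_inv hf, (D.E_comm (D.conj_E_mem hg.aA hf) hf).eq]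
    rcases hb f (D.E_le hf) with h | h <;> rw [e] at h
    · exact absurd h h1e
    · exact h
  obtain ⟨hn, -, -⟩ := ho.caseI hg h8 hf hq
  obtain ⟨h1, h2⟩ := hn y0 ho.yA0 ho.yE
  have hqq := D.E_sq (D.sq_mem_E ho.yA0)
  have e : dlt a y0 = y0 * (a * y0 * a) * (y0 * y0) := by
    rw [dlt, D.A_inv hg.aA,
      (D.A0_comm _ ho.yA0 _ (D.conj_A0_mem hg.aA ho.yA0)).eq, ← D.E_inv (D.sq_mem_E ho.yA0)]
    group
  rcases hb y0 ho.yA0 with h | h <;> rw [e] at h
  · exact h2 (by rw [mul_eq_one_iff_eq_inv.1 h, D.E_inv (D.sq_mem_E ho.yA0)])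
  · exact h1 (mul_eq_right.1 h)

/-- The case `|E| = 8`, `|A ⊓ E| = 4`, `|A0| = 16`: the small centralizer and the exclusion of
the bad elements. -/
theorem three_four [Finite S] [D.C.Normal] {y0 c : S} (ho : One D y0 c) (h8 : Nat.card D.E = 8)
    (h4 : Nat.card ↥(D.A ⊓ D.E) = 4) :
    ∃ a, a ∈ D.A ∧
      Nat.card (Subgroup.centralizer ({(QuotientGroup.mk' D.C a)} : Set (S ⧸ D.C))) ≤ 4 ∧
      ¬ D.Bad y0 a ∧
      ∀ h t : S, h ∉ D.C → a⁻¹ * h ∉ D.C → a⁻¹ * (h * a * h⁻¹) ∈ D.C →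
        h⁻¹ * (a * (t * a * t⁻¹)) ∈ D.C → D.Bad y0 h →
        t * t ∈ Subgroup.zpowers (c * c) → dlt h t ∈ Subgroup.zpowers (c * c) → False := by
  obtain ⟨a, ha, haE⟩ : ∃ a ∈ D.A, a ∉ D.E := by
    by_contra hcon
    push Not at hcon
    rw [inf_eq_left.2 hcon, D.A_card] at h4
    omega
  have hg := D.goodThree_of_four h4 ha haE
  obtain ⟨e0, f, hf, hfe0, he01, he0E, he0a, hN⟩ := hg.exists_e0 h8
  have ha2 := D.A_sq a ha
  have hai := D.A_inv ha
  have hLn := ho.L_normal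
  set L := Subgroup.zpowers (c * c) ⊔ D.E with hL
  have h1e : f * (a * f * a) ≠ 1 := by rw [hfe0]; exact he01
  refine ⟨a, ha, ?_⟩
  have hj : ∀ g : S, a⁻¹ * (g * a * g⁻¹) ∈ D.C → a * (g * a * g⁻¹) ∈ D.C ∧
      a * (a * (g * a * g⁻¹)) * a = (a * (g * a * g⁻¹))⁻¹ := fun g hgW => by
    rw [hai] at hgW; exact ⟨hgW, D.inverted_of_conj ha⟩
  by_cases hq : f * (a * f * a) = y0 * y0
  · obtain ⟨hn, -, hP⟩ := ho.caseI hg h8 hf hq
    obtain ⟨hw1, hw2⟩ := hn y0 ho.yA0 ho.yE
    obtain ⟨hwE, hwa⟩ := hg.norm_mem ho.yA0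
    set w := y0 * (a * y0 * a) with hw
    set q := y0 * y0 with hq'
    have hfull : ∀ g, a⁻¹ * (g * a * g⁻¹) ∈ D.C → ∃ u ∈ D.C, Commute (u * g) a := fun g hgW =>
      ho.full_of_inP hg (hP _ (hj g hgW).1 (hj g hgW).2)
    have hcases : ∀ x ∈ D.E, Commute x a → x = 1 ∨ x = q ∨ x = w ∨ x = q * w := fun x hx hxa =>
      hg.fix_cases (D.sq_mem_E ho.yA0) (ho.q_commute a) hwE hwa ho.q_ne hw1 (Ne.symm hw2) hx hxa
    have hqg : ∀ g : S, g * q * g⁻¹ = q := fun g => by
      rw [(ho.q_central g).eq, mul_inv_cancel_right]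
    have hfixV : ∀ g, g * w * g⁻¹ = w → ∀ x ∈ D.E, Commute x a → g * x * g⁻¹ = x := by
      intro g hgw x hx hxa
      rcases hcases x hx hxa with h | h | h | h <;> rw [h]
      · group
      · exact hqg g
      · exact hgw
      · rw [show g * (q * w) * g⁻¹ = (g * q * g⁻¹) * (g * w * g⁻¹) by group, hqg g, hgw]
    have hWw : ∀ g, a⁻¹ * (g * a * g⁻¹) ∈ D.C → g * w * g⁻¹ = w ∨ g * w * g⁻¹ = q * w := by
      intro g hgW
      obtain ⟨u, hu, hug⟩ := hfull g hgW
      have hwE' := D.E_normal.conj_mem w hwE g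
      have hcm : Commute (g * w * g⁻¹) a := by
        have h' : Commute (u * g * w * (u * g)⁻¹) a :=
          (hug.mul_left hwa).mul_left hug.inv_left
        rwa [show u * g * w * (u * g)⁻¹ = u * (g * w * g⁻¹) * u⁻¹ by group,
          (D.mem_C.1 hu _ (D.E_le hwE')).eq, mul_inv_cancel_right] at h'
      rcases hcases _ hwE' hcm with h | h | h | h
      · exact absurd (conj_eq_one_iff.1 h) hw1
      · refine absurd ?_ hw2
        calc w = g⁻¹ * (g * w * g⁻¹) * g := by group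
          _ = q := by rw [h, mul_assoc, ← (ho.q_central g).eq, ← mul_assoc, inv_mul_cancel, one_mul]
      · exact Or.inl h
      · exact Or.inr h
    refine ⟨D.card_cent_of_kernel a (fun g => g * w * g⁻¹ = w) (fun g hgW hK =>
      D.mem_of_fix h4 ha haE (hfull g hgW) (hfixV g hK)) (fun g h hgW hhW hKg hKh => ?_),
      D.not_bad_of ho hg h8 hf h1e, fun h t hhC hahC hhW _ hbad _ _ => ?_⟩
    · calc g⁻¹ * h * w * (g⁻¹ * h)⁻¹ = g⁻¹ * (h * w * h⁻¹) * g := by group
        _ = g⁻¹ * (g * w * g⁻¹) * g := by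
          rw [(hWw h hhW).resolve_left hKh, (hWw g hgW).resolve_left hKg]
        _ = w := by group
    · have hfixw : h * w * h⁻¹ = w := by
        rcases hbad with hb | hb
        · rw [(hb w hwE).eq, mul_inv_cancel_right]
        have hconj : ∀ x ∈ D.A0, (h * a * h⁻¹) * x * (h * a * h⁻¹) = a * x * a := by
          intro x hx
          have hii : (h * a * h⁻¹)⁻¹ = h * a * h⁻¹ := by
            rw [mul_inv_rev, mul_inv_rev, inv_inv, hai]; group
          calc (h * a * h⁻¹) * x * (h * a * h⁻¹)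
              = (h * a * h⁻¹) * x * (h * a * h⁻¹)⁻¹ := by rw [hii]
            _ = a * ((a⁻¹ * (h * a * h⁻¹)) * x * (a⁻¹ * (h * a * h⁻¹))⁻¹) * a⁻¹ := by group
            _ = a * x * a := by rw [(D.mem_C.1 hhW x hx).eq, mul_inv_cancel_right, hai]
        have hy' := D.A0_normal.conj_mem _ ho.yA0 h
        have hs : h * y0 * h⁻¹ = y0 ∨ h * y0 * h⁻¹ = y0 * q := by
          rcases hb y0 ho.yA0 with h' | h'
          · exact Or.inl (mul_inv_eq_one.1 h')
          · right
            rw [← (ho.q_central y0).symm.eq, ← mul_inv_eq_iff_eq_mul]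
            exact h'
        have e1 : h * w * h⁻¹ = (h * y0 * h⁻¹) * (a * (h * y0 * h⁻¹) * a) := by
          rw [← hconj _ hy', hw]; group
        rcases hs with h' | h' <;> rw [e1, h']
        rw [conj_mul a y0 q ha2, conj_eq_of_commute ha2 (ho.q_commute a),
          (D.A0_comm _ (D.E_le (D.sq_mem_E ho.yA0)) _ (D.conj_A0_mem ha ho.yA0)).mul_mul_mul_comm,
          D.E_sq (D.sq_mem_E ho.yA0), mul_one]
      rcases D.mem_of_fix h4 ha haE (hfull h hhW) (hfixV h hfixw) with h' | h'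
      exacts [hhC h', hahC h']
  · obtain ⟨hcases, hP⟩ := ho.caseII hg hf h1e hq
    set q := y0 * y0 with hq'
    have hconj : ∀ g, a⁻¹ * (g * a * g⁻¹) ∈ D.C → ∀ x ∈ D.A0,
        g * (a * x * a) * g⁻¹ = a * (g * x * g⁻¹) * a := by
      intro g hgW x hx
      have hgx := D.A0_normal.conj_mem x hx g
      have hii : (g * a * g⁻¹)⁻¹ = g * a * g⁻¹ := by
        rw [mul_inv_rev, mul_inv_rev, inv_inv, hai]; group
      calc g * (a * x * a) * g⁻¹ = (g * a * g⁻¹) * (g * x * g⁻¹) * (g * a * g⁻¹) := by group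
        _ = (g * a * g⁻¹) * (g * x * g⁻¹) * (g * a * g⁻¹)⁻¹ := by rw [hii]
        _ = a * ((a⁻¹ * (g * a * g⁻¹)) * (g * x * g⁻¹) * (a⁻¹ * (g * a * g⁻¹))⁻¹) * a⁻¹ := by group
        _ = a * (g * x * g⁻¹) * a := by rw [(D.mem_C.1 hgW _ hgx).eq, mul_inv_cancel_right, hai]
    have hfixV : ∀ g, a⁻¹ * (g * a * g⁻¹) ∈ D.C →
        ∀ x ∈ D.E, Commute x a → g * x * g⁻¹ = x := by
      intro g hgW x hx hxa
      have hqg : g * q * g⁻¹ = q := by rw [(ho.q_central g).eq, mul_inv_cancel_right]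
      have heg : g * (f * (a * f * a)) * g⁻¹ = f * (a * f * a) := by
        have hgf := D.E_normal.conj_mem f hf g
        have e : g * (f * (a * f * a)) * g⁻¹ = (g * f * g⁻¹) * (a * (g * f * g⁻¹) * a) := by
          rw [← hconj g hgW f (D.E_le hf)]; group
        rcases hN _ hgf with h | h
        · refine absurd ?_ h1e
          rw [← e] at h
          exact conj_eq_one_iff.1 h
        · rw [e, h, hfe0]
      rcases hcases x hx hxa with h | h | h | h <;> rw [h]
      · group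
      · exact hqg
      · exact heg
      · rw [show g * (q * (f * (a * f * a))) * g⁻¹
          = (g * q * g⁻¹) * (g * (f * (a * f * a)) * g⁻¹) by group, hqg, heg]
    have hkerL : ∀ g, a⁻¹ * (g * a * g⁻¹) ∈ D.C → a * (g * a * g⁻¹) ∈ L →
        g ∈ D.C ∨ a⁻¹ * g ∈ D.C := fun g hgW hgL =>
      D.mem_of_fix h4 ha haE (ho.full_of_inP hg (hP _ (hj g hgW).1 (hj g hgW).2 hgL))
        (hfixV g hgW)
    let π := QuotientGroup.mk' L
    have hπC : ∀ x ∈ D.C, ∀ g : S, Commute (π g) (π x) := fun x hx g => by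
      refine mul_inv_eq_iff_eq_mul.1 (mul_inv_eq_one.1 ?_)
      rw [← map_inv π g, ← map_inv π x, ← map_mul, ← map_mul, ← map_mul]
      exact (QuotientGroup.eq_one_iff _).2 (ho.conj_L g hx)
    have hπa : π a * π a = 1 := by rw [← map_mul, ha2, map_one]
    have hmem : ∀ x : S, x ∈ L ↔ π x = 1 := fun x => (QuotientGroup.eq_one_iff x).symm
    refine ⟨D.card_cent_of_kernel a (fun g => a * (g * a * g⁻¹) ∈ L) hkerL
      (fun g h hgW hhW hKg hKh => ?_), D.not_bad_of ho hg h8 hf h1e,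
      fun h t hhC hahC hhW hζ _ htt hht => ?_⟩
    · have h1 := (ho.L_cases (hj g hgW).1).resolve_left hKg
      have h2 := (ho.L_cases (hj h hhW).1).resolve_left hKh
      have heq : π (g * a * g⁻¹) = π (h * a * h⁻¹) := by
        refine mul_left_cancel (a := π a) ?_
        rw [← map_mul, ← map_mul]
        refine mul_left_cancel (a := π c⁻¹) ?_
        rw [← map_mul, ← map_mul]
        exact ((hmem _).1 h1).trans ((hmem _).1 h2).symm
      rw [hmem]
      calc π (a * (g⁻¹ * h * a * (g⁻¹ * h)⁻¹))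
          = π a * ((π g)⁻¹ * π (h * a * h⁻¹) * π g) := by simp only [map_mul, map_inv]; group
        _ = π a * ((π g)⁻¹ * π (g * a * g⁻¹) * π g) := by rw [heq]
        _ = π a * π a := by simp only [map_mul, map_inv]; group
        _ = 1 := hπa
    · set b := t * a * t⁻¹ with hb
      have htL : π t * π t = 1 := by
        rw [← map_mul]; exact (hmem _).1 (Subgroup.mem_sup_left htt)
      have hb2 : π b * π b = 1 := by
        rw [← map_mul, hb, show t * a * t⁻¹ * (t * a * t⁻¹) = t * (a * a) * t⁻¹ by group, ha2]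
        simp
      set X := π (a * b) with hX
      have hXc : X = π h * π (h⁻¹ * (a * b)) := by rw [← map_mul, hX, mul_inv_cancel_left]
      have hTh : Commute (π t) (π h) := by
        refine (mul_inv_eq_iff_eq_mul.1 (mul_inv_eq_one.1 ?_)).symm
        rw [← map_inv, ← map_inv, ← map_mul, ← map_mul, ← map_mul]
        exact (hmem _).1 (Subgroup.mem_sup_left hht)
      have hTX : Commute (π t) X := by
        rw [hXc]; exact hTh.mul_right (hπC _ hζ t)
      have hti : (π t)⁻¹ = π t := inv_eq_of_mul_eq_one_right htL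
      have hTb : π t * π b * (π t)⁻¹ = π a := by
        rw [hb, map_mul, map_mul, map_inv,
          show π t * (π t * π a * (π t)⁻¹) * (π t)⁻¹ = (π t * π t) * π a * (π t * π t)⁻¹ by group,
          htL, one_mul, inv_one, mul_one]
      have hcomm : Commute (π a) (π b) := by
        have e : π t * X * (π t)⁻¹ = π b * π a := by
          rw [hX, map_mul, show π t * (π a * π b) * (π t)⁻¹
            = (π t * π a * (π t)⁻¹) * (π t * π b * (π t)⁻¹) by group, hTb, hb]
          simp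
        rw [hTX.eq, mul_inv_cancel_right, hX, map_mul] at e
        exact e
      have hjX : π a * (X * π a * X⁻¹) = 1 := by
        rw [hX, map_mul, hcomm.eq]
        have hai' : (π a)⁻¹ = π a := inv_eq_of_mul_eq_one_right hπa
        calc π a * (π b * π a * π a * (π b * π a)⁻¹) = π a * (π b * π a * π a * (π a)⁻¹ * (π b)⁻¹) := by
              group
          _ = π a * (π b * π a * (π b)⁻¹) := by group
          _ = π a * π a := by rw [hcomm.symm.eq, mul_inv_cancel_right]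
          _ = 1 := hπa
      have hjh : a * (h * a * h⁻¹) ∈ L := by
        rw [hmem]
        have hc' := hπC _ hζ a
        have hph : π h = X * (π (h⁻¹ * (a * b)))⁻¹ := by rw [hXc, mul_inv_cancel_right]
        calc π (a * (h * a * h⁻¹)) = π a * (π h * π a * (π h)⁻¹) := by
              simp only [map_mul, map_inv]
          _ = π a * (X * ((π (h⁻¹ * (a * b)))⁻¹ * π a * π (h⁻¹ * (a * b))) * X⁻¹) := by
              rw [hph]; group
          _ = π a * (X * π a * X⁻¹) := by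
              rw [mul_assoc ((π (h⁻¹ * (a * b)))⁻¹), hc'.eq, inv_mul_cancel_left]
          _ = 1 := hjX
      rcases hkerL h hhW hjh with h' | h'
      exacts [hhC h', hahC h']

/-- The case `|E| = 8`, `|A ⊓ E| = 2`, `|A0| = 16`. -/
theorem three_two [Finite S] [D.C.Normal] {y0 c : S} (ho : One D y0 c) (h8 : Nat.card D.E = 8)
    (h2 : Nat.card ↥(D.A ⊓ D.E) = 2) :
    ∃ a, a ∈ D.A ∧
      Nat.card (Subgroup.centralizer ({(QuotientGroup.mk' D.C a)} : Set (S ⧸ D.C))) ≤ 4 ∧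
      ¬ D.Bad y0 a ∧
      ∀ h : S, h ∉ D.C → a⁻¹ * h ∉ D.C → (∀ g : S, g⁻¹ * (h * g * h⁻¹) ∈ D.C) →
        D.Bad y0 h → False := by
  have hframe : ∀ z a b, Frame D z a b → D.FullClass a ∧ ¬ D.Bad y0 a := by
    intro z a b hf
    have hg := hf.goodThree h8
    obtain ⟨e0, f, hfE, hfe0, he01, he0E, he0a, hN⟩ := hg.exists_e0 h8
    have h1e : f * (a * f * a) ≠ 1 := by rw [hfe0]; exact he01
    have hb2 := D.A_sq b hf.bA
    have he0b : Commute e0 b := by
      refine commute_of_conj_eq hb2 ?_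
      have hab := D.A_comm hf.aA hf.bA
      have hbf := D.conj_E_mem hf.bA hfE
      have e : b * e0 * b = (b * f * b) * (a * (b * f * b) * a) := by
        rw [← hfe0, conj_mul b f _ hb2]
        congr 1
        calc b * (a * f * a) * b = (b * a) * f * (a * b) := by group
          _ = (a * b) * f * (b * a) := by rw [hab.eq]
          _ = a * (b * f * b) * a := by group
      rcases hN _ hbf with h | h
      · refine absurd ?_ he01
        rw [← e] at h
        calc e0 = b * (b * e0 * b) * b := by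
              rw [show b * (b * e0 * b) * b = (b * b) * e0 * (b * b) by group, hb2, one_mul, mul_one]
          _ = 1 := by rw [h, mul_one, hb2]
      · rw [e, h]
    have he0z : e0 = z := (hf.fix_eq he0E he0a he0b).resolve_left he01
    have hqz : y0 * y0 = z := (hf.fix_eq (D.sq_mem_E ho.yA0) (ho.q_commute a)
      (ho.q_commute b)).resolve_left ho.q_ne
    have hq : f * (a * f * a) = y0 * y0 := by rw [hfe0, he0z, hqz]
    obtain ⟨-, -, hP⟩ := ho.caseI hg h8 hfE hq
    refine ⟨fun g hgW => ?_, D.not_bad_of ho hg h8 hfE h1e⟩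
    rw [D.A_inv hf.aA] at hgW
    exact ho.full_of_inP hg (hP _ hgW (D.inverted_of_conj hf.aA))
  obtain ⟨z, a, b, hf, hcent⟩ := D.exists_good_frame (by omega) h2 fun z a b hf => (hframe z a b hf).1
  refine ⟨a, hf.aA, hcent, (hframe z a b hf).2, fun h hhC hahC hzz hbad => ?_⟩
  have hcm : ∀ g : S, g⁻¹ * (h * g * h⁻¹) ∈ D.C := hzz
  rcases hf.self_cent D (by omega) (hframe z a b hf).1 (hcm a) (hcm b) with h' | h' | h' | h'
  · exact hhC h'
  · exact hahC h'
  · exact (hframe z b a hf.swap).2 (D.bad_congr h' hbad)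
  · exact (hframe z (a * b) a hf.rot.swap).2 (D.bad_congr h' hbad)

theorem card_quot_le_eight [Finite S] [D.C.Normal] (hA0 : Nat.card D.A0 = 8) :
    Nat.card (S ⧸ D.C) ≤ 8 := by
  haveI : Fact (Nat.Prime 2) := ⟨Nat.prime_two⟩
  rw [← Subgroup.index_eq_card]
  exact (CfsgLib.PGroups.index_centralizer_le D.isP 3 D.A0 D.A0_normal
    (by rw [hA0]; norm_num)).trans (by decide)

theorem small_quot_bound [Finite S] [D.C.Normal] (hA0 : Nat.card D.A0 = 8) (H : Subgroup S) :
    (Phi (H.map (QuotientGroup.mk' D.C))).relIndex (H.map (QuotientGroup.mk' D.C)) ≤ 4 := by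
  haveI := D.A0_normal
  haveI : Fact (Nat.Prime 2) := ⟨Nat.prime_two⟩
  set M := H.map (QuotientGroup.mk' D.C) with hM
  have e := relIndex_mul_card (phi_le_self M)
  have hMle : Nat.card M ≤ 8 := (Subgroup.card_le_card_group M).trans (D.card_quot_le_eight hA0)
  by_contra hcon
  push Not at hcon
  have hpos : 0 < Nat.card ↥(Phi M) := Nat.card_pos
  have h1 : Nat.card ↥(Phi M) = 1 := by
    have h5 : Nat.card ↥(Phi M) * 5 ≤ Nat.card ↥(Phi M) * (Phi M).relIndex M :=
      Nat.mul_le_mul_left _ hcon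
    omega
  have hbot : Phi M = ⊥ := Subgroup.card_eq_one.1 h1
  have h4 := card_map_le_four D.isP (N := D.A0) (C := D.C) hA0 D.A0_comm
    (fun x hx => D.mem_C.2 hx) (fun x hx => D.mem_C.1 hx) (H := H) (fun g hgH h hhH => by
      rw [← QuotientGroup.eq_one_iff]
      change QuotientGroup.mk' D.C (g * h * g⁻¹ * h⁻¹) = 1
      have := comm_mem_phi (Subgroup.mem_map_of_mem (QuotientGroup.mk' D.C) hgH)
        (Subgroup.mem_map_of_mem (QuotientGroup.mk' D.C) hhH)
      rw [← hM, hbot, Subgroup.mem_bot] at this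
      simpa only [map_mul, map_inv] using this)
  rw [← hM] at h4
  rw [h1, one_mul] at e
  omega

theorem bound_three [Finite S] (h8 : Nat.card D.E = 8) (H : Subgroup S) :
    (Phi H).relIndex H ≤ 16 := by
  classical
  haveI := D.normal_C
  haveI : Fact (Nat.Prime 2) := ⟨Nat.prime_two⟩
  rw [relIndex_phi_split D.C H]
  set X := (Phi H ⊓ D.C).relIndex (H ⊓ D.C) with hXdef
  set Y := (Phi (H.map (QuotientGroup.mk' D.C))).relIndex (H.map (QuotientGroup.mk' D.C)) with hY
  have hX8 : X ≤ 8 := by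
    have hle : Phi (H ⊓ D.C) ≤ Phi H ⊓ D.C :=
      le_inf (phi_mono inf_le_left) ((phi_le_self _).trans inf_le_right)
    have h3 := Nat.le_of_dvd (Nat.pos_of_ne_zero Subgroup.index_ne_zero_of_finite)
      (Subgroup.relIndex_dvd_of_le_left (H ⊓ D.C) hle)
    exact h3.trans ((D.relIndex_phi_le_card inf_le_right).trans h8.le)
  have hA0 : Nat.card D.A0 ≤ 16 := by
    rcases D.card_AE with h | h | h
    · obtain ⟨a, ha, haE⟩ : ∃ a ∈ D.A, a ∉ D.E := by
        by_contra hcon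
        push Not at hcon
        rw [inf_eq_left.2 hcon, D.A_card] at h
        omega
      obtain ⟨z, b, hf⟩ := D.exists_frame h ha haE
      exact (hf.goodThree h8).card_A0_le h8
    · obtain ⟨a, ha, haE⟩ : ∃ a ∈ D.A, a ∉ D.E := by
        by_contra hcon
        push Not at hcon
        rw [inf_eq_left.2 hcon, D.A_card] at h
        omega
      exact (D.goodThree_of_four h ha haE).card_A0_le h8
    · have hEA := D.A_le_E_of_eight h
      have : D.A0 ≤ D.A := fun x hx => D.A_self x fun y hy =>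
        D.A0_comm x hx y (D.E_le (hEA ▸ hy))
      exact (Subgroup.card_le_of_le this).trans (by rw [D.A_card]; norm_num)
  obtain ⟨k, hk⟩ := (D.isP.to_subgroup D.A0).exists_card_eq
  have hcase : Nat.card D.A0 = 8 ∨ Nat.card D.A0 = 16 := by
    have hge := Subgroup.card_le_of_le D.E_le
    rw [h8, hk] at hge
    rw [hk] at hA0 ⊢
    have h1 : k ≤ 4 := (Nat.pow_le_pow_iff_right (le_refl 2)).1 (hA0.trans_eq (by norm_num))
    have h2 : 3 ≤ k := (Nat.pow_le_pow_iff_right (le_refl 2)).1 (le_trans (by norm_num) hge)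
    interval_cases k <;> norm_num
  rcases hcase with hA8 | hA16
  · have hA0E : D.A0 ≤ D.E := (Subgroup.eq_of_le_of_card_ge D.E_le (by omega)).ge
    have hCE := D.C_le_E hA0E
    have hY4 : Y ≤ 4 := D.small_quot_bound hA8 H
    by_cases hY1 : Y ≤ 1
    · exact (Nat.mul_le_mul hX8 hY1).trans (by norm_num)
    obtain ⟨h0, hh0, hh0C⟩ : ∃ h ∈ H, h ∉ D.C := by
      by_contra hcon
      push Not at hcon
      have := D.quot_relIndex_one hcon
      rw [← hY] at this
      omega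
    have hX4 : X ≤ 4 := by
      refine D.relIndex_le_of_fix (inf_le_right.trans hCE) hh0 ?_
      have hne : D.E ⊓ Subgroup.centralizer ({h0} : Set S) ≠ D.E := by
        intro heq
        refine hh0C (D.mem_C.2 fun y hy => ?_)
        have hy' : y ∈ D.E ⊓ Subgroup.centralizer ({h0} : Set S) := by rw [heq]; exact hA0E hy
        exact (Subgroup.mem_centralizer_singleton_iff.1 (Subgroup.mem_inf.1 hy').2).symm
      have h1 := relIndex_mul_card (inf_le_left : D.E ⊓ Subgroup.centralizer ({h0} : Set S) ≤ D.E)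
      rw [h8] at h1
      have h2 : Nat.card ↥(D.E ⊓ Subgroup.centralizer ({h0} : Set S)) ∣ 8 := ⟨_, h1.symm⟩
      have h3 : Nat.card ↥(D.E ⊓ Subgroup.centralizer ({h0} : Set S)) ≠ 8 := fun h' =>
        hne (Subgroup.eq_of_le_of_card_ge inf_le_left (by omega))
      have h4 := Nat.le_of_dvd (by norm_num) h2
      generalize Nat.card ↥(D.E ⊓ Subgroup.centralizer ({h0} : Set S)) = n at h2 h3 h4 ⊢
      interval_cases n <;> omega
    exact (Nat.mul_le_mul hX4 hY4).trans_eq (by norm_num)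
  obtain ⟨y0, c, ho⟩ := D.exists_one h8 hA16
  have hB : Nat.card ↥(D.A ⊓ D.E) = 2 ∨ Nat.card ↥(D.A ⊓ D.E) = 4 := by
    rcases D.card_AE with h | h | h
    · exact Or.inl h
    · exact Or.inr h
    · exfalso
      have hEA := D.A_le_E_of_eight h
      have : D.A0 ≤ D.A := fun x hx => D.A_self x fun y hy =>
        D.A0_comm x hx y (D.E_le (hEA ▸ hy))
      have := Subgroup.card_le_of_le this
      rw [D.A_card] at this
      omega
  have h4' : ∀ q : S ⧸ D.C, q ^ 4 = 1 := fun q => by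
    obtain ⟨g, rfl⟩ := QuotientGroup.mk'_surjective D.C q
    rw [← map_pow]
    exact (QuotientGroup.eq_one_iff _).2 (ho.pow_four h8 g)
  obtain ⟨a, ha, hcent, hnb, hz⟩ : ∃ a, a ∈ D.A ∧
      Nat.card (Subgroup.centralizer ({(QuotientGroup.mk' D.C a)} : Set (S ⧸ D.C))) ≤ 4 ∧
      ¬ D.Bad y0 a ∧
      ∀ h t : S, h ∉ D.C → a⁻¹ * h ∉ D.C → (∀ g : S, g⁻¹ * (h * g * h⁻¹) ∈ D.C) →
        h⁻¹ * (a * (t * a * t⁻¹)) ∈ D.C → D.Bad y0 h →
        t * t ∈ Subgroup.zpowers (c * c) → dlt h t ∈ Subgroup.zpowers (c * c) → False := by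
    rcases hB with h | h
    · obtain ⟨a, ha, h1, h2, h3⟩ := D.three_two ho h8 h
      exact ⟨a, ha, h1, h2, fun h t x1 x2 x3 _ x5 _ _ => h3 h x1 x2 x3 x5⟩
    · obtain ⟨a, ha, h1, h2, h3⟩ := D.three_four ho h8 h
      exact ⟨a, ha, h1, h2, fun h t x1 x2 x3 x4 x5 x6 x7 => h3 h t x1 x2 (x3 a) x4 x5 x6 x7⟩
  have hMX := mx (D.isP.to_quotient D.C) h4' (a := QuotientGroup.mk' D.C a)
    (by rw [← map_mul, D.A_sq a ha, map_one]) hcent (H.map (QuotientGroup.mk' D.C))
  have hdvd : Y ∣ Nat.card (S ⧸ D.C) :=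
    (Dvd.intro_left _ (relIndex_mul_card (phi_le_self _))).trans
      (Subgroup.card_subgroup_dvd_card _)
  obtain ⟨n, hn⟩ := (D.isP.to_quotient D.C).exists_card_eq
  obtain ⟨i, -, hi⟩ := (Nat.dvd_prime_pow Nat.prime_two).1 (hn ▸ hdvd)
  by_cases hX4 : X ≤ 4
  · exact (Nat.mul_le_mul hX4 hMX.1).trans_eq (by norm_num)
  by_cases hY2 : Y ≤ 2
  · exact (Nat.mul_le_mul hX8 hY2).trans_eq (by norm_num)
  exfalso
  have hY4 : 4 ≤ Y := by
    rw [hi] at hY2 ⊢
    have : 2 ≤ i := by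
      by_contra hcon
      push Not at hcon
      interval_cases i <;> simp at hY2
    exact (Nat.pow_le_pow_right (by norm_num) this).trans' (by norm_num)
  obtain ⟨hzp, hbad⟩ := D.bad_of_big ho h8 (H := H) (by omega)
  rcases hMX.2 hY4 with hmem | ⟨hsq, ζ, hζ, τ, hτ, hz1, hza, hzc, hτa⟩
  · obtain ⟨x, hx, hxa⟩ := hmem
    exact hnb (D.bad_congr (QuotientGroup.eq.1 hxa.symm) (hbad x hx))
  · obtain ⟨h, hh, rfl⟩ := hζ
    obtain ⟨t, ht, rfl⟩ := hτ
    have hhC : h ∉ D.C := fun h' => hz1 ((QuotientGroup.eq_one_iff h).2 h')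
    have hahC : a⁻¹ * h ∉ D.C := fun h' => hza (QuotientGroup.eq.2 h').symm
    have hcomm : ∀ g : S, g⁻¹ * (h * g * h⁻¹) ∈ D.C := fun g => by
      rw [← QuotientGroup.eq_one_iff]
      change QuotientGroup.mk' D.C (g⁻¹ * (h * g * h⁻¹)) = 1
      simp only [map_mul, map_inv]
      rw [← (hzc (QuotientGroup.mk' D.C g)).eq]; group
    have hlift : h⁻¹ * (a * (t * a * t⁻¹)) ∈ D.C := by
      rw [← QuotientGroup.eq_one_iff]
      change QuotientGroup.mk' D.C (h⁻¹ * (a * (t * a * t⁻¹))) = 1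
      simp only [map_mul, map_inv, hτa]
      rw [← mul_assoc (QuotientGroup.mk' D.C a), ← map_mul _ a a, D.A_sq a ha, map_one, one_mul]
      group
    have hsqC : t * t ∈ D.C := by
      rw [← QuotientGroup.eq_one_iff]
      change QuotientGroup.mk' D.C (t * t) = 1
      rw [map_mul]
      exact hsq _ (Subgroup.mem_map_of_mem _ ht)
    have hdC : dlt h t ∈ D.C := by
      rw [← QuotientGroup.eq_one_iff]
      change QuotientGroup.mk' D.C (h * t * h⁻¹ * t⁻¹) = 1
      simp only [map_mul, map_inv]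
      rw [← (hzc (QuotientGroup.mk' D.C t)).eq]; group
    exact hz h t hhC hahC hcomm hlift (hbad h hh) (hzp _ (sq_mem_phi ht) hsqC)
      (hzp _ (comm_mem_phi hh ht) hdC)

end Data

end CfsgLib.TwoFusion.SelfCent
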