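/-
Self-centralizing elementary abelian subgroups of order eight in 2-groups: for `|E| = 4`, an
abelian subgroup `T` carrying the action of `S` on `C / Phi C`.
-/
import Cfsg.Agent.Lib.TwoFusion.SelfCentThreeBound

set_option autoImplicit false

namespace CfsgLib.TwoFusion.SelfCent

variable {S : Type*} [Group S]

/-- `g` acts trivially on `N / Phi N`. -/
def Triv (N : Subgroup S) (g : S) : Prop := ∀ x ∈ N, dlt g x ∈ Phi N

/-- In a 2-group two elements moving a normal subgroup of order four differ by one fixing it. -/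
theorem four_action [Finite S] (hS : IsPGroup 2 S) {V : Subgroup S} [V.Normal]
    (hV : Nat.card V = 4) {g h : S} (hg : g ∉ Subgroup.centralizer (V : Set S))
    (hh : h ∉ Subgroup.centralizer (V : Set S)) : g⁻¹ * h ∈ Subgroup.centralizer (V : Set S) := by
  classical
  haveI : Fact (Nat.Prime 2) := ⟨Nat.prime_two⟩
  have hne : V ≠ ⊥ := fun h => by rw [h, Subgroup.card_bot] at hV; omega
  obtain ⟨z, hzV, hz1, hzZ⟩ := CfsgLib.TwoGroups.exists_mem_center_of_normal hS hne
  have hzc : ∀ g, Commute g z := fun g => Subgroup.mem_center_iff.1 hzZ g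
  rw [Subgroup.mem_centralizer_iff]
  intro x hx
  suffices h2 : g * x * g⁻¹ = h * x * h⁻¹ by
    calc x * (g⁻¹ * h) = g⁻¹ * (g * x * g⁻¹) * h := by group
      _ = g⁻¹ * (h * x * h⁻¹) * h := by rw [h2]
      _ = g⁻¹ * h * x := by group
  by_cases hx1 : x = 1
  · subst hx1; group
  by_cases hxz : x = z
  · subst hxz; rw [(hzc g).eq, (hzc h).eq]; group
  have hxz1 : x * z ≠ 1 := fun e => by
    have e1 : x = z⁻¹ := eq_inv_of_mul_eq_one_left e
    -- `z⁻¹ = z` unless the group is cyclic; compare orders
    have hzz : orderOf z ∣ 4 := hV ▸ Subgroup.orderOf_dvd_natCard V hzV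
    by_cases hz2 : z * z = 1
    · exact hxz (by rw [e1, inv_eq_of_mul_eq_one_right hz2])
    · apply hg
      rw [Subgroup.mem_centralizer_iff]
      intro y hy
      have hz4 : orderOf z = 4 := by
        have h1 : orderOf z ≠ 1 := fun h => hz1 (orderOf_eq_one_iff.1 h)
        have h2 : orderOf z ≠ 2 := fun h => hz2 (by
          rw [← pow_two, ← h]; exact pow_orderOf_eq_one z)
        have := Nat.le_of_dvd (by norm_num) hzz
        generalize orderOf z = n at hzz h1 h2 this ⊢
        interval_cases n <;> omega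
      have hle : Subgroup.zpowers z = V := Subgroup.eq_of_le_of_card_ge
        (Subgroup.zpowers_le.2 hzV) (by rw [Nat.card_zpowers, hz4, hV])
      obtain ⟨i, rfl⟩ := Subgroup.mem_zpowers_iff.1 (hle.ge hy)
      exact ((hzc g).zpow_right i).symm.eq
  have hcard4 : ∀ y ∈ V, y = 1 ∨ y = z ∨ y = x ∨ y = x * z := by
    intro y hy
    have hc : ({1, z, x, x * z} : Finset S).card = 4 := by
      have n2 : x * z ≠ x := fun e => hz1 (mul_eq_left.1 e)
      have n3 : x * z ≠ z := fun e => hx1 (mul_eq_right.1 e)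
      simp [hz1.symm, Ne.symm hx1, Ne.symm hxz, hxz1.symm, n2.symm, n3.symm]
    have hsub : (↑({1, z, x, x * z} : Finset S) : Set S) ⊆ ↑V := by
      intro t ht
      simp only [Finset.coe_insert, Finset.coe_singleton, Set.mem_insert_iff,
        Set.mem_singleton_iff] at ht
      rcases ht with rfl | rfl | rfl | rfl
      exacts [one_mem _, hzV, hx, mul_mem hx hzV]
    have heq := Set.eq_of_subset_of_ncard_le hsub (by
      rw [Set.ncard_coe_finset, hc, ← Nat.card_coe_set_eq]; exact hV.le) (Set.toFinite _)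
    have hy' : y ∈ (↑({1, z, x, x * z} : Finset S) : Set S) := by rw [heq]; exact hy
    simpa using hy'
  have key : ∀ k : S, k ∉ Subgroup.centralizer (V : Set S) → k * x * k⁻¹ = x * z := by
    intro k hk
    rcases hcard4 _ (‹V.Normal›.conj_mem x hx k) with e | e | e | e
    · exact absurd (conj_eq_one_iff.1 e) hx1
    · refine absurd ?_ hxz
      calc x = k⁻¹ * (k * x * k⁻¹) * k := by group
        _ = z := by rw [e, mul_assoc, ← (hzc k).eq, ← mul_assoc, inv_mul_cancel, one_mul]
    · refine absurd ?_ hk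
      rw [Subgroup.mem_centralizer_iff]
      intro y hy
      have hkx : Commute k x := mul_inv_eq_iff_eq_mul.1 e
      rcases hcard4 y hy with r | r | r | r <;> rw [r]
      exacts [(Commute.one_left k).eq, (hzc k).symm.eq, hkx.symm.eq,
        (hkx.mul_right (hzc k)).symm.eq]
    · exact e
  rw [key g hg, key h hh]

namespace Data

variable (D : Data S)

theorem relIndex_eq_four [Finite S] (h4 : Nat.card D.E = 4) {N : Subgroup S} (hA0 : D.A0 ≤ N)
    (hN : N ≤ D.C) : (Phi N).relIndex N = 4 := by
  classical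
  haveI : Fact (Nat.Prime 2) := ⟨Nat.prime_two⟩
  have hle : (Phi N).relIndex N ≤ 4 := h4 ▸ D.relIndex_phi_le_card hN
  have hdvd : (Phi N).relIndex N ∣ Nat.card S :=
    (Dvd.intro_left _ (relIndex_mul_card (phi_le_self N))).trans (Subgroup.card_subgroup_dvd_card _)
  obtain ⟨n, hn⟩ := D.isP.exists_card_eq
  obtain ⟨i, -, hi⟩ := (Nat.dvd_prime_pow Nat.prime_two).1 (hn ▸ hdvd)
  by_contra hne
  have hle2 : (Phi N).relIndex N ≤ 2 := by
    rw [hi] at hle hne ⊢
    have : i ≤ 2 := (Nat.pow_le_pow_iff_right (le_refl 2)).1 (hle.trans_eq (by norm_num))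
    interval_cases i <;> simp_all
  -- `N` would be cyclic
  obtain ⟨x, hx, hgen⟩ : ∃ x ∈ N, N ≤ Subgroup.zpowers x ⊔ Phi N := by
    by_cases hex : ∃ x ∈ N, x ∉ Phi N
    · obtain ⟨x, hx, hxP⟩ := hex
      refine ⟨x, hx, fun y hy => ?_⟩
      by_cases hyP : y ∈ Phi N
      · exact Subgroup.mem_sup_right hyP
      have hidx : ((Phi N).subgroupOf N).index = 2 := by
        have h1 : (Phi N).relIndex N ≠ 1 := fun h => hxP (Subgroup.relIndex_eq_one.1 h hx)
        have h0 : (Phi N).relIndex N ≠ 0 := Subgroup.index_ne_zero_of_finite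
        show (Phi N).relIndex N = 2
        omega
      have := Subgroup.mul_mem_iff_of_index_two hidx (a := ⟨x⁻¹, inv_mem hx⟩) (b := ⟨y, hy⟩)
      simp only [Subgroup.mem_subgroupOf, Subgroup.coe_mul] at this
      rw [show y = x * (x⁻¹ * y) by group]
      exact mul_mem (Subgroup.mem_sup_left (Subgroup.mem_zpowers x))
        (Subgroup.mem_sup_right (this.2 (iff_of_false
          (fun h => hxP ((Subgroup.inv_mem_iff _).1 h)) hyP)))
    · push Not at hex
      exact ⟨1, one_mem _, fun y hy => Subgroup.mem_sup_right (hex y hy)⟩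
  have hcyc := eq_of_sup_phi D.isP (Subgroup.zpowers_le.2 hx) hgen
  have hEle : D.E ≤ Subgroup.zpowers x := hcyc ▸ D.E_le.trans hA0
  have hsmall : (D.E : Set S) ⊆ {1} ∪ {t | orderOf t = 2 ∧ t ∈ Subgroup.zpowers x} := by
    intro t ht
    by_cases ht1 : t = 1
    · exact Or.inl ht1
    · exact Or.inr ⟨orderOf_eq_prime (by rw [pow_two]; exact D.E_sq ht) ht1, hEle ht⟩
  obtain ⟨p, hp, hp1⟩ : ∃ p ∈ D.E, p ≠ 1 := by
    by_contra hcon
    push Not at hcon
    have : D.E = ⊥ := (Subgroup.eq_bot_iff_forall _).2 hcon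
    rw [this, Subgroup.card_bot] at h4
    omega
  have hall : ∀ t ∈ D.E, t = 1 ∨ t = p := by
    intro t ht
    rcases hsmall ht with h | ⟨h2, hm⟩
    · exact Or.inl h
    right
    have := CfsgLib.TwoGroups.involution_unique (H := Subgroup.zpowers x)
      (a := ⟨t, hm⟩) (b := ⟨p, hEle hp⟩)
      (by rw [← Subgroup.orderOf_coe]; exact h2)
      (by rw [← Subgroup.orderOf_coe]; exact orderOf_eq_prime (by rw [pow_two]; exact D.E_sq hp) hp1)
    exact congrArg Subtype.val this
  have h1 := Set.ncard_le_ncard (s := (D.E : Set S)) (t := ↑({1, p} : Finset S))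
    (fun t ht => by simpa using hall t ht) (Finset.finite_toSet _)
  rw [Set.ncard_coe_finset, ← Nat.card_coe_set_eq] at h1
  have h2 : Nat.card D.E ≤ 2 := h1.trans Finset.card_le_two
  omega

theorem exists_sq [Finite S] (h4 : Nat.card D.E = 4) {N : Subgroup S} (hA0 : D.A0 ≤ N)
    (hN : N ≤ D.C) {p : S} (hp : p ∈ Phi N) : ∃ x ∈ N, x * x = p := by
  refine exists_sq_of_mem_phi (fun x hx y hy h => D.sq_ratio (hN hx) (hN hy) h) ?_ hp
  rw [D.relIndex_eq_four h4 hA0 hN, ← h4]
  exact Subgroup.card_le_of_le inf_le_right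

/-- An abelian normal subgroup carrying the action on `C / Phi C`. -/
theorem exists_T [Finite S] (h4 : Nat.card D.E = 4) (n : ℕ) : ∀ N : Subgroup S, N.Normal →
    Nat.card N ≤ n → D.A0 ≤ N → N ≤ D.C →
    ∃ T : Subgroup S, T.Normal ∧ D.A0 ≤ T ∧ T ≤ N ∧ ¬ D.A0 ≤ Phi T ∧
      (∀ x ∈ T, ∀ y ∈ T, Commute x y) ∧ ∀ g, Triv T g ↔ Triv N g := by
  induction n with
  | zero =>
    intro N _ hn _ _
    exact absurd hn (by have := Nat.card_pos (α := N); omega)
  | succ n ih =>
    intro N hNn hn hA0 hN
    haveI := hNn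
    have h4N := D.relIndex_eq_four h4 hA0 hN
    by_cases hstep : D.A0 ≤ Phi N
    · set P := Phi N with hP
      have hPN : P ≤ N := phi_le_self N
      have hlt : Nat.card P ≤ n := by
        have := relIndex_mul_card hPN
        rw [h4N] at this
        have := Nat.card_pos (α := P)
        omega
      obtain ⟨T, hTn, hT1, hT2, hT3, hT4, hT5⟩ := ih P inferInstance hlt hstep (hPN.trans hN)
      refine ⟨T, hTn, hT1, hT2.trans hPN, hT3, hT4, fun g => (hT5 g).trans ?_⟩
      haveI : P.Normal := inferInstance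
      let π := QuotientGroup.mk' (Phi P)
      have hπ : ∀ x y : S, π x = π y ↔ x⁻¹ * y ∈ Phi P := fun x y => QuotientGroup.eq
      have hV : Nat.card (P.map π) = 4 := by
        rw [← Subgroup.relIndex_ker, QuotientGroup.ker_mk']
        exact D.relIndex_eq_four h4 hstep (hPN.trans hN)
      haveI : (P.map π).Normal := Subgroup.Normal.map ‹P.Normal› _ (QuotientGroup.mk'_surjective _)
      have hsq : ∀ p ∈ P, ∃ x ∈ N, x * x = p := fun p hp => D.exists_sq h4 hA0 hN hp
      have hVsq : ∀ d ∈ P, π d * π d = 1 := fun d hd => by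
        rw [← map_mul]; exact (QuotientGroup.eq_one_iff _).2 (sq_mem_phi hd)
      have hVc : ∀ d ∈ P, ∀ e ∈ P, Commute (π d) (π e) := fun d hd e he => by
        refine mul_inv_eq_iff_eq_mul.1 (mul_inv_eq_one.1 ?_)
        rw [← map_inv π d, ← map_inv π e, ← map_mul, ← map_mul, ← map_mul]
        exact (QuotientGroup.eq_one_iff _).2 (comm_mem_phi hd he)
      -- `N` centralizes `P / Phi P`
      have hcen : ∀ x ∈ N, π x ∈ Subgroup.centralizer ((P.map π : Subgroup _) : Set (S ⧸ Phi P)) := by
        intro x hx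
        by_contra hxc
        apply hxc
        rw [Subgroup.mem_centralizer_iff]
        rintro _ ⟨d, hd, rfl⟩
        obtain ⟨s, hs, rfl⟩ := hsq d hd
        rw [map_mul]
        by_cases hsc : π s ∈ Subgroup.centralizer ((P.map π : Subgroup _) : Set (S ⧸ Phi P))
        · set w := s⁻¹ * x * s * x⁻¹ with hw
          have hwP : w ∈ P := by
            have := comm_mem_phi (inv_mem hs) hx
            rwa [inv_inv] at this
          have e : x * s * x⁻¹ = s * w := by rw [hw]; group
          have hsw : Commute (π w) (π s) :=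
            Subgroup.mem_centralizer_iff.1 hsc _ (Subgroup.mem_map_of_mem π hwP)
          refine (mul_inv_eq_iff_eq_mul.1 ?_).symm
          calc π x * (π s * π s) * (π x)⁻¹
              = (π x * π s * (π x)⁻¹) * (π x * π s * (π x)⁻¹) := by group
            _ = π (s * w) * π (s * w) := by rw [← e, map_mul, map_mul, map_inv]
            _ = (π s * π s) * (π w * π w) := by
              rw [map_mul, hsw.mul_mul_mul_comm]
            _ = π s * π s := by rw [hVsq w hwP, mul_one]
        · have hmem := four_action (D.isP.to_quotient (Phi P)) hV hsc hxc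
          have h1 : Commute (π s * π s) ((π s)⁻¹ * π x) :=
            Subgroup.mem_centralizer_iff.1 hmem _ (by
              rw [← map_mul]; exact Subgroup.mem_map_of_mem π (sq_mem_phi hs))
          have h2 : Commute (π s * π s) (π s) := (Commute.refl _).mul_left (Commute.refl _)
          have h3 := h2.mul_right h1
          rw [mul_inv_cancel_left] at h3
          exact h3.eq
      have hcoset : ∀ x ∈ N, ∀ y ∈ N, x⁻¹ * y ∈ P → π (x * x) = π (y * y) := by
        intro x hx y hy hxy
        set d := x⁻¹ * y with hd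
        have hy' : y = x * d := by rw [hd]; group
        have hdc : Commute (π d) (π x) :=
          Subgroup.mem_centralizer_iff.1 (hcen x hx) _ (Subgroup.mem_map_of_mem π hxy)
        rw [hy', map_mul, map_mul, map_mul, hdc.mul_mul_mul_comm, hVsq d hxy, mul_one]
      -- squaring is injective on `N / P`
      have hinj : ∀ x ∈ N, ∀ y ∈ N, π (x * x) = π (y * y) → x⁻¹ * y ∈ P := by
        have hex : ∀ q : P.map π, ∃ s ∈ N, π (s * s) = (q : S ⧸ Phi P) := by
          rintro ⟨_, d, hd, rfl⟩
          obtain ⟨s, hs, rfl⟩ := hsq d hd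
          exact ⟨s, hs, rfl⟩
        choose r hrN hr using hex
        let F : P.map π → N.map (QuotientGroup.mk' P) := fun q =>
          ⟨QuotientGroup.mk' P (r q), Subgroup.mem_map_of_mem _ (hrN q)⟩
        have hF : Function.Injective F := by
          intro p q hpq
          simp only [F, Subtype.mk.injEq] at hpq
          have := hcoset _ (hrN p) _ (hrN q) (QuotientGroup.eq.1 hpq)
          rw [hr, hr] at this
          exact Subtype.ext this
        have hbij : Function.Bijective F := by
          refine (Nat.bijective_iff_injective_and_card F).2 ⟨hF, ?_⟩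
          rw [hV, ← Subgroup.relIndex_ker, QuotientGroup.ker_mk', h4N]
        have hrep : ∀ x ∈ N, ∀ q : P.map π, π (x * x) = q → (r q)⁻¹ * x ∈ P := by
          intro x hx q hq
          obtain ⟨p, hp⟩ := hbij.2 ⟨QuotientGroup.mk' P x, Subgroup.mem_map_of_mem _ hx⟩
          simp only [F, Subtype.mk.injEq] at hp
          have h1 := hcoset _ (hrN p) x hx (QuotientGroup.eq.1 hp)
          rw [hr, hq] at h1
          have : p = q := Subtype.ext h1
          exact QuotientGroup.eq.1 (this ▸ hp)
        intro x hx y hy hxy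
        have h1 := hrep x hx ⟨_, Subgroup.mem_map_of_mem π (sq_mem_phi hx)⟩ rfl
        have h2 := hrep y hy ⟨_, Subgroup.mem_map_of_mem π (sq_mem_phi hx)⟩ hxy.symm
        set r0 := r ⟨_, Subgroup.mem_map_of_mem π (sq_mem_phi hx)⟩
        rw [show x⁻¹ * y = (r0⁻¹ * x)⁻¹ * (r0⁻¹ * y) by group]
        exact mul_mem (inv_mem h1) h2
      constructor
      · intro hg x hx
        have hgx : g * x * g⁻¹ ∈ N := hNn.conj_mem x hx g
        have h1 : π (x * x) = π ((g * x * g⁻¹) * (g * x * g⁻¹)) := by
          rw [show (g * x * g⁻¹) * (g * x * g⁻¹) = g * (x * x) * g⁻¹ by group, hπ]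
          have h2 := hg _ (sq_mem_phi hx)
          have := (inferInstance : (Phi P).Normal).conj_mem _ h2 (x * x)⁻¹
          rwa [dlt, show (x * x)⁻¹ * (g * (x * x) * g⁻¹ * (x * x)⁻¹) * (x * x)⁻¹⁻¹
            = (x * x)⁻¹ * (g * (x * x) * g⁻¹) by group] at this
        have h3 := (inferInstance : P.Normal).conj_mem _ (hinj x hx _ hgx h1) x
        rwa [show x * (x⁻¹ * (g * x * g⁻¹)) * x⁻¹ = dlt g x by rw [dlt]; group] at h3
      · intro hg p hp
        obtain ⟨x, hx, rfl⟩ := hsq p hp
        have hgx : g * x * g⁻¹ ∈ N := hNn.conj_mem x hx g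
        have h1 : x⁻¹ * (g * x * g⁻¹) ∈ P := by
          have := (inferInstance : P.Normal).conj_mem _ (hg x hx) x⁻¹
          rwa [dlt, show x⁻¹ * (g * x * g⁻¹ * x⁻¹) * x⁻¹⁻¹ = x⁻¹ * (g * x * g⁻¹) by group] at this
        have h2 := hcoset x hx _ hgx h1
        rw [show (g * x * g⁻¹) * (g * x * g⁻¹) = g * (x * x) * g⁻¹ by group] at h2
        refine (QuotientGroup.eq_one_iff _).1 ?_
        change π (g * (x * x) * g⁻¹ * (x * x)⁻¹) = 1
        rw [map_mul π (g * (x * x) * g⁻¹), ← h2, ← map_mul, mul_inv_cancel, map_one]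
    · obtain ⟨v, hv, hvP⟩ := SetLike.not_le_iff_exists.1 hstep
      have hvN := hA0 hv
      have hlt : ∃ x ∈ N, x ∉ Subgroup.zpowers v ⊔ Phi N := by
        by_contra hcon
        push Not at hcon
        have hcyc := eq_of_sup_phi D.isP (Subgroup.zpowers_le.2 hvN) hcon
        have h1 : Phi N = Subgroup.zpowers (v * v) := by
          refine le_antisymm (phi_le fun x hx => ?_) (Subgroup.zpowers_le.2 (sq_mem_phi hvN))
          rw [← hcyc] at hx
          obtain ⟨i, rfl⟩ := Subgroup.mem_zpowers_iff.1 hx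
          exact ⟨i, (Commute.refl v).mul_zpow i⟩
        have hcard := relIndex_mul_card (phi_le_self N)
        rw [h4N, h1] at hcard
        have hv4 : orderOf v ∣ 4 := orderOf_dvd_of_pow_eq_one (D.A0_four v hv)
        have h5 : Nat.card N ≤ 4 := by
          rw [← hcyc, Nat.card_zpowers]; exact Nat.le_of_dvd (by norm_num) hv4
        have h6 : 2 ≤ Nat.card ↥(Subgroup.zpowers (v * v)) := by
          rw [Nat.card_zpowers]
          have hne : v * v ≠ 1 := by
            intro hvv
            have : Nat.card N ≤ 2 := by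
              rw [← hcyc, Nat.card_zpowers]
              exact Nat.le_of_dvd (by norm_num) (orderOf_dvd_of_pow_eq_one (by rw [pow_two]; exact hvv))
            have := Nat.card_pos (α := Subgroup.zpowers (v * v))
            omega
          have h1 : orderOf (v * v) ≠ 1 := fun h => hne (orderOf_eq_one_iff.1 h)
          have h2 := orderOf_pos (v * v)
          omega
        omega
      obtain ⟨x, hx, hxv⟩ := hlt
      set B := Subgroup.zpowers v ⊔ Subgroup.zpowers x with hB
      have hBN : B ≤ N := sup_le (Subgroup.zpowers_le.2 hvN) (Subgroup.zpowers_le.2 hx)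
      have hfull : N ≤ B ⊔ Phi N := by
        have hm : Subgroup.zpowers v ⊔ Phi N ≤ N :=
          sup_le (Subgroup.zpowers_le.2 hvN) (phi_le_self N)
        have hm2 : B ⊔ Phi N ≤ N := sup_le hBN (phi_le_self N)
        have hle1 : Phi N ≤ Subgroup.zpowers v ⊔ Phi N := le_sup_right
        have hle2 : Subgroup.zpowers v ⊔ Phi N ≤ B ⊔ Phi N := sup_le_sup_right le_sup_left _
        have e1 := Subgroup.relIndex_mul_relIndex _ _ _ (hle1.trans hle2) hm2
        have e2 := Subgroup.relIndex_mul_relIndex _ _ _ hle1 hle2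
        have n1 : (Phi N).relIndex (Subgroup.zpowers v ⊔ Phi N) ≠ 1 := fun h =>
          hvP (Subgroup.relIndex_eq_one.1 h (Subgroup.mem_sup_left (Subgroup.mem_zpowers v)))
        have n2 : (Subgroup.zpowers v ⊔ Phi N).relIndex (B ⊔ Phi N) ≠ 1 := fun h =>
          hxv (Subgroup.relIndex_eq_one.1 h
            (Subgroup.mem_sup_left (Subgroup.mem_sup_right (Subgroup.mem_zpowers x))))
        have n10 : (Phi N).relIndex (Subgroup.zpowers v ⊔ Phi N) ≠ 0 :=
          Subgroup.index_ne_zero_of_finite
        have n20 : (Subgroup.zpowers v ⊔ Phi N).relIndex (B ⊔ Phi N) ≠ 0 :=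
          Subgroup.index_ne_zero_of_finite
        have n30 : (B ⊔ Phi N).relIndex N ≠ 0 := Subgroup.index_ne_zero_of_finite
        rw [h4N, ← e2] at e1
        refine Subgroup.relIndex_eq_one.1 ?_
        have h5 : 4 ≤ (Phi N).relIndex (Subgroup.zpowers v ⊔ Phi N)
            * (Subgroup.zpowers v ⊔ Phi N).relIndex (B ⊔ Phi N) :=
          Nat.mul_le_mul (show 2 ≤ _ by omega) (show 2 ≤ _ by omega)
        have h6 := Nat.mul_le_mul_right ((B ⊔ Phi N).relIndex N) h5
        omega
      have hgen := eq_of_sup_phi D.isP hBN hfull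
      have hcomm : ∀ p ∈ N, ∀ q ∈ N, Commute p q := by
        have hvx : Commute x v := D.mem_C.1 (hN hx) v hv
        have hcent : ∀ y : S, Commute y v → Commute y x → N ≤ Subgroup.centralizer ({y} : Set S) := by
          intro y h1 h2
          rw [← hgen]
          exact sup_le (Subgroup.zpowers_le.2 (Subgroup.mem_centralizer_singleton_iff.2 h1.symm.eq))
            (Subgroup.zpowers_le.2 (Subgroup.mem_centralizer_singleton_iff.2 h2.symm.eq))
        intro p hp q hq
        have hpv : Commute p v := D.mem_C.1 (hN hp) v hv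
        have hpx : Commute p x := Subgroup.mem_centralizer_singleton_iff.1
          (hcent x hvx (Commute.refl x) hp)
        exact (Subgroup.mem_centralizer_singleton_iff.1 (hcent p hpv hpx hq) : Commute q p).symm
      exact ⟨N, hNn, hA0, le_rfl, hstep, hcomm, fun g => Iff.rfl⟩

end Data

end CfsgLib.TwoFusion.SelfCent
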