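/-
Self-centralizing elementary abelian subgroups of order eight in 2-groups: `|E| = 4`, `|A0| = 16`;
the kernel of the action on `E` and its action on `T`.
-/
import Cfsg.Agent.Lib.TwoFusion.SelfCentLadder

set_option autoImplicit false

namespace CfsgLib.TwoFusion.SelfCent

variable {S : Type*} [Group S]

theorem dlt_mul {k x y : S} (h : Commute x (dlt k y)) : dlt k (x * y) = dlt k x * dlt k y := by
  calc dlt k (x * y) = (k * x * k⁻¹) * dlt k y * x⁻¹ := by simp only [dlt]; group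
    _ = (k * x * k⁻¹) * (x⁻¹ * (x * dlt k y)) * x⁻¹ := by group
    _ = (k * x * k⁻¹) * (x⁻¹ * (dlt k y * x)) * x⁻¹ := by rw [h.eq]
    _ = dlt k x * dlt k y := by simp only [dlt]; group

theorem sq_of_comm {T : Subgroup S} (hc : ∀ x ∈ T, ∀ y ∈ T, Commute x y) {p : S}
    (hp : p ∈ Phi T) : ∃ x ∈ T, x * x = p := by
  induction hp using Subgroup.closure_induction with
  | mem x hx => obtain ⟨y, hy, rfl⟩ := hx; exact ⟨y, hy, rfl⟩
  | one => exact ⟨1, one_mem _, one_mul 1⟩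
  | mul p q _ _ hp hq =>
    obtain ⟨x, hx, rfl⟩ := hp
    obtain ⟨y, hy, rfl⟩ := hq
    exact ⟨x * y, mul_mem hx hy, (hc y hy x hx).mul_mul_mul_comm _ _⟩
  | inv p _ hp =>
    obtain ⟨x, hx, rfl⟩ := hp
    exact ⟨x⁻¹, inv_mem hx, (mul_inv_rev x x).symm⟩

namespace Data

variable (D : Data S)

/-- The kernel of the action of `S` on `E`. -/
abbrev K : Subgroup S := Subgroup.centralizer (D.E : Set S)

theorem K_normal : D.K.Normal := by haveI := D.E_normal; infer_instance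

theorem mem_K {g : S} : g ∈ D.K ↔ ∀ e ∈ D.E, Commute g e :=
  ⟨fun h e he => (Subgroup.mem_centralizer_iff.1 h e he).symm,
    fun h => Subgroup.mem_centralizer_iff.2 fun e he => (h e he).symm.eq⟩

theorem C_le_K : D.C ≤ D.K := fun _ hx => D.mem_K.2 fun e he => D.mem_C.1 hx e (D.E_le he)

theorem conj_E_K {k e : S} (hk : k ∈ D.K) (he : e ∈ D.E) : k * e * k⁻¹ = e := by
  rw [(D.mem_K.1 hk e he).eq, mul_inv_cancel_right]

theorem dlt_E {k e : S} (hk : k ∈ D.K) (he : e ∈ D.E) : dlt k e = 1 := by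
  rw [dlt, D.conj_E_K hk he, mul_inv_cancel]

theorem dlt_K_mem {k x : S} (hk : k ∈ D.K) (hx : x ∈ D.A0) : dlt k x ∈ D.E := by
  have hkx := D.A0_normal.conj_mem x hx k
  refine (D.mem_E _).2 ⟨mul_mem hkx (inv_mem hx), ?_⟩
  rw [dlt, (D.A0_comm _ (inv_mem hx) _ hkx).mul_mul_mul_comm,
    show k * x * k⁻¹ * (k * x * k⁻¹) = k * (x * x) * k⁻¹ by group,
    D.conj_E_K hk (D.sq_mem_E hx), ← mul_inv_rev, mul_inv_cancel]

theorem dlt_K_mul_right {k x y : S} (hk : k ∈ D.K) (hx : x ∈ D.A0) (hy : y ∈ D.A0) :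
    dlt k (x * y) = dlt k x * dlt k y :=
  dlt_mul (D.A0_comm _ hx _ (D.E_le (D.dlt_K_mem hk hy)))

theorem dlt_K_mul_left {k l x : S} (hk : k ∈ D.K) (hl : l ∈ D.K) (hx : x ∈ D.A0) :
    dlt (k * l) x = dlt l x * dlt k x := by
  calc dlt (k * l) x = (k * dlt l x * k⁻¹) * dlt k x := by simp only [dlt]; group
    _ = dlt l x * dlt k x := by rw [D.conj_E_K hk (D.dlt_K_mem hl hx)]

theorem dlt_K_inv {k x : S} (hk : k ∈ D.K) (hx : x ∈ D.A0) : dlt k⁻¹ x = dlt k x := by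
  have h := D.dlt_K_mul_left hk (inv_mem hk) hx
  rw [mul_inv_cancel, show dlt (1 : S) x = 1 by simp [dlt]] at h
  rw [eq_inv_of_mul_eq_one_left h.symm, D.E_inv (D.dlt_K_mem hk hx)]

theorem mem_C_of_dlt {g : S} (h : ∀ x ∈ D.A0, dlt g x = 1) : g ∈ D.C :=
  D.mem_C.2 fun x hx => mul_inv_eq_iff_eq_mul.1 (mul_inv_eq_one.1 (h x hx))

theorem comm_K {k l : S} (hk : k ∈ D.K) (hl : l ∈ D.K) : k * l * k⁻¹ * l⁻¹ ∈ D.C := by
  refine D.mem_C_of_dlt fun x hx => ?_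
  have hki := inv_mem hk
  have hli := inv_mem hl
  rw [D.dlt_K_mul_left (mul_mem (mul_mem hk hl) hki) hli hx,
    D.dlt_K_mul_left (mul_mem hk hl) hki hx, D.dlt_K_mul_left hk hl hx, D.dlt_K_inv hk hx,
    D.dlt_K_inv hl hx]
  have he := D.dlt_K_mem hk hx
  have hf := D.dlt_K_mem hl hx
  rw [(D.E_comm hf he).eq, ← mul_assoc (dlt k x), D.E_sq he, one_mul, D.E_sq hf]

theorem sq_K {k : S} (hk : k ∈ D.K) : k * k ∈ D.C :=
  D.mem_C_of_dlt fun x hx => by
    rw [D.dlt_K_mul_left hk hk hx]; exact D.E_sq (D.dlt_K_mem hk hx)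

theorem quot_K [Finite S] (h4 : Nat.card D.E = 4) {g h : S} (hg : g ∉ D.K) (hh : h ∉ D.K) :
    g⁻¹ * h ∈ D.K := by
  haveI := D.E_normal
  exact four_action D.isP h4 hg hh

theorem E_cases [Finite S] (h4 : Nat.card D.E = 4) {p r : S} (hp : p ∈ D.E) (hr : r ∈ D.E)
    (hp1 : p ≠ 1) (hr1 : r ≠ 1) (hpr : p ≠ r) {e : S} (he : e ∈ D.E) :
    e = 1 ∨ e = p ∨ e = r ∨ e = p * r := by
  classical
  have hsub : (↑({1, p, r, p * r} : Finset S) : Set S) ⊆ ↑D.E := by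
    intro t ht
    simp only [Finset.coe_insert, Finset.coe_singleton, Set.mem_insert_iff,
      Set.mem_singleton_iff] at ht
    rcases ht with rfl | rfl | rfl | rfl
    exacts [one_mem _, hp, hr, mul_mem hp hr]
  have n1 : p * r ≠ 1 := fun h => hpr (by rw [mul_eq_one_iff_eq_inv.1 h, D.E_inv hr])
  have n2 : p * r ≠ p := fun h => hr1 (mul_eq_left.1 h)
  have n3 : p * r ≠ r := fun h => hp1 (mul_eq_right.1 h)
  have hc : ({1, p, r, p * r} : Finset S).card = 4 := by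
    simp [hp1.symm, hr1.symm, hpr, n1.symm, n2.symm, n3.symm, hp1, hr1]
  have heq := Set.eq_of_subset_of_ncard_le hsub (by
    rw [Set.ncard_coe_finset, hc, ← Nat.card_coe_set_eq]; exact h4.le) (Set.toFinite _)
  have he' : e ∈ (↑({1, p, r, p * r} : Finset S) : Set S) := by rw [heq]; exact he
  simpa using he'

theorem exists_root [Finite S] (h4 : Nat.card D.E = 4) (h16 : Nat.card D.A0 = 16) {e : S}
    (he : e ∈ D.E) : ∃ x ∈ D.A0, x * x = e := by
  let f : D.A0 →* S := MonoidHom.mk' (fun x => (x : S) * x) fun x y => by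
    show (x : S) * y * (x * y) = x * x * (y * y)
    exact (D.A0_comm _ y.2 _ x.2).mul_mul_mul_comm _ _
  have hker : Nat.card f.ker ≤ 4 := by
    rw [← h4]
    refine Nat.card_le_card_of_injective (fun x : f.ker => (⟨((x : D.A0) : S),
      (D.mem_E _).2 ⟨(x : D.A0).2, x.2⟩⟩ : D.E)) fun p q h => ?_
    simp only [Subtype.mk.injEq] at h
    exact Subtype.ext (Subtype.ext h)
  have hle : f.range ≤ D.E := by rintro _ ⟨x, rfl⟩; exact D.sq_mem_E x.2
  have h1 := f.ker.card_mul_index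
  rw [Subgroup.index_ker, h16] at h1
  have h2 := Nat.mul_le_mul_right (Nat.card f.range) hker
  have heq : f.range = D.E := Subgroup.eq_of_le_of_card_ge hle (by omega)
  have : e ∈ f.range := heq ▸ he
  obtain ⟨x, rfl⟩ := this
  exact ⟨x, x.2, rfl⟩

/-- An element of `K` fixing square roots of two distinct involutions of `E` lies in `C`. -/
theorem mem_C_of_two [Finite S] (h4 : Nat.card D.E = 4) {m v w : S} (hm : m ∈ D.K) (hv : v ∈ D.A0)
    (hw : w ∈ D.A0) (hv1 : v * v ≠ 1) (hw1 : w * w ≠ 1) (hvw : v * v ≠ w * w)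
    (h1 : dlt m v = 1) (h2 : dlt m w = 1) : m ∈ D.C := by
  refine D.mem_C_of_dlt fun x hx => ?_
  have key : ∀ b ∈ D.A0, x * x = b * b → dlt m b = 1 → dlt m x = 1 := by
    intro b hb hsq hbm
    have he : x * b⁻¹ ∈ D.E := D.sq_ratio (D.A0_le_C hx) (D.A0_le_C hb) hsq
    rw [show x = (x * b⁻¹) * b by group, D.dlt_K_mul_right hm (D.E_le he) hb, D.dlt_E hm he, hbm,
      one_mul]
  rcases D.E_cases h4 (D.sq_mem_E hv) (D.sq_mem_E hw) hv1 hw1 hvw (D.sq_mem_E hx) with h | h | h | h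
  · exact key 1 (one_mem _) (by rw [h, one_mul]) (by simp [dlt])
  · exact key v hv h h1
  · exact key w hw h h2
  · refine key (v * w) (mul_mem hv hw) ?_ ?_
    · rw [h, (D.A0_comm _ hw _ hv).mul_mul_mul_comm]
    · rw [D.dlt_K_mul_right hm hv hw, h1, h2, one_mul]

/-- Elements commuting with `t` modulo `C` act on `A0` compatibly with `t`. -/
theorem dlt_conj {k t x : S} (hkt : dlt t k ∈ D.C) (hx : x ∈ D.A0) :
    dlt k (t * x * t⁻¹) = t * dlt k x * t⁻¹ := by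
  haveI := D.normal_C
  have htx := D.A0_normal.conj_mem x hx t
  have hy : k * (t * x * t⁻¹) * k⁻¹ ∈ D.A0 := D.A0_normal.conj_mem _ htx k
  have hcy := D.mem_C.1 hkt _ hy
  calc dlt k (t * x * t⁻¹)
      = (dlt t k * (k * (t * x * t⁻¹) * k⁻¹) * (dlt t k)⁻¹) * (t * x * t⁻¹)⁻¹ := by
        rw [hcy.eq, mul_inv_cancel_right, dlt]
    _ = t * dlt k x * t⁻¹ := by simp only [dlt]; group

/-- At most four classes of elements of `K` commute with a given `t ∉ K` modulo `C`. -/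
theorem fix_classes [Finite S] (h4 : Nat.card D.E = 4) (h16 : Nat.card D.A0 = 16) {t : S}
    (ht : t ∉ D.K) :
    ∃ v ∈ D.A0, ∀ k l : S, k ∈ D.K → l ∈ D.K → dlt t k ∈ D.C → dlt t l ∈ D.C →
      dlt k v = dlt l v → k⁻¹ * l ∈ D.C := by
  haveI := D.normal_C
  obtain ⟨e, he, hne⟩ : ∃ e ∈ D.E, t * e * t⁻¹ ≠ e := by
    by_contra hcon
    push Not at hcon
    exact ht (D.mem_K.2 fun e he => mul_inv_eq_iff_eq_mul.1 (hcon e he))
  obtain ⟨v, hv, rfl⟩ := D.exists_root h4 h16 he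
  refine ⟨v, hv, fun k l hk hl hkt hlt hv' => ?_⟩
  have hm : k⁻¹ * l ∈ D.K := mul_mem (inv_mem hk) hl
  have h1 : dlt (k⁻¹ * l) v = 1 := by
    rw [D.dlt_K_mul_left (inv_mem hk) hl hv, D.dlt_K_inv hk hv, hv', D.E_sq (D.dlt_K_mem hl hv)]
  have hmt : dlt t (k⁻¹ * l) ∈ D.C := by
    rw [← QuotientGroup.eq_one_iff] at hkt hlt ⊢
    change QuotientGroup.mk' D.C (dlt t k) = 1 at hkt
    change QuotientGroup.mk' D.C (dlt t l) = 1 at hlt
    change QuotientGroup.mk' D.C (dlt t (k⁻¹ * l)) = 1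
    simp only [dlt, map_mul, map_inv, mul_inv_eq_one, mul_inv_eq_iff_eq_mul, one_mul] at hkt hlt ⊢
    rw [← mul_assoc,
      show ((QuotientGroup.mk' D.C) t) * ((QuotientGroup.mk' D.C) k)⁻¹
        = ((QuotientGroup.mk' D.C) k)⁻¹ * (QuotientGroup.mk' D.C) t from
        ((show Commute _ _ from hkt).inv_right).eq, mul_assoc, hlt, mul_assoc]
  have hne1 : v * v ≠ 1 := fun h => hne (by rw [h]; group)
  have hsq : t * v * t⁻¹ * (t * v * t⁻¹) = t * (v * v) * t⁻¹ := by group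
  refine D.mem_C_of_two h4 hm hv (D.A0_normal.conj_mem v hv t) hne1 ?_ ?_ h1 ?_
  · rw [hsq]; exact fun h => hne1 (conj_eq_one_iff.1 h)
  · rw [hsq]; exact fun h => hne h.symm
  · rw [D.dlt_conj hmt hv, h1]; group

/-- The data describing `T` when it is larger than `A0`. -/
structure NH (D : Data S) (T : Subgroup S) (u v : S) (n : ℕ) : Prop where
  normal : T.Normal
  A0le : D.A0 ≤ T
  Tle : T ≤ D.C
  comm : ∀ x ∈ T, ∀ y ∈ T, Commute x y
  uT : u ∈ T
  vA0 : v ∈ D.A0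
  unot : u ∉ D.A0 ⊔ Phi T
  vnot : v ∉ Phi T
  gen : ∀ x ∈ T, ∃ i j : ℤ, x = u ^ i * v ^ j
  npos : 1 ≤ n
  Umem : u ^ 2 ^ n ∈ D.A0
  UnotE : u ^ 2 ^ n ∉ D.E

theorem exists_NH [Finite S] (h4 : Nat.card D.E = 4) {T : Subgroup S} (hTn : T.Normal)
    (hA0 : D.A0 ≤ T) (hT : T ≤ D.C) (hnot : ¬ D.A0 ≤ Phi T)
    (hc : ∀ x ∈ T, ∀ y ∈ T, Commute x y) :
    T = D.A0 ∨ ∃ u v n, NH D T u v n := by
  by_cases hR : T ≤ D.A0 ⊔ Phi T
  · exact Or.inl (eq_of_sup_phi D.isP hA0 hR).symm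
  right
  obtain ⟨u, huT, hu⟩ := SetLike.not_le_iff_exists.1 hR
  obtain ⟨v, hv, hvP⟩ := SetLike.not_le_iff_exists.1 hnot
  set B := Subgroup.zpowers v ⊔ Subgroup.zpowers u with hB
  have hBT : B ≤ T := sup_le (Subgroup.zpowers_le.2 (hA0 hv)) (Subgroup.zpowers_le.2 huT)
  have hfull : T ≤ B ⊔ Phi T := by
    have hle1 : Phi T ≤ Subgroup.zpowers v ⊔ Phi T := le_sup_right
    have hle2 : Subgroup.zpowers v ⊔ Phi T ≤ B ⊔ Phi T := sup_le_sup_right le_sup_left _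
    have hm2 : B ⊔ Phi T ≤ T := sup_le hBT (phi_le_self T)
    have e1 := Subgroup.relIndex_mul_relIndex _ _ _ (hle1.trans hle2) hm2
    have e2 := Subgroup.relIndex_mul_relIndex _ _ _ hle1 hle2
    have n1 : (Phi T).relIndex (Subgroup.zpowers v ⊔ Phi T) ≠ 1 := fun h =>
      hvP (Subgroup.relIndex_eq_one.1 h (Subgroup.mem_sup_left (Subgroup.mem_zpowers v)))
    have n2 : (Subgroup.zpowers v ⊔ Phi T).relIndex (B ⊔ Phi T) ≠ 1 := fun h => by
      have hle : Subgroup.zpowers v ⊔ Phi T ≤ D.A0 ⊔ Phi T :=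
        sup_le_sup_right (Subgroup.zpowers_le.2 hv) _
      exact hu (hle (Subgroup.relIndex_eq_one.1 h
        (Subgroup.mem_sup_left (Subgroup.mem_sup_right (Subgroup.mem_zpowers u)))))
    have n10 : (Phi T).relIndex (Subgroup.zpowers v ⊔ Phi T) ≠ 0 :=
      Subgroup.index_ne_zero_of_finite
    have n20 : (Subgroup.zpowers v ⊔ Phi T).relIndex (B ⊔ Phi T) ≠ 0 :=
      Subgroup.index_ne_zero_of_finite
    have n30 : (B ⊔ Phi T).relIndex T ≠ 0 := Subgroup.index_ne_zero_of_finite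
    rw [D.relIndex_eq_four h4 hA0 hT, ← e2] at e1
    refine Subgroup.relIndex_eq_one.1 ?_
    have h5 : 4 ≤ (Phi T).relIndex (Subgroup.zpowers v ⊔ Phi T)
        * (Subgroup.zpowers v ⊔ Phi T).relIndex (B ⊔ Phi T) :=
      Nat.mul_le_mul (show 2 ≤ _ by omega) (show 2 ≤ _ by omega)
    have h6 := Nat.mul_le_mul_right ((B ⊔ Phi T).relIndex T) h5
    omega
  have hgen := eq_of_sup_phi D.isP hBT hfull
  have hgen' : ∀ x ∈ T, ∃ i j : ℤ, x = u ^ i * v ^ j := by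
    intro x hx
    let G : Subgroup S :=
      { carrier := {x | ∃ i j : ℤ, x = u ^ i * v ^ j}
        one_mem' := ⟨0, 0, by simp⟩
        mul_mem' := by
          rintro _ _ ⟨i, j, rfl⟩ ⟨k, l, rfl⟩
          exact ⟨i + k, j + l, by
            rw [(hc _ (zpow_mem (hA0 hv) j) _ (zpow_mem huT k)).mul_mul_mul_comm, zpow_add,
              zpow_add]⟩
        inv_mem' := by
          rintro _ ⟨i, j, rfl⟩
          exact ⟨-i, -j, by
            rw [mul_inv_rev, zpow_neg, zpow_neg,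
              (hc _ (inv_mem (zpow_mem (hA0 hv) j)) _ (inv_mem (zpow_mem huT i))).eq]⟩ }
    have hle : B ≤ G := sup_le (Subgroup.zpowers_le.2 ⟨0, 1, by simp⟩)
      (Subgroup.zpowers_le.2 ⟨1, 0, by simp⟩)
    exact hle (hgen.symm ▸ hx : x ∈ B)
  have huA : u ∉ D.A0 := fun h => hu (Subgroup.mem_sup_left h)
  classical
  obtain ⟨k, hk⟩ := D.isP u
  have hex : ∃ n, u ^ 2 ^ n ∈ D.A0 := ⟨k, by rw [hk]; exact one_mem _⟩
  refine ⟨u, v, Nat.find hex, hTn, hA0, hT, hc, huT, hv, hu, hvP, hgen', ?_, Nat.find_spec hex, ?_⟩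
  · refine Nat.one_le_iff_ne_zero.2 fun h => huA ?_
    have := Nat.find_spec hex
    rwa [h, pow_zero, pow_one] at this
  · intro hE
    obtain ⟨m, hm⟩ := Nat.exists_eq_add_of_le' (Nat.one_le_iff_ne_zero.2 fun h => huA (by
      have := Nat.find_spec hex
      rwa [h, pow_zero, pow_one] at this : u ∈ D.A0) : 1 ≤ Nat.find hex)
    refine Nat.find_min hex (show m < Nat.find hex by omega) (D.C_four (pow_mem (hT huT) _) ?_)
    rw [← pow_mul, show 2 ^ m * 4 = 2 ^ (m + 1) * 2 by ring, ← hm, pow_mul, pow_two]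
    exact D.E_sq hE

namespace NH

variable {D} {T : Subgroup S} {u v : S} {n : ℕ} (hn : NH D T u v n)
include hn

theorem vT : v ∈ T := hn.A0le hn.vA0

theorem v_notE [Finite S] (h4 : Nat.card D.E = 4) (h16 : Nat.card D.A0 = 16) : v ∉ D.E := fun h => by
  obtain ⟨x, hx, rfl⟩ := D.exists_root h4 h16 h
  exact hn.vnot (sq_mem_phi (hn.A0le hx))

theorem E_le_phi [Finite S] (h4 : Nat.card D.E = 4) (h16 : Nat.card D.A0 = 16) : D.E ≤ Phi T :=
  fun e he => by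
    obtain ⟨x, hx, rfl⟩ := D.exists_root h4 h16 he
    exact sq_mem_phi (hn.A0le hx)

theorem upow_phi {i : ℤ} (hi : Even i) : u ^ i ∈ Phi T := by
  obtain ⟨a, rfl⟩ := hi
  rw [zpow_add]
  exact sq_mem_phi (zpow_mem hn.uT a)

theorem U_phi : u ^ 2 ^ n ∈ Phi T := by
  obtain ⟨m, rfl⟩ := Nat.exists_eq_add_of_le' hn.npos
  rw [pow_succ, mul_two, pow_add]
  exact sq_mem_phi (pow_mem hn.uT _)

theorem even_u {i j : ℤ} (h : u ^ i * v ^ j ∈ D.A0 ⊔ Phi T) : Even i := by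
  by_contra hi
  rw [Int.not_even_iff_odd] at hi
  obtain ⟨a, rfl⟩ := hi
  refine hn.unot ?_
  have hv : v ^ j ∈ D.A0 ⊔ Phi T := Subgroup.mem_sup_left (zpow_mem hn.vA0 j)
  have h2 : u ^ (2 * a) ∈ D.A0 ⊔ Phi T := Subgroup.mem_sup_right (hn.upow_phi ⟨a, two_mul a⟩)
  have h3 : u ^ (2 * a + 1) ∈ D.A0 ⊔ Phi T := by
    have := mul_mem h (inv_mem hv)
    rwa [mul_inv_cancel_right] at this
  have := mul_mem (inv_mem h2) h3
  rwa [← zpow_neg, ← zpow_add, show -(2 * a) + (2 * a + 1) = (1 : ℤ) by ring, zpow_one] at this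

theorem even_v {i j : ℤ} (hi : Even i) (h : u ^ i * v ^ j ∈ Phi T) : Even j := by
  by_contra hj
  rw [Int.not_even_iff_odd] at hj
  obtain ⟨a, rfl⟩ := hj
  refine hn.vnot ?_
  have h1 : v ^ (2 * a + 1) ∈ Phi T := by
    have := mul_mem (inv_mem (hn.upow_phi hi)) h
    rwa [inv_mul_cancel_left] at this
  have h2 : v ^ (2 * a) ∈ Phi T := by rw [two_mul, zpow_add]; exact sq_mem_phi (zpow_mem hn.vT a)
  have := mul_mem (inv_mem h2) h1
  rwa [← zpow_neg, ← zpow_add, show -(2 * a) + (2 * a + 1) = (1 : ℤ) by ring, zpow_one] at this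

theorem vpow_E {j : ℤ} (hj : Even j) : v ^ j ∈ D.E := by
  obtain ⟨a, rfl⟩ := hj
  rw [zpow_add]
  exact D.sq_mem_E (zpow_mem hn.vA0 a)

theorem A0_phi [Finite S] {x : S} (hx : x ∈ D.A0) (hxP : x ∈ Phi T) :
    x ∈ D.E ∨ (u ^ 2 ^ n)⁻¹ * x ∈ D.E := by
  obtain ⟨i, j, rfl⟩ := hn.gen x (hn.A0le hx)
  have hi : Even i := hn.even_u (Subgroup.mem_sup_right hxP)
  have hvE := hn.vpow_E (hn.even_v hi hxP)
  have hui : u ^ i ∈ D.A0 := by
    have := mul_mem hx (inv_mem (D.E_le hvE))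
    rwa [mul_inv_cancel_right] at this
  have hU : orderOf (u ^ 2 ^ n) = 4 := by
    have hd : orderOf (u ^ 2 ^ n) ∣ 4 := orderOf_dvd_of_pow_eq_one (D.A0_four _ hn.Umem)
    have hne : ¬ orderOf (u ^ 2 ^ n) ∣ 2 := fun h => hn.UnotE ((D.mem_E _).2
      ⟨hn.Umem, by rw [← pow_two]; exact orderOf_dvd_iff_pow_eq_one.1 h⟩)
    have h5 := Nat.le_of_dvd (by norm_num) hd
    generalize orderOf (u ^ 2 ^ n) = m at hd hne h5 ⊢
    interval_cases m <;> omega
  have hord : orderOf u = 2 ^ n * 4 := by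
    have h1 : orderOf u ∣ 2 ^ n * 4 :=
      orderOf_dvd_of_pow_eq_one (by rw [pow_mul]; exact D.A0_four _ hn.Umem)
    obtain ⟨m, hm, he⟩ := (Nat.dvd_prime_pow Nat.prime_two).1
      (show orderOf u ∣ 2 ^ (n + 2) by rwa [pow_add])
    by_contra hne
    have hlt : m ≤ n + 1 := by
      by_contra h'
      push Not at h'
      exact hne (by rw [he, show m = n + 2 by omega, pow_add]; norm_num)
    refine hn.UnotE ((D.mem_E _).2 ⟨hn.Umem, ?_⟩)
    rw [← pow_add, ← two_mul, ← pow_succ', ← orderOf_dvd_iff_pow_eq_one, he]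
    exact Nat.pow_dvd_pow 2 hlt
  have hdiv : ((2 ^ n : ℕ) : ℤ) ∣ i := by
    have h4 : (u ^ i) ^ (4 : ℕ) = 1 := D.A0_four _ hui
    have h6 : (orderOf u : ℤ) ∣ i * 4 := by
      rw [orderOf_dvd_iff_zpow_eq_one, zpow_mul, ← h4]
      exact zpow_natCast _ 4
    rw [hord, Nat.cast_mul] at h6
    exact Int.dvd_of_mul_dvd_mul_right (by norm_num) h6
  obtain ⟨k, hk⟩ := hdiv
  have hup : u ^ i = (u ^ 2 ^ n) ^ k := by rw [hk, zpow_mul, zpow_natCast]
  rw [hup]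
  have hUU := D.sq_mem_E hn.Umem
  rcases Int.even_or_odd k with ⟨a, rfl⟩ | ⟨a, rfl⟩
  · left
    refine mul_mem ?_ hvE
    rw [zpow_add, ← (Commute.refl (u ^ 2 ^ n)).mul_zpow]
    exact zpow_mem hUU a
  · right
    rw [show (u ^ 2 ^ n)⁻¹ * ((u ^ 2 ^ n) ^ (2 * a + 1) * v ^ j)
      = (u ^ 2 ^ n * u ^ 2 ^ n) ^ a * v ^ j by
      rw [(Commute.refl (u ^ 2 ^ n)).mul_zpow, zpow_add, zpow_one, two_mul, zpow_add]; group]
    exact mul_mem (zpow_mem hUU a) hvE

theorem conj_U [Finite S] (g : S) :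
    (u ^ 2 ^ n)⁻¹ * (g * u ^ 2 ^ n * g⁻¹) ∈ D.E := by
  haveI := hn.normal
  have h1 : g * u ^ 2 ^ n * g⁻¹ ∈ D.A0 := D.A0_normal.conj_mem _ hn.Umem g
  have h2 : g * u ^ 2 ^ n * g⁻¹ ∈ Phi T := (phi_normal T).conj_mem _ hn.U_phi g
  refine (hn.A0_phi h1 h2).resolve_left fun h => hn.UnotE ?_
  have := D.E_normal.conj_mem _ h g⁻¹
  rwa [show g⁻¹ * (g * u ^ 2 ^ n * g⁻¹) * g⁻¹⁻¹ = u ^ 2 ^ n by group] at this

theorem q_ne : u ^ 2 ^ n * u ^ 2 ^ n ≠ 1 := fun h => hn.UnotE ((D.mem_E _).2 ⟨hn.Umem, h⟩)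

theorem q_central [Finite S] (g : S) : Commute g (u ^ 2 ^ n * u ^ 2 ^ n) := by
  have he := hn.conj_U g
  refine mul_inv_eq_iff_eq_mul.1 ?_
  set U := u ^ 2 ^ n with hU
  calc g * (U * U) * g⁻¹ = (U * (U⁻¹ * (g * U * g⁻¹))) * (U * (U⁻¹ * (g * U * g⁻¹))) := by group
    _ = (U * U) * ((U⁻¹ * (g * U * g⁻¹)) * (U⁻¹ * (g * U * g⁻¹))) :=
      (D.A0_comm _ (D.E_le he) _ hn.Umem).mul_mul_mul_comm _ _
    _ = U * U := by rw [D.E_sq he, mul_one]

theorem phi_phi_E [Finite S] {e : S} (he : e ∈ D.E) (heP : e ∈ Phi (Phi T)) :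
    e = 1 ∨ e = u ^ 2 ^ n * u ^ 2 ^ n := by
  obtain ⟨y, hy, rfl⟩ := sq_of_comm (T := Phi T)
    (fun a ha b hb => hn.comm _ (phi_le_self T ha) _ (phi_le_self T hb)) heP
  have hyA : y ∈ D.A0 := D.C_four (hn.Tle (phi_le_self T hy)) (by
    rw [show y ^ 4 = (y * y) * (y * y) by rw [pow_succ, pow_succ, pow_succ, pow_one]; group,
      D.E_sq he])
  rcases hn.A0_phi hyA hy with h | h
  · exact Or.inl (D.E_sq h)
  · right
    have e' : y = u ^ 2 ^ n * ((u ^ 2 ^ n)⁻¹ * y) := by group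
    rw [e', (D.A0_comm _ (D.E_le h) _ hn.Umem).mul_mul_mul_comm, D.E_sq h, mul_one]

theorem f_ne [Finite S] (h4 : Nat.card D.E = 4) (h16 : Nat.card D.A0 = 16) :
    v * v ≠ 1 ∧ v * v ≠ u ^ 2 ^ n * u ^ 2 ^ n := by
  refine ⟨fun h => hn.v_notE h4 h16 ((D.mem_E v).2 ⟨hn.vA0, h⟩), fun h => hn.vnot ?_⟩
  have he := D.sq_ratio (hn.Tle hn.vT) (D.A0_le_C hn.Umem) h
  rw [show v = v * (u ^ 2 ^ n)⁻¹ * u ^ 2 ^ n by group]
  exact mul_mem (hn.E_le_phi h4 h16 he) hn.U_phi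

theorem dlt_u [Finite S] (g : S) : ∃ i j : ℤ, dlt g u = u ^ i * v ^ j ∧ Even i := by
  haveI := hn.normal
  haveI := D.A0_normal
  have hgu : g * u * g⁻¹ ∈ T := hn.normal.conj_mem u hn.uT g
  obtain ⟨i, j, hij⟩ := hn.gen (dlt g u) (mul_mem hgu (inv_mem hn.uT))
  refine ⟨i, j, hij, ?_⟩
  by_contra hi
  rw [Int.not_even_iff_odd] at hi
  have hR : (D.A0 ⊔ Phi T).Normal := Subgroup.sup_normal _ _
  refine hn.unot ?_
  have h1 : g * u * g⁻¹ = u ^ (i + 1) * v ^ j := by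
    rw [show g * u * g⁻¹ = dlt g u * u by simp only [dlt]; group, hij, zpow_add, zpow_one,
      mul_assoc, (hn.comm _ (zpow_mem hn.vT j) _ hn.uT).eq, ← mul_assoc]
  have h2 : u ^ (i + 1) * v ^ j ∈ D.A0 ⊔ Phi T :=
    mul_mem (Subgroup.mem_sup_right (hn.upow_phi hi.add_one)) (Subgroup.mem_sup_left (zpow_mem hn.vA0 j))
  rw [← h1] at h2
  have := hR.conj_mem _ h2 g⁻¹
  rwa [show g⁻¹ * (g * u * g⁻¹) * g⁻¹⁻¹ = u by group] at this

theorem dlt_T_mul {k x y : S} (hx : x ∈ T) (hy : y ∈ T) :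
    dlt k (x * y) = dlt k x * dlt k y :=
  dlt_mul (hn.comm _ hx _ (mul_mem (hn.normal.conj_mem y hy k) (inv_mem hy)))

theorem dlt_T_zpow {k x : S} (hx : x ∈ T) (i : ℤ) : dlt k (x ^ i) = (dlt k x) ^ i := by
  have hc : Commute (k * x * k⁻¹) x⁻¹ := hn.comm _ (hn.normal.conj_mem x hx k) _ (inv_mem hx)
  simp only [dlt]
  rw [hc.mul_zpow, inv_zpow, ← MulAut.conj_apply, map_zpow, MulAut.conj_apply]

theorem triv_iff [Finite S] (h4 : Nat.card D.E = 4) (h16 : Nat.card D.A0 = 16) {k : S}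
    (hk : k ∈ D.K) {i j : ℤ} (hs : dlt k u = u ^ i * v ^ j) (hi : Even i) :
    Triv T k ↔ Even j := by
  haveI := hn.normal
  refine ⟨fun h => hn.even_v hi (hs ▸ h u hn.uT), fun hj x hx => ?_⟩
  obtain ⟨a, b, rfl⟩ := hn.gen x hx
  rw [hn.dlt_T_mul (zpow_mem hn.uT a) (zpow_mem hn.vT b), hn.dlt_T_zpow hn.uT,
    hn.dlt_T_zpow hn.vT, hs]
  exact mul_mem (zpow_mem (mul_mem (hn.upow_phi hi) (hn.E_le_phi h4 h16 (hn.vpow_E hj))) a)
    (zpow_mem (hn.E_le_phi h4 h16 (D.dlt_K_mem hk hn.vA0)) b)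

theorem dlt_U {k : S} {i' j : ℤ} (hs : dlt k u = u ^ (2 * i') * v ^ j) :
    dlt k (u ^ 2 ^ n) = (u ^ 2 ^ n * u ^ 2 ^ n) ^ i' * (v ^ 2 ^ n) ^ j := by
  rw [← zpow_natCast u, hn.dlt_T_zpow hn.uT, hs,
    (hn.comm _ (zpow_mem hn.uT _) _ (zpow_mem hn.vT j)).mul_zpow, ← zpow_mul, ← zpow_mul,
    zpow_natCast, ← pow_add, ← zpow_natCast v, ← zpow_mul, ← zpow_natCast u, ← zpow_mul]
  congr 1
  · congr 1; push_cast; ring
  · congr 1; ring

theorem fixed_by_t [Finite S] (h4 : Nat.card D.E = 4) (h16 : Nat.card D.A0 = 16) {t : S}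
    (ht : t ∉ D.K) :
    t * (v * v) * t⁻¹ = v * v * (u ^ 2 ^ n * u ^ 2 ^ n) ∧
      (v * u ^ 2 ^ n)⁻¹ * (t * v * t⁻¹) ∈ D.E ∧
      ∀ e ∈ D.E, Commute t e → e = 1 ∨ e = u ^ 2 ^ n * u ^ 2 ^ n := by
  obtain ⟨hf1, hfq⟩ := hn.f_ne h4 h16
  set f := v * v with hf
  set q := u ^ 2 ^ n * u ^ 2 ^ n with hq
  have hqE : q ∈ D.E := D.sq_mem_E hn.Umem
  have hfE : f ∈ D.E := D.sq_mem_E hn.vA0
  have hcases := fun e he => D.E_cases h4 hfE hqE hf1 hn.q_ne hfq (e := e) he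
  have htq : t * q * t⁻¹ = q := by rw [(hn.q_central t).eq, mul_inv_cancel_right]
  have hmove : t * f * t⁻¹ = f * q := by
    rcases hcases _ (D.E_normal.conj_mem f hfE t) with h | h | h | h
    · exact absurd (conj_eq_one_iff.1 h) hf1
    · refine absurd (D.mem_K.2 fun e he => ?_) ht
      refine mul_inv_eq_iff_eq_mul.1 ?_
      rcases hcases e he with r | r | r | r <;> rw [r]
      · group
      · exact h
      · exact htq
      · rw [show t * (f * q) * t⁻¹ = (t * f * t⁻¹) * (t * q * t⁻¹) by group, h, htq]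
    · refine absurd ?_ hfq
      calc f = t⁻¹ * (t * f * t⁻¹) * t := by group
        _ = t⁻¹ * (t * q * t⁻¹) * t := by rw [h, htq]
        _ = q := by group
    · exact h
  refine ⟨hmove, ?_, fun e he hte => ?_⟩
  · set U := u ^ 2 ^ n with hU
    have htv := D.A0_normal.conj_mem v hn.vA0 t
    refine (D.mem_E _).2 ⟨mul_mem (inv_mem (mul_mem hn.vA0 hn.Umem)) htv, ?_⟩
    rw [(D.A0_comm _ htv _ (inv_mem (mul_mem hn.vA0 hn.Umem))).mul_mul_mul_comm,
      show t * v * t⁻¹ * (t * v * t⁻¹) = t * (v * v) * t⁻¹ by group, hmove, ← mul_inv_rev,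
      (D.A0_comm _ hn.Umem _ hn.vA0).mul_mul_mul_comm]
    exact inv_mul_cancel _
  · rcases hcases e he with r | r | r | r
    · exact Or.inl r
    · exfalso
      rw [r] at hte
      rw [hte.eq, mul_inv_cancel_right] at hmove
      exact hn.q_ne (mul_eq_left.1 hmove.symm)
    · exact Or.inr r
    · exfalso
      rw [r] at hte
      have h2 := hte.mul_right (hn.q_central t)
      rw [mul_assoc, D.E_sq hqE, mul_one] at h2
      rw [h2.eq, mul_inv_cancel_right] at hmove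
      exact hn.q_ne (mul_eq_left.1 hmove.symm)

/-- An element of `K` commuting with `t ∉ K` whose square is a square in `C` acts trivially. -/
theorem triv_of_comm [Finite S] (h4 : Nat.card D.E = 4) (h16 : Nat.card D.A0 = 16) {t k c : S}
    (ht : t ∉ D.K) (hk : k ∈ D.K) (hkt : dlt t k ∈ D.C) (hkk : k * k = c * c) (hc : Triv T c) :
    Triv T k := by
  haveI := hn.normal
  obtain ⟨i, j, hs, hi⟩ := hn.dlt_u k
  rw [hn.triv_iff h4 h16 hk hs hi]
  obtain ⟨i', rfl⟩ := hi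
  rw [← two_mul] at hs
  by_contra hj
  obtain ⟨hmove, htv, hfix⟩ := hn.fixed_by_t h4 h16 ht
  obtain ⟨hf1, hfq⟩ := hn.f_ne h4 h16
  set U := u ^ 2 ^ n with hU
  set f := v * v with hf
  set q := U * U with hq
  have hUA := hn.Umem
  have hvA := hn.vA0
  have hqE : q ∈ D.E := D.sq_mem_E hUA
  have hfE : f ∈ D.E := D.sq_mem_E hvA
  -- the value on `U` is fixed by `t`
  have hUfix : Commute t (dlt k U) := by
    refine mul_inv_eq_iff_eq_mul.1 ?_
    rw [← D.dlt_conj hkt hUA,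
      show t * U * t⁻¹ = U * (U⁻¹ * (t * U * t⁻¹)) by group,
      D.dlt_K_mul_right hk hUA (D.E_le (hn.conj_U t)), D.dlt_E hk (hn.conj_U t), mul_one]
  have hdU : dlt k U = q ^ i' * (v ^ 2 ^ n) ^ j := hn.dlt_U hs
  have hn2 : 2 ≤ n := by
    by_contra hlt
    have hn1 : n = 1 := by have := hn.npos; omega
    have hvn : (v ^ 2 ^ n) ^ j = f := by
      rw [hn1, pow_one, pow_two, ← hf]
      obtain ⟨a, rfl⟩ := Int.not_even_iff_odd.1 hj
      rw [zpow_add, zpow_one, zpow_mul, zpow_two, D.E_sq hfE, one_zpow, one_mul]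
    have hqi : q ^ i' = 1 ∨ q ^ i' = q := by
      rcases Int.even_or_odd i' with ⟨a, rfl⟩ | ⟨a, rfl⟩
      · exact Or.inl (by rw [zpow_add, ← (Commute.refl q).mul_zpow, D.E_sq hqE, one_zpow])
      · exact Or.inr (by rw [zpow_add, zpow_one, zpow_mul, zpow_two, D.E_sq hqE, one_zpow, one_mul])
    rcases hfix _ (D.dlt_K_mem hk hUA) hUfix with h | h <;> rw [hdU, hvn] at h <;>
      rcases hqi with h' | h' <;> rw [h'] at h
    · exact hf1 (by rwa [one_mul] at h)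
    · exact hfq (by rw [mul_eq_one_iff_eq_inv'.1 h, D.E_inv hqE])
    · exact hfq (by rwa [one_mul] at h)
    · exact hf1 (mul_eq_left.1 h)
  have hvn : (v ^ 2 ^ n) ^ j = 1 := by
    obtain ⟨m, rfl⟩ := Nat.exists_eq_add_of_le' hn2
    rw [pow_add, show (2 : ℕ) ^ 2 = 4 by norm_num, mul_comm, pow_mul, D.A0_four v hvA, one_pow,
      one_zpow]
  rw [hvn, mul_one] at hdU
  set e := dlt k v with he_def
  have heE : e ∈ D.E := D.dlt_K_mem hk hvA
  have hte : t * e * t⁻¹ = e * q ^ i' := by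
    rw [← D.dlt_conj hkt hvA,
      show t * v * t⁻¹ = v * U * ((v * U)⁻¹ * (t * v * t⁻¹)) by group,
      D.dlt_K_mul_right hk (mul_mem hvA hUA) (D.E_le htv), D.dlt_E hk htv, mul_one,
      D.dlt_K_mul_right hk hvA hUA, hdU]
  -- the value of the square
  set s := dlt k u with hsdef
  have hsT : s ∈ T := mul_mem (hn.normal.conj_mem u hn.uT k) (inv_mem hn.uT)
  obtain ⟨a, rfl⟩ := Int.not_even_iff_odd.1 hj
  have hev : e ^ (2 * a + 1) = e := by
    rw [zpow_add, zpow_one, zpow_mul, zpow_two, D.E_sq heE, one_zpow, one_mul]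
  have hks : dlt k s = s ^ (2 * i') * e := by
    conv_lhs => rw [hs]
    rw [hn.dlt_T_mul (zpow_mem hn.uT _) (zpow_mem hn.vT _), hn.dlt_T_zpow hn.uT,
      hn.dlt_T_zpow hn.vT, ← he_def, hev, ← hsdef]
  have hkk' : dlt (k * k) u = s ^ (2 * i') * e * (s * s) := by
    calc dlt (k * k) u = dlt k s * (s * s) := by simp only [hsdef, dlt]; group
      _ = _ := by rw [hks]
  -- which lies in `Phi (Phi T)`
  have hin : dlt (k * k) u ∈ Phi (Phi T) := by
    rw [hkk]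
    obtain ⟨p, hp, hpe⟩ := sq_of_comm hn.comm (hc u hn.uT)
    have hcp : c * p * c⁻¹ * p ∈ Phi T := by
      rw [show c * p * c⁻¹ * p = dlt c p * (p * p) by simp only [dlt]; group]
      exact mul_mem (hc p hp) (sq_mem_phi hp)
    have e1 : dlt (c * c) u = (c * p * c⁻¹ * p) * (c * p * c⁻¹ * p) := by
      calc dlt (c * c) u = (c * dlt c u * c⁻¹) * dlt c u := by simp only [dlt]; group
        _ = ((c * p * c⁻¹) * (c * p * c⁻¹)) * (p * p) := by rw [← hpe]; group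
        _ = _ := (hn.comm _ (hn.normal.conj_mem p hp c) _ hp).mul_mul_mul_comm _ _
    rw [e1]; exact sq_mem_phi hcp
  have hu4 : ∀ k : ℤ, u ^ (4 * k) ∈ Phi (Phi T) := fun k => by
    have : u ^ (4 * k) = u ^ (2 * k) * u ^ (2 * k) := by rw [← zpow_add]; congr 1; ring
    rw [this]
    exact sq_mem_phi (hn.upow_phi ⟨k, two_mul k⟩)
  have hss : s * s = u ^ (4 * i') * f := by
    rw [hs, (hn.comm _ (zpow_mem hn.vT _) _ (zpow_mem hn.uT _)).mul_mul_mul_comm, ← zpow_add,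
      show 2 * i' + 2 * i' = 4 * i' by ring]
    congr 1
    rw [← (Commute.refl v).mul_zpow, ← hf, zpow_add, zpow_one, zpow_mul, zpow_two, D.E_sq hfE,
      one_zpow, one_mul]
  have hmod : f ^ i' * e * f ∈ Phi (Phi T) := by
    have h1 : dlt (k * k) u = (u ^ (4 * (i' * i' + i'))) * (f ^ i' * e * f) := by
      rw [hkk', zpow_mul, zpow_two, hss,
        (hn.comm _ (zpow_mem hn.uT _) _ (phi_le_self T (hn.E_le_phi h4 h16 hfE))).mul_zpow,
        ← zpow_mul, mul_add, zpow_add, mul_assoc (4 : ℤ)]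
      have hmem1 : f ^ i' * e ∈ T := hn.A0le (D.E_le (mul_mem (zpow_mem hfE i') heE))
      calc u ^ (4 * (i' * i')) * f ^ i' * e * (u ^ (4 * i') * f)
          = u ^ (4 * (i' * i')) * ((f ^ i' * e) * u ^ (4 * i')) * f := by group
        _ = u ^ (4 * (i' * i')) * (u ^ (4 * i') * (f ^ i' * e)) * f := by
          rw [(hn.comm _ hmem1 _ (zpow_mem hn.uT _)).eq]
        _ = u ^ (4 * (i' * i')) * u ^ (4 * i') * (f ^ i' * e * f) := by group
    have h2 := mul_mem (inv_mem (hu4 (i' * i' + i'))) hin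
    rwa [h1, inv_mul_cancel_left] at h2
  have hzE : f ^ i' * e * f ∈ D.E := mul_mem (mul_mem (zpow_mem hfE i') heE) hfE
  have hval := hn.phi_phi_E hzE hmod
  rcases Int.even_or_odd i' with ⟨b, rfl⟩ | ⟨b, rfl⟩
  · have hq0 : q ^ (b + b) = 1 := by
      rw [zpow_add, ← (Commute.refl q).mul_zpow, D.E_sq hqE, one_zpow]
    have hf0 : f ^ (b + b) = 1 := by
      rw [zpow_add, ← (Commute.refl f).mul_zpow, D.E_sq hfE, one_zpow]
    rw [hq0, mul_one] at hte
    rw [hf0, one_mul] at hval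
    rcases hfix e heE (mul_inv_eq_iff_eq_mul.1 hte) with h | h <;> rw [h] at hval
    · rw [one_mul] at hval
      rcases hval with h' | h'
      exacts [hf1 h', hfq h']
    · rcases hval with h' | h'
      · exact hfq (by rw [mul_eq_one_iff_eq_inv'.1 h', D.E_inv hqE])
      · exact hf1 (mul_eq_left.1 h')
  · have hq0 : q ^ (2 * b + 1) = q := by
      rw [zpow_add, zpow_one, zpow_mul, zpow_two, D.E_sq hqE, one_zpow, one_mul]
    have hf0 : f ^ (2 * b + 1) = f := by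
      rw [zpow_add, zpow_one, zpow_mul, zpow_two, D.E_sq hfE, one_zpow, one_mul]
    rw [hq0] at hte
    have hfef : f * e * f = e := by
      rw [(D.E_comm hfE heE).eq, mul_assoc, D.E_sq hfE, mul_one]
    rw [hf0, hfef] at hval
    have hcom : Commute t e := by
      rcases hval with h | h <;> rw [h]
      exacts [Commute.one_right t, hn.q_central t]
    rw [hcom.eq, mul_inv_cancel_right] at hte
    exact hn.q_ne (mul_eq_left.1 hte.symm)

/-- A trivially acting element of `K` moves `U` by at most `q`. -/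
theorem dlt_U_of_triv [Finite S] (h4 : Nat.card D.E = 4) (h16 : Nat.card D.A0 = 16) {k : S}
    (hk : k ∈ D.K) (ht : Triv T k) :
    dlt k (u ^ 2 ^ n) = 1 ∨ dlt k (u ^ 2 ^ n) = u ^ 2 ^ n * u ^ 2 ^ n := by
  have hy := hn.U_phi
  obtain ⟨p, hp, hpp⟩ := sq_of_comm hn.comm hy
  refine hn.phi_phi_E (D.dlt_K_mem hk hn.Umem) ?_
  rw [← hpp, hn.dlt_T_mul hp hp]
  exact sq_mem_phi (ht p hp)

/-- No trivially acting `y` satisfies `b y b ≡ y a` for `a` without fixed points of order four. -/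
theorem triv_contra [Finite S] (h4 : Nat.card D.E = 4) (h16 : Nat.card D.A0 = 16) {a b y : S}
    (haK : a ∈ D.K) (hfix : ∀ x ∈ D.C, Commute x a → x ∈ D.E) (hb : b * b = 1)
    (hyK : y ∈ D.K) (hy : Triv T y)
    (hya : (y * a)⁻¹ * (b * y * b) ∈ D.C) : False := by
  haveI := D.normal_C
  set U := u ^ 2 ^ n with hU
  have hbi : b⁻¹ = b := inv_eq_of_mul_eq_one_right hb
  have hUA := hn.Umem
  have hbU : U⁻¹ * (b * U * b) ∈ D.E := by
    have := hn.conj_U b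
    rwa [hbi] at this
  have h1 : dlt (b * y * b) U = b * dlt y (b * U * b) * b := by
    simp only [dlt, mul_inv_rev, hbi]
    calc b * y * b * U * (b * (y⁻¹ * b)) * U⁻¹
        = b * y * (b * U * b) * y⁻¹ * (b * U⁻¹ * (b * b)) * 1 := by rw [hb]; group
      _ = b * y * (b * U * b) * y⁻¹ * (b * U⁻¹ * b) * b := by group
      _ = _ := by group
  have h2 : dlt (b * y * b) U = dlt (y * a) U := by
    have hc := D.mem_C.1 hya U hUA
    calc dlt (b * y * b) U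
        = (y * a) * ((y * a)⁻¹ * (b * y * b) * U * ((y * a)⁻¹ * (b * y * b))⁻¹) * (y * a)⁻¹
          * U⁻¹ := by simp only [dlt]; group
      _ = dlt (y * a) U := by rw [hc.eq, mul_inv_cancel_right, dlt]
  have h3 : dlt y (b * U * b) = dlt y U := by
    rw [show b * U * b = U * (U⁻¹ * (b * U * b)) by group,
      D.dlt_K_mul_right hyK hUA (D.E_le hbU), D.dlt_E hyK hbU, mul_one]
  have h4' : b * dlt y U * b = dlt y U := by
    rcases hn.dlt_U_of_triv h4 h16 hyK hy with h | h <;> rw [h]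
    · rw [mul_one, hb]
    · rw [(hn.q_central b).eq, mul_assoc, hb, mul_one]
  rw [h1, h3, h4', D.dlt_K_mul_left hyK haK hUA] at h2
  have h5 : dlt a U = 1 := mul_eq_right.1 h2.symm
  have h6 : U ∈ D.E := hfix U (D.A0_le_C hUA)
    ((mul_inv_eq_iff_eq_mul.1 (mul_inv_eq_one.1 h5) : Commute a U).symm)
  exact hn.UnotE h6

/-- If `K` moves `U` out of `U⟨q⟩` then `b ∉ K` acts trivially on `T / Phi T` and so does every
element of `K` fixing `U` up to `q`. -/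
theorem big_K [Finite S] (h4 : Nat.card D.E = 4) (h16 : Nat.card D.A0 = 16) {b k : S}
    (hb : b * b = 1) (hbK : b ∉ D.K) (hk : k ∈ D.K)
    (hk1 : dlt k (u ^ 2 ^ n) ≠ 1) (hkq : dlt k (u ^ 2 ^ n) ≠ u ^ 2 ^ n * u ^ 2 ^ n) :
    Triv T b ∧ ∀ m ∈ D.K, dlt m (u ^ 2 ^ n) = 1 → Triv T m := by
  haveI := hn.normal
  obtain ⟨hf1, hfq⟩ := hn.f_ne h4 h16
  have hqE : u ^ 2 ^ n * u ^ 2 ^ n ∈ D.E := D.sq_mem_E hn.Umem
  have hfE : v * v ∈ D.E := D.sq_mem_E hn.vA0
  have hn1 : n = 1 := by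
    by_contra hne
    have hn2 : 2 ≤ n := by have := hn.npos; omega
    obtain ⟨i, j, hs, hi⟩ := hn.dlt_u k
    obtain ⟨i', rfl⟩ := hi
    rw [← two_mul] at hs
    have hvn : (v ^ 2 ^ n) ^ j = 1 := by
      obtain ⟨m, rfl⟩ := Nat.exists_eq_add_of_le' hn2
      rw [pow_add, show (2 : ℕ) ^ 2 = 4 by norm_num, mul_comm, pow_mul, D.A0_four v hn.vA0,
        one_pow, one_zpow]
    have hdU := hn.dlt_U hs
    rw [hvn, mul_one] at hdU
    rcases Int.even_or_odd i' with ⟨a, rfl⟩ | ⟨a, rfl⟩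
    · exact hk1 (by rw [hdU, zpow_add, ← (Commute.refl (u ^ 2 ^ n * u ^ 2 ^ n)).mul_zpow,
        D.E_sq hqE, one_zpow])
    · exact hkq (by rw [hdU, zpow_add, zpow_one, zpow_mul, zpow_two, D.E_sq hqE, one_zpow,
        one_mul])
  subst hn1
  refine ⟨?_, fun m hm hmU => ?_⟩
  · obtain ⟨i, j, hs, hi⟩ := hn.dlt_u b
    have hbi : b⁻¹ = b := inv_eq_of_mul_eq_one_right hb
    obtain ⟨hmove, hbv, -⟩ := hn.fixed_by_t h4 h16 hbK
    set U := u ^ 2 ^ 1 with hU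
    set e'' := (v * U)⁻¹ * (b * v * b⁻¹) with he''
    have hUA := hn.Umem
    have hbdv : dlt b v = U * e'' := by
      rw [dlt, show b * v * b⁻¹ = v * (U * e'') by rw [he'']; group,
        (D.A0_comm _ hn.vA0 _ (mul_mem hUA (D.E_le hbv))).eq, mul_inv_cancel_right]
    have hj : Even j := by
      by_contra hj
      obtain ⟨a, rfl⟩ := Int.not_even_iff_odd.1 hj
      obtain ⟨i', rfl⟩ := hi
      rw [← two_mul] at hs
      set s := dlt b u with hsdef
      have hbs : dlt b s * (s * s) = 1 := by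
        calc dlt b s * (s * s) = dlt (b * b) u := by simp only [hsdef, dlt]; group
          _ = 1 := by rw [hb]; simp [dlt]
      have hss : s * s = (U * U) ^ i' * (v * v) := by
        rw [hs, (hn.comm _ (zpow_mem hn.vT _) _ (zpow_mem hn.uT _)).mul_mul_mul_comm, ← zpow_add,
          ← (Commute.refl v).mul_zpow, zpow_add (v * v), zpow_one, zpow_mul (v * v), zpow_two,
          D.E_sq hfE, one_zpow, one_mul]
        congr 1
        rw [hU, pow_one, pow_two, show u * u * (u * u) = u ^ (4 : ℤ) by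
            rw [show (4 : ℤ) = ((4 : ℕ) : ℤ) from rfl, zpow_natCast, pow_succ, pow_succ, pow_succ,
              pow_one]
            group, ← zpow_mul]
        congr 1; ring
      have hds : dlt b s = (s * s) ^ i' * ((U * e'') * ((U * e'') * (U * e'')) ^ a) := by
        have e1 : dlt b s = (dlt b u) ^ (2 * i') * (dlt b v) ^ (2 * a + 1) := by
          rw [← hn.dlt_T_zpow hn.uT, ← hn.dlt_T_zpow hn.vT,
            ← hn.dlt_T_mul (zpow_mem hn.uT _) (zpow_mem hn.vT _), hs]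
        rw [e1, hbdv, ← hsdef, zpow_mul, zpow_two, add_comm, zpow_add, zpow_one, zpow_mul, zpow_two]
      have hssE : s * s ∈ D.E := by
        rw [hss]; exact mul_mem (zpow_mem hqE i') hfE
      have hUUE : (U * e'') * (U * e'') ∈ D.E := D.sq_mem_E (mul_mem hUA (D.E_le hbv))
      rw [hds] at hbs
      have hx : (U * e'') * ((U * e'') * (U * e'')) ^ a = ((s * s) ^ i')⁻¹ * (s * s)⁻¹ := by
        have h1 := eq_inv_of_mul_eq_one_left hbs
        rw [← h1]; group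
      have hmem : U * e'' ∈ D.E := by
        refine (Subgroup.mul_mem_cancel_right _ (zpow_mem hUUE a)).1 ?_
        rw [hx]
        exact mul_mem (inv_mem (zpow_mem hssE i')) (inv_mem hssE)
      exact hn.UnotE ((Subgroup.mul_mem_cancel_right _ hbv).1 hmem)
    intro x hx
    obtain ⟨a, c, rfl⟩ := hn.gen x hx
    rw [hn.dlt_T_mul (zpow_mem hn.uT a) (zpow_mem hn.vT c), hn.dlt_T_zpow hn.uT,
      hn.dlt_T_zpow hn.vT, hs, hbdv]
    exact mul_mem (zpow_mem (mul_mem (hn.upow_phi hi) (hn.E_le_phi h4 h16 (hn.vpow_E hj))) a)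
      (zpow_mem (mul_mem hn.U_phi (hn.E_le_phi h4 h16 hbv)) c)
  · obtain ⟨i, j, hs, hi⟩ := hn.dlt_u m
    rw [hn.triv_iff h4 h16 hm hs hi]
    obtain ⟨i', rfl⟩ := hi
    rw [← two_mul] at hs
    have hdU := hn.dlt_U hs
    rw [hmU] at hdU
    by_contra hj
    obtain ⟨a, rfl⟩ := Int.not_even_iff_odd.1 hj
    have hvn : (v ^ 2 ^ 1) ^ (2 * a + 1) = v * v := by
      rw [pow_one, pow_two, zpow_add, zpow_one, zpow_mul, zpow_two, D.E_sq hfE, one_zpow, one_mul]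
    rw [hvn] at hdU
    rcases Int.even_or_odd i' with ⟨c, rfl⟩ | ⟨c, rfl⟩
    · rw [zpow_add, ← (Commute.refl (u ^ 2 ^ 1 * u ^ 2 ^ 1)).mul_zpow, D.E_sq hqE, one_zpow,
        one_mul] at hdU
      exact hf1 hdU.symm
    · rw [zpow_add, zpow_one, zpow_mul, zpow_two, D.E_sq hqE, one_zpow, one_mul] at hdU
      exact hfq (by rw [mul_eq_one_iff_eq_inv'.1 hdU.symm, D.E_inv hqE])

end NH

end Data

end CfsgLib.TwoFusion.SelfCent
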