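/-
Self-centralizing elementary abelian subgroups of order eight in 2-groups: the bound for `|E| ≤ 4`
and the final theorem.
-/
import Cfsg.Agent.Lib.TwoFusion.SelfCentTwo

set_option autoImplicit false

namespace CfsgLib.TwoFusion.SelfCent

variable {S : Type*} [Group S]

theorem Triv.mul {N : Subgroup S} [N.Normal] {g h : S} (hg : Triv N g) (hh : Triv N h) :
    Triv N (g * h) := by
  intro x hx
  rw [show dlt (g * h) x = (g * dlt h x * g⁻¹) * dlt g x by simp only [dlt]; group]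
  exact mul_mem ((phi_normal N).conj_mem _ (hh x hx) g) (hg x hx)

theorem Triv.inv {N : Subgroup S} [N.Normal] {g : S} (hg : Triv N g) : Triv N g⁻¹ := by
  intro x hx
  rw [show dlt g⁻¹ x = g⁻¹ * (dlt g x)⁻¹ * g⁻¹⁻¹ by simp only [dlt]; group]
  exact (phi_normal N).conj_mem _ (inv_mem (hg x hx)) g⁻¹

theorem Triv.of_mem {N : Subgroup S} [N.Normal] {g : S} (hg : g ∈ N) : Triv N g := fun _ hx =>
  comm_mem_phi hg hx

namespace Data

variable (D : Data S)

/-- The image of `g` modulo `C` fixes the class of `a` under `C`. -/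
def InPi (a g : S) : Prop := ∃ u ∈ D.C, Commute (u * g) a

/-- An element `a ∈ A` fixing `E` without further fixed points in `C`. -/
structure GoodTwo (D : Data S) (a : S) : Prop where
  aA : a ∈ D.A
  aE : a ∉ D.E
  aK : a ∈ D.K
  fix : ∀ x ∈ D.C, Commute x a → x ∈ D.E
  pi : ∀ t k : S, t ∉ D.K → k ∈ D.K → dlt t k ∈ D.C → D.InPi a k → k ∈ D.C ∨ a⁻¹ * k ∈ D.C
  big : ∀ y : S, y ∈ D.K → D.InPi a y → y ∉ D.C → a⁻¹ * y ∉ D.C →
    ∃ b : S, b * b = 1 ∧ b ∉ D.K ∧ Commute a b ∧ (y * a)⁻¹ * (b * y * b) ∈ D.C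
  /-- at most two cosets of `C ∪ a C` in the fixed class -/
  piPair : ∀ k l : S, k ∈ D.K → l ∈ D.K → D.InPi a k → D.InPi a l → k ∉ D.C → a⁻¹ * k ∉ D.C →
    l ∉ D.C → a⁻¹ * l ∉ D.C → k⁻¹ * l ∈ D.C ∨ a⁻¹ * (k⁻¹ * l) ∈ D.C

theorem goodTwo_of_four [Finite S] [D.C.Normal] (h4 : Nat.card D.E = 4)
    (hB : Nat.card ↥(D.A ⊓ D.E) = 4) : ∃ a, GoodTwo D a := by
  have hEA : D.E ≤ D.A := by
    have : D.A ⊓ D.E = D.E := Subgroup.eq_of_le_of_card_ge inf_le_right (by omega)
    exact inf_eq_right.1 this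
  obtain ⟨a, ha, haE⟩ : ∃ a ∈ D.A, a ∉ D.E := by
    by_contra hcon
    push Not at hcon
    rw [inf_eq_left.2 hcon, D.A_card] at hB
    omega
  have hPi : ∀ k : S, k ∈ D.K → D.InPi a k → k ∈ D.C ∨ a⁻¹ * k ∈ D.C := fun k hk hu =>
    D.mem_of_fix hB ha haE hu fun x hx _ => D.conj_E_K hk hx
  exact ⟨a, ha, haE, D.mem_K.2 fun e he => D.A_comm ha (hEA he),
    fun x hx hxa => D.C_fix_four hB ha haE hx hxa,
    fun _ k _ hk _ hu => hPi k hk hu,
    fun y hy hu h1 h2 => ((hPi y hy hu).elim h1 h2).elim,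
    fun k l hk _ hu _ h1 h2 _ _ => ((hPi k hk hu).elim h1 h2).elim⟩

theorem goodTwo_of_two [Finite S] [D.C.Normal] (h4 : Nat.card D.E = 4)
    (hB : Nat.card ↥(D.A ⊓ D.E) = 2) : ∃ a, GoodTwo D a := by
  classical
  haveI := D.K_normal
  obtain ⟨a₀, ha₀, ha₀E⟩ : ∃ a ∈ D.A, a ∉ D.E := by
    by_contra hcon
    push Not at hcon
    rw [inf_eq_left.2 hcon, D.A_card] at hB
    omega
  obtain ⟨z, b₀, hf₀⟩ := D.exists_frame hB ha₀ ha₀E
  obtain ⟨a, b, hf, haK⟩ : ∃ a b, Frame D z a b ∧ a ∈ D.K := by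
    by_cases h1 : a₀ ∈ D.K
    · exact ⟨a₀, b₀, hf₀, h1⟩
    by_cases h2 : b₀ ∈ D.K
    · exact ⟨b₀, a₀, hf₀.swap, h2⟩
    refine ⟨a₀ * b₀, a₀, hf₀.rot.swap, ?_⟩
    have := D.quot_K h4 h1 h2
    rwa [D.A_inv ha₀] at this
  obtain ⟨e, he, hez, he1⟩ : ∃ e ∈ D.E, e ≠ z ∧ e ≠ 1 := by
    by_contra hcon
    push Not at hcon
    have h1 := Set.ncard_le_ncard (s := (D.E : Set S)) (t := ↑({1, z} : Finset S)) (fun x hx => by
      by_cases h1 : x = z
      · simp [h1]
      · simp [hcon x hx h1]) (Finset.finite_toSet _)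
    rw [Set.ncard_coe_finset, ← Nat.card_coe_set_eq] at h1
    have h2 : Nat.card D.E ≤ 2 := h1.trans Finset.card_le_two
    omega
  have hea : Commute e a := (D.mem_K.1 haK e he).symm
  have hbK : b ∉ D.K := fun hbK => by
    rcases hf.fix_eq he hea ((D.mem_K.1 hbK e he).symm) with h | h
    exacts [he1 h, hez h]
  have hfix : ∀ x ∈ D.C, Commute x a → x ∈ D.E := fun x hx hxa =>
    D.C_fix_of (fun y hy hya => hf.fixed_le_E he hea he1 hez hy hya) hx hxa
  let π := QuotientGroup.mk' D.C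
  have hπ : ∀ g : S, π g = 1 ↔ g ∈ D.C := fun g => QuotientGroup.eq_one_iff g
  have hKc : ∀ g h : S, g ∈ D.K → h ∈ D.K → Commute (π g) (π h) := fun g h hg hh => by
    refine mul_inv_eq_iff_eq_mul.1 (mul_inv_eq_one.1 ?_)
    rw [← map_inv π g, ← map_inv π h, ← map_mul, ← map_mul, ← map_mul, hπ]
    exact D.comm_K hg hh
  have habc : Commute (π a) (π b) := (D.A_comm hf.aA hf.bA).map π
  have hbi : b⁻¹ = b := D.A_inv hf.bA
  -- elements of the fixed class commuting with `b`
  have hbpi : ∀ k : S, k ∈ D.K → Commute (π b) (π k) → D.InPi a k → k ∈ D.C ∨ a⁻¹ * k ∈ D.C := by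
    intro k hk hbk hu
    obtain ⟨u, hu, huk⟩ := hu
    have hπu : π (u * k) = π k := by rw [map_mul, (hπ u).2 hu, one_mul]
    have hgb : b * (u * k * b * (u * k)⁻¹) ∈ D.C := by
      rw [← hπ]
      simp only [map_mul, map_inv, (hπ u).2 hu, one_mul]
      rw [← hbk.eq, mul_inv_cancel_right, ← map_mul, D.A_sq b hf.bA, map_one]
    obtain ⟨x, hxA, hxg⟩ : ∃ x ∈ D.A, x⁻¹ * (u * k) ∈ D.E := by
      rcases hf.adjust he hea he1 hez hfix huk hgb with h | h
      · exact ⟨_, h, by rw [inv_mul_cancel]; exact one_mem _⟩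
      · exact ⟨_, h, by rw [mul_inv_rev, inv_mul_cancel_right]; exact inv_mem he⟩
    have hxK : x ∈ D.K := by
      have h1 : u * k * (x⁻¹ * (u * k))⁻¹ ∈ D.K :=
        mul_mem (mul_mem (D.C_le_K hu) hk) (inv_mem (D.C_le_K (D.E_le_C hxg)))
      rwa [show u * k * (x⁻¹ * (u * k))⁻¹ = x by group] at h1
    have key : ∀ r : S, r⁻¹ * x ∈ D.E → r⁻¹ * k ∈ D.C := fun r hr =>
      D.mem_AC hu (by rw [show r⁻¹ * (u * k) = (r⁻¹ * x) * (x⁻¹ * (u * k)) by group]
                      exact mul_mem hr hxg)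
    rcases hf.decomp hxA with h | h | h | h
    · left
      simpa using key 1 (by simpa using h)
    · exact Or.inr (key a h)
    · refine absurd ?_ hbK
      have h1 := mul_mem hxK (inv_mem (D.C_le_K (D.E_le_C h)))
      rwa [show x * (b⁻¹ * x)⁻¹ = b by group] at h1
    · refine absurd ?_ hbK
      have h1 := mul_mem (inv_mem haK) (mul_mem hxK (inv_mem (D.C_le_K (D.E_le_C h))))
      rwa [show a⁻¹ * (x * ((a * b)⁻¹ * x)⁻¹) = b by group] at h1
  have hconjPi : ∀ k : S, D.InPi a k → D.InPi a (b * k * b) := by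
    rintro k ⟨u, hu, huk⟩
    refine ⟨b * u * b⁻¹, D.normal_C.conj_mem u hu b, ?_⟩
    have h1 : Commute (b * (u * k) * b) a :=
      ((D.A_comm hf.bA hf.aA).mul_left huk).mul_left (D.A_comm hf.bA hf.aA)
    rwa [show b * (u * k) * b = b * u * b⁻¹ * (b * k * b) by group] at h1
  have hmulPi : ∀ k l : S, k ∈ D.K → D.InPi a k → D.InPi a l → D.InPi a (k⁻¹ * l) := by
    rintro k l - ⟨u, hu, huk⟩ ⟨w, hw, hwl⟩
    refine ⟨k⁻¹ * (u⁻¹ * w) * k⁻¹⁻¹, D.normal_C.conj_mem _ (mul_mem (inv_mem hu) hw) k⁻¹, ?_⟩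
    rw [show k⁻¹ * (u⁻¹ * w) * k⁻¹⁻¹ * (k⁻¹ * l) = (u * k)⁻¹ * (w * l) by group]
    exact huk.inv_left.mul_left hwl
  have hbK2 : ∀ k : S, k ∈ D.K → b * k * b ∈ D.K := fun k hk => by
    have := D.K_normal.conj_mem k hk b
    rwa [hbi] at this
  have hmove : ∀ y : S, y ∈ D.K → D.InPi a y → y ∉ D.C → a⁻¹ * y ∉ D.C →
      π (b * y * b) = π y * π a := by
    intro y hy hu h1 h2
    have hm : y⁻¹ * (b * y * b) ∈ D.K := mul_mem (inv_mem hy) (hbK2 y hy)
    have hbm : Commute (π b) (π (y⁻¹ * (b * y * b))) := by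
      have hinv : π (y⁻¹ * (b * y * b)) = (π (y⁻¹ * (b * y * b)))⁻¹ := by
        rw [eq_inv_iff_mul_eq_one, ← map_mul, hπ]
        exact D.sq_K hm
      have e1 : b * (y⁻¹ * (b * y * b)) = (y⁻¹ * (b * y * b))⁻¹ * b := by
        rw [mul_inv_rev, mul_inv_rev, mul_inv_rev, hbi, inv_inv]
        calc b * (y⁻¹ * (b * y * b)) = b * y⁻¹ * b * y * b := by group
          _ = _ := by group
      show π b * π (y⁻¹ * (b * y * b)) = π (y⁻¹ * (b * y * b)) * π b
      rw [← map_mul, e1, map_mul, map_inv, ← hinv]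
    rcases hbpi _ hm hbm (hmulPi y _ hy hu (hconjPi y hu)) with h | h
    · exfalso
      refine (hbpi y hy ?_ hu).elim h1 h2
      rw [← hπ] at h
      simp only [map_mul, map_inv, inv_mul_eq_one] at h
      show π b * π y = π y * π b
      calc π b * π y = π b * π y * (π b * π b) := by
            rw [← map_mul π b b, D.A_sq b hf.bA, map_one, mul_one]
        _ = π b * π y * π b * π b := by group
        _ = π y * π b := by rw [← h]
    · rw [← hπ] at h
      simp only [map_mul, map_inv, inv_mul_eq_one] at h ⊢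
      rw [h]; group
  refine ⟨a, hf.aA, hf.aE, haK, hfix, fun t k ht hk htk hu => ?_, fun y hy hu h1 h2 => ?_,
    fun k l hk hl hku hlu k1 k2 l1 l2 => ?_⟩
  · refine hbpi k hk ?_ hu
    have hbt : b⁻¹ * t ∈ D.K := D.quot_K h4 hbK ht
    have h1 : Commute (π t) (π k) := by
      refine mul_inv_eq_iff_eq_mul.1 (mul_inv_eq_one.1 ?_)
      rw [← map_inv π t, ← map_inv π k, ← map_mul, ← map_mul, ← map_mul, hπ]
      exact htk
    have h2 := h1.mul_left (hKc _ k hbt hk).inv_left
    rwa [← map_inv, ← map_mul, show t * (b⁻¹ * t)⁻¹ = b by group] at h2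
  · refine ⟨b, D.A_sq b hf.bA, hbK, D.A_comm hf.aA hf.bA, ?_⟩
    rw [← hπ, map_mul, map_inv, map_mul, hmove y hy hu h1 h2, inv_mul_cancel]
  · have hm : k⁻¹ * l ∈ D.K := mul_mem (inv_mem hk) hl
    refine hbpi _ hm ?_ (hmulPi k l hk hku hlu)
    have e1 := hmove k hk hku k1 k2
    have e2 := hmove l hl hlu l1 l2
    have e3 : π b * π (k⁻¹ * l) * π b = π (k⁻¹ * l) := by
      calc π b * π (k⁻¹ * l) * π b = (π (b * k * b))⁻¹ * π (b * l * b) := by
            simp only [map_mul, map_inv, mul_inv_rev]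
            have hb2 : (π b)⁻¹ = π b := by rw [← map_inv, hbi]
            rw [hb2]
            calc π b * ((π k)⁻¹ * π l) * π b = π b * (π k)⁻¹ * 1 * π l * π b := by group
              _ = π b * (π k)⁻¹ * (π b * π b) * π l * π b := by
                rw [← map_mul π b b, D.A_sq b hf.bA, map_one]
              _ = _ := by group
        _ = (π a)⁻¹ * π (k⁻¹ * l) * π a := by
            rw [e1, e2]; simp only [map_mul, map_inv, mul_inv_rev]; group
        _ = π (k⁻¹ * l) := by rw [mul_assoc, (hKc _ a hm haK).eq, inv_mul_cancel_left]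
    show π b * π (k⁻¹ * l) = π (k⁻¹ * l) * π b
    calc π b * π (k⁻¹ * l) = π b * π (k⁻¹ * l) * (π b * π b) := by
          rw [← map_mul π b b, D.A_sq b hf.bA, map_one, mul_one]
      _ = π b * π (k⁻¹ * l) * π b * π b := by group
      _ = π (k⁻¹ * l) * π b := by rw [e3]

theorem exists_goodTwo [Finite S] [D.C.Normal] (h4 : Nat.card D.E = 4) : ∃ a, GoodTwo D a := by
  rcases D.card_AE with h | h | h
  · exact D.goodTwo_of_two h4 h
  · exact D.goodTwo_of_four h4 h
  · rw [← D.A_le_E_of_eight h, D.A_card] at h4; omega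

namespace GoodTwo

variable {D} {a : S} (hg : GoodTwo D a)
include hg

theorem triv_a [Finite S] [D.C.Normal] (h4 : Nat.card D.E = 4) (h16 : Nat.card D.A0 = 16) :
    Triv D.C a := by
  obtain ⟨T, hTn, hA0, hTC, hnot, hc, hiff⟩ :=
    D.exists_T h4 (Nat.card D.C) D.C inferInstance le_rfl D.A0_le_C le_rfl
  rw [← hiff a]
  intro x hx
  have ha := D.A_sq a hg.aA
  have hax : a * x * a ∈ T := by
    have := hTn.conj_mem x hx a
    rwa [D.A_inv hg.aA] at this
  have hfixed : Commute (x * (a * x * a)) a := commute_of_conj_eq ha (by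
    rw [conj_mul a x _ ha, show a * (a * x * a) * a = (a * a) * x * (a * a) by group, ha, one_mul,
      mul_one, (hc _ hax _ hx).eq])
  have hE := hg.fix _ (hTC (mul_mem hx hax)) hfixed
  obtain ⟨r, hr, hrr⟩ := D.exists_root h4 h16 hE
  rw [show dlt a x = (a * x * a) * x⁻¹ by rw [dlt, D.A_inv hg.aA],
    (hc _ hax _ (inv_mem hx)).eq,
    show x⁻¹ * (a * x * a) = (x⁻¹ * x⁻¹) * (x * (a * x * a)) by group]
  exact mul_mem (sq_mem_phi (inv_mem hx)) (hrr ▸ sq_mem_phi (hA0 hr))

/-- Every conjugate of `a` in `a Phi C` is a `C`-conjugate. -/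
theorem inPi_of [Finite S] [D.C.Normal] (h4 : Nat.card D.E = 4) (h16 : Nat.card D.A0 = 16) {g : S}
    (hgP : a * (g * a * g⁻¹) ∈ Phi D.C) : D.InPi a g := by
  classical
  have ha := D.A_sq a hg.aA
  have htriv := hg.triv_a h4 h16
  let F : D.C → Phi D.C := fun u => ⟨a * ((u : S) * a * (u : S)⁻¹), by
    have := htriv (u : S) u.2
    rw [dlt, D.A_inv hg.aA] at this
    rwa [show a * ((u : S) * a * (u : S)⁻¹) = a * (u : S) * a * (u : S)⁻¹ by group]⟩
  have hsurj : Function.Surjective F := by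
    rw [← Set.range_eq_univ]
    refine Set.eq_of_subset_of_ncard_le (Set.subset_univ _) ?_ (Set.toFinite _)
    rw [Set.ncard_univ, ← Nat.card_coe_set_eq]
    have hex : ∀ q : Set.range F, ∃ u : D.C, F u = (q : Phi D.C) := fun q => q.2
    choose r hr using hex
    have hinj : ∀ u w : D.C, F u = F w → (w : S)⁻¹ * (u : S) ∈ D.E := by
      intro u w h
      have h' := congrArg Subtype.val h
      simp only [F, mul_right_inj] at h'
      refine hg.fix _ (mul_mem (inv_mem w.2) u.2) ?_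
      show (w : S)⁻¹ * u * a = a * ((w : S)⁻¹ * u)
      calc (w : S)⁻¹ * u * a = (w : S)⁻¹ * ((u : S) * a * (u : S)⁻¹) * u := by group
        _ = (w : S)⁻¹ * ((w : S) * a * (w : S)⁻¹) * u := by rw [h']
        _ = a * ((w : S)⁻¹ * u) := by group
    have hle : Nat.card D.C ≤ Nat.card (Set.range F) * Nat.card D.E := by
      rw [← Nat.card_prod]
      refine Nat.card_le_card_of_injective (fun u : D.C =>
        ((⟨F u, u, rfl⟩ : Set.range F),
          (⟨(r ⟨F u, u, rfl⟩ : S)⁻¹ * (u : S), hinj u _ (hr ⟨F u, u, rfl⟩).symm⟩ : D.E))) ?_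
      intro p q hpq
      simp only [Prod.mk.injEq, Subtype.mk.injEq] at hpq
      obtain ⟨h1, h2⟩ := hpq
      have e : r ⟨F p, p, rfl⟩ = r ⟨F q, q, rfl⟩ := congrArg r h1
      rw [e, mul_right_inj] at h2
      exact Subtype.ext h2
    rw [← relIndex_mul_card (phi_le_self D.C), D.relIndex_eq_four h4 D.A0_le_C le_rfl, h4] at hle
    omega
  obtain ⟨u, hu⟩ := hsurj ⟨_, hgP⟩
  have h' : (u : S) * a * (u : S)⁻¹ = g * a * g⁻¹ := by
    have := congrArg Subtype.val hu
    simpa [F] using this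
  refine ⟨(u : S)⁻¹, inv_mem u.2, ?_⟩
  show (u : S)⁻¹ * g * a = a * ((u : S)⁻¹ * g)
  calc (u : S)⁻¹ * g * a = (u : S)⁻¹ * (g * a * g⁻¹) * g := by group
    _ = (u : S)⁻¹ * ((u : S) * a * (u : S)⁻¹) * g := by rw [h']
    _ = a * ((u : S)⁻¹ * g) := by group

theorem a_notC [Finite S] : a ∉ D.C := fun h => hg.aE (D.A_inf_C hg.aA h)

theorem inPi_of_C {g : S} (h : g ∈ D.C) : D.InPi a g :=
  ⟨g⁻¹, inv_mem h, by rw [inv_mul_cancel]; exact Commute.one_left a⟩

theorem inPi_conj [Finite S] [D.C.Normal] (h4 : Nat.card D.E = 4) (h16 : Nat.card D.A0 = 16)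
    {k l : S} (h : (a * (k * a * k⁻¹))⁻¹ * (a * (l * a * l⁻¹)) ∈ Phi D.C) :
    D.InPi a (k⁻¹ * l) := by
  refine hg.inPi_of h4 h16 ?_
  have h2 := (phi_normal D.C).conj_mem _ h k⁻¹
  rwa [show k⁻¹ * ((a * (k * a * k⁻¹))⁻¹ * (a * (l * a * l⁻¹))) * k⁻¹⁻¹
      = a⁻¹ * (k⁻¹ * l * a * (k⁻¹ * l)⁻¹) by group, D.A_inv hg.aA] at h2

/-- If an element outside `C ∪ a C` in the fixed class acts trivially then all of `K` does. -/
theorem allTriv_of_pi [Finite S] [D.C.Normal] (h4 : Nat.card D.E = 4)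
    (h16 : Nat.card D.A0 = 16) {y : S} (hy : y ∈ D.K) (hyt : Triv D.C y) (hu : D.InPi a y)
    (h1 : y ∉ D.C) (h2 : a⁻¹ * y ∉ D.C) : ∀ k ∈ D.K, Triv D.C k := by
  obtain ⟨T, hTn, hA0, hTC, hnot, hc, hiff⟩ :=
    D.exists_T h4 (Nat.card D.C) D.C inferInstance le_rfl D.A0_le_C le_rfl
  rcases D.exists_NH h4 hTn hA0 hTC hnot hc with hT | ⟨u, v, n, hn⟩
  · intro k hk
    rw [← hiff k, hT]
    intro x hx
    obtain ⟨r, hr, hrr⟩ := D.exists_root h4 h16 (D.dlt_K_mem hk hx)
    rw [← hrr]; exact sq_mem_phi hr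
  · exfalso
    obtain ⟨b, hb, -, -, hya⟩ := hg.big y hy hu h1 h2
    exact hn.triv_contra h4 h16 hg.aK hg.fix hb hy ((hiff y).2 hyt) hya

end GoodTwo

theorem triv_dichotomy [Finite S] [D.C.Normal] (h4 : Nat.card D.E = 4) {g h : S}
    (hg : ¬ Triv D.C g) (hh : ¬ Triv D.C h) : Triv D.C (g⁻¹ * h) := by
  let π := QuotientGroup.mk' (Phi D.C)
  have hV : Nat.card (D.C.map π) = 4 := by
    rw [← Subgroup.relIndex_ker, QuotientGroup.ker_mk']
    exact D.relIndex_eq_four h4 D.A0_le_C le_rfl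
  haveI : (D.C.map π).Normal := Subgroup.Normal.map ‹D.C.Normal› _ (QuotientGroup.mk'_surjective _)
  have hequiv : ∀ g : S, Triv D.C g ↔
      π g ∈ Subgroup.centralizer ((D.C.map π : Subgroup _) : Set (S ⧸ Phi D.C)) := by
    intro g
    rw [Subgroup.mem_centralizer_iff]
    constructor
    · rintro hgt _ ⟨x, hx, rfl⟩
      refine (mul_inv_eq_iff_eq_mul.1 (mul_inv_eq_one.1 ?_)).symm
      rw [← map_inv π g, ← map_inv π x, ← map_mul, ← map_mul, ← map_mul]
      exact (QuotientGroup.eq_one_iff _).2 (hgt x hx)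
    · intro hgc x hx
      refine (QuotientGroup.eq_one_iff _).1 ?_
      change π (g * x * g⁻¹ * x⁻¹) = 1
      rw [map_mul, map_mul, map_mul, map_inv, map_inv,
        ← hgc _ (Subgroup.mem_map_of_mem π hx), mul_inv_cancel_right, mul_inv_cancel]
  rw [hequiv] at hg hh ⊢
  rw [map_mul, map_inv]
  exact four_action (D.isP.to_quotient (Phi D.C)) hV hg hh

/-- An element of `K` commuting with `t ∉ K` modulo `C`, with square in `Phi C`, acts trivially. -/
theorem triv_of_comm_phi [Finite S] [D.C.Normal] (h4 : Nat.card D.E = 4)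
    (h16 : Nat.card D.A0 = 16) {t k : S} (ht : t ∉ D.K) (hk : k ∈ D.K) (hkt : dlt t k ∈ D.C)
    (hsq : k * k ∈ Phi D.C) : Triv D.C k := by
  obtain ⟨T, hTn, hA0, hTC, hnot, hc, hiff⟩ :=
    D.exists_T h4 (Nat.card D.C) D.C inferInstance le_rfl D.A0_le_C le_rfl
  rw [← hiff k]
  rcases D.exists_NH h4 hTn hA0 hTC hnot hc with hT | ⟨u, v, n, hn⟩
  · rw [hT]
    intro x hx
    obtain ⟨r, hr, hrr⟩ := D.exists_root h4 h16 (D.dlt_K_mem hk hx)
    rw [← hrr]; exact sq_mem_phi hr
  · obtain ⟨c, hc', hcc⟩ := D.exists_sq h4 D.A0_le_C le_rfl hsq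
    exact hn.triv_of_comm h4 h16 ht hk hkt hcc.symm ((hiff c).2 (Triv.of_mem hc'))

/-- When the image of `K` has order above eight and `a`'s class is small, all of `K` acts trivially. -/
theorem allTriv_of_big [Finite S] [D.C.Normal] (h4 : Nat.card D.E = 4) (h16 : Nat.card D.A0 = 16)
    {a : S} (hg : GoodTwo D a) {b : S} (hb : b * b = 1) (hbK : b ∉ D.K) (hab : Commute a b)
    (hbig : 8 < Nat.card (D.K.map (QuotientGroup.mk' D.C))) : ∀ k ∈ D.K, Triv D.C k := by
  classical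
  obtain ⟨T, hTn, hA0, hTC, hnot, hc, hiff⟩ :=
    D.exists_T h4 (Nat.card D.C) D.C inferInstance le_rfl D.A0_le_C le_rfl
  rcases D.exists_NH h4 hTn hA0 hTC hnot hc with hT | ⟨u, v, n, hn⟩
  · intro k hk
    rw [← hiff k, hT]
    intro x hx
    obtain ⟨r, hr, hrr⟩ := D.exists_root h4 h16 (D.dlt_K_mem hk hx)
    rw [← hrr]; exact sq_mem_phi hr
  exfalso
  have hbi : b⁻¹ = b := inv_eq_of_mul_eq_one_right hb
  let π := QuotientGroup.mk' D.C
  set U := u ^ 2 ^ n with hU
  set q := U * U with hq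
  have hUA := hn.Umem
  have hvA := hn.vA0
  obtain ⟨hf1, hfq⟩ := hn.f_ne h4 h16
  obtain ⟨hmove, hbv, -⟩ := hn.fixed_by_t h4 h16 hbK
  have hqE : q ∈ D.E := D.sq_mem_E hUA
  have hfE : v * v ∈ D.E := D.sq_mem_E hvA
  have hex : ∀ p : D.K.map π, ∃ k ∈ D.K, π k = (p : S ⧸ D.C) := fun p => p.2
  choose r hrK hr using hex
  let F : D.K.map π → D.E × D.E := fun p =>
    (⟨dlt (r p) U, D.dlt_K_mem (hrK p) hUA⟩, ⟨dlt (r p) v, D.dlt_K_mem (hrK p) hvA⟩)
  have hinj : Function.Injective F := by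
    intro p p' hpp
    simp only [F, Prod.mk.injEq, Subtype.mk.injEq] at hpp
    refine Subtype.ext ?_
    rw [← hr p, ← hr p']
    refine QuotientGroup.eq.2 (D.mem_C_of_two h4 (mul_mem (inv_mem (hrK p)) (hrK p')) hUA hvA
      hn.q_ne hf1 (Ne.symm hfq) ?_ ?_)
    · rw [D.dlt_K_mul_left (inv_mem (hrK p)) (hrK p') hUA, D.dlt_K_inv (hrK p) hUA, hpp.1,
        D.E_sq (D.dlt_K_mem (hrK p') hUA)]
    · rw [D.dlt_K_mul_left (inv_mem (hrK p)) (hrK p') hvA, D.dlt_K_inv (hrK p) hvA, hpp.2,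
        D.E_sq (D.dlt_K_mem (hrK p') hvA)]
  have hsurj : ∀ x ∈ D.E, ∀ y ∈ D.E, ∃ k ∈ D.K, dlt k U = x ∧ dlt k v = y := by
    obtain ⟨m, hm⟩ := ((D.isP.to_quotient D.C).to_subgroup (D.K.map π)).exists_card_eq
    have hle : Nat.card (D.K.map π) ≤ 16 := (Nat.card_le_card_of_injective F hinj).trans_eq
      (by rw [Nat.card_prod, h4])
    have h16' : Nat.card (D.K.map π) = 16 := by
      rw [hm] at hbig hle ⊢
      have : m ≤ 4 := (Nat.pow_le_pow_iff_right (le_refl 2)).1 (hle.trans_eq (by norm_num))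
      interval_cases m <;> simp_all
    have hbij : Function.Bijective F := (Nat.bijective_iff_injective_and_card F).2
      ⟨hinj, by rw [h16', Nat.card_prod, h4]⟩
    intro x hx y hy
    obtain ⟨p, hp⟩ := hbij.2 (⟨x, hx⟩, ⟨y, hy⟩)
    simp only [F, Prod.mk.injEq, Subtype.mk.injEq] at hp
    exact ⟨r p, hrK p, hp.1, hp.2⟩
  obtain ⟨k1, hk1, hk1U, -⟩ := hsurj (v * v) hfE 1 (one_mem _)
  obtain ⟨hbT, hmT⟩ := hn.big_K h4 h16 hb hbK hk1 (by rw [hk1U]; exact hf1)
    (by rw [hk1U]; exact hfq)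
  obtain ⟨k, hk, hkU, hkv⟩ := hsurj 1 (one_mem _) (v * v) hfE
  have hbtriv : Triv D.C b := (hiff b).1 hbT
  have hk' : b * k * b ∈ D.K := by
    have := D.K_normal.conj_mem k hk b
    rwa [hbi] at this
  set κ := k⁻¹ * (b * k * b) with hκ
  have hκK : κ ∈ D.K := mul_mem (inv_mem hk) hk'
  -- `κ` fixes `U` and moves `v` by `q`
  have hdconj : ∀ x : S, dlt (b * k * b) x = b * dlt k (b * x * b) * b := by
    intro x
    simp only [dlt, mul_inv_rev, hbi]
    calc b * k * b * x * (b * (k⁻¹ * b)) * x⁻¹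
        = b * k * (b * x * b) * k⁻¹ * (b * x⁻¹ * (b * b)) * 1 := by rw [hb]; group
      _ = b * k * (b * x * b) * k⁻¹ * (b * x⁻¹ * b) * b := by group
      _ = _ := by group
  have hbU : U⁻¹ * (b * U * b) ∈ D.E := by
    have := hn.conj_U b
    rwa [hbi] at this
  have hκU : dlt κ U = 1 := by
    rw [hκ, D.dlt_K_mul_left (inv_mem hk) hk' hUA, D.dlt_K_inv hk hUA, hkU, mul_one, hdconj,
      show b * U * b = U * (U⁻¹ * (b * U * b)) by group,
      D.dlt_K_mul_right hk hUA (D.E_le hbU), hkU, D.dlt_E hk hbU, one_mul, mul_one, hb]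
  have hκv : dlt κ v = q := by
    have e : b * v * b = (v * U) * ((v * U)⁻¹ * (b * v * b⁻¹)) := by rw [hbi]; group
    rw [hκ, D.dlt_K_mul_left (inv_mem hk) hk' hvA, D.dlt_K_inv hk hvA, hkv, hdconj, e,
      D.dlt_K_mul_right hk (mul_mem hvA hUA) (D.E_le hbv), D.dlt_E hk hbv, mul_one,
      D.dlt_K_mul_right hk hvA hUA, hkv, hkU, mul_one]
    rw [hbi] at hmove
    rw [hmove, mul_assoc, ← (D.E_comm hfE hqE).eq, ← mul_assoc, D.E_sq hfE, one_mul]
  have hκC : κ ∉ D.C := fun h => hn.q_ne (by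
    show q = 1
    rw [← hκv, dlt, (D.mem_C.1 h v hvA).eq, mul_inv_cancel_right, mul_inv_cancel])
  have hκa : a⁻¹ * κ ∉ D.C := fun h => by
    have h1 : dlt (a⁻¹ * κ) U = 1 := by
      rw [dlt, (D.mem_C.1 h U hUA).eq, mul_inv_cancel_right, mul_inv_cancel]
    rw [D.dlt_K_mul_left (inv_mem hg.aK) hκK hUA, hκU, one_mul, D.dlt_K_inv hg.aK hUA] at h1
    exact hn.UnotE (hg.fix U (D.A0_le_C hUA)
      ((mul_inv_eq_iff_eq_mul.1 (mul_inv_eq_one.1 h1) : Commute a U).symm))
  have hκb : dlt b κ ∈ D.C := by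
    have e1 : b * κ * b = κ⁻¹ := by
      rw [hκ, mul_inv_rev, mul_inv_rev, mul_inv_rev, hbi, inv_inv]
      calc b * (k⁻¹ * (b * k * b)) * b = b * k⁻¹ * b * k * (b * b) := by group
        _ = _ := by rw [hb, mul_one]; group
    rw [dlt, hbi, e1, ← mul_inv_rev]
    exact inv_mem (D.sq_K hκK)
  refine (hg.pi b κ hbK hκK hκb (hg.inPi_conj h4 h16 (k := k) (l := b * k * b) ?_)).elim hκC hκa
  -- conjugation by `b` is trivial modulo `Phi C`
  have hjC : a * (k * a * k⁻¹) ∈ D.C := by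
    have := D.comm_K hg.aK hk
    rw [← D.A_inv hg.aA] at this ⊢
    rwa [show a⁻¹ * (k * a⁻¹ * k⁻¹) = a⁻¹ * k * a⁻¹ * k⁻¹ by group,
      show a⁻¹ * k * a⁻¹ * k⁻¹ = a⁻¹ * k * a⁻¹⁻¹ * k⁻¹ by rw [inv_inv, D.A_inv hg.aA]]
  set j := a * (k * a * k⁻¹) with hj
  have hdj := hbtriv j hjC
  have e : a * (b * k * b * a * (b * k * b)⁻¹) = b * j * b⁻¹ := by
    rw [hj, mul_inv_rev, mul_inv_rev, hbi]
    have h2 : b * a * b = a := by rw [← hab.eq, mul_assoc, hb, mul_one]
    calc a * (b * k * b * a * (b * (k⁻¹ * b)))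
        = a * b * k * (b * a * b) * k⁻¹ * b := by group
      _ = b * a * k * a * k⁻¹ * b := by rw [h2, hab.eq]
      _ = b * (a * (k * a * k⁻¹)) * b := by group
  rw [e]
  have h5 := (phi_normal D.C).conj_mem _ hdj j⁻¹
  rwa [dlt, show j⁻¹ * (b * j * b⁻¹ * j⁻¹) * j⁻¹⁻¹ = j⁻¹ * (b * j * b⁻¹) by group] at h5

theorem inPi_congr [D.C.Normal] {a r k : S} (hu : D.InPi a r) (h : r⁻¹ * k ∈ D.C) :
    D.InPi a k := by
  obtain ⟨u, hu, hur⟩ := hu
  refine ⟨u * (r * (r⁻¹ * k)⁻¹ * r⁻¹),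
    mul_mem hu (Subgroup.Normal.conj_mem ‹D.C.Normal› _ (inv_mem h) r), ?_⟩
  rwa [show u * (r * (r⁻¹ * k)⁻¹ * r⁻¹) * k = u * r by group]

theorem inPi_mul_a {a r : S} (hu : D.InPi a r) : D.InPi a (r * a) := by
  obtain ⟨u, hu, hur⟩ := hu
  refine ⟨u, hu, ?_⟩
  rw [← mul_assoc]
  exact hur.mul_left (Commute.refl a)

/-- The fixed class of `a` gives at most four elements of `S / C`. -/
theorem pi_cases [Finite S] [D.C.Normal] {a : S} (hg : GoodTwo D a) :
    ∃ y, (∀ k ∈ D.K, D.InPi a k → QuotientGroup.mk' D.C k = 1 ∨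
      QuotientGroup.mk' D.C k = QuotientGroup.mk' D.C a ∨
      QuotientGroup.mk' D.C k = QuotientGroup.mk' D.C y ∨
      QuotientGroup.mk' D.C k = QuotientGroup.mk' D.C (y * a)) ∧
      ((y ∈ D.K ∧ D.InPi a y ∧ y ∉ D.C ∧ a⁻¹ * y ∉ D.C) ∨
        ∀ k ∈ D.K, D.InPi a k → k ∈ D.C ∨ a⁻¹ * k ∈ D.C) := by
  let π := QuotientGroup.mk' D.C
  have h1 : ∀ k : S, k ∈ D.C → π k = 1 := fun k h => (QuotientGroup.eq_one_iff k).2 h
  have h2 : ∀ r k : S, r⁻¹ * k ∈ D.C → π k = π r := fun r k h => (QuotientGroup.eq.2 h).symm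
  by_cases hex : ∃ y ∈ D.K, D.InPi a y ∧ y ∉ D.C ∧ a⁻¹ * y ∉ D.C
  · obtain ⟨y, hy, hyu, hy1, hy2⟩ := hex
    refine ⟨y, fun k hk hku => ?_, Or.inl ⟨hy, hyu, hy1, hy2⟩⟩
    by_cases hkC : k ∈ D.C
    · exact Or.inl (h1 k hkC)
    by_cases hka : a⁻¹ * k ∈ D.C
    · exact Or.inr (Or.inl (h2 a k hka))
    rcases hg.piPair y k hy hk hyu hku hy1 hy2 hkC hka with h | h
    · exact Or.inr (Or.inr (Or.inl (h2 y k h)))
    · exact Or.inr (Or.inr (Or.inr (h2 (y * a) k (by rwa [mul_inv_rev, mul_assoc]))))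
  · push Not at hex
    have hall : ∀ k ∈ D.K, D.InPi a k → k ∈ D.C ∨ a⁻¹ * k ∈ D.C := fun k hk hku => by
      by_cases hkC : k ∈ D.C
      · exact Or.inl hkC
      · exact Or.inr (hex k hk hku hkC)
    refine ⟨a, fun k hk hku => ?_, Or.inr hall⟩
    rcases hall k hk hku with h | h
    · exact Or.inl (h1 k h)
    · exact Or.inr (Or.inl (h2 a k h))

theorem pow2_eq_four {n i : ℕ} (h : n = 2 ^ i) (h1 : 2 < n) (h2 : n ≤ 4) : n = 4 := by
  subst h
  have : i ≤ 2 := (Nat.pow_le_pow_iff_right (le_refl 2)).1 h2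
  interval_cases i <;> omega

theorem pow2_eight {n i : ℕ} (h : n = 2 ^ i) (h1 : 4 < n) : 8 ≤ n := by
  subst h
  have : 3 ≤ i := by
    by_contra hcon
    push Not at hcon
    interval_cases i <;> omega
  exact Nat.pow_le_pow_right (n := 2) (by norm_num) this

theorem pow2_le_sixteen {n i : ℕ} (h : n = 2 ^ i) (h1 : 4 < n) (h2 : n ≤ 16) : n = 8 ∨ n = 16 := by
  subst h
  have : i ≤ 4 := (Nat.pow_le_pow_iff_right (le_refl 2)).1 h2
  interval_cases i <;> omega

set_option maxHeartbeats 1600000 in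
theorem bound_two [Finite S] (h4 : Nat.card D.E = 4) (h16 : Nat.card D.A0 = 16) (H : Subgroup S) :
    (Phi H).relIndex H ≤ 16 := by
  classical
  haveI := D.normal_C
  haveI := D.K_normal
  haveI : Fact (Nat.Prime 2) := ⟨Nat.prime_two⟩
  obtain ⟨a, hg⟩ := D.exists_goodTwo h4
  have ha := D.A_sq a hg.aA
  have hai := D.A_inv hg.aA
  rw [relIndex_phi_split D.C H]
  let π := QuotientGroup.mk' D.C
  let σ := QuotientGroup.mk' (Phi D.C)
  have hπ : ∀ g : S, π g = 1 ↔ g ∈ D.C := fun g => QuotientGroup.eq_one_iff g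
  have hπeq : ∀ g h : S, π g = π h ↔ g⁻¹ * h ∈ D.C := fun g h => QuotientGroup.eq
  have hσ : ∀ g : S, σ g = 1 ↔ g ∈ Phi D.C := fun g => QuotientGroup.eq_one_iff g
  have hσc : ∀ k, Triv D.C k → ∀ c ∈ D.C, Commute (σ k) (σ c) := fun k hk c hc => by
    refine mul_inv_eq_iff_eq_mul.1 (mul_inv_eq_one.1 ?_)
    rw [← map_inv σ k, ← map_inv σ c, ← map_mul, ← map_mul, ← map_mul]
    exact (hσ _).2 (hk c hc)
  have hta := hg.triv_a h4 h16
  have hσa : σ a * σ a = 1 := by rw [← map_mul, ha, map_one]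
  set Hb := H.map π with hHb
  set X := (Phi H ⊓ D.C).relIndex (H ⊓ D.C) with hX
  set Y := (Phi Hb).relIndex Hb with hY
  have hleH : Phi (H ⊓ D.C) ≤ Phi H ⊓ D.C :=
    le_inf (phi_mono inf_le_left) ((phi_le_self _).trans inf_le_right)
  have hPhiC : (Phi (H ⊓ D.C)).relIndex (H ⊓ D.C) ≤ 4 :=
    h4 ▸ D.relIndex_phi_le_card inf_le_right
  have hX4 : X ≤ 4 := (Nat.le_of_dvd (Nat.pos_of_ne_zero Subgroup.index_ne_zero_of_finite)
    (Subgroup.relIndex_dvd_of_le_left (H ⊓ D.C) hleH)).trans hPhiC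
  have hpow : ∀ {G : Type _} [Group G], IsPGroup 2 G → ∀ P : Subgroup G, Finite G →
      ∃ i, (Phi P).relIndex P = 2 ^ i := by
    intro G _ hG P _
    obtain ⟨n, hn⟩ := hG.exists_card_eq
    obtain ⟨i, -, hi⟩ := (Nat.dvd_prime_pow Nat.prime_two).1
      (hn ▸ (Dvd.intro_left _ (relIndex_mul_card (phi_le_self P))).trans
        (Subgroup.card_subgroup_dvd_card _))
    exact ⟨i, hi⟩
  obtain ⟨iY, hiY⟩ := hpow (D.isP.to_quotient D.C) Hb inferInstance
  rw [← hY] at hiY
  obtain ⟨nS, hnS⟩ := D.isP.exists_card_eq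
  obtain ⟨iX, -, hiX⟩ := (Nat.dvd_prime_pow Nat.prime_two).1
    (hnS ▸ (Dvd.intro_left _ (relIndex_mul_card (inf_le_inf_right D.C (phi_le_self H)))).trans
      (Subgroup.card_subgroup_dvd_card _))
  rw [← hX] at hiX
  -- squares of `H` inside `C` when `X = 4`
  have hsmall : X = 4 → ∀ p ∈ Phi H, p ∈ D.C → p ∈ Phi D.C := by
    intro hX4' p hp hpC
    have heq : Phi (H ⊓ D.C) = Phi H ⊓ D.C := by
      refine Subgroup.eq_of_le_of_card_ge hleH ?_
      have e1 := relIndex_mul_card (inf_le_inf_right D.C (phi_le_self H))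
      have e2 := relIndex_mul_card (phi_le_self (H ⊓ D.C))
      rw [← hX, hX4'] at e1
      have h' := Nat.mul_le_mul_left (Nat.card ↥(Phi (H ⊓ D.C))) hPhiC
      omega
    have : p ∈ Phi (H ⊓ D.C) := heq ▸ Subgroup.mem_inf.2 ⟨hp, hpC⟩
    exact phi_mono inf_le_right this
  -- the values `a (k a k⁻¹)` modulo `Phi C`
  set Kb := D.K.map π with hKb
  have hKmem : ∀ g : S, π g ∈ Kb → g ∈ D.K := by
    rintro g ⟨k, hk, hkg⟩
    rw [show g = k * (k⁻¹ * g) by group]
    exact mul_mem hk (D.C_le_K ((hπeq k g).1 hkg))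
  have hKc : ∀ p ∈ Kb, ∀ q ∈ Kb, Commute p q := by
    rintro _ ⟨k, hk, rfl⟩ _ ⟨l, hl, rfl⟩
    refine mul_inv_eq_iff_eq_mul.1 (mul_inv_eq_one.1 ?_)
    rw [← map_inv π k, ← map_inv π l, ← map_mul, ← map_mul, ← map_mul, hπ]
    exact D.comm_K hk hl
  have hKsq : ∀ p ∈ Kb, p * p = 1 := by
    rintro _ ⟨k, hk, rfl⟩
    rw [← map_mul, hπ]
    exact D.sq_K hk
  have hdelta : ∀ k ∈ D.K, a * (k * a * k⁻¹) ∈ D.C := fun k hk => by
    have := D.comm_K hg.aK hk
    rwa [hai, show a * k * a * k⁻¹ = a * (k * a * k⁻¹) by group] at this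
  obtain ⟨y, hycases, hyor⟩ := D.pi_cases hg
  have hcount : ∀ W : Subgroup S, (∀ k ∈ D.K, a * (k * a * k⁻¹) ∈ W) → Phi D.C ≤ W →
      Nat.card Kb ≤ Nat.card (W.map σ) * 4 ∧
        ((∀ k ∈ D.K, D.InPi a k → k ∈ D.C ∨ a⁻¹ * k ∈ D.C) →
          Nat.card Kb ≤ Nat.card (W.map σ) * 2) := by
    intro W hW _
    have hex : ∀ p : Kb, ∃ k ∈ D.K, π k = (p : S ⧸ D.C) := fun p => p.2
    choose r hrK hr using hex
    let g : Kb → W.map σ := fun p =>
      ⟨σ (a * (r p * a * (r p)⁻¹)), Subgroup.mem_map_of_mem σ (hW _ (hrK p))⟩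
    have hfib : ∀ p p' : Kb, g p = g p' → D.InPi a ((r p)⁻¹ * r p') := fun p p' h => by
      simp only [g, Subtype.mk.injEq] at h
      exact hg.inPi_conj h4 h16 (QuotientGroup.eq.1 h)
    have bound : ∀ R : Finset (S ⧸ D.C), (∀ k ∈ D.K, D.InPi a k → π k ∈ R) →
        Nat.card Kb ≤ Nat.card (W.map σ) * R.card := by
      intro R hR
      have hexs : ∀ q : Set.range g, ∃ p : Kb, g p = (q : W.map σ) := fun q => q.2
      choose s hs using hexs
      have h1 : Nat.card Kb ≤ Nat.card (W.map σ) * Nat.card ↥R := by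
        rw [← Nat.card_prod]
        refine Nat.card_le_card_of_injective (fun p : Kb =>
          (g p, (⟨π ((r (s ⟨g p, p, rfl⟩))⁻¹ * r p),
            hR _ (mul_mem (inv_mem (hrK _)) (hrK p)) (hfib _ _ (hs ⟨g p, p, rfl⟩))⟩ : R))) ?_
        intro p p' h
        simp only [Prod.mk.injEq, Subtype.mk.injEq] at h
        obtain ⟨e1, e2⟩ := h
        have e : s ⟨g p, p, rfl⟩ = s ⟨g p', p', rfl⟩ := congrArg s (Subtype.ext e1)
        rw [e, map_mul, map_mul, mul_right_inj, hr, hr] at e2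
        exact Subtype.ext e2
      rwa [Nat.card_eq_fintype_card (α := ↥R), Fintype.card_coe] at h1
    constructor
    · refine (bound {1, π a, π y, π (y * a)} fun k hk hku => ?_).trans
        (Nat.mul_le_mul_left _ Finset.card_le_four)
      rcases hycases k hk hku with h | h | h | h <;> simp [π, h]
    · intro hall
      refine (bound {1, π a} fun k hk hku => ?_).trans (Nat.mul_le_mul_left _ Finset.card_le_two)
      rcases hall k hk hku with h | h
      · simp [(hπ k).2 h]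
      · simp [((hπeq a k).2 h).symm]
  have hCσ : Nat.card (D.C.map σ) = 4 := by
    rw [← Subgroup.relIndex_ker, QuotientGroup.ker_mk']
    exact D.relIndex_eq_four h4 D.A0_le_C le_rfl
  obtain ⟨hK16, hK8⟩ := hcount D.C hdelta (phi_le_self _)
  rw [hCσ] at hK16 hK8
  have hallT : 8 < Nat.card Kb → (∀ k ∈ D.K, Triv D.C k) ∧
      ∃ b, b * b = 1 ∧ b ∉ D.K ∧ Commute a b ∧ y ∈ D.K ∧ D.InPi a y ∧ y ∉ D.C ∧ a⁻¹ * y ∉ D.C := by
    intro hbig
    rcases hyor with ⟨hy, hyu, hy1, hy2⟩ | hall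
    · obtain ⟨b, hb, hbK, hab, -⟩ := hg.big y hy hyu hy1 hy2
      exact ⟨D.allTriv_of_big h4 h16 hg hb hbK hab hbig, b, hb, hbK, hab, hy, hyu, hy1, hy2⟩
    · have := hK8 hall; omega
  have hπa1 : π a ≠ 1 := fun h => hg.a_notC ((hπ a).1 h)
  by_cases hHK : H ≤ D.K
  · have hHbK : Hb ≤ Kb := Subgroup.map_mono hHK
    have hphi : Phi Hb = ⊥ := eq_bot_iff.2 (phi_le fun p hp => Subgroup.mem_bot.2 (hKsq p (hHbK hp)))
    have hYc : Y = Nat.card Hb := by rw [hY, hphi, Subgroup.relIndex_bot_left]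
    have hY16 : Y ≤ 16 := hYc ▸ (Subgroup.card_le_of_le hHbK).trans hK16
    by_cases hY4 : Y ≤ 4
    · exact (Nat.mul_le_mul hX4 hY4).trans_eq (by norm_num)
    by_cases hsmallXY : X * Y ≤ 16
    · exact hsmallXY
    exfalso
    -- `Y = 8, X = 4` or `Y = 16, X ≥ 2`
    have hYcases : Y = 8 ∨ Y = 16 := by
      exact pow2_le_sixteen hiY (by omega) hY16
    rcases hYcases with h8 | h16'
    · have hX4' : X = 4 := by
        rw [h8] at hsmallXY
        exact pow2_eq_four hiX (by omega) hX4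
      have hsm := hsmall hX4'
      have hH8 : Nat.card Hb = 8 := hYc ▸ h8
      by_cases haH : π a ∈ Hb
      · obtain ⟨x, hx, hxa⟩ := haH
        -- an element acting trivially outside `C ∪ a C`
        obtain ⟨h, hh, hht, hh1, hh2⟩ : ∃ h ∈ H, Triv D.C h ∧ π h ≠ 1 ∧ π h ≠ π a := by
          obtain ⟨p, hp, hp'⟩ : ∃ p ∈ Hb, p ∉ ({1, π a} : Finset (S ⧸ D.C)) := by
            by_contra hcon
            push Not at hcon
            have h1 := Set.ncard_le_ncard (s := (Hb : Set (S ⧸ D.C)))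
              (t := ↑({1, π a} : Finset (S ⧸ D.C))) (fun x hx => hcon x hx) (Finset.finite_toSet _)
            rw [Set.ncard_coe_finset, ← Nat.card_coe_set_eq] at h1
            have h2 : Nat.card Hb ≤ 2 := h1.trans Finset.card_le_two
            omega
          obtain ⟨q, hq, hq'⟩ : ∃ q ∈ Hb, q ∉ ({1, π a, p, p * π a} : Finset (S ⧸ D.C)) := by
            by_contra hcon
            push Not at hcon
            have h1 := Set.ncard_le_ncard (s := (Hb : Set (S ⧸ D.C)))
              (t := ↑({1, π a, p, p * π a} : Finset (S ⧸ D.C))) (fun x hx => hcon x hx)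
              (Finset.finite_toSet _)
            rw [Set.ncard_coe_finset, ← Nat.card_coe_set_eq] at h1
            have h2 : Nat.card Hb ≤ 4 := h1.trans Finset.card_le_four
            omega
          simp only [Finset.mem_insert, Finset.mem_singleton, not_or] at hp' hq'
          obtain ⟨p, hpH, rfl⟩ := hp
          obtain ⟨q, hqH, rfl⟩ := hq
          by_cases hpt : Triv D.C p
          · exact ⟨p, hpH, hpt, hp'.1, hp'.2⟩
          by_cases hqt : Triv D.C q
          · exact ⟨q, hqH, hqt, hq'.1, hq'.2.1⟩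
          refine ⟨p⁻¹ * q, mul_mem (inv_mem hpH) hqH, D.triv_dichotomy h4 hpt hqt, ?_, ?_⟩
          · rw [map_mul, map_inv, Ne, inv_mul_eq_one]; exact Ne.symm hq'.2.2.1
          · rw [map_mul, map_inv, Ne, inv_mul_eq_iff_eq_mul]; exact hq'.2.2.2
        have hinPi : ∀ h ∈ H, Triv D.C h → D.InPi a h := fun h hh hht => by
          refine hg.inPi_of h4 h16 ((hσ _).1 ?_)
          have hc : a⁻¹ * x ∈ D.C := (hπeq a x).1 hxa.symm
          have hcomm : dlt x h ∈ D.C := by
            have h1 := D.comm_K (hHK hx) (hHK hh)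
            exact h1
          have h2 := (hσ _).2 (hsm _ (comm_mem_phi hx hh) hcomm)
          have hC := hσc h hht _ hc
          rw [show x = a * (a⁻¹ * x) by group] at h2
          generalize hc0 : a⁻¹ * x = c0 at h2 hC
          simp only [map_mul, map_inv, mul_inv_rev] at h2 hC ⊢
          set c := σ c0
          have h3 : σ a * c * σ h * (c⁻¹ * (σ a)⁻¹) * (σ h)⁻¹
              = σ a * (σ h * σ a * (σ h)⁻¹) := by
            rw [mul_assoc (σ a) c (σ h), ← hC.eq,
              inv_eq_of_mul_eq_one_right hσa]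
            group
          rw [← h3]; exact h2
        have hhC : h ∉ D.C := fun h' => hh1 ((hπ h).2 h')
        have hahC : a⁻¹ * h ∉ D.C := fun h' => hh2 ((hπeq a h).2 h').symm
        have hall := hg.allTriv_of_pi h4 h16 (hHK hh) hht (hinPi h hh hht) hhC hahC
        -- then all of `H` lies in the fixed class
        have hsub : (Hb : Set (S ⧸ D.C)) ⊆ ↑({1, π a, π y, π (y * a)} : Finset (S ⧸ D.C)) := by
          rintro _ ⟨k, hk, rfl⟩
          rcases hycases k (hHK hk) (hinPi k hk (hall k (hHK hk))) with h' | h' | h' | h' <;>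
            simp [π, h']
        have h1 := Set.ncard_le_ncard hsub (Finset.finite_toSet _)
        rw [Set.ncard_coe_finset, ← Nat.card_coe_set_eq] at h1
        have h2 : Nat.card Hb ≤ 4 := h1.trans Finset.card_le_four
        omega
      · have haK : π a ∈ Kb := Subgroup.mem_map_of_mem π hg.aK
        have hbig : 8 < Nat.card Kb := by
          have hlt : Hb < Kb := lt_of_le_of_ne hHbK fun h => haH (h ▸ haK)
          have hne : Nat.card Hb ≠ Nat.card Kb := fun h =>
            hlt.ne (Subgroup.eq_of_le_of_card_ge hHbK h.ge)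
          have := Subgroup.card_le_of_le hHbK
          omega
        obtain ⟨hall, b, hb, hbK, hab, hy, hyu, hy1, hy2⟩ := hallT hbig
        have hKb16 : Nat.card Kb ≤ 16 := hK16
        have hcov : ∀ p ∈ Kb, p ∈ Hb ∨ π a * p ∈ Hb := by
          intro p hp
          have hidx : (Hb.subgroupOf Kb).index = 2 := by
            have := relIndex_mul_card hHbK
            rw [hH8] at this
            obtain ⟨m, hm⟩ := ((D.isP.to_quotient D.C).to_subgroup Kb).exists_card_eq
            have h16K : Nat.card Kb = 16 := by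
              rcases pow2_le_sixteen hm (by omega) hKb16 with h | h <;> omega
            show Hb.relIndex Kb = 2
            omega
          by_cases hpH : p ∈ Hb
          · exact Or.inl hpH
          right
          have := Subgroup.mul_mem_iff_of_index_two hidx (a := ⟨π a, haK⟩) (b := ⟨p, hp⟩)
          simp only [Subgroup.mem_subgroupOf, Subgroup.coe_mul] at this
          exact this.2 (iff_of_false haH hpH)
        have hbi : b⁻¹ = b := inv_eq_of_mul_eq_one_right hb
        have hβ : π b * π b = 1 := by rw [← map_mul, hb, map_one]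
        have hβi : (π b)⁻¹ = π b := inv_eq_of_mul_eq_one_right hβ
        -- an element of `H` commuting with `b` modulo `C`
        obtain ⟨k, hk, hk1, hkb⟩ : ∃ k ∈ H, π k ≠ 1 ∧ dlt b k ∈ D.C := by
          by_contra hcon
          push Not at hcon
          obtain ⟨v, hv, hdet⟩ := D.fix_classes h4 h16 hbK
          have hex : ∀ p : Hb, ∃ h ∈ H, π h = (p : S ⧸ D.C) := fun p => p.2
          choose r hrH hr using hex
          have hm : ∀ p : Hb, (r p)⁻¹ * (b * r p * b) ∈ D.K := fun p => by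
            refine mul_mem (inv_mem (hHK (hrH p))) ?_
            have := D.K_normal.conj_mem _ (hHK (hrH p)) b
            rwa [hbi] at this
          have hmb : ∀ p : Hb, dlt b ((r p)⁻¹ * (b * r p * b)) ∈ D.C := fun p => by
            set k := r p
            set m := k⁻¹ * (b * k * b) with hmdef
            have e1 : b * m * b = m⁻¹ := by
              rw [hmdef, mul_inv_rev, mul_inv_rev, mul_inv_rev, hbi, inv_inv]
              calc b * (k⁻¹ * (b * k * b)) * b = b * k⁻¹ * b * k * (b * b) := by group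
                _ = _ := by rw [hb, mul_one]; group
            rw [dlt, hbi, e1, ← mul_inv_rev]
            exact inv_mem (D.sq_K (hm p))
          have hinj : Function.Injective (fun p : Hb =>
              (⟨dlt ((r p)⁻¹ * (b * r p * b)) v, D.dlt_K_mem (hm p) hv⟩ : D.E)) := by
            intro p p' h
            simp only [Subtype.mk.injEq] at h
            have h1 := (hπeq _ _).2 (hdet _ _ (hm p) (hm p') (hmb p) (hmb p') h)
            by_contra hne
            have hd : π ((r p)⁻¹ * r p') ≠ 1 := fun h' => hne (Subtype.ext (by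
              rw [map_mul, map_inv, inv_mul_eq_one, hr, hr] at h'
              exact h'))
            refine hcon _ (mul_mem (inv_mem (hrH p)) (hrH p')) hd ?_
            rw [← hπ]
            simp only [dlt, map_mul, map_inv, mul_inv_rev, inv_inv, hr] at h1 ⊢
            rw [hβi]
            have hP : Commute (p : S ⧸ D.C) p' := hKc _ (hHbK p.2) _ (hHbK p'.2)
            have e2 : π b * (p' : S ⧸ D.C) * π b
                = (p' : S ⧸ D.C) * ((p : S ⧸ D.C)⁻¹ * (π b * p * π b)) :=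
              inv_mul_eq_iff_eq_mul.1 h1.symm
            calc π b * ((p : S ⧸ D.C)⁻¹ * p') * π b * ((p' : S ⧸ D.C)⁻¹ * p)
                = (π b * (p : S ⧸ D.C)⁻¹ * (π b)⁻¹) * (π b * p' * π b) * ((p' : S ⧸ D.C)⁻¹ * p) := by
                  group
              _ = (π b * (p : S ⧸ D.C) * π b)⁻¹ * ((p' : S ⧸ D.C) * ((p : S ⧸ D.C)⁻¹ *
                    (π b * p * π b))) * ((p' : S ⧸ D.C)⁻¹ * p) := by
                  rw [e2, hβi, mul_inv_rev, mul_inv_rev, hβi, ← mul_assoc (π b)]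
              _ = 1 := by
                have hc1 := hKc _ (hHbK p.2) _ (hHbK p'.2)
                have hbK' : π b * (p : S ⧸ D.C) * π b ∈ Kb := by
                  obtain ⟨h0, hh0, he0⟩ := (hHbK p.2 : (p : S ⧸ D.C) ∈ Kb)
                  refine ⟨b * h0 * b, ?_, by rw [map_mul, map_mul, he0]⟩
                  have := D.K_normal.conj_mem h0 hh0 b
                  rwa [hbi] at this
                rw [(hKc _ (mul_mem (inv_mem (hHbK p.2)) hbK') _ (hHbK p'.2)).symm.eq,
                  (hKc _ (inv_mem (hHbK p.2)) _ hbK').eq]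
                group
          have := Nat.card_le_card_of_injective _ hinj
          omega
        have hkC : k ∉ D.C := fun h => hk1 ((hπ k).2 h)
        have hakC : a⁻¹ * k ∉ D.C := fun h => haH (by
          rw [(hπeq a k).2 h]; exact Subgroup.mem_map_of_mem π hk)
        obtain ⟨h', hh', hh'u, hh'1, hh'2⟩ : ∃ h' ∈ H, D.InPi a h' ∧ h' ∉ D.C ∧ a⁻¹ * h' ∉ D.C := by
          rcases hcov (π y) (Subgroup.mem_map_of_mem π hy) with ⟨h', hh', he⟩ | ⟨h', hh', he⟩
          · have hC := (hπeq y h').1 he.symm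
            refine ⟨h', hh', D.inPi_congr hyu hC, fun h => hy1 ?_, fun h => hy2 ?_⟩
            · rw [show y = h' * (y⁻¹ * h')⁻¹ by group]; exact mul_mem h (inv_mem hC)
            · rw [show a⁻¹ * y = (a⁻¹ * h') * (y⁻¹ * h')⁻¹ by group]; exact mul_mem h (inv_mem hC)
          · have he' : π h' = π (y * a) := by
              rw [he, map_mul, (hKc _ haK _ (Subgroup.mem_map_of_mem π hy)).eq]
            have hC := (hπeq (y * a) h').1 he'.symm
            refine ⟨h', hh', D.inPi_congr (D.inPi_mul_a hyu) hC, fun h => ?_, fun h => ?_⟩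
            · refine hy2 ((hπeq a y).1 ?_)
              have h1 := (hπ h').2 h
              rw [he', map_mul, mul_eq_one_iff_eq_inv] at h1
              rw [h1, ← map_inv, hai]
            · refine hy1 ((hπ y).1 ?_)
              have h1 := (hπeq a h').2 h
              rw [he', map_mul] at h1
              exact mul_eq_right.1 h1.symm
        obtain ⟨b', hb', hb'K, hab', hb'y⟩ := hg.big h' (hHK hh') hh'u hh'1 hh'2
        -- `b` and `b'` agree modulo `K`
        have hkb' : dlt b' k ∈ D.C := by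
          have hm : b⁻¹ * b' ∈ D.K := D.quot_K h4 hbK hb'K
          rw [← hπ] at hkb ⊢
          simp only [dlt, map_mul, map_inv] at hkb ⊢
          have hc : Commute (π b) (π k) := mul_inv_eq_iff_eq_mul.1 (mul_inv_eq_one.1 hkb)
          have hc2 : Commute (π (b * (b⁻¹ * b'))) (π k) := by
            rw [map_mul]
            exact hc.mul_left (hKc _ (Subgroup.mem_map_of_mem π hm) _
              (Subgroup.mem_map_of_mem π (hHK hk)))
          rw [mul_inv_cancel_left] at hc2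
          rw [hc2.eq, mul_inv_cancel_right, mul_inv_cancel]
        refine (hg.pi b' k hb'K (hHK hk) hkb' (hg.inPi_of h4 h16 ((hσ _).1 ?_))).elim hkC hakC
        have hb'i : b'⁻¹ = b' := inv_eq_of_mul_eq_one_right hb'
        have hh : σ (dlt h' k) = 1 := (hσ _).2 (hsm _ (comm_mem_phi hh' hk)
          (D.comm_K (hHK hh') (hHK hk)))
        set c1 := (h' * a)⁻¹ * (b' * h' * b') with hc1
        set c2 := k⁻¹ * (b' * k * b') with hc2
        have hc2C : c2 ∈ D.C := by
          have := D.normal_C.conj_mem _ hkb' k⁻¹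
          rwa [dlt, hb'i, show k⁻¹ * (b' * k * b' * k⁻¹) * k⁻¹⁻¹ = c2 by rw [hc2]; group] at this
        have hH' : Commute (σ h') (σ k) := by
          refine mul_inv_eq_iff_eq_mul.1 (mul_inv_eq_one.1 ?_)
          simpa only [dlt, map_mul, map_inv] using hh
        have hB : σ b' * σ b' = 1 := by rw [← map_mul, hb', map_one]
        have hconj : Commute (σ (b' * h' * b')) (σ (b' * k * b')) := by
          simp only [map_mul]
          show σ b' * σ h' * σ b' * (σ b' * σ k * σ b') = σ b' * σ k * σ b' * (σ b' * σ h' * σ b')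
          calc σ b' * σ h' * σ b' * (σ b' * σ k * σ b')
              = σ b' * σ h' * (σ b' * σ b') * σ k * σ b' := by group
            _ = σ b' * (σ h' * σ k) * σ b' := by rw [hB]; group
            _ = σ b' * (σ k * σ h') * σ b' := by rw [hH'.eq]
            _ = σ b' * σ k * (σ b' * σ b') * σ h' * σ b' := by rw [hB]; group
            _ = _ := by group
        rw [show b' * h' * b' = h' * a * c1 by rw [hc1]; group,
          show b' * k * b' = k * c2 by rw [hc2]; group, map_mul, map_mul σ k c2] at hconj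
        have hkc1 := hσc k (hall k (hHK hk)) c1 hb'y
        have hhac2 : Commute (σ (h' * a)) (σ c2) :=
          hσc _ ((hall h' (hHK hh')).mul hta) c2 hc2C
        have hc12 : Commute (σ c1) (σ c2) := hσc c1 (Triv.of_mem hb'y) c2 hc2C
        have hha : Commute (σ (h' * a)) (σ k) := by
          have h5 : Commute (σ (h' * a) * σ c1) (σ c2) := hhac2.mul_left hc12
          have h6 := hconj.mul_right h5.inv_right
          rw [mul_inv_cancel_right] at h6
          have h7 := h6.mul_left (hkc1.symm.inv_left)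
          rwa [mul_inv_cancel_right] at h7
        rw [map_mul] at hha
        have hak : Commute (σ a) (σ k) := by
          have h8 := (hH'.inv_left).mul_left hha
          rwa [inv_mul_cancel_left] at h8
        rw [map_mul, map_mul, map_mul, map_inv, ← hak.eq, mul_inv_cancel_right, hσa]
    · -- `H` covers `K`
      have hX2 : 2 ≤ X := by
        by_contra hcon
        push Not at hcon
        exact hsmallXY ((Nat.mul_le_mul (show X ≤ 1 by omega) hY16).trans_eq (by norm_num))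
      have hHb16 : Nat.card Hb = 16 := hYc ▸ h16'
      have heqK : Hb = Kb := Subgroup.eq_of_le_of_card_ge hHbK (by omega)
      obtain ⟨hall, -⟩ := hallT (by rw [← heqK, hHb16]; norm_num)
      obtain ⟨x, hx, hxa⟩ : π a ∈ Hb := heqK ▸ Subgroup.mem_map_of_mem π hg.aK
      set W := (Phi H ⊓ D.C) ⊔ Phi D.C with hWdef
      have hWC : W ≤ D.C := sup_le inf_le_right (phi_le_self _)
      have hWmem : ∀ k ∈ D.K, a * (k * a * k⁻¹) ∈ W := by
        intro k hk
        obtain ⟨h, hh, hhk⟩ : π k ∈ Hb := heqK ▸ Subgroup.mem_map_of_mem π hk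
        have hd : dlt x h ∈ Phi H ⊓ D.C :=
          Subgroup.mem_inf.2 ⟨comm_mem_phi hx hh, D.comm_K (hHK hx) (hHK hh)⟩
        have hc : a⁻¹ * x ∈ D.C := (hπeq a x).1 hxa.symm
        have hd' : h⁻¹ * k ∈ D.C := (hπeq h k).1 hhk
        have e : σ (dlt x h) = σ (a * (k * a * k⁻¹)) := by
          have hC := hσc h (hall h (hHK hh)) _ hc
          have hD := hσc a hta _ hd'
          rw [show k = h * (h⁻¹ * k) by group, show x = a * (a⁻¹ * x) by group]
          generalize hc0 : a⁻¹ * x = c0 at hC ⊢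
          generalize hd0 : h⁻¹ * k = d0 at hD ⊢
          simp only [dlt, map_mul, map_inv, mul_inv_rev] at hC hD ⊢
          set c := σ c0
          set d := σ d0
          rw [mul_assoc (σ a) c (σ h), ← hC.eq, inv_eq_of_mul_eq_one_right hσa,
            show σ h * d * σ a * (d⁻¹ * (σ h)⁻¹) = σ h * (d * σ a * d⁻¹) * (σ h)⁻¹ by group,
            ← hD.eq, mul_inv_cancel_right]
          group
        have h1 : (dlt x h)⁻¹ * (a * (k * a * k⁻¹)) ∈ Phi D.C := QuotientGroup.eq.1 e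
        rw [show a * (k * a * k⁻¹) = dlt x h * ((dlt x h)⁻¹ * (a * (k * a * k⁻¹))) by group]
        exact mul_mem (Subgroup.mem_sup_left hd) (Subgroup.mem_sup_right h1)
      obtain ⟨hW16, -⟩ := hcount W hWmem le_sup_right
      rw [← heqK, hHb16] at hW16
      have hWσ : W.map σ = D.C.map σ := Subgroup.eq_of_le_of_card_ge (Subgroup.map_mono hWC)
        (by rw [hCσ]; omega)
      have hCW : D.C ≤ W := by
        intro c hc
        obtain ⟨w, hw, hwc⟩ : σ c ∈ W.map σ := hWσ ▸ Subgroup.mem_map_of_mem σ hc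
        rw [show c = w * (w⁻¹ * c) by group]
        exact mul_mem hw (Subgroup.mem_sup_right (QuotientGroup.eq.1 hwc))
      have hfull := eq_of_sup_phi D.isP (inf_le_right : Phi H ⊓ D.C ≤ D.C) hCW
      have hX1 : X = 1 := Subgroup.relIndex_eq_one.2 (inf_le_right.trans hfull.ge)
      omega
  · -- `H` moves `E`
    obtain ⟨t, htH, htK⟩ := SetLike.not_le_iff_exists.1 hHK
    set τ := π t with hτ
    set P := Hb ⊓ Kb with hP
    set Fx := Kb ⊓ Subgroup.centralizer ({τ} : Set (S ⧸ D.C)) with hFx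
    have hFx4 : Nat.card Fx ≤ 4 := by
      obtain ⟨v, hv, hdet⟩ := D.fix_classes h4 h16 htK
      have hex : ∀ p : Fx, ∃ k ∈ D.K, π k = (p : S ⧸ D.C) := fun p => (Subgroup.mem_inf.1 p.2).1
      choose r hrK hr using hex
      have hcom : ∀ p : Fx, dlt t (r p) ∈ D.C := fun p => by
        have := Subgroup.mem_centralizer_singleton_iff.1 (Subgroup.mem_inf.1 p.2).2
        rw [← hπ]
        simp only [dlt, map_mul, map_inv, hr]
        rw [← hτ, ← this, mul_inv_cancel_right, mul_inv_cancel]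
      refine (Nat.card_le_card_of_injective
        (fun p : Fx => (⟨dlt (r p) v, D.dlt_K_mem (hrK p) hv⟩ : D.E)) ?_).trans h4.le
      intro p p' h
      simp only [Subtype.mk.injEq] at h
      refine Subtype.ext ?_
      rw [← hr p, ← hr p', hπeq]
      exact hdet _ _ (hrK p) (hrK p') (hcom p) (hcom p') h
    have hτH : τ ∈ Hb := Subgroup.mem_map_of_mem π htH
    have hHbcard : Nat.card Hb ≤ 2 * Nat.card P := by
      have hsub : (Hb : Set (S ⧸ D.C)) ⊆ (P : Set (S ⧸ D.C)) ∪ (fun p => τ * p) '' P := by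
        rintro _ ⟨h, hh, rfl⟩
        by_cases hhK : h ∈ D.K
        · exact Or.inl ⟨Subgroup.mem_map_of_mem π hh, Subgroup.mem_map_of_mem π hhK⟩
        · refine Or.inr ⟨π (t⁻¹ * h), ⟨Subgroup.mem_map_of_mem π (mul_mem (inv_mem htH) hh),
            Subgroup.mem_map_of_mem π (D.quot_K h4 htK hhK)⟩, ?_⟩
          show π t * π (t⁻¹ * h) = π h
          rw [← map_mul, mul_inv_cancel_left]
      have h1 := (Set.ncard_le_ncard hsub (Set.toFinite _)).trans (Set.ncard_union_le _ _)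
      have h2 := Set.ncard_image_le (f := fun p => τ * p) (Set.toFinite (P : Set (S ⧸ D.C)))
      rw [← Nat.card_coe_set_eq, ← Nat.card_coe_set_eq (P : Set (S ⧸ D.C))] at h1
      rw [← Nat.card_coe_set_eq (P : Set (S ⧸ D.C))] at h2
      have h3 : Nat.card ↥(Hb : Set (S ⧸ D.C)) = Nat.card Hb := rfl
      have h4' : Nat.card ↥(P : Set (S ⧸ D.C)) = Nat.card P := rfl
      omega
    have hτK : ∀ p ∈ Kb, τ * p * τ⁻¹ ∈ Kb := by
      rintro _ ⟨k, hk, rfl⟩
      exact ⟨t * k * t⁻¹, D.K_normal.conj_mem k hk t, by simp only [hτ, map_mul, map_inv]⟩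
    let f : P →* S ⧸ D.C := MonoidHom.mk' (fun p => τ * (p : S ⧸ D.C) * τ⁻¹ * (p : S ⧸ D.C)⁻¹)
      fun p q => by
        have hp := (Subgroup.mem_inf.1 p.2).2
        have hq := (Subgroup.mem_inf.1 q.2).2
        show τ * ((p : S ⧸ D.C) * q) * τ⁻¹ * ((p : S ⧸ D.C) * q)⁻¹ = _
        rw [show τ * ((p : S ⧸ D.C) * q) * τ⁻¹ * ((p : S ⧸ D.C) * q)⁻¹
            = τ * p * τ⁻¹ * ((τ * q * τ⁻¹ * (q : S ⧸ D.C)⁻¹) * (p : S ⧸ D.C)⁻¹) by group,
          (hKc _ (mul_mem (hτK _ hq) (inv_mem hq)) _ (inv_mem hp)).eq]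
        group
    have hrange : Nat.card f.range ≤ Nat.card ↥(Phi Hb) := Subgroup.card_le_of_le (by
      rintro _ ⟨p, rfl⟩
      exact comm_mem_phi hτH (Subgroup.mem_inf.1 p.2).1)
    have hker : Nat.card f.ker ≤ Nat.card ↥(Hb ⊓ Fx) := by
      refine Nat.card_le_card_of_injective
        (fun p : f.ker => (⟨((p : P) : S ⧸ D.C), ?_⟩ : ↥(Hb ⊓ Fx))) ?_
      · have hp := Subgroup.mem_inf.1 (p : P).2
        refine Subgroup.mem_inf.2 ⟨hp.1, Subgroup.mem_inf.2 ⟨hp.2,
          Subgroup.mem_centralizer_singleton_iff.2 ?_⟩⟩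
        have h : τ * ((p : P) : S ⧸ D.C) * τ⁻¹ * ((p : P) : S ⧸ D.C)⁻¹ = 1 := p.2
        exact (mul_inv_eq_iff_eq_mul.1 (mul_inv_eq_one.1 h)).symm
      · intro p q h
        simp only [Subtype.mk.injEq] at h
        exact Subtype.ext (Subtype.ext h)
    have hYk : Y ≤ 2 * Nat.card ↥(Hb ⊓ Fx) := by
      have e1 := relIndex_mul_card (phi_le_self Hb)
      have e2 := f.ker.card_mul_index
      rw [Subgroup.index_ker] at e2
      refine Nat.le_of_mul_le_mul_left ?_ (Nat.card_pos (α := ↥(Phi Hb)))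
      rw [hY, e1]
      refine hHbcard.trans ?_
      rw [← e2]
      calc 2 * (Nat.card f.ker * Nat.card f.range)
          ≤ 2 * (Nat.card ↥(Hb ⊓ Fx) * Nat.card ↥(Phi Hb)) :=
            Nat.mul_le_mul_left _ (Nat.mul_le_mul hker hrange)
        _ = _ := by ring
    have hle4 : Nat.card ↥(Hb ⊓ Fx) ≤ 4 := (Subgroup.card_le_of_le inf_le_right).trans hFx4
    by_cases hY4 : Y ≤ 4
    · exact (Nat.mul_le_mul hX4 hY4).trans_eq (by norm_num)
    by_cases hX2 : X ≤ 2
    · exact (Nat.mul_le_mul hX2 (hYk.trans (Nat.mul_le_mul_left 2 hle4))).trans_eq (by norm_num)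
    exfalso
    have hX4' : X = 4 := by
      exact pow2_eq_four hiX (by omega) hX4
    have hY8 : 8 ≤ Y := by
      exact pow2_eight hiY (by omega)
    have hsm := hsmall hX4'
    have hinter : Hb ⊓ Fx = Fx := Subgroup.eq_of_le_of_card_ge inf_le_right (by omega)
    have hFxH : Fx ≤ Hb := inf_eq_right.1 hinter
    have hFxmem : ∀ k : S, π k ∈ Fx ↔ k ∈ D.K ∧ dlt t k ∈ D.C := by
      intro k
      rw [hFx, Subgroup.mem_inf, Subgroup.mem_centralizer_singleton_iff, ← hπ]
      simp only [dlt, map_mul, map_inv, mul_inv_eq_one, mul_inv_eq_iff_eq_mul, hτ]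
      exact ⟨fun h => ⟨hKmem k h.1, h.2.symm.trans (by simp)⟩,
        fun h => ⟨Subgroup.mem_map_of_mem π h.1, (h.2.trans (by simp)).symm⟩⟩
    have htriv : ∀ h ∈ H, π h ∈ Fx → Triv D.C h ∧ h * h ∈ Phi D.C := fun h hh hp => by
      have h1 := (hFxmem h).1 hp
      have h2 := hsm _ (sq_mem_phi hh) (D.sq_K h1.1)
      exact ⟨D.triv_of_comm_phi h4 h16 htK h1.1 h1.2 h2, h2⟩
    by_cases haH : π a ∈ Hb
    · obtain ⟨x, hx, hxa⟩ := haH
      obtain ⟨p, hp, hp'⟩ : ∃ p ∈ Fx, p ∉ ({1, π a} : Finset (S ⧸ D.C)) := by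
        by_contra hcon
        push Not at hcon
        have h1 := Set.ncard_le_ncard (s := (Fx : Set (S ⧸ D.C)))
          (t := ↑({1, π a} : Finset (S ⧸ D.C))) (fun x hx => hcon x hx) (Finset.finite_toSet _)
        rw [Set.ncard_coe_finset, ← Nat.card_coe_set_eq] at h1
        have h2 : Nat.card Fx ≤ 2 := h1.trans Finset.card_le_two
        rw [hinter] at hYk
        omega
      simp only [Finset.mem_insert, Finset.mem_singleton, not_or] at hp'
      obtain ⟨h, hh, rfl⟩ := hFxH hp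
      obtain ⟨hhK, hht⟩ := (hFxmem h).1 hp
      obtain ⟨htr, -⟩ := htriv h hh hp
      have hxK : x ∈ D.K := hKmem x (hxa ▸ Subgroup.mem_map_of_mem π hg.aK)
      have hc : a⁻¹ * x ∈ D.C := (hπeq a x).1 hxa.symm
      refine (hg.pi t h htK hhK hht (hg.inPi_of h4 h16 ((hσ _).1 ?_))).elim
        (fun h' => hp'.1 ((hπ h).2 h')) (fun h' => hp'.2 ((hπeq a h).2 h').symm)
      have h2 := (hσ _).2 (hsm _ (comm_mem_phi hx hh) (D.comm_K hxK hhK))
      have hC := hσc h htr _ hc
      rw [show x = a * (a⁻¹ * x) by group] at h2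
      generalize hc0 : a⁻¹ * x = c0 at h2 hC
      simp only [map_mul, map_inv, mul_inv_rev] at h2 hC ⊢
      set c := σ c0
      rw [mul_assoc (σ a) c (σ h), ← hC.eq, inv_eq_of_mul_eq_one_right hσa] at h2
      rw [← h2]; group
    · set b := t * a * t⁻¹ with hb
      have hbK : b ∈ D.K := D.K_normal.conj_mem a hg.aK t
      have hKa : a * b ∈ D.K := mul_mem hg.aK hbK
      have htt : t * t ∈ D.K := by
        by_contra h
        have := D.quot_K h4 htK h
        rw [inv_mul_cancel_left] at this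
        exact htK this
      have hab : dlt t (a * b) ∈ D.C := by
        rw [← hπ]
        have hb2 : π t * π b * (π t)⁻¹ = π a := by
          rw [hb, map_mul, map_mul, map_inv,
            show π t * (π t * π a * (π t)⁻¹) * (π t)⁻¹ = (π t * π t) * π a * (π t * π t)⁻¹ by group,
            ← map_mul, (hKc _ (Subgroup.mem_map_of_mem π htt) _
              (Subgroup.mem_map_of_mem π hg.aK)).eq, mul_inv_cancel_right]
        have hb3 : π t * π a * (π t)⁻¹ = π b := by simp [hb]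
        simp only [dlt, map_mul, map_inv, mul_inv_rev]
        rw [show π t * (π a * π b) * (π t)⁻¹
            = (π t * π a * (π t)⁻¹) * (π t * π b * (π t)⁻¹) by group, hb2, hb3,
          (hKc _ (Subgroup.mem_map_of_mem π hbK) _ (Subgroup.mem_map_of_mem π hg.aK)).eq]
        group
      have hp : π (a * b) ∈ Fx := (hFxmem _).2 ⟨hKa, hab⟩
      obtain ⟨h, hh, hhk⟩ := hFxH hp
      have hp' : π h ∈ Fx := hhk ▸ hp
      obtain ⟨hhK, hht⟩ := (hFxmem h).1 hp'
      obtain ⟨htr, hhsq⟩ := htriv h hh hp'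
      refine (hg.pi t h htK hhK hht (hg.inPi_of h4 h16 ((hσ _).1 ?_))).elim (fun h' => ?_)
        (fun h' => haH ?_)
      · -- compute with the involution `a h c`
        have hd : h⁻¹ * (a * b) ∈ D.C := (hπeq h (a * b)).1 hhk
        set d := h⁻¹ * (a * b) with hd'
        have hbd : b = a * h * d := by
          rw [hd', mul_assoc, mul_inv_cancel_left, ← mul_assoc, ha, one_mul]
        have hb1 : σ b * σ b = 1 := by
          rw [← map_mul, hb, show t * a * t⁻¹ * (t * a * t⁻¹) = t * (a * a) * t⁻¹ by group, ha]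
          simp
        have hA := hσc a hta _ hd
        have hH := hσc h htr _ hd
        have hdd : σ d * σ d = 1 := by rw [← map_mul]; exact (hσ _).2 (sq_mem_phi hd)
        have hhh : σ h * σ h = 1 := by rw [← map_mul]; exact (hσ _).2 hhsq
        rw [hbd, map_mul, map_mul,
          ((hA.mul_left hH).symm).mul_mul_mul_comm, hdd, mul_one] at hb1
        rw [map_mul, map_mul, map_mul, map_inv, inv_eq_of_mul_eq_one_right hhh]
        rw [← hb1]; group
      · refine haH (hFxH ((hFxmem a).2 ⟨hg.aK, ?_⟩))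
        rw [← hπ]
        have h1 : π b = π a := by
          have h2 := (hπ h).2 h'
          rw [hhk, map_mul, mul_eq_one_iff_eq_inv'] at h2
          rw [h2, ← map_inv, hai]
        simp only [dlt, map_mul, map_inv]
        rw [show π t * π a * (π t)⁻¹ = π b by simp [hb], h1, mul_inv_cancel]
      · rw [(hπeq a h).2 h']
        exact Subgroup.mem_map_of_mem π hh

theorem card_A0_le_sq [Finite S] : Nat.card D.A0 ≤ Nat.card D.E * Nat.card D.E := by
  let f : D.A0 →* S := MonoidHom.mk' (fun x => (x : S) * x) fun x y => by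
    show (x : S) * y * (x * y) = x * x * (y * y)
    exact (D.A0_comm _ y.2 _ x.2).mul_mul_mul_comm _ _
  have hker : Nat.card f.ker ≤ Nat.card D.E := by
    refine Nat.card_le_card_of_injective (fun x : f.ker => (⟨((x : D.A0) : S),
      (D.mem_E _).2 ⟨(x : D.A0).2, x.2⟩⟩ : D.E)) fun p q h => ?_
    simp only [Subtype.mk.injEq] at h
    exact Subtype.ext (Subtype.ext h)
  have hle : f.range ≤ D.E := by rintro _ ⟨x, rfl⟩; exact D.sq_mem_E x.2
  have h1 := f.ker.card_mul_index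
  rw [Subgroup.index_ker] at h1
  rw [← h1]
  exact Nat.mul_le_mul hker (Subgroup.card_le_of_le hle)

theorem bound (D : Data S) [Finite S] (H : Subgroup S) : (Phi H).relIndex H ≤ 16 := by
  classical
  haveI := D.normal_C
  haveI : Fact (Nat.Prime 2) := ⟨Nat.prime_two⟩
  obtain ⟨r, hr⟩ := (D.isP.to_subgroup D.E).exists_card_eq
  have hr4 : r ≤ 4 := (Nat.pow_le_pow_iff_right (le_refl 2)).1
    ((hr ▸ D.card_E_le).trans_eq (by norm_num))
  by_cases h16 : r = 4
  · exact D.bound_four (by rw [hr, h16]; norm_num) H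
  by_cases h8 : r = 3
  · exact D.bound_three (by rw [hr, h8]; norm_num) H
  have hE4 : Nat.card D.E ≤ 4 := by
    rw [hr]
    exact (Nat.pow_le_pow_right (by norm_num) (show r ≤ 2 by omega)).trans_eq (by norm_num)
  obtain ⟨k, hk⟩ := (D.isP.to_subgroup D.A0).exists_card_eq
  have hk4 : k ≤ 4 := (Nat.pow_le_pow_iff_right (le_refl 2)).1
    ((hk ▸ D.card_A0_le_sq.trans (Nat.mul_le_mul hE4 hE4)).trans_eq (by norm_num))
  by_cases hA16 : k = 4
  · have h4 : Nat.card D.E = 4 := by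
      have := D.card_A0_le_sq
      rw [hk, hA16] at this
      by_contra hne
      have hlt : Nat.card D.E ≤ 3 := by omega
      have := Nat.mul_le_mul hlt hlt
      omega
    exact D.bound_two h4 (by rw [hk, hA16]; norm_num) H
  rw [relIndex_phi_split D.C H]
  have hX : (Phi H ⊓ D.C).relIndex (H ⊓ D.C) ≤ 4 := by
    have hle : Phi (H ⊓ D.C) ≤ Phi H ⊓ D.C :=
      le_inf (phi_mono inf_le_left) ((phi_le_self _).trans inf_le_right)
    exact ((Nat.le_of_dvd (Nat.pos_of_ne_zero Subgroup.index_ne_zero_of_finite)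
      (Subgroup.relIndex_dvd_of_le_left (H ⊓ D.C) hle)).trans
      (D.relIndex_phi_le_card inf_le_right)).trans hE4
  refine (Nat.mul_le_mul hX (?_ : _ ≤ 4)).trans_eq (by norm_num)
  by_cases hA8 : k = 3
  · exact D.small_quot_bound (by rw [hk, hA8]; norm_num) H
  set M := H.map (QuotientGroup.mk' D.C)
  have e := relIndex_mul_card (phi_le_self M)
  have hM : Nat.card M ≤ 4 := by
    refine (Subgroup.card_le_card_group M).trans ?_
    rw [← Subgroup.index_eq_card]
    refine (CfsgLib.PGroups.index_centralizer_le D.isP k D.A0 D.A0_normal hk).trans ?_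
    have : k ≤ 2 := by omega
    interval_cases k <;> decide
  rw [← e] at hM
  exact (Nat.le_mul_of_pos_left _ Nat.card_pos).trans hM

end Data

/-- A 2-group with a self-centralizing elementary abelian subgroup of order eight has sectional
2-rank at most four. -/
theorem sectional_rank_four [Finite S] (hS : IsPGroup 2 S) (A : Subgroup S)
    (hA2 : ∀ a ∈ A, a * a = 1) (hA8 : Nat.card A = 8)
    (hC : ∀ x, (∀ a ∈ A, Commute x a) → x ∈ A) : Cfsg.SectionalPRankLE 2 4 S := by
  obtain ⟨D, -⟩ := exists_data hS A hA2 hA8 hC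
  exact sectional_of_phi fun H => (D.bound H).trans_eq (by norm_num)

end CfsgLib.TwoFusion.SelfCent
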