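/-
A 2-group with a four-group `B` all of whose involutions have the same centralizer `T`: the two
cases `T = D × B` with small centre of `D`, and `T` elementary abelian of order `16`.
-/
import Cfsg.Agent.Lib.TwoFusion.KleinFactorBasic

set_option autoImplicit false

namespace CfsgLib.TwoFusion.KleinFactor

open CfsgLib.TwoFusion.SelfCent

variable {S : Type*} [Group S]

theorem conj_mem_of_mem_normalizer {T : Subgroup S} {h t : S}
    (hh : h ∈ Subgroup.normalizer (T : Set S)) (ht : t ∈ T) : h * t * h⁻¹ ∈ T :=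
  (Subgroup.mem_normalizer_iff.1 hh t).1 ht

theorem lt_normalizer [Finite S] (hS : IsPGroup 2 S) {T : Subgroup S} (h : T ≠ ⊤) :
    T < Subgroup.normalizer (T : Set S) := by
  have : Fact (Nat.Prime 2) := ⟨Nat.prime_two⟩
  have : Group.IsNilpotent S := hS.isNilpotent
  exact Group.normalizerCondition_of_isNilpotent T (lt_top_iff_ne_top.2 h)

theorem exists_sq_mem [Finite S] (hS : IsPGroup 2 S) {T : Subgroup S} (h : T ≠ ⊤) :
    ∃ g ∈ Subgroup.normalizer (T : Set S), g ∉ T ∧ g * g ∈ T := by
  obtain ⟨g, hgN, hgT⟩ := SetLike.exists_of_lt (lt_normalizer hS h)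
  obtain ⟨k, hk⟩ := hS g
  have key : ∀ k, ∀ g ∈ Subgroup.normalizer (T : Set S), g ∉ T → g ^ 2 ^ k ∈ T →
      ∃ g ∈ Subgroup.normalizer (T : Set S), g ∉ T ∧ g * g ∈ T := by
    intro k
    induction k with
    | zero => intro g _ hgT hk; simp at hk; exact absurd hk hgT
    | succ k ih =>
      intro g hgN hgT hk
      by_cases h2 : g * g ∈ T
      · exact ⟨g, hgN, hgT, h2⟩
      · refine ih (g * g) (mul_mem hgN hgN) h2 ?_
        rwa [← pow_two, ← pow_mul, ← pow_succ']
  exact key k g hgN hgT (hk ▸ T.one_mem)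

/-- Two subgroups with the product of orders too large meet nontrivially. -/
theorem exists_ne_one_mem_inf [Finite S] {A B C : Subgroup S} (hA : A ≤ C) (hB : B ≤ C)
    (h : Nat.card C < Nat.card A * Nat.card B) : ∃ x ∈ A ⊓ B, x ≠ 1 := by
  by_contra hne
  refine absurd (card_mul_le_of_inf_bot hA hB (eq_bot_iff.2 fun x hx => ?_)) (not_le.2 h)
  by_contra hx1
  exact hne ⟨x, hx, by simpa using hx1⟩

/-- If the centre of `T` is elementary of order at most `8`, contains `B`, and is the full
obstruction, then `T` is all of `S`. -/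
theorem eq_top_of_small_center [Finite S] (hS : IsPGroup 2 S) (T B Z : Subgroup S)
    (hZ : ∀ x, x ∈ Z ↔ x ∈ T ∧ ∀ t ∈ T, Commute x t) (hZ2 : ∀ x ∈ Z, x * x = 1)
    (hZ8 : Nat.card Z ≤ 8) (hB4 : Nat.card B = 4) (hBZ : B ≤ Z)
    (hC : ∀ b ∈ B, b ≠ 1 → Subgroup.centralizer ({b} : Set S) = T) : T = ⊤ := by
  by_contra hT
  obtain ⟨g, hgN, hgT, hg2⟩ := exists_sq_mem hS hT
  have hgZ : ∀ a ∈ Z, g * a * g⁻¹ ∈ Z := by
    intro a ha
    rw [hZ] at ha ⊢
    refine ⟨conj_mem_of_mem_normalizer hgN ha.1, fun t ht => ?_⟩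
    have ht' : g⁻¹ * t * g ∈ T := by
      have := conj_mem_of_mem_normalizer (inv_mem hgN) ht
      rwa [inv_inv] at this
    have h := ha.2 _ ht'
    show g * a * g⁻¹ * t = t * (g * a * g⁻¹)
    calc g * a * g⁻¹ * t = g * (a * (g⁻¹ * t * g)) * g⁻¹ := by group
      _ = g * (g⁻¹ * t * g * a) * g⁻¹ := by rw [h.eq]
      _ = t * (g * a * g⁻¹) := by group
  have hsq := card_le_fix_sq Z hZ2 g hgZ (fun a ha => (((hZ a).1 ha).2 _ hg2).symm)
  have h4 : 4 ≤ Nat.card Z := hB4 ▸ Subgroup.card_le_of_le hBZ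
  obtain ⟨x, hx, hx1⟩ := exists_ne_one_mem_inf (A := Z ⊓ Subgroup.centralizer ({g} : Set S))
    inf_le_left hBZ (by rw [hB4]; nlinarith)
  have hg : g ∈ Subgroup.centralizer ({x} : Set S) := Subgroup.mem_centralizer_singleton_iff.2
    (Subgroup.mem_centralizer_singleton_iff.1 hx.1.2).symm
  rw [hC x hx.2 hx1] at hg
  exact hgT hg

/-- `T` is elementary abelian of order `16` and is the centralizer of each involution of `B ≤ T`. -/
structure ElemFour (T B : Subgroup S) : Prop where
  T2 : ∀ t ∈ T, t * t = 1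
  T16 : Nat.card T = 16
  BT : B ≤ T
  B4 : Nat.card B = 4
  cent : ∀ b ∈ B, b ≠ 1 → Subgroup.centralizer ({b} : Set S) = T

namespace ElemFour

variable {T B : Subgroup S} (D : ElemFour T B) [Finite S]
include D

theorem B2 : ∀ b ∈ B, b * b = 1 := fun b hb => D.T2 b (D.BT hb)

theorem exists_b : ∃ b ∈ B, b ≠ 1 := by
  have : Nontrivial B := (Finite.one_lt_card_iff_nontrivial).1 (by rw [D.B4]; norm_num)
  obtain ⟨b, hb⟩ := exists_ne (1 : B)
  exact ⟨b, b.2, fun h => hb (Subtype.ext h)⟩

theorem mem_of_commute {x : S} (h : ∀ t ∈ T, Commute x t) : x ∈ T := by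
  obtain ⟨b, hb, hb1⟩ := D.exists_b
  rw [← D.cent b hb hb1]
  exact Subgroup.mem_centralizer_singleton_iff.2 (h b (D.BT hb)).eq

theorem fix_four {g : S} (hg : g ∈ Subgroup.normalizer (T : Set S)) (hgT : g ∉ T)
    (hg2 : g * g ∈ T) : Nat.card ↥(T ⊓ Subgroup.centralizer ({g} : Set S)) = 4 := by
  have hsq := card_le_fix_sq T D.T2 g (fun a ha => conj_mem_of_mem_normalizer hg ha)
    (fun a ha => comm_of_sq D.T2 hg2 ha)
  rw [D.T16] at hsq
  refine le_antisymm ?_ (by nlinarith)
  by_contra hlt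
  obtain ⟨x, hx, hx1⟩ := exists_ne_one_mem_inf (A := T ⊓ Subgroup.centralizer ({g} : Set S))
    inf_le_left D.BT (by rw [D.T16, D.B4]; omega)
  have hgx : g ∈ Subgroup.centralizer ({x} : Set S) := Subgroup.mem_centralizer_singleton_iff.2
    (Subgroup.mem_centralizer_singleton_iff.1 hx.1.2).symm
  rw [D.cent x hx.2 hx1] at hgx
  exact hgT hgx

/-- `T` has index at most four in its normalizer. -/
theorem relIndex_normalizer_le (hS : IsPGroup 2 S) :
    T.relIndex (Subgroup.normalizer (T : Set S)) ≤ 4 := by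
  have : Fact (Nat.Prime 2) := ⟨Nat.prime_two⟩
  set N := Subgroup.normalizer (T : Set S) with hN
  set T' := T.subgroupOf N with hT'
  have : T'.Normal := Subgroup.normal_in_normalizer
  have : Group.IsNilpotent N := (hS.to_subgroup N).isNilpotent
  have hne : ¬ T' ≤ ⁅T', (⊤ : Subgroup N)⁆ := by
    intro hle
    have hind : ∀ n, T' ≤ Subgroup.lowerCentralSeries (⊤ : Subgroup N) n := by
      intro n
      induction n with
      | zero => rw [Subgroup.lowerCentralSeries_zero]; exact le_top
      | succ n ih =>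
        rw [Subgroup.lowerCentralSeries_succ]
        exact hle.trans (Subgroup.commutator_mono ih le_rfl)
    obtain ⟨n, hn⟩ := Subgroup.nilpotent_iff_lowerCentralSeries.1 ‹Group.IsNilpotent N›
    obtain ⟨b, hb, hb1⟩ := D.exists_b
    have hbN : b ∈ N := Subgroup.le_normalizer (D.BT hb)
    have hbb : (⟨b, hbN⟩ : N) ∈ (⊥ : Subgroup N) := hn ▸ hind n (D.BT hb)
    exact hb1 (congrArg Subtype.val (Subgroup.mem_bot.1 hbb))
  set M := (⁅T', (⊤ : Subgroup N)⁆).map N.subtype with hM
  have hMT : M ≤ T := by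
    rintro _ ⟨x, hx, rfl⟩
    exact (Subgroup.commutator_le_left T' ⊤) hx
  have hMne : M ≠ T := by
    intro h
    refine hne fun x hx => ?_
    obtain ⟨y, hy, hyx⟩ := (h ▸ (hx : (x : S) ∈ T) : (x : S) ∈ M)
    rwa [← Subtype.ext hyx]
  have hcomm : ∀ h ∈ N, ∀ t ∈ T, t * h * t⁻¹ * h⁻¹ ∈ M := by
    intro h hh t ht
    exact ⟨_, Subgroup.commutator_mem_commutator
      (show (⟨t, Subgroup.le_normalizer ht⟩ : N) ∈ T' from ht) (Subgroup.mem_top ⟨h, hh⟩), rfl⟩
  obtain ⟨b, hb, hb1⟩ := D.exists_b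
  have hMcard : Nat.card M ≤ 8 := by
    have h1 := relIndex_mul_card hMT
    rw [D.T16] at h1
    have h2 : M.relIndex T ≠ 1 := fun h => hMne (le_antisymm hMT (Subgroup.relIndex_eq_one.1 h))
    have h3 : M.relIndex T ≠ 0 := Subgroup.index_ne_zero_of_finite
    have h4 : Nat.card M * 2 ≤ 16 := h1 ▸ Nat.mul_le_mul_left _ (by omega)
    omega
  -- the orbit of `b`
  let f : N → S := fun h => (h : S) * b * (h : S)⁻¹
  have hcoset : ∀ h : N, f h * b⁻¹ ∈ M := by
    intro h
    have h1 := M.inv_mem (hcomm h h.2 b (D.BT hb))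
    simpa [f, mul_assoc] using h1
  have hfib : Nat.card N ≤ Nat.card (Set.range f) * 16 := by
    rw [← D.T16, ← Nat.card_prod]
    let r : Set.range f → N := fun y => y.2.choose
    have hr : ∀ y : Set.range f, f (r y) = y := fun y => y.2.choose_spec
    refine Nat.card_le_card_of_injective
      (fun h : N => ((⟨f h, h, rfl⟩ : Set.range f),
        (⟨((r ⟨f h, h, rfl⟩ : N) : S)⁻¹ * h, ?_⟩ : T))) ?_
    · rw [← D.cent b hb hb1, Subgroup.mem_centralizer_singleton_iff]
      have he := hr ⟨f h, h, rfl⟩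
      simp only [f] at he
      set a : S := ((r ⟨f h, h, rfl⟩ : N) : S)
      calc a⁻¹ * (h : S) * b = a⁻¹ * ((h : S) * b * (h : S)⁻¹) * h := by group
        _ = a⁻¹ * (a * b * a⁻¹) * h := by rw [← he]
        _ = b * (a⁻¹ * h) := by group
    · intro h h' he
      simp only [Prod.mk.injEq, Subtype.mk.injEq] at he
      obtain ⟨he1, he2⟩ := he
      have : (⟨f h, h, rfl⟩ : Set.range f) = ⟨f h', h', rfl⟩ := he1
      rw [this] at he2
      exact Subtype.ext (mul_left_cancel he2)
  have horb : Nat.card (Set.range f) < 8 := by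
    by_cases hbM : b ∈ M
    · have hsub : Set.range f ⊆ (M : Set S) \ {1} := by
        rintro _ ⟨h, rfl⟩
        refine ⟨?_, fun h1 => hb1 ?_⟩
        · have := M.mul_mem (hcoset h) hbM
          simpa using this
        · simpa [f] using h1
      calc Nat.card (Set.range f) ≤ Nat.card ↥((M : Set S) \ {1}) :=
            Nat.card_mono (Set.toFinite _) hsub
        _ < 8 := by
            rw [Nat.card_coe_set_eq, Set.ncard_sdiff (by simp [M.one_mem]) (Set.toFinite _),
              Set.ncard_singleton, ← Nat.card_coe_set_eq]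
            have : Nat.card (M : Set S) = Nat.card M := rfl
            omega
    · by_cases h4 : 4 < Nat.card M
      · obtain ⟨x, hx, hx1⟩ := exists_ne_one_mem_inf (A := M) hMT D.BT
          (by rw [D.T16, D.B4]; omega)
        -- replace `b` by an element of `M`: all elements of `B` have the same stabilizer
        have hsub : Set.range (fun h : N => (h : S) * x * (h : S)⁻¹) ⊆ (M : Set S) \ {1} := by
          rintro _ ⟨h, rfl⟩
          refine ⟨?_, fun h1 => hx1 ?_⟩
          · have := M.mul_mem (M.inv_mem (hcomm h h.2 x (D.BT hx.2))) hx.1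
            simpa [mul_assoc] using this
          · simpa using h1
        have hle : Nat.card (Set.range f) ≤ Nat.card (Set.range (fun h : N => (h : S) * x * (h : S)⁻¹)) := by
          let r : Set.range f → N := fun y => y.2.choose
          have hr : ∀ y : Set.range f, f (r y) = y := fun y => y.2.choose_spec
          refine Nat.card_le_card_of_injective (fun y => ⟨_, r y, rfl⟩) fun y z hyz => ?_
          have hyz' : ((r y : N) : S) * x * ((r y : N) : S)⁻¹ = (r z : N) * x * ((r z : N) : S)⁻¹ :=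
            congrArg Subtype.val hyz
          have hT : ((r z : N) : S)⁻¹ * (r y : N) ∈ T := by
            rw [← D.cent x hx.2 hx1, Subgroup.mem_centralizer_singleton_iff]
            calc ((r z : N) : S)⁻¹ * (r y : N) * x
                = ((r z : N) : S)⁻¹ * ((r y : N) * x * ((r y : N) : S)⁻¹) * (r y : N) := by group
              _ = ((r z : N) : S)⁻¹ * ((r z : N) * x * ((r z : N) : S)⁻¹) * (r y : N) := by rw [hyz']
              _ = x * (((r z : N) : S)⁻¹ * (r y : N)) := by group
          rw [← D.cent b hb hb1, Subgroup.mem_centralizer_singleton_iff] at hT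
          apply Subtype.ext
          rw [← hr y, ← hr z]
          calc ((r y : N) : S) * b * ((r y : N) : S)⁻¹
              = (r z : N) * (((r z : N) : S)⁻¹ * (r y : N) * b) * ((r y : N) : S)⁻¹ := by group
            _ = (r z : N) * (b * (((r z : N) : S)⁻¹ * (r y : N))) * ((r y : N) : S)⁻¹ := by rw [hT]
            _ = (r z : N) * b * ((r z : N) : S)⁻¹ := by group
        exact show Nat.card (Set.range f) < 8 by
          refine lt_of_le_of_lt (hle.trans (Nat.card_mono (Set.toFinite _) hsub)) ?_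
          rw [Nat.card_coe_set_eq, Set.ncard_sdiff (by simp [M.one_mem]) (Set.toFinite _),
            Set.ncard_singleton, ← Nat.card_coe_set_eq]
          have : Nat.card (M : Set S) = Nat.card M := rfl
          omega
      refine lt_of_le_of_lt (Nat.card_le_card_of_injective
        (fun y : Set.range f => (⟨(y : S) * b⁻¹, by obtain ⟨h, hh⟩ := y.2; rw [← hh]; exact hcoset h⟩ : M))
        fun y z h => Subtype.ext (mul_right_cancel (congrArg Subtype.val h))) (by omega)
  obtain ⟨j, hj⟩ := (hS.to_subgroup N).exists_card_eq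
  have h1 := relIndex_mul_card (Subgroup.le_normalizer : T ≤ N)
  rw [D.T16] at h1
  have h2 : T.relIndex N < 8 := by nlinarith
  have hdvd : T.relIndex N ∣ 2 ^ j := hj ▸ h1 ▸ dvd_mul_left _ _
  obtain ⟨i, -, hi⟩ := (Nat.dvd_prime_pow Nat.prime_two).1 hdvd
  rw [hi] at h2 ⊢
  have : i ≤ 2 := by
    by_contra hi3
    exact absurd (Nat.pow_le_pow_right two_pos (show 3 ≤ i by omega)) (not_le.2 (by omega))
  exact (Nat.pow_le_pow_right two_pos this).trans (by norm_num)

theorem commute_of_mem {x y : S} (hx : x ∈ T) (hy : y ∈ T) : Commute x y := comm_of_sq D.T2 hx hy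

theorem card_cent {b : S} (hb : b ∈ B) (hb1 : b ≠ 1) :
    Nat.card ↥(Subgroup.centralizer ({b} : Set S)) ≤ 16 := by
  rw [D.cent b hb hb1, D.T16]

/-- A subgroup of index at most two. -/
theorem phi_le_of_index (hS : IsPGroup 2 S) {H : Subgroup S} (hH : H.index ≤ 2) :
    (Phi H).relIndex H ≤ 16 := by
  have hn : H.Normal := by
    have h0 : H.index ≠ 0 := Subgroup.index_ne_zero_of_finite
    rcases (show H.index = 1 ∨ H.index = 2 by omega) with h | h
    · rw [Subgroup.index_eq_one.1 h]; infer_instance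
    · exact Subgroup.normal_of_index_eq_two h
  refine phi_le_sixteen_of_normalized hS B H D.B4 D.B2 (fun b hb hb1 => D.card_cent hb hb1) ?_
  rw [Subgroup.normalizer_eq_top_iff.2 hn]
  exact le_top

theorem bound (hS : IsPGroup 2 S) (H : Subgroup S) : (Phi H).relIndex H ≤ 16 := by
  have : Fact (Nat.Prime 2) := ⟨Nat.prime_two⟩
  by_contra hbig
  have hH2 : ¬ H.index ≤ 2 := fun h => hbig (D.phi_le_of_index hS h)
  obtain ⟨a, ha⟩ := (hS.to_subgroup H).exists_card_eq
  have hmul := relIndex_mul_card (phi_le_self H)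
  have hrH : (Phi H).relIndex H ∣ 2 ^ a := ha ▸ hmul ▸ dvd_mul_left _ _
  obtain ⟨r, -, hr⟩ := (Nat.dvd_prime_pow Nat.prime_two).1 hrH
  have hr5 : 5 ≤ r := by
    by_contra h5
    exact hbig (hr ▸ (Nat.pow_le_pow_right two_pos (show r ≤ 4 by omega)))
  have h32 : 32 ≤ (Phi H).relIndex H := hr ▸ (Nat.pow_le_pow_right two_pos hr5).trans' (by norm_num)
  have hH32 : 32 ≤ Nat.card H := h32.trans (hmul ▸ Nat.le_mul_of_pos_left _ Nat.card_pos)
  have hH4 : 4 ≤ H.index := by
    obtain ⟨i, hi⟩ := (hS.index H : ∃ i, H.index = 2 ^ i)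
    rw [hi] at hH2 ⊢
    by_contra h
    have : i ≤ 1 := by
      by_contra h1
      exact h ((Nat.pow_le_pow_right two_pos (show 2 ≤ i by omega)).trans' (by norm_num))
    exact hH2 ((Nat.pow_le_pow_right two_pos this).trans (by norm_num))
  have hS128 : 128 ≤ Nat.card S := by
    rw [← H.card_mul_index]; exact le_trans (by norm_num) (Nat.mul_le_mul hH32 hH4)
  set N := Subgroup.normalizer (T : Set S) with hN
  have hTN : T ≤ N := Subgroup.le_normalizer
  have hN64 : Nat.card N ≤ 64 := by
    have h1 := relIndex_mul_card hTN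
    rw [D.T16] at h1
    have h2 := D.relIndex_normalizer_le hS
    rw [← hN] at h2
    omega
  have hNtop : N ≠ ⊤ := by
    intro h
    rw [h, Subgroup.card_top] at hN64
    omega
  obtain ⟨s, hsM, hsN⟩ := SetLike.exists_of_lt (lt_normalizer hS hNtop)
  set T' := T.map (MulAut.conj s).toMonoidHom with hT'
  have hmem' : ∀ x, x ∈ T' ↔ s⁻¹ * x * s ∈ T := by
    intro x
    rw [hT', Subgroup.mem_map]
    constructor
    · rintro ⟨t, ht, rfl⟩; simpa [mul_assoc] using ht
    · intro h; exact ⟨_, h, by simp [mul_assoc]⟩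
  have hT'N : T' ≤ N := by
    rintro _ ⟨t, ht, rfl⟩
    simpa using conj_mem_of_mem_normalizer hsM (hTN ht)
  have hT'16 : Nat.card T' = 16 := by
    rw [hT', Subgroup.card_map_of_injective (MulAut.conj s).injective, D.T16]
  have hT'2 : ∀ t ∈ T', t * t = 1 := by
    rintro _ ⟨t, ht, rfl⟩; rw [← map_mul, D.T2 t ht, map_one]
  have hne : T' ≠ T := by
    intro h
    apply hsN
    rw [hN, Subgroup.mem_normalizer_iff]
    intro t
    have h1 := hmem' (s * t * s⁻¹)
    rw [h] at h1
    rw [h1, show s⁻¹ * (s * t * s⁻¹) * s = t by group]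
  set I := T ⊓ T' with hI
  obtain ⟨g, hgT', hgT⟩ : ∃ g ∈ T', g ∉ T := by
    by_contra hcon
    push Not at hcon
    exact hne (Subgroup.eq_of_le_of_card_ge hcon (by rw [D.T16, hT'16]))
  have hfix : ∀ x ∈ T', x ∉ T → I ≤ T ⊓ Subgroup.centralizer ({x} : Set S) := fun x hx _ i hi =>
    Subgroup.mem_inf.2 ⟨hi.1, Subgroup.mem_centralizer_singleton_iff.2 (comm_of_sq hT'2 hi.2 hx)⟩
  have hfix4 : ∀ x ∈ T', x ∉ T → Nat.card ↥(T ⊓ Subgroup.centralizer ({x} : Set S)) = 4 :=
    fun x hx hxT => D.fix_four (hT'N hx) hxT (by rw [hT'2 x hx]; exact T.one_mem)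
  have hI4 : Nat.card I ≤ 4 := (hfix4 g hgT' hgT) ▸ Subgroup.card_le_of_le (hfix g hgT' hgT)
  have hrel : T.relIndex T' ≤ 4 :=
    (Subgroup.relIndex_le_of_le_right hT'N Subgroup.index_ne_zero_of_finite).trans
      (D.relIndex_normalizer_le hS)
  have hImul : Nat.card I * T.relIndex T' = 16 := by
    rw [← Subgroup.inf_relIndex_right T T', ← hI, relIndex_mul_card inf_le_right, hT'16]
  have hI : Nat.card I = 4 ∧ T.relIndex T' = 4 := by constructor <;> nlinarith
  have hIeq : ∀ x ∈ T', x ∉ T → T ⊓ Subgroup.centralizer ({x} : Set S) = I := fun x hx hxT =>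
    (Subgroup.eq_of_le_of_card_ge (hfix x hx hxT) (by rw [hfix4 x hx hxT, hI.1])).symm
  have hsup : T ⊔ T' = N := by
    refine Subgroup.eq_of_le_of_card_ge (sup_le hTN hT'N) ?_
    have h1 := relIndex_mul_card (le_sup_left : T ≤ T ⊔ T')
    have h2 : T.relIndex T' ≤ T.relIndex (T ⊔ T') :=
      Subgroup.relIndex_le_of_le_right le_sup_right Subgroup.index_ne_zero_of_finite
    rw [D.T16] at h1
    omega
  have hdec : ∀ n ∈ N, ∃ t ∈ T, ∃ t' ∈ T', n = t * t' := by
    intro n hn
    rw [← hsup, ← SetLike.mem_coe, Subgroup.coe_mul_of_right_le_normalizer_left T T' hT'N] at hn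
    obtain ⟨t, ht, t', ht', rfl⟩ := hn
    exact ⟨t, ht, t', ht', rfl⟩
  have hinv : ∀ u ∈ N, u * u = 1 → u ∈ T ∨ u ∈ T' := by
    intro u hu hu2
    obtain ⟨t, ht, t', ht', rfl⟩ := hdec u hu
    have hcomm : t * t' = t' * t := by
      have h1 : t⁻¹ = t := (eq_inv_of_mul_eq_one_left (D.T2 t ht)).symm
      have h2 : t'⁻¹ = t' := (eq_inv_of_mul_eq_one_left (hT'2 t' ht')).symm
      have h3 := eq_inv_of_mul_eq_one_left hu2
      rwa [mul_inv_rev, h1, h2] at h3
    by_cases hm : t' ∈ T
    · exact Or.inl (T.mul_mem ht hm)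
    · right
      have : t ∈ T ⊓ Subgroup.centralizer ({t'} : Set S) :=
        Subgroup.mem_inf.2 ⟨ht, Subgroup.mem_centralizer_singleton_iff.2 hcomm⟩
      rw [hIeq t' ht' hm] at this
      exact T'.mul_mem this.2 ht'
  have helem : ∀ E : Subgroup S, E ≤ N → (∀ e ∈ E, e * e = 1) → E ≤ T ∨ E ≤ T' := by
    intro E hEN hE2
    by_contra hcon
    rw [not_or, SetLike.not_le_iff_exists, SetLike.not_le_iff_exists] at hcon
    obtain ⟨⟨a, haE, haT⟩, ⟨b, hbE, hbT⟩⟩ := hcon
    have ha' : a ∈ T' := (hinv a (hEN haE) (hE2 a haE)).resolve_left haT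
    have hb' : b ∈ T := (hinv b (hEN hbE) (hE2 b hbE)).resolve_right hbT
    rcases hinv (a * b) (hEN (E.mul_mem haE hbE)) (hE2 _ (E.mul_mem haE hbE)) with h | h
    · exact haT ((Subgroup.mul_mem_cancel_right T hb').1 h)
    · exact hbT ((Subgroup.mul_mem_cancel_left T' ha').1 h)
  set M := Subgroup.normalizer (N : Set S) with hMdef
  have hconjM : ∀ u, u ∈ M → ∀ n ∈ N, u * n * u⁻¹ ∈ N := fun u hu n hn =>
    conj_mem_of_mem_normalizer hu hn
  -- a conjugate of `T` inside `N` is `T` or `T'`
  have hcoset : ∀ u : S, T.map (MulAut.conj u).toMonoidHom ≤ N → u ∈ N ∨ s⁻¹ * u ∈ N := by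
    intro u hu
    have hc : Nat.card ↥(T.map (MulAut.conj u).toMonoidHom) = 16 := by
      rw [Subgroup.card_map_of_injective (MulAut.conj u).injective, D.T16]
    rcases helem _ hu (by rintro _ ⟨t, ht, rfl⟩; rw [← map_mul, D.T2 t ht, map_one]) with h | h
    · have he := Subgroup.eq_of_le_of_card_ge h (by rw [D.T16, hc])
      left
      rw [hN, Subgroup.mem_normalizer_iff]
      intro t
      conv_rhs => rw [← he]
      simp [Subgroup.mem_map]
    · have he := Subgroup.eq_of_le_of_card_ge h (by rw [hT'16, hc])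
      right
      rw [hN, Subgroup.mem_normalizer_iff]
      intro t
      have h2 : u * t * u⁻¹ ∈ T.map (MulAut.conj u).toMonoidHom ↔ u * t * u⁻¹ ∈ T' := by rw [he]
      simp only [Subgroup.mem_map, MulEquiv.coe_toMonoidHom, MulAut.conj_apply, mul_left_inj,
        mul_right_inj, exists_eq_right] at h2
      rw [h2, hmem']
      simp [mul_assoc]
  have hMN : N.relIndex M ≤ 2 := by
    classical
    have hsub : ∀ u : M, (u : S) ∈ N ∨ s⁻¹ * (u : S) ∈ N := fun u => hcoset u (by
      rintro _ ⟨t, ht, rfl⟩; simpa using hconjM u u.2 t (hTN ht))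
    refine le_trans (Nat.card_le_card_of_injective
      (Quotient.lift (fun u : M => decide ((u : S) ∈ N)) ?_) ?_) (by simp : Nat.card Bool ≤ 2)
    · intro u v huv
      have h := QuotientGroup.leftRel_apply.1 huv
      rw [Subgroup.mem_subgroupOf] at h
      push_cast at h
      rw [decide_eq_decide]
      exact ⟨fun hu => by simpa using N.mul_mem hu h, fun hv => by
        simpa using N.mul_mem hv (N.inv_mem h)⟩
    · intro x y
      refine Quotient.inductionOn₂ x y fun u v huv => Quotient.sound ?_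
      simp only [Quotient.lift_mk, decide_eq_decide] at huv
      refine QuotientGroup.leftRel_apply.2 ?_
      rw [Subgroup.mem_subgroupOf]
      push_cast
      by_cases hu : (u : S) ∈ N
      · exact N.mul_mem (N.inv_mem hu) (huv.1 hu)
      · have h1 := (hsub u).resolve_left hu
        have h2 := (hsub v).resolve_left (fun hv => hu (huv.2 hv))
        simpa [mul_assoc] using N.mul_mem (N.inv_mem h1) h2
  have hMtop : M = ⊤ := by
    by_contra hcon
    obtain ⟨u, huM', huM⟩ := SetLike.exists_of_lt (lt_normalizer hS hcon)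
    set E := T.map (MulAut.conj u).toMonoidHom with hE
    have hEM : E ≤ M := by
      rintro _ ⟨t, ht, rfl⟩
      simpa using conj_mem_of_mem_normalizer huM' (Subgroup.le_normalizer (hTN ht) : t ∈ M)
    have hE2 : ∀ e ∈ E, e * e = 1 := by
      rintro _ ⟨t, ht, rfl⟩; rw [← map_mul, D.T2 t ht, map_one]
    by_cases hEN : E ≤ N
    · rcases hcoset u hEN with h | h
      · exact huM (Subgroup.le_normalizer h)
      · exact huM (by simpa using M.mul_mem hsM (Subgroup.le_normalizer h : s⁻¹ * u ∈ M))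
    · obtain ⟨w, hwE, hwN⟩ := SetLike.not_le_iff_exists.1 hEN
      have h8 : 8 ≤ Nat.card ↥(E ⊓ N) := by
        have h1 := relIndex_mul_card (inf_le_left : E ⊓ N ≤ E)
        rw [Subgroup.inf_relIndex_left, show Nat.card E = 16 by
          rw [hE, Subgroup.card_map_of_injective (MulAut.conj u).injective, D.T16]] at h1
        have h2 : N.relIndex E ≤ 2 :=
          (Subgroup.relIndex_le_of_le_right hEM Subgroup.index_ne_zero_of_finite).trans hMN
        nlinarith
      have hws : s⁻¹ * w ∈ N := (hcoset w (by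
        rintro _ ⟨t, ht, rfl⟩; simpa using hconjM w (hEM hwE) t (hTN ht))).resolve_left hwN
      have hw2 : w⁻¹ = w := (eq_inv_of_mul_eq_one_left (hE2 w hwE)).symm
      have key : ∀ x ∈ E ⊓ N, (x ∈ T → x ∈ T') ∧ (x ∈ T' → x ∈ T) := by
        intro x hx
        have hwx : w * x * w⁻¹ = x := by
          rw [comm_of_sq hE2 hwE hx.1, mul_inv_cancel_right]
        have hwx' : w⁻¹ * x * w = x := by
          rw [mul_assoc, comm_of_sq hE2 hx.1 hwE, inv_mul_cancel_left]
        constructor
        · intro hxT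
          rw [hmem']
          have h := conj_mem_of_mem_normalizer (inv_mem hws) hxT
          have e : s⁻¹ * x * s = (s⁻¹ * w) * (w⁻¹ * x * w) * (s⁻¹ * w)⁻¹ := by group
          rw [e, hwx']
          exact conj_mem_of_mem_normalizer hws hxT
        · intro hxT'
          rw [hmem'] at hxT'
          have e : x = w * x * w⁻¹ := hwx.symm
          have h := conj_mem_of_mem_normalizer (inv_mem hws) hxT'
          have e2 : (s⁻¹ * w)⁻¹ * (s⁻¹ * x * s) * ((s⁻¹ * w)⁻¹)⁻¹ = w⁻¹ * x * w := by group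
          rwa [e2, hwx'] at h
      have hle : E ⊓ N ≤ I := by
        rcases helem (E ⊓ N) inf_le_right (fun e he => hE2 e he.1) with h | h
        · exact fun x hx => ⟨h hx, (key x hx).1 (h hx)⟩
        · exact fun x hx => ⟨(key x hx).2 (h hx), h hx⟩
      have := Subgroup.card_le_of_le hle
      omega
  -- now `S` has order `128` and `H` is elementary of order `32`
  have hN2 : N.index ≤ 2 := by rw [← Subgroup.relIndex_top_right, ← hMtop]; exact hMN
  have hS128' : Nat.card S ≤ 128 := by
    rw [← N.card_mul_index]; exact Nat.mul_le_mul hN64 hN2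
  have hH : Nat.card H = 32 := by
    have := H.card_mul_index
    nlinarith
  have hPhi : ∀ x ∈ H, x * x = 1 := by
    intro x hx
    have h1 : Nat.card ↥(Phi H) = 1 := by
      have hp : 0 < Nat.card ↥(Phi H) := Nat.card_pos
      nlinarith
    have h2 := sq_mem_phi hx
    rw [Subgroup.card_eq_one.1 h1] at h2
    exact Subgroup.mem_bot.1 h2
  have h16 : 16 ≤ Nat.card ↥(H ⊓ N) := by
    have h1 := relIndex_mul_card (inf_le_left : H ⊓ N ≤ H)
    rw [Subgroup.inf_relIndex_left, hH] at h1
    have h2 : N.relIndex H ≤ 2 := by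
      refine (Subgroup.relIndex_le_of_le_right le_top ?_).trans (Subgroup.relIndex_top_right N ▸ hN2)
      exact Subgroup.index_ne_zero_of_finite
    nlinarith
  rcases helem (H ⊓ N) inf_le_right (fun e he => hPhi e he.1) with h | h
  · have he := Subgroup.eq_of_le_of_card_ge h (by rw [D.T16]; exact h16)
    have hHT : H ≤ T := fun x hx => D.mem_of_commute fun t ht => by
      rw [← he] at ht
      exact comm_of_sq hPhi hx ht.1
    have := Subgroup.card_le_of_le hHT
    rw [D.T16, hH] at this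
    omega
  · have he := Subgroup.eq_of_le_of_card_ge h (by rw [hT'16]; exact h16)
    have hHT : H ≤ T' := fun x hx => by
      rw [hmem']
      refine D.mem_of_commute fun t ht => ?_
      have ht' : s * t * s⁻¹ ∈ T' := by rw [hmem']; simpa [mul_assoc] using ht
      rw [← he] at ht'
      have hc : x * (s * t * s⁻¹) = s * t * s⁻¹ * x := comm_of_sq hPhi hx ht'.1
      show s⁻¹ * x * s * t = t * (s⁻¹ * x * s)
      calc s⁻¹ * x * s * t = s⁻¹ * (x * (s * t * s⁻¹)) * s := by group
        _ = s⁻¹ * (s * t * s⁻¹ * x) * s := by rw [hc]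
        _ = t * (s⁻¹ * x * s) := by group
    have := Subgroup.card_le_of_le hHT
    rw [hT'16, hH] at this
    omega

end ElemFour

end CfsgLib.TwoFusion.KleinFactor
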