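/-
The sectional rank bound for a group with involution centralizers whose Sylow 2-subgroup is
the product of a dihedral or quasi-dihedral group with a four-group.
-/
import Cfsg.Agent.Lib.TwoFusion.KleinFactorCases
import Cfsg.Agent.Lib.TwoGroups.QuasiDihedralFacts
import Cfsg.Prelude.Def_TwoFusion
import Mathlib.GroupTheory.SpecificGroups.Dihedral

set_option autoImplicit false

namespace CfsgLib.TwoFusion.KleinFactor

open CfsgLib.TwoFusion.SelfCent

theorem dihedral_center_card (m : ℕ) (hm : 3 ≤ m) :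
    Nat.card ↥(Subgroup.center (DihedralGroup m)) ≤ 2 := by
  have : NeZero m := ⟨by omega⟩
  have hmem : ∀ g ∈ Subgroup.center (DihedralGroup m), ∃ i : ZMod m, g = DihedralGroup.r i ∧ i + i = 0 := by
    intro g hg
    rw [Subgroup.mem_center_iff] at hg
    cases g with
    | r i =>
      refine ⟨i, rfl, ?_⟩
      have h := hg (DihedralGroup.sr 0)
      rw [DihedralGroup.sr_mul_r, DihedralGroup.r_mul_sr] at h
      injection h with h
      simpa using add_eq_zero_iff_eq_neg.2 (by simpa using h)
    | sr i =>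
      exfalso
      have h := hg (DihedralGroup.r 1)
      rw [DihedralGroup.sr_mul_r, DihedralGroup.r_mul_sr] at h
      injection h with h
      have h2 : ((2 : ℕ) : ZMod m) = 0 := by push_cast; linear_combination -h
      rw [ZMod.natCast_eq_zero_iff] at h2
      exact absurd (Nat.le_of_dvd two_pos h2) (by omega)
  let f : ↥(Subgroup.center (DihedralGroup m)) → {i : ZMod m // i + i = 0} := fun g =>
    ⟨(hmem g g.2).choose, (hmem g g.2).choose_spec.2⟩
  refine (Nat.card_le_card_of_injective f fun a b h => Subtype.ext ?_).trans ?_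
  · rw [(hmem a a.2).choose_spec.1, (hmem b b.2).choose_spec.1,
      show (hmem a a.2).choose = (hmem b b.2).choose from congrArg Subtype.val h]
  · classical
    rw [Nat.card_eq_fintype_card, Fintype.card_subtype]
    have := IsAddCyclic.card_nsmul_eq_zero_le (α := ZMod m) two_pos
    refine le_trans (le_of_eq (congrArg Finset.card ?_)) this
    ext i; simp [two_mul, two_nsmul]

theorem dihedral_exists_cyclic (m : ℕ) (hm : 1 ≤ m) :
    ∃ r : DihedralGroup m, 2 * orderOf r = Nat.card (DihedralGroup m) := by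
  have : NeZero m := ⟨by omega⟩
  exact ⟨DihedralGroup.r 1, by rw [DihedralGroup.orderOf_r_one, DihedralGroup.nat_card]⟩

variable {G : Type*} [Group G] [Finite G]

theorem sectional_le (x : G) (T D B : Subgroup G) (hT : IsPGroup 2 T)
    (hTxi : Odd (T.relIndex (Subgroup.centralizer ({x} : Set G))))
    (hprod : Cfsg.IsInternalDirectProduct D B T)
    (hD : (∃ m : ℕ, 2 ≤ m ∧ Nonempty (D ≃* DihedralGroup m)) ∨ Cfsg.IsQuasiDihedral D)
    (hB : IsKleinFour B)
    (hTb : ∀ b ∈ B, orderOf b = 2 → T ≤ Subgroup.centralizer ({b} : Set G) ∧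
      Odd (T.relIndex (Subgroup.centralizer ({b} : Set G)))) :
    Cfsg.SectionalPRankLE 2 4 G := by
  clear hTxi x
  have : Fact (Nat.Prime 2) := ⟨Nat.prime_two⟩
  obtain ⟨hDT, hBT, hcomm, hinf, hsup⟩ := hprod
  obtain ⟨P, hP⟩ := hT.exists_le_sylow
  refine sectional_of_sylow P fun H hH => ?_
  set S := (P : Subgroup G) with hS'
  have hS : IsPGroup 2 S := P.2
  have hB2 : ∀ b ∈ B, b * b = 1 := fun b hb => by
    have := IsKleinFour.mul_self (⟨b, hb⟩ : B)
    exact congrArg Subtype.val this
  have hB4 : Nat.card B = 4 := IsKleinFour.card_four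
  -- the centralizer in `S` of an involution of `B` is `T`
  have hcent : ∀ b ∈ B, b ≠ 1 → ∀ g ∈ S, g * b = b * g → g ∈ T := by
    intro b hb hb1 g hgS hgb
    obtain ⟨hle, hodd⟩ := hTb b hb (orderOf_eq_prime (by rw [pow_two]; exact hB2 b hb) hb1)
    set W := S ⊓ Subgroup.centralizer ({b} : Set G) with hW
    have hTW : T ≤ W := le_inf hP hle
    have hgW : g ∈ W := Subgroup.mem_inf.2 ⟨hgS, Subgroup.mem_centralizer_singleton_iff.2 hgb⟩
    have hW2 : IsPGroup 2 W := hS.to_le inf_le_left
    obtain ⟨j, hj⟩ := hW2.exists_card_eq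
    have h1 : T.relIndex W ∣ 2 ^ j := hj ▸ relIndex_mul_card hTW ▸ dvd_mul_left _ _
    have h2 : T.relIndex W ∣ T.relIndex (Subgroup.centralizer ({b} : Set G)) :=
      Dvd.intro _ (Subgroup.relIndex_mul_relIndex T W _ hTW inf_le_right)
    obtain ⟨i, -, hi⟩ := (Nat.dvd_prime_pow Nat.prime_two).1 h1
    have hi0 : i = 0 := by
      by_contra hne
      have : Odd (T.relIndex W) := hodd.of_dvd_nat h2
      rw [hi] at this
      exact (Nat.not_even_iff_odd.2 this) (even_two.pow_of_ne_zero hne)
    rw [hi0, pow_zero, Subgroup.relIndex_eq_one] at hi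
    exact hi hgW
  -- the decomposition inside `S`
  have hDS : D ≤ S := hDT.trans hP
  have hBS : B ≤ S := hBT.trans hP
  set T₀ := T.subgroupOf S with hT₀
  set D₀ := D.subgroupOf S with hD₀
  set B₀ := B.subgroupOf S with hB₀
  have hB₀4 : Nat.card B₀ = 4 := by
    rw [hB₀, Nat.card_congr (Subgroup.subgroupOfEquivOfLe hBS).toEquiv, hB4]
  have hB₀2 : ∀ b ∈ B₀, b * b = 1 := fun b hb => Subtype.ext (hB2 b hb)
  have hC₀ : ∀ b ∈ B₀, b ≠ 1 → Subgroup.centralizer ({b} : Set S) = T₀ := by
    intro b hb hb1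
    have hb1' : (b : G) ≠ 1 := fun h => hb1 (Subtype.ext h)
    ext g
    rw [Subgroup.mem_centralizer_singleton_iff, hT₀, Subgroup.mem_subgroupOf]
    constructor
    · intro h; exact hcent b hb hb1' g g.2 (congrArg Subtype.val h)
    · intro h
      obtain ⟨hle, -⟩ := hTb b hb (orderOf_eq_prime (by rw [pow_two]; exact hB2 b hb) hb1')
      exact Subtype.ext (Subgroup.mem_centralizer_singleton_iff.1 (hle h))
  have hdec : ∀ t ∈ T, ∃ d ∈ D, ∃ b ∈ B, t = d * b := by
    intro t ht
    rw [← hsup] at ht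
    have hle : B ≤ Subgroup.normalizer (D : Set G) := by
      intro b hb
      rw [Subgroup.mem_normalizer_iff]
      intro d
      constructor
      · intro hd
        rwa [← hcomm d hd b hb, mul_inv_cancel_right]
      · intro hd
        have h := hcomm _ hd b hb
        have : d = b * d * b⁻¹ := by
          calc d = b⁻¹ * (b * d * b⁻¹ * b) := by group
            _ = b⁻¹ * (b * (b * d * b⁻¹)) := by rw [h]
            _ = b * d * b⁻¹ := by group
        exact this ▸ hd
    rw [← SetLike.mem_coe, Subgroup.coe_mul_of_right_le_normalizer_left D B hle] at ht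
    obtain ⟨d, hd, b, hb, rfl⟩ := ht
    exact ⟨d, hd, b, hb, rfl⟩
  have hTcard : Nat.card T = Nat.card D * Nat.card B := by
    refine le_antisymm ?_ (card_mul_le_of_inf_bot hDT hBT hinf)
    rw [← Nat.card_prod]
    refine Nat.card_le_card_of_surjective
      (fun y : D × B => (⟨y.1 * y.2, T.mul_mem (hDT y.1.2) (hBT y.2.2)⟩ : T)) fun t => ?_
    obtain ⟨d, hd, b, hb, he⟩ := hdec t t.2
    exact ⟨(⟨d, hd⟩, ⟨b, hb⟩), Subtype.ext he.symm⟩
  -- transfer of the bound to subgroups of `G` inside `S`
  have htransfer : (∀ K : Subgroup S, (Phi K).relIndex K ≤ 16) → (Phi H).relIndex H ≤ 2 ^ 4 := by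
    intro hK
    have h := hK (H.subgroupOf S)
    have e : (H.subgroupOf S).map S.subtype = H := Subgroup.map_subgroupOf_eq_of_le hH
    rw [← Subgroup.relIndex_map_map_of_injective _ _ S.subtype_injective, phi_map, e] at h
    exact h.trans (by norm_num)
  apply htransfer
  by_cases hsmall : Nat.card D ≤ 4
  · -- `T` is elementary abelian of order 16
    obtain ⟨m, hm, ⟨e⟩⟩ : ∃ m : ℕ, 2 ≤ m ∧ Nonempty (D ≃* DihedralGroup m) := by
      refine hD.resolve_right ?_
      rintro ⟨n, hn, hc, -⟩
      have : 2 ^ 4 ≤ Nat.card D := hc ▸ Nat.pow_le_pow_right two_pos (by omega)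
      omega
    have hDc : Nat.card D = 2 * m := by rw [Nat.card_congr e.toEquiv, DihedralGroup.nat_card]
    obtain rfl : m = 2 := by omega
    have hD2 : ∀ d ∈ D, d * d = 1 := by
      intro d hd
      have h4 : ∀ g : DihedralGroup 2, g * g = 1 := by decide
      exact congrArg Subtype.val (e.injective (by rw [map_mul, h4, map_one]) :
        (⟨d, hd⟩ : D) * ⟨d, hd⟩ = 1)
    have E : ElemFour T₀ B₀ :=
      { T2 := fun t ht => by
          obtain ⟨d, hd, b, hb, he⟩ := hdec t ht
          refine Subtype.ext ?_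
          show (t : G) * t = 1
          rw [he, show d * b * (d * b) = d * (b * d) * b by group, ← hcomm d hd b hb,
            show d * (d * b) * b = (d * d) * (b * b) by group, hD2 d hd, hB2 b hb, one_mul]
        T16 := by
          rw [hT₀, Nat.card_congr (Subgroup.subgroupOfEquivOfLe hP).toEquiv, hTcard, hDc, hB4]
        BT := fun b hb => hBT hb
        B4 := hB₀4
        cent := hC₀ }
    exact fun K => E.bound hS K
  · -- `T` is a Sylow 2-subgroup
    have hfacts : Nat.card ↥(Subgroup.center D) ≤ 2 ∧ ∃ r : D, 2 * orderOf r = Nat.card D := by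
      rcases hD with ⟨m, hm, ⟨e⟩⟩ | hq
      · have hDc : Nat.card D = 2 * m := by rw [Nat.card_congr e.toEquiv, DihedralGroup.nat_card]
        obtain ⟨r, hr⟩ := dihedral_exists_cyclic m (by omega)
        refine ⟨?_, e.symm r, ?_⟩
        · rw [Nat.card_congr (Subgroup.centerCongr e).toEquiv]
          exact dihedral_center_card m (by omega)
        · rw [MulEquiv.orderOf_eq, hr, Nat.card_congr e.toEquiv]
      · obtain ⟨k, r, y, h⟩ := CfsgLib.TwoGroups.exists_sdGen hq
        refine ⟨h.card_center.le, r, ?_⟩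
        rw [h.orderOf_x, h.card_eq]; ring
    obtain ⟨hcen, r, hr⟩ := hfacts
    set Z : Subgroup S := T₀ ⊓ Subgroup.centralizer (T₀ : Set S) with hZdef
    have hZ : ∀ z, z ∈ Z ↔ z ∈ T₀ ∧ ∀ t ∈ T₀, Commute z t := fun z => by
      rw [hZdef, Subgroup.mem_inf, Subgroup.mem_centralizer_iff]
      exact and_congr_right fun _ => ⟨fun h t ht => (h t ht).symm, fun h t ht => (h t ht).symm⟩
    have hBcen : ∀ b ∈ B, ∀ t ∈ T, Commute b t := by
      intro b hb t ht
      obtain ⟨d, hd, b', hb', rfl⟩ := hdec t ht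
      exact Commute.mul_right (hcomm d hd b hb).symm (comm_of_sq hB2 hb hb')
    have hZdec : ∀ z ∈ Z, ∃ d : D, d ∈ Subgroup.center D ∧ ∃ b : B, ((z : S) : G) = (d : G) * b := by
      intro z hz
      rw [hZ] at hz
      obtain ⟨d, hd, b, hb, he⟩ := hdec (z : G) hz.1
      refine ⟨⟨d, hd⟩, Subgroup.mem_center_iff.2 fun u => Subtype.ext ?_, ⟨b, hb⟩, he⟩
      have h : (z : G) * u = u * z := congrArg Subtype.val
        (hz.2 ⟨(u : G), hDS u.2⟩ (show (u : G) ∈ T from hDT u.2)).eq
      rw [he, mul_assoc, ← hcomm _ u.2 b hb, ← mul_assoc, ← mul_assoc] at h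
      exact (mul_right_cancel h).symm
    have hZ2 : ∀ z ∈ Z, z * z = 1 := by
      intro z hz
      obtain ⟨d, hd, b, he⟩ := hZdec z hz
      have hd2 : (d : G) * d = 1 := by
        have h := orderOf_dvd_natCard (⟨d, hd⟩ : Subgroup.center D)
        have hpos := orderOf_pos (⟨d, hd⟩ : Subgroup.center D)
        have hle := (Nat.le_of_dvd Nat.card_pos h).trans hcen
        have h2 : orderOf (⟨d, hd⟩ : Subgroup.center D) ∣ 2 := by
          rcases (show orderOf (⟨d, hd⟩ : Subgroup.center D) = 1 ∨
            orderOf (⟨d, hd⟩ : Subgroup.center D) = 2 by omega) with h | h <;> rw [h] <;> norm_num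
        rw [orderOf_dvd_iff_pow_eq_one, pow_two] at h2
        exact congrArg (fun u : Subgroup.center D => ((u : D) : G)) h2
      refine Subtype.ext ?_
      show (z : G) * z = 1
      rw [he, show (d : G) * b * (d * b) = d * ((b : G) * d) * b by group, ← hcomm d d.2 b b.2,
        show (d : G) * (d * b) * b = (d * d) * ((b : G) * b) by group, hd2, hB2 b b.2, one_mul]
    have hZ8 : Nat.card Z ≤ 8 := by
      calc Nat.card Z ≤ Nat.card (↥(Subgroup.center D) × B) := by
            choose dz hdz bz hbz using hZdec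
            refine Nat.card_le_card_of_injective (fun z : Z =>
              ((⟨dz z z.2, hdz z z.2⟩ : Subgroup.center D), bz z z.2)) fun z w h => ?_
            simp only [Prod.mk.injEq, Subtype.mk.injEq] at h
            exact Subtype.ext (Subtype.ext
              ((hbz z z.2).trans (by rw [h.1, h.2]; exact (hbz w w.2).symm)))
        _ ≤ 2 * 4 := by rw [Nat.card_prod, hB4]; exact Nat.mul_le_mul_right _ hcen
        _ = 8 := rfl
    have hBZ : B₀ ≤ Z := fun b hb => (hZ b).2
      ⟨show (b : G) ∈ T from hBT hb, fun t ht => Subtype.ext (hBcen b hb t ht).eq⟩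
    have hTS := eq_top_of_small_center hS T₀ B₀ Z hZ hZ2 hZ8 hB₀4 hBZ hC₀
    intro K
    let r₀ : S := ⟨(r : G), hDS r.2⟩
    have hN : (Subgroup.zpowers r₀).Normal := by
      have hCD : (Subgroup.zpowers r).Normal := by
        apply Subgroup.normal_of_index_eq_two
        have h := (Subgroup.zpowers r).card_mul_index
        rw [Nat.card_zpowers, ← hr, mul_comm 2] at h
        exact Nat.eq_of_mul_eq_mul_left (orderOf_pos r) h
      refine ⟨fun z hz g => ?_⟩
      obtain ⟨i, rfl⟩ := Subgroup.mem_zpowers_iff.1 hz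
      have hgT : g ∈ T₀ := hTS ▸ Subgroup.mem_top g
      obtain ⟨d, hd, b, hb, he⟩ := hdec (g : G) hgT
      obtain ⟨j, hj⟩ := Subgroup.mem_zpowers_iff.1
        (hCD.conj_mem (r ^ i) (Subgroup.zpow_mem _ (Subgroup.mem_zpowers r) i) ⟨d, hd⟩)
      refine Subgroup.mem_zpowers_iff.2 ⟨j, Subtype.ext ?_⟩
      have hj' : (r : G) ^ j = d * (r : G) ^ i * d⁻¹ := by simpa using congrArg Subtype.val hj
      simp only [SubgroupClass.coe_zpow, Subgroup.coe_mul, Subgroup.coe_inv, r₀]
      rw [he, mul_inv_rev, show d * b * (r : G) ^ i * (b⁻¹ * d⁻¹) = d * (b * (r : G) ^ i) * b⁻¹ * d⁻¹ by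
        group, ← hcomm _ (D.zpow_mem r.2 i) b hb, hj']
      group
    have hidx : (Subgroup.zpowers r₀).index ≤ 8 := by
      have h := (Subgroup.zpowers r₀).card_mul_index
      have hord : orderOf r₀ = orderOf r := by
        rw [← Subgroup.orderOf_coe r₀, ← Subgroup.orderOf_coe r]
      have hcS : Nat.card S = Nat.card D * 4 := by
        rw [← Subgroup.card_top, ← hTS, hT₀,
          Nat.card_congr (Subgroup.subgroupOfEquivOfLe hP).toEquiv, hTcard, hB4]
      rw [Nat.card_zpowers, hord, hcS, ← hr] at h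
      have hp := orderOf_pos r
      nlinarith
    exact phi_le_sixteen_of_cyclic (Subgroup.zpowers r₀) hidx K

end CfsgLib.TwoFusion.KleinFactor
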