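/-
The wreath product of the dihedral group of order eight by a group of order two, as a finite model
with its universal property and the facts about it needed for 2-groups of sectional rank four.
-/
import Mathlib

set_option autoImplicit false

namespace CfsgLib.TwoFusion.DihWr

abbrev D := DihedralGroup 4

/-- Swapping the two factors. -/
def swapAut : MulAut (D × D) := MulEquiv.prodComm

/-- The action of the group of order two. -/
def act : Multiplicative (ZMod 2) →* MulAut (D × D) :=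
  MonoidHom.mk' (fun x => if Multiplicative.toAdd x = 0 then 1 else swapAut) (by decide)

/-- `D8 ≀ 2`. -/
abbrev W := (D × D) ⋊[act] Multiplicative (ZMod 2)

def wEquiv : (D × D) × Multiplicative (ZMod 2) ≃ W where
  toFun p := ⟨p.1, p.2⟩
  invFun x := (x.left, x.right)
  left_inv _ := rfl
  right_inv _ := rfl

instance : DecidableEq W := fun x y =>
  decidable_of_iff (x.left = y.left ∧ x.right = y.right) SemidirectProduct.ext_iff.symm

instance : Fintype W := Fintype.ofEquiv _ wEquiv

theorem card_W : Nat.card W = 128 := by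
  rw [← Nat.card_congr wEquiv, Nat.card_prod, Nat.card_prod, DihedralGroup.nat_card,
    Nat.card_eq_fintype_card, Fintype.card_multiplicative, ZMod.card]

def sw : W := ⟨1, Multiplicative.ofAdd 1⟩
def a1 : W := ⟨(.r 1, 1), 1⟩
def u1 : W := ⟨(.sr 0, 1), 1⟩
def a2 : W := ⟨(1, .r 1), 1⟩
def u2 : W := ⟨(1, .sr 0), 1⟩
def z1 : W := ⟨(.r 2, 1), 1⟩
def z2 : W := ⟨(1, .r 2), 1⟩
def zc : W := z1 * z2

/-- The base group. -/
def InBase (x : W) : Prop := x.right = 1
instance : DecidablePred InBase := fun x => decEq x.right 1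

/-- The centre of the base group. -/
def InPhi (x : W) : Prop := x = 1 ∨ x = z1 ∨ x = z2 ∨ x = zc
instance : DecidablePred InPhi := fun x => by unfold InPhi; infer_instance

/-- Equality modulo the centre of the base group. -/
def PhiEq (x y : W) : Prop := InPhi (x⁻¹ * y)
instance : DecidableRel PhiEq := fun x y => by unfold PhiEq; infer_instance

/-- The two normal elementary abelian subgroups of order sixteen. -/
def InV (b : Bool) (x : W) : Prop :=
  x.right = 1 ∧
    (x.left.1 = 1 ∨ x.left.1 = .r 2 ∨ x.left.1 = .sr (if b then 1 else 0) ∨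
      x.left.1 = .sr (if b then 3 else 2)) ∧
    (x.left.2 = 1 ∨ x.left.2 = .r 2 ∨ x.left.2 = .sr (if b then 1 else 0) ∨
      x.left.2 = .sr (if b then 3 else 2))
instance (b : Bool) : DecidablePred (InV b) := fun x => by unfold InV; infer_instance

theorem card_InV : ∀ b, (Finset.univ.filter (InV b)).card = 16 := by decide +kernel

theorem center_iff : ∀ x : W, (∀ y, x * y = y * x) ↔ (x = 1 ∨ x = zc) := by decide +kernel

theorem phi_iff : ∀ x : W, InPhi x ↔ ∀ y, x * y * x⁻¹ * y⁻¹ = 1 ∨ x * y * x⁻¹ * y⁻¹ = zc := by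
  decide +kernel

theorem base_iff : ∀ y : W, InBase y ↔ ∀ x, InPhi x → x * y = y * x := by decide +kernel

theorem base_center : ∀ x : W, InBase x → (∀ y, InBase y → x * y = y * x) → InPhi x := by
  decide +kernel

theorem phi_base : ∀ x : W, InPhi x → InBase x ∧ x * x = 1 := by decide +kernel

theorem base_mul : ∀ x y : W, InBase x → InBase y → InBase (x * y) ∧ InBase x⁻¹ := by
  decide +kernel

theorem phi_mul : ∀ x y : W, InPhi x → InPhi y → InPhi (x * y) := by decide +kernel

theorem phi_inv : ∀ x : W, InPhi x → InPhi x⁻¹ := by decide +kernel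

theorem rot_refl : ∀ x y : W, InPhi x → InPhi y → PhiEq u1 (a1 * x * (a1 * u1 * y)) := by
  decide +kernel

theorem sq_base : ∀ x : W, InBase x → InPhi (x * x) := by decide +kernel

theorem phi_comm : ∀ x y : W, InBase x → InPhi y → x * y = y * x := by decide +kernel

theorem conj_phiEq : ∀ x y : W, InBase x → InBase y → PhiEq y (x * y * x⁻¹) := by decide +kernel

theorem base_gen : ∀ x : W, InBase x → ∃ i j k l : Fin 4,
    x = a1 ^ (i : ℕ) * u1 ^ (j : ℕ) * (a2 ^ (k : ℕ) * u2 ^ (l : ℕ)) := by decide +kernel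

theorem gen_W : ∀ x : W, ∃ b : Bool, InBase (if b then sw * x else x) := by decide +kernel

theorem bases : InBase a1 ∧ InBase u1 ∧ InBase a2 ∧ InBase u2 ∧ ¬ InBase sw ∧
    sw * a1 * sw⁻¹ = a2 ∧ sw * u1 * sw⁻¹ = u2 ∧ sw * sw = 1 := by decide +kernel

/-- Centralizing the base modulo `z1`: the first factor, modulo the centre. -/
theorem factor_one : ∀ x : W, InBase x → ((∀ y, InBase y → x * y * x⁻¹ * y⁻¹ = 1 ∨
    x * y * x⁻¹ * y⁻¹ = z1) ↔ (PhiEq 1 x ∨ PhiEq a1 x ∨ PhiEq u1 x ∨ PhiEq (a1 * u1) x)) := by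
  decide +kernel

theorem factor_one_cases : ∀ x : W, InBase x →
    (PhiEq 1 x ∨ PhiEq a1 x ∨ PhiEq u1 x ∨ PhiEq (a1 * u1) x) →
    (x * x = z1 → PhiEq a1 x) ∧ (x * x = 1 → ¬ InPhi x → PhiEq u1 x ∨ PhiEq (a1 * u1) x) := by
  decide +kernel

theorem swap_factor : ∀ w' : W, ¬ InBase w' → ∀ x : W,
    (PhiEq a1 x → PhiEq a2 (w' * x * w'⁻¹)) ∧ (PhiEq u1 x → PhiEq u2 (w' * x * w'⁻¹)) ∧
    (PhiEq (a1 * u1) x → PhiEq (a2 * u2) (w' * x * w'⁻¹)) := by
  decide +kernel

theorem invol_outside : ∀ x : W, ¬ InBase x → x * x = 1 → ∃ g, InBase g ∧ g * x * g⁻¹ = sw := by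
  decide +kernel

theorem normalize_rot : ∀ x : W, PhiEq a1 x → x * x = z1 → ∃ g, g * sw * g⁻¹ = sw ∧ InBase g ∧
    (g * x * g⁻¹ = a1 ∨ g * x * g⁻¹ = a1 * z2) := by
  decide +kernel

theorem normalize_refl : ∀ x : W, PhiEq (a1 * u1) x → x * x = 1 →
    ∃ g, g * sw * g⁻¹ = sw ∧ g * a1 * g⁻¹ = a1 ∧ InBase g ∧
      (g * x * g⁻¹ = a1 * u1 ∨ g * x * g⁻¹ = a1 * u1 * z2) := by
  decide +kernel

theorem square_flip : ∀ h : W, h * sw * h⁻¹ = sw → h * a1 * h⁻¹ = a1 → ∀ p : Bool,
    h * u1 * h⁻¹ = z1 * (if p then z2 else 1) * u1 →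
      p = false ∧ (h = a1 * a2 ∨ h = a1 * a2 * zc) := by
  decide +kernel

theorem elem_normal : ∀ x : W, x * x = 1 → (∀ g : W, Commute x (g * x * g⁻¹)) →
    InV false x ∨ InV true x := by
  unfold Commute SemiconjBy
  decide +kernel

theorem elem_normal_pair : ∀ x : W, InV false x → ¬ InV true x → ∀ y : W, InV true y →
    ¬ InV false y → ∃ g : W, ¬ Commute (g * x * g⁻¹) y := by
  unfold Commute SemiconjBy
  decide +kernel

theorem flip_moves : InV false u1 ∧ InV true (a1 * u1) ∧
    ∀ x : W, (PhiEq (a1 * u1) x → ¬ InV false x) ∧ (PhiEq u1 x → ¬ InV true x) := by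
  decide +kernel

/-! ### The universal property -/

/-- Generators satisfying the relations of `D8 ≀ 2`. -/
structure Gens {G : Type*} [Group G] (s r t : G) : Prop where
  hs : s ^ 4 = 1
  hr : r * r = 1
  ht : t * t = 1
  hrs : r * s * r⁻¹ = s⁻¹
  hss : Commute s (t * s * t⁻¹)
  hrr : Commute r (t * r * t⁻¹)
  hsr : Commute s (t * r * t⁻¹)

variable {G : Type*} [Group G] {s r t : G}

theorem pow_val_add (hs : s ^ 4 = 1) (i j : ZMod 4) : s ^ (i + j).val = s ^ i.val * s ^ j.val := by
  rw [← pow_add, ZMod.val_add, ← pow_eq_pow_mod _ hs]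

/-- The map on the first factor. -/
def dihHom (s r : G) (hs : s ^ 4 = 1) (hr : r * r = 1) (hrs : r * s * r⁻¹ = s⁻¹) : D →* G :=
  MonoidHom.mk'
    (fun x => match x with
      | .r i => s ^ i.val
      | .sr i => r * s ^ i.val)
    (by
      have hinv : ∀ i : ZMod 4, (s ^ i.val)⁻¹ = s ^ (-i).val := fun i => by
        refine inv_eq_of_mul_eq_one_right ?_
        rw [← pow_val_add hs, add_neg_cancel, ZMod.val_zero, pow_zero]
      have hri : r⁻¹ = r := inv_eq_of_mul_eq_one_right hr
      have hconj : ∀ i : ZMod 4, r * s ^ i.val * r = s ^ (-i).val := fun i => by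
        nth_rw 2 [← hri]
        rw [← conj_pow, hrs, inv_pow, hinv]
      have hmove : ∀ i : ZMod 4, s ^ i.val * r = r * s ^ (-i).val := fun i => by
        rw [← hconj i, ← mul_assoc, ← mul_assoc, hr, one_mul]
      rintro (i | i) (j | j)
      · rw [DihedralGroup.r_mul_r]; exact pow_val_add hs i j
      · rw [DihedralGroup.r_mul_sr]
        show r * s ^ (j - i).val = s ^ i.val * (r * s ^ j.val)
        rw [← mul_assoc, hmove, mul_assoc, ← pow_val_add hs, neg_add_eq_sub]
      · rw [DihedralGroup.sr_mul_r]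
        show r * s ^ (i + j).val = r * s ^ i.val * s ^ j.val
        rw [pow_val_add hs, mul_assoc]
      · rw [DihedralGroup.sr_mul_sr]
        show s ^ (j - i).val = r * s ^ i.val * (r * s ^ j.val)
        rw [← mul_assoc (r * s ^ i.val), hconj, ← pow_val_add hs, neg_add_eq_sub])

theorem dihHom_mem (hs : s ^ 4 = 1) (hr : r * r = 1) (hrs : r * s * r⁻¹ = s⁻¹) (H : Subgroup G)
    (h1 : s ∈ H) (h2 : r ∈ H) : ∀ x, dihHom s r hs hr hrs x ∈ H := by
  rintro (i | i)
  · exact pow_mem h1 _
  · exact mul_mem h2 (pow_mem h1 _)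

theorem dihHom_r (hs : s ^ 4 = 1) (hr : r * r = 1) (hrs : r * s * r⁻¹ = s⁻¹) :
    dihHom s r hs hr hrs (.r 1) = s := pow_one s

theorem dihHom_sr (hs : s ^ 4 = 1) (hr : r * r = 1) (hrs : r * s * r⁻¹ = s⁻¹) :
    dihHom s r hs hr hrs (.sr 0) = r := by
  show r * s ^ 0 = r
  rw [pow_zero, mul_one]

/-- The map out of `D8 ≀ 2` given by generators satisfying the relations. -/
theorem exists_hom (h : Gens s r t) :
    ∃ f : W →* G, f a1 = s ∧ f u1 = r ∧ f sw = t ∧
      ∀ H : Subgroup G, s ∈ H → r ∈ H → t ∈ H → f.range ≤ H := by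
  let φ := dihHom s r h.hs h.hr h.hrs
  let ψ : D →* G := (MulAut.conj t).toMonoidHom.comp φ
  have hti : t⁻¹ = t := inv_eq_of_mul_eq_one_right h.ht
  have hrs' : Commute r (t * s * t⁻¹) := by
    have h1 := (Commute.conj_iff t).2 h.hsr
    have e : t * (t * r * t⁻¹) * t⁻¹ = r := by
      rw [hti, show t * (t * r * t) * t = t * t * r * (t * t) by group, h.ht, one_mul, mul_one]
    rw [e] at h1
    exact h1.symm
  have hc : ∀ x y, Commute (φ x) (ψ y) := by
    intro x y
    have hle : ∀ g ∈ ({s, r} : Set G), ∀ y, Commute g (ψ y) := by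
      intro g hg y
      have := dihHom_mem h.hs h.hr h.hrs
        ((Subgroup.centralizer ({g} : Set G)).comap (MulAut.conj t).toMonoidHom) ?_ ?_ y
      · exact (Subgroup.mem_centralizer_singleton_iff.1 this).symm
      all_goals
        refine Subgroup.mem_centralizer_singleton_iff.2 ?_
        rcases hg with rfl | rfl
      · exact h.hss.symm.eq
      · exact hrs'.symm.eq
      · exact h.hsr.symm.eq
      · exact h.hrr.symm.eq
    exact (Subgroup.mem_centralizer_singleton_iff.1 (dihHom_mem h.hs h.hr h.hrs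
      (Subgroup.centralizer ({ψ y} : Set G)) (Subgroup.mem_centralizer_singleton_iff.2
        (hle s (Or.inl rfl) y).eq) (Subgroup.mem_centralizer_singleton_iff.2
        (hle r (Or.inr rfl) y).eq) x))
  let fb : D × D →* G := φ.noncommCoprod ψ hc
  let fq : Multiplicative (ZMod 2) →* G :=
    MonoidHom.mk' (fun x => if Multiplicative.toAdd x = 0 then 1 else t) (by
      intro x y
      rcases (show ∀ x : Multiplicative (ZMod 2), x = 1 ∨ x = Multiplicative.ofAdd 1 by decide) x
        with rfl | rfl <;>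
      rcases (show ∀ x : Multiplicative (ZMod 2), x = 1 ∨ x = Multiplicative.ofAdd 1 by decide) y
        with rfl | rfl
      · simp
      · simp
      · simp
      · rw [show Multiplicative.ofAdd (1 : ZMod 2) * Multiplicative.ofAdd 1 = 1 by decide,
          if_pos (show Multiplicative.toAdd (1 : Multiplicative (ZMod 2)) = 0 by decide),
          if_neg (show ¬ (Multiplicative.toAdd (Multiplicative.ofAdd (1 : ZMod 2)) = 0) by decide),
          h.ht])
  let f : W →* G := SemidirectProduct.lift fb fq (by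
    intro g
    rcases (show ∀ x : Multiplicative (ZMod 2), x = 1 ∨ x = Multiplicative.ofAdd 1 by decide) g
      with rfl | rfl
    · ext x <;> simp
    · refine MonoidHom.ext fun x => ?_
      obtain ⟨x, y⟩ := x
      show φ y * (t * φ x * t⁻¹) = fq (Multiplicative.ofAdd 1) * (φ x * (t * φ y * t⁻¹)) *
        (fq (Multiplicative.ofAdd 1))⁻¹
      rw [show fq (Multiplicative.ofAdd 1) = t by simp [fq]]
      rw [show t * (φ x * (t * φ y * t⁻¹)) * t⁻¹ = t * φ x * t⁻¹ * (t * t * φ y * (t * t)⁻¹) by group,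
        h.ht, one_mul, inv_one, mul_one]
      exact (hc y x).eq)
  refine ⟨f, ?_, ?_, ?_, ?_⟩
  · show φ (.r 1) * ψ 1 * fq 1 = s
    rw [map_one, map_one, mul_one, mul_one]
    exact dihHom_r _ _ _
  · show φ (.sr 0) * ψ 1 * fq 1 = r
    rw [map_one, map_one, mul_one, mul_one]
    exact dihHom_sr _ _ _
  · show φ 1 * ψ 1 * fq (Multiplicative.ofAdd 1) = t
    rw [map_one, map_one, one_mul, one_mul]
    simp [fq]
  · rintro H h1 h2 h3 _ ⟨⟨⟨x, y⟩, q⟩, rfl⟩
    show φ x * (t * φ y * t⁻¹) * fq q ∈ H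
    refine mul_mem (mul_mem (dihHom_mem h.hs h.hr h.hrs H h1 h2 x)
      (mul_mem (mul_mem h3 (dihHom_mem h.hs h.hr h.hrs H h1 h2 y)) (inv_mem h3))) ?_
    show (if _ then (1 : G) else t) ∈ H
    split
    · exact one_mem H
    · exact h3

/-- A Sylow 2-subgroup of the symmetric group of degree eight is `D8 ≀ 2`. -/
theorem sylow_perm_eight (T : Sylow 2 (Equiv.Perm (Fin 8))) :
    Nonempty (W ≃* (T : Subgroup (Equiv.Perm (Fin 8)))) := by
  haveI : Fact (Nat.Prime 2) := ⟨Nat.prime_two⟩
  let s : Equiv.Perm (Fin 8) :=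
    ⟨![1, 2, 3, 0, 4, 5, 6, 7], ![3, 0, 1, 2, 4, 5, 6, 7], by decide, by decide⟩
  let r : Equiv.Perm (Fin 8) :=
    ⟨![0, 3, 2, 1, 4, 5, 6, 7], ![0, 3, 2, 1, 4, 5, 6, 7], by decide, by decide⟩
  let t : Equiv.Perm (Fin 8) :=
    ⟨![4, 5, 6, 7, 0, 1, 2, 3], ![4, 5, 6, 7, 0, 1, 2, 3], by decide, by decide⟩
  have hg : Gens s r t := by
    refine ⟨?_, ?_, ?_, ?_, ?_, ?_, ?_⟩ <;> first | (unfold Commute SemiconjBy; decide +kernel) | decide +kernel
  obtain ⟨f, fa, fu, ft, -⟩ := exists_hom hg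
  have hW : IsPGroup 2 W := IsPGroup.of_card (n := 7) (by rw [card_W]; norm_num)
  have hinj : Function.Injective f := by
    rw [← MonoidHom.ker_eq_bot_iff]
    by_contra hne
    -- a nontrivial normal subgroup meets the centre
    haveI : Nontrivial f.ker := (Subgroup.nontrivial_iff_ne_bot _).2 hne
    obtain ⟨g, hg1, hg2⟩ : ∃ g ∈ f.ker, g = zc := by
      have h2 : 2 ∣ Nat.card f.ker := by
        obtain ⟨k, hk⟩ := (hW.to_subgroup f.ker).exists_card_eq
        have : 1 < Nat.card f.ker := Finite.one_lt_card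
        rcases k with - | k
        · rw [hk, pow_zero] at this; omega
        · exact ⟨2 ^ k, by rw [hk, pow_succ']⟩
      obtain ⟨x, hx, hx1⟩ := (hW.of_equiv ConjAct.toConjAct).exists_fixed_point_of_prime_dvd_card_of_fixed_point
        f.ker h2 (a := 1) (fun g => smul_one g)
      have hxc : ∀ y : W, (x : W) * y = y * x := by
        intro y
        have h := congrArg Subtype.val (hx (ConjAct.toConjAct y))
        have h' : y * (x : W) * y⁻¹ = x := h
        exact ((mul_inv_eq_iff_eq_mul.1 h').symm)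
      rcases (center_iff x).1 hxc with e | e
      · exact absurd (Subtype.ext e) hx1.symm
      · exact ⟨x, x.2, e⟩
    have hz : f zc = 1 := hg2 ▸ hg1
    have e : zc = a1 * a1 * (sw * (a1 * a1) * sw⁻¹) := by decide +kernel
    rw [e, map_mul, map_mul, map_mul, map_mul, map_inv, fa, ft, map_mul, fa] at hz
    exact absurd hz (by decide +kernel)
  have hcard : Nat.card (Equiv.Perm (Fin 8)) = 2 ^ 7 * 315 := by
    rw [Nat.card_eq_fintype_card, Fintype.card_perm]; rfl
  have hf : Nat.card f.range = 2 ^ 7 := by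
    rw [← Nat.card_congr (MonoidHom.ofInjective hinj).toEquiv, card_W]; norm_num
  let T₀ : Sylow 2 (Equiv.Perm (Fin 8)) := Sylow.ofCard f.range (by
    rw [hf, hcard, Nat.factorization_mul (by norm_num) (by norm_num), Finsupp.add_apply,
      Nat.factorization_eq_zero_of_not_dvd (show ¬ 2 ∣ 315 by norm_num),
      Nat.Prime.factorization_pow Nat.prime_two, Finsupp.single_eq_same])
  exact ⟨(MonoidHom.ofInjective hinj).trans (Sylow.equiv T₀ T)⟩

end CfsgLib.TwoFusion.DihWr
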