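/-
A 2-group of sectional 2-rank at most four properly containing `P ≅ D8 ≀ 2`: its centre is the centre of
`P`, `P` has index two in its normaliser, the normaliser modulo the centre is again `D8 ≀ 2`, and `P` is
the normaliser of each of its normal elementary abelian subgroups of order sixteen.
-/
import Cfsg.Prelude.Def_Classification
import Cfsg.Agent.Lib.Minimal.CentralPairs
import Cfsg.Agent.Lib.TwoFusion.DihWreathModel

set_option autoImplicit false

namespace CfsgLib.TwoFusion.DihWr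

theorem mem_of_card_le {α : Type*} [Fintype α] (P Q : α → Prop) [DecidablePred Q]
    (hPQ : ∀ x, P x → Q x) (hc : (Finset.univ.filter Q).card ≤ Nat.card {x // P x}) :
    ∀ x, Q x → P x := by
  classical
  intro x hx
  rw [Nat.card_eq_fintype_card, Fintype.card_subtype] at hc
  have hle : Finset.univ.filter P ⊆ Finset.univ.filter Q := fun y hy => by
    simpa using hPQ y (by simpa using hy)
  have he := Finset.eq_of_subset_of_card_le hle hc
  have hxm : x ∈ Finset.univ.filter Q := by simp [hx]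
  rw [← he] at hxm
  simpa using hxm

variable {S : Type*} [Group S]

/-- The hypotheses of the situation. -/
structure Setting (f : W →* S) : Prop where
  inj : Function.Injective f
  isP : IsPGroup 2 S
  rank : Cfsg.SectionalPRankLE 2 4 S

/-- The base group inside `S`. -/
def baseSub (f : W →* S) : Subgroup S :=
  ({ carrier := {x | InBase x}
     one_mem' := rfl
     mul_mem' := fun hx hy => (base_mul _ _ hx hy).1
     inv_mem' := fun hx => (base_mul _ _ hx hx).2 } : Subgroup W).map f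

theorem mem_baseSub {f : W →* S} {x : S} : x ∈ baseSub f ↔ ∃ d, InBase d ∧ f d = x := Iff.rfl

/-- The centre of the base group inside `S`. -/
def phiSub (f : W →* S) : Subgroup S :=
  ({ carrier := {x | InPhi x}
     one_mem' := Or.inl rfl
     mul_mem' := fun {x y} hx hy =>
       phi_mul x y hx hy
     inv_mem' := fun {x} hx =>
       phi_inv x hx } : Subgroup W).map f

theorem mem_phiSub {f : W →* S} {x : S} : x ∈ phiSub f ↔ ∃ d, InPhi d ∧ f d = x := Iff.rfl

/-- `c` centralizes the base group modulo its centre. -/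
def Trivial' (f : W →* S) (c : S) : Prop :=
  ∀ d, InBase d → ∃ e, InPhi e ∧ c * f d * c⁻¹ = f (d * e)

variable {f : W →* S} (hS : Setting f)
include hS

theorem trivial_phi {c : S} (hc : Trivial' f c) : ∀ e, InPhi e → c * f e * c⁻¹ = f e := by
  have hz : ∀ a : W, InBase a → c * f (a * a) * c⁻¹ = f (a * a) := by
    intro a ha
    obtain ⟨e, he, h⟩ := hc a ha
    have hee := (phi_base e he).2
    calc c * f (a * a) * c⁻¹ = (c * f a * c⁻¹) * (c * f a * c⁻¹) := by rw [map_mul]; group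
      _ = f ((a * e) * (a * e)) := by rw [h, map_mul f (a * e) (a * e)]
      _ = _ := by
        congr 1
        rw [show a * e * (a * e) = a * (e * a) * e by group, ← phi_comm a e ha he,
          show a * (a * e) * e = a * a * (e * e) by group, hee, mul_one]
  intro e he
  obtain ⟨a, ha, rfl⟩ := (show ∀ e : W, InPhi e → ∃ a, InBase a ∧ e = a * a by decide +kernel) e he
  exact hz a ha

theorem trivial_mul {c c' : S} (hc : Trivial' f c) (hc' : Trivial' f c') : Trivial' f (c * c') := by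
  intro d hd
  obtain ⟨e, he, h⟩ := hc' d hd
  obtain ⟨e', he', h'⟩ := hc d hd
  refine ⟨e' * e, phi_mul _ _ he' he, ?_⟩
  calc c * c' * f d * (c * c')⁻¹ = c * (c' * f d * c'⁻¹) * c⁻¹ := by group
    _ = (c * f d * c⁻¹) * (c * f e * c⁻¹) := by rw [h, map_mul]; group
    _ = f (d * e') * f e := by rw [h', trivial_phi hS hc e he]
    _ = _ := by rw [← map_mul, mul_assoc]

theorem trivial_of_base {g : W} (hg : InBase g) : Trivial' f (f g) := fun d hd =>
  ⟨d⁻¹ * (g * d * g⁻¹), conj_phiEq g d hg hd, by rw [mul_inv_cancel_left, map_mul, map_mul, map_inv]⟩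

/-- Nothing outside the base group centralizes it modulo its centre. -/
theorem trivial_mem [Finite S] {c : S} (hc : Trivial' f c) : c ∈ baseSub f := by
  classical
  by_contra hcB
  obtain ⟨n, hn⟩ := hS.isP c
  have hex : ∃ m, c ^ (2 ^ m) ∈ baseSub f := ⟨n, hn ▸ one_mem _⟩
  obtain ⟨m, hm⟩ : ∃ m, Nat.find hex = m + 1 := by
    refine Nat.exists_eq_succ_of_ne_zero fun h => hcB ?_
    have := Nat.find_spec hex
    rwa [h, pow_zero, pow_one] at this
  set c' := c ^ (2 ^ m)
  have hc'B : c' ∉ baseSub f := Nat.find_min hex (by omega)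
  have hc' : Trivial' f c' := by
    have : ∀ k : ℕ, Trivial' f (c ^ k) := by
      intro k
      induction k with
      | zero =>
        rw [pow_zero]
        exact fun d _ => ⟨1, Or.inl rfl, by rw [one_mul, inv_one, mul_one, mul_one]⟩
      | succ k ih => rw [pow_succ]; exact trivial_mul hS ih hc
    exact this _
  obtain ⟨h, hh, hhc⟩ : ∃ h, InBase h ∧ f h = c' * c' := by
    have := Nat.find_spec hex
    rw [hm, pow_succ, pow_mul, pow_two] at this
    exact this
  -- the square is central in the base group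
  have hphi : InPhi h := by
    refine base_center h hh fun y hy => hS.inj ?_
    obtain ⟨e, he, hy'⟩ := hc' y hy
    have hee := (phi_base e he).2
    have h2 : f h * f y * (f h)⁻¹ = f y := by
      rw [hhc, show c' * c' * f y * (c' * c')⁻¹ = c' * (c' * f y * c'⁻¹) * c'⁻¹ by group, hy', map_mul,
        show c' * (f y * f e) * c'⁻¹ = (c' * f y * c'⁻¹) * (c' * f e * c'⁻¹) by group, hy',
        trivial_phi hS hc' e he, ← map_mul, mul_assoc, hee, mul_one]
    rw [map_mul, map_mul]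
    exact mul_inv_eq_iff_eq_mul.1 h2
  have hsq : c' * c' ∈ phiSub f := ⟨h, hphi, hhc⟩
  have hcomm : ∀ d ∈ baseSub f, c' * d * c'⁻¹ ∈ baseSub f := by
    rintro _ ⟨d, hd, rfl⟩
    obtain ⟨e, he, h'⟩ := hc' d hd
    exact ⟨d * e, (base_mul _ _ hd (phi_base e he).1).1, h'.symm⟩
  have hsqB : c' * c' ∈ baseSub f := ⟨h, hh, hhc⟩
  let H : Subgroup S :=
    { carrier := {x | x ∈ baseSub f ∨ x * c' ∈ baseSub f}
      one_mem' := Or.inl (one_mem _)
      mul_mem' := by
        have hmove : ∀ d ∈ baseSub f, c'⁻¹ * d * c' ∈ baseSub f := fun d hd => by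
          have h1 := hcomm d hd
          have h2 := mul_mem (mul_mem (inv_mem hsqB) h1) hsqB
          rwa [show (c' * c')⁻¹ * (c' * d * c'⁻¹) * (c' * c') = c'⁻¹ * d * c' by group] at h2
        rintro x y (hx | hx) (hy | hy)
        · exact Or.inl (mul_mem hx hy)
        · exact Or.inr (by rw [mul_assoc]; exact mul_mem hx hy)
        · refine Or.inr ?_
          rw [show x * y * c' = (x * c') * (c'⁻¹ * y * c') by group]
          exact mul_mem hx (hmove y hy)
        · refine Or.inl ?_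
          rw [show x * y = (x * c') * (c'⁻¹ * (y * c') * c') * (c' * c')⁻¹ by group]
          exact mul_mem (mul_mem hx (hmove _ hy)) (inv_mem hsqB)
      inv_mem' := by
        rintro x (hx | hx)
        · exact Or.inl (inv_mem hx)
        · refine Or.inr ?_
          rw [show x⁻¹ * c' = c' * (x * c')⁻¹ * c'⁻¹ * (c' * c') by group]
          exact mul_mem (hcomm _ (inv_mem hx)) hsqB }
  have hNH : phiSub f ≤ H := fun x ⟨d, hd, e⟩ => Or.inl ⟨d, (phi_base d hd).1, e⟩
  have hsquares : ∀ x ∈ H, x * x ∈ phiSub f := by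
    rintro x (⟨d, hd, rfl⟩ | ⟨d, hd, hdx⟩)
    · exact ⟨d * d, sq_base d hd, map_mul f d d⟩
    · obtain ⟨e, he, h'⟩ := hc' d⁻¹ (base_mul d d hd hd).2
      have hx : x = f d * c'⁻¹ := eq_mul_inv_of_mul_eq hdx.symm
      have e1 : x⁻¹ * x⁻¹ = f (d⁻¹ * e * d⁻¹) * (c' * c') := by
        obtain ⟨e', he', h''⟩ := hc' (d⁻¹ * e) (base_mul _ _ (base_mul d d hd hd).2 (phi_base e he).1).1
        have h3 : c' * f d⁻¹ * c'⁻¹ = f (d⁻¹ * e) := h'
        rw [hx, mul_inv_rev, inv_inv, ← map_inv,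
          show c' * f d⁻¹ * (c' * f d⁻¹) = (c' * f d⁻¹ * c'⁻¹) *
            (c' * (c' * f d⁻¹ * c'⁻¹) * c'⁻¹) * (c' * c') by group, h3, map_mul f (d⁻¹ * e) d⁻¹]
        congr 1
        rw [map_mul, show c' * (f d⁻¹ * f e) * c'⁻¹ = (c' * f d⁻¹ * c'⁻¹) * (c' * f e * c'⁻¹) by group,
          trivial_phi hS hc' e he, h3, map_mul, show f d⁻¹ * f e * (f d⁻¹ * f e * f e)
            = f d⁻¹ * f e * f d⁻¹ * (f e * f e) by group,
          ← map_mul f e e, (phi_base e he).2, map_one, mul_one]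
      have h4 : InPhi (d⁻¹ * e * d⁻¹) :=
        (show ∀ d e : W, InBase d → InPhi e → InPhi (d⁻¹ * e * d⁻¹) by decide +kernel) d e hd he
      have h5 : x⁻¹ * x⁻¹ ∈ phiSub f := e1 ▸ mul_mem ⟨_, h4, rfl⟩ hsq
      rw [← mul_inv_rev] at h5
      exact inv_mem_iff.1 h5
  have hle := CfsgLib.Minimal.relIndex_le_of_squares hS.rank hNH hsquares
  -- counting
  have hN : Nat.card ↥(phiSub f) = 4 := by
    rw [phiSub, Nat.card_congr (Subgroup.equivMapOfInjective _ f hS.inj).toEquiv.symm]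
    exact (Nat.card_congr (Equiv.subtypeEquivRight (fun x => Iff.rfl))).trans
      ((Nat.card_eq_fintype_card (α := {x : W // InPhi x})).trans (by decide +kernel))
  have hB : Nat.card ↥(baseSub f) = 64 := by
    rw [baseSub, Nat.card_congr (Subgroup.equivMapOfInjective _ f hS.inj).toEquiv.symm]
    exact (Nat.card_congr (Equiv.subtypeEquivRight (fun x => Iff.rfl))).trans
      ((Nat.card_eq_fintype_card (α := {x : W // InBase x})).trans (by decide +kernel))
  have hBH : baseSub f < H := lt_of_le_of_ne (fun x hx => Or.inl hx) fun e => hc'B (by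
    rw [e]; exact Or.inr hsqB)
  have hPB : phiSub f ≤ baseSub f := fun x hx => by
    obtain ⟨d, hd, e⟩ := mem_phiSub.1 hx
    exact mem_baseSub.2 ⟨d, (phi_base d hd).1, e⟩
  have h1 := (phiSub f).relIndex_mul_relIndex (baseSub f) H hPB hBH.le
  have h16 : (phiSub f).relIndex (baseSub f) = 16 := by
    have h2 := ((phiSub f).subgroupOf (baseSub f)).card_mul_index
    rw [Nat.card_congr (Subgroup.subgroupOfEquivOfLe hPB).toEquiv, hN, hB] at h2
    change 4 * (phiSub f).relIndex (baseSub f) = 64 at h2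
    omega
  have h2 : 2 ≤ (baseSub f).relIndex H := by
    have h0 : (baseSub f).relIndex H ≠ 0 := Subgroup.index_ne_zero_of_finite
    have h3 : (baseSub f).relIndex H ≠ 1 := fun e => hBH.not_ge (Subgroup.relIndex_eq_one.1 e)
    omega
  rw [← h1, h16] at hle
  norm_num at hle
  omega

theorem center_eq [Finite S] :
    (∀ x : S, (∀ m, Commute x (f m)) → x = 1 ∨ x = f zc) ∧
      ∀ x : S, x ∈ Subgroup.center S ↔ (x = 1 ∨ x = f zc) := by
  have h1 : ∀ x : S, (∀ m, Commute x (f m)) → x = 1 ∨ x = f zc := by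
    intro x hx
    have hxB : x ∈ baseSub f := trivial_mem hS fun d _ =>
      ⟨1, Or.inl rfl, by rw [mul_one, (hx d).eq, mul_inv_cancel_right]⟩
    obtain ⟨d, -, rfl⟩ := hxB
    rcases (center_iff d).1 (fun y => hS.inj (by rw [map_mul, map_mul]; exact (hx y).eq)) with e | e
    · exact Or.inl (by rw [e, map_one])
    · exact Or.inr (by rw [e])
  refine ⟨h1, fun x => ⟨fun hx => h1 x fun m => (Subgroup.mem_center_iff.1 hx (f m)).symm, ?_⟩⟩
  rintro (rfl | rfl)
  · exact one_mem _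
  haveI : Fact (Nat.Prime 2) := ⟨Nat.prime_two⟩
  haveI : Nontrivial S := ⟨⟨f zc, 1, fun e =>
    absurd (hS.inj (e.trans (map_one f).symm)) (by decide +kernel)⟩⟩
  haveI := hS.isP.center_nontrivial
  obtain ⟨z, hz⟩ := exists_ne (1 : Subgroup.center S)
  rcases h1 z (fun m => (Subgroup.mem_center_iff.1 z.2 (f m)).symm) with e | e
  · exact absurd (Subtype.ext e) hz
  · exact e ▸ z.2

omit hS in
/-- The automorphism of `D8 ≀ 2` induced by an element normalizing it. -/
theorem exists_conjAut [Finite S] (hinj : Function.Injective f) {c : S}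
    (hc : c ∈ Subgroup.normalizer (f.range : Set S)) :
    ∃ ψ : W ≃* W, ∀ x, c * f x * c⁻¹ = f (ψ x) := by
  have hex : ∀ x : W, ∃ y, f y = c * f x * c⁻¹ := fun x =>
    (Subgroup.mem_normalizer_iff.1 hc (f x)).1 ⟨x, rfl⟩
  choose g hg using hex
  let φ : W →* W := MonoidHom.mk' g fun x y => hinj (by rw [hg, map_mul, map_mul, hg, hg]; group)
  have hφ : Function.Injective φ := fun x y h => by
    have h1 : f (g x) = f (g y) := congrArg f h
    rw [hg, hg] at h1
    exact hinj (mul_left_cancel (mul_right_cancel h1))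
  exact ⟨MulEquiv.ofBijective φ (Finite.injective_iff_bijective.1 hφ), fun x => (hg x).symm⟩

omit hS in
theorem aut_invariant (ψ : W ≃* W) :
    ψ zc = zc ∧ (∀ x, InPhi x → InPhi (ψ x)) ∧ ∀ x, InBase x ↔ InBase (ψ x) := by
  have hz : ψ zc = zc := by
    have h : ∀ y, ψ zc * y = y * ψ zc := fun y => by
      obtain ⟨x, rfl⟩ := ψ.surjective y
      rw [← map_mul, ← map_mul, (center_iff zc).2 (Or.inr rfl) x]
    rcases (center_iff _).1 h with e | e
    · exact absurd (ψ.injective (e.trans (map_one ψ).symm)) (by decide +kernel)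
    · exact e
  have hphi : ∀ x, InPhi x ↔ InPhi (ψ x) := fun x => by
    rw [phi_iff, phi_iff]
    constructor
    · intro h y
      obtain ⟨y, rfl⟩ := ψ.surjective y
      rw [← map_inv ψ x, ← map_inv ψ y, ← map_mul, ← map_mul, ← map_mul]
      rcases h y with e | e <;> rw [e]
      · exact Or.inl (map_one ψ)
      · exact Or.inr hz
    · intro h y
      rcases h (ψ y) with e | e <;> rw [← map_inv ψ x, ← map_inv ψ y, ← map_mul, ← map_mul, ← map_mul] at e
      · exact Or.inl (ψ.injective (e.trans (map_one ψ).symm))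
      · exact Or.inr (ψ.injective (e.trans hz.symm))
  refine ⟨hz, fun x => (hphi x).1, fun x => ?_⟩
  rw [base_iff, base_iff]
  constructor
  · intro h y hy
    obtain ⟨y, rfl⟩ := ψ.surjective y
    rw [← map_mul, ← map_mul, h y ((hphi y).2 hy)]
  · exact fun h y hy => ψ.injective (by rw [map_mul, map_mul]; exact h _ ((hphi y).1 hy))

/-- An element of the normalizer outside `P` flips the two classes of involutions in both factors, up
to the swap. -/
theorem flip [Finite S] {c : S} (hc : c ∈ Subgroup.normalizer (f.range : Set S)) (hcP : c ∉ f.range) :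
    ∃ (c' : S) (ψ : W ≃* W), c'⁻¹ * c ∈ f.range ∧ (∀ x, c' * f x * c'⁻¹ = f (ψ x)) ∧
      ¬ InBase (ψ sw) ∧ PhiEq a1 (ψ a1) ∧ PhiEq (a1 * u1) (ψ u1) := by
  obtain ⟨ψ₀, hψ₀⟩ := exists_conjAut hS.inj hc
  obtain ⟨b, hb⟩ : ∃ b : Bool, ψ₀ z1 = if b then z2 else z1 := by
    obtain ⟨hz, hp, -⟩ := aut_invariant ψ₀
    rcases hp z1 (Or.inr (Or.inl rfl)) with e | e | e | e
    · exact absurd (ψ₀.injective (e.trans (map_one ψ₀).symm)) (by decide +kernel)
    · exact ⟨false, e⟩
    · exact ⟨true, e⟩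
    · exact absurd (ψ₀.injective (e.trans hz.symm)) (by decide +kernel)
  set g : W := if b then sw else 1
  have hgz : g * (if b then z2 else z1) * g⁻¹ = z1 := by
    cases b <;> simp only [g] <;> decide +kernel
  obtain ⟨ψ, hψdef⟩ : ∃ ψ : W ≃* W, ψ = ψ₀.trans (MulAut.conj g) := ⟨_, rfl⟩
  have hψ : ∀ x, f g * c * f x * (f g * c)⁻¹ = f (ψ x) := fun x => by
    rw [show f g * c * f x * (f g * c)⁻¹ = f g * (c * f x * c⁻¹) * (f g)⁻¹ by group, hψ₀, hψdef,
      ← map_inv, ← map_mul, ← map_mul]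
    rfl
  have hin : (f g * c)⁻¹ * c ∈ f.range := by
    rw [show (f g * c)⁻¹ * c = c⁻¹ * (f g)⁻¹ * c by group]
    exact (Subgroup.mem_normalizer_iff''.1 hc _).1 (inv_mem ⟨g, rfl⟩)
  obtain ⟨-, hphi, hbase⟩ := aut_invariant ψ
  have hz1 : ψ z1 = z1 := by rw [hψdef]; show g * ψ₀ z1 * g⁻¹ = z1; rw [hb, hgz]
  have hsw : ¬ InBase (ψ sw) := fun h => bases.2.2.2.2.1 ((hbase sw).2 h)
  have hone : ∀ x, InBase x → (PhiEq 1 x ∨ PhiEq a1 x ∨ PhiEq u1 x ∨ PhiEq (a1 * u1) x) →
      PhiEq 1 (ψ x) ∨ PhiEq a1 (ψ x) ∨ PhiEq u1 (ψ x) ∨ PhiEq (a1 * u1) (ψ x) := by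
    intro x hx h
    refine (factor_one _ ((hbase x).1 hx)).1 fun y hy => ?_
    obtain ⟨y, rfl⟩ := ψ.surjective y
    rw [← map_inv ψ x, ← map_inv ψ y, ← map_mul, ← map_mul, ← map_mul]
    rcases (factor_one x hx).2 h y ((hbase y).2 hy) with e | e <;> rw [e]
    · exact Or.inl (map_one ψ)
    · exact Or.inr hz1
  have hrefl : ∀ x : W, PhiEq x x := by decide +kernel
  have ha : PhiEq a1 (ψ a1) := (factor_one_cases _ ((hbase a1).1 bases.1)
    (hone a1 bases.1 (Or.inr (Or.inl (hrefl a1))))).1 (by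
      rw [← map_mul, show a1 * a1 = z1 by decide +kernel, hz1])
  have hu := (factor_one_cases _ ((hbase u1).1 bases.2.1)
    (hone u1 bases.2.1 (Or.inr (Or.inr (Or.inl (hrefl u1)))))).2 (by
      rw [← map_mul, show u1 * u1 = 1 by decide +kernel, map_one]) (fun h => by
      have hnot : ¬ InPhi u1 := by decide +kernel
      refine hnot ?_
      have h' := (aut_invariant ψ.symm).2.1 _ h
      rwa [MulEquiv.symm_apply_apply] at h')
  rcases hu with hu | hu
  · exfalso
    refine hcP ?_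
    have ha2 : PhiEq a2 (ψ a2) := by
      have h := (swap_factor _ hsw (ψ a1)).1 ha
      rwa [← map_inv, ← map_mul, ← map_mul, bases.2.2.2.2.2.1] at h
    have hu2 : PhiEq u2 (ψ u2) := by
      have h := (swap_factor _ hsw (ψ u1)).2.1 hu
      rwa [← map_inv, ← map_mul, ← map_mul, bases.2.2.2.2.2.2.1] at h
    have hmul : ∀ x y x' y' : W, InBase x → InBase y → InBase x' → InBase y' → PhiEq x x' →
        PhiEq y y' → PhiEq (x * y) (x' * y') := by
      intro x y x' y' hx hy hx' hy' h1 h2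
      have e : (x * y)⁻¹ * (x' * y') = y⁻¹ * (x⁻¹ * x') * y * (y⁻¹ * y') := by group
      show InPhi _
      rw [e, show y⁻¹ * (x⁻¹ * x') * y = y⁻¹ * ((x⁻¹ * x') * y) by group,
        ← phi_comm y _ hy h1, inv_mul_cancel_left]
      exact phi_mul _ _ h1 h2
    have hpow : ∀ x x' : W, InBase x → InBase x' → PhiEq x x' → ∀ n : ℕ,
        InBase (x ^ n) ∧ InBase (x' ^ n) ∧ PhiEq (x ^ n) (x' ^ n) := by
      intro x x' hx hx' h n
      induction n with
      | zero => rw [pow_zero, pow_zero]; exact ⟨rfl, rfl, hrefl 1⟩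
      | succ n ih =>
        rw [pow_succ, pow_succ]
        exact ⟨(base_mul _ _ ih.1 hx).1, (base_mul _ _ ih.2.1 hx').1,
          hmul _ _ _ _ ih.1 hx ih.2.1 hx' ih.2.2 h⟩
    have hcB : f g * c ∈ baseSub f := by
      refine trivial_mem hS fun d hd => ?_
      obtain ⟨i, j, k, l, hd'⟩ := base_gen d hd
      have hpsi : PhiEq d (ψ d) := by
        rw [hd', map_mul, map_mul, map_mul, map_pow, map_pow, map_pow, map_pow]
        obtain ⟨p1, p1', q1⟩ := hpow _ _ bases.1 ((hbase _).1 bases.1) ha (i : ℕ)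
        obtain ⟨p2, p2', q2⟩ := hpow _ _ bases.2.1 ((hbase _).1 bases.2.1) hu (j : ℕ)
        obtain ⟨p3, p3', q3⟩ := hpow _ _ bases.2.2.1 ((hbase _).1 bases.2.2.1) ha2 (k : ℕ)
        obtain ⟨p4, p4', q4⟩ := hpow _ _ bases.2.2.2.1 ((hbase _).1 bases.2.2.2.1) hu2 (l : ℕ)
        exact hmul _ _ _ _ (base_mul _ _ p1 p2).1 (base_mul _ _ p3 p4).1 (base_mul _ _ p1' p2').1
          (base_mul _ _ p3' p4').1 (hmul _ _ _ _ p1 p2 p1' p2' q1 q2) (hmul _ _ _ _ p3 p4 p3' p4' q3 q4)
      exact ⟨d⁻¹ * ψ d, hpsi, by rw [mul_inv_cancel_left]; exact hψ d⟩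
    obtain ⟨d, -, hd⟩ := hcB
    rw [show c = (f g)⁻¹ * f d by rw [hd, inv_mul_cancel_left]]
    exact mul_mem (inv_mem ⟨g, rfl⟩) ⟨d, rfl⟩
  · exact ⟨f g * c, ψ, hin, hψ, hsw, ha, hu⟩

theorem exists_normalizer_element [Finite S] (hne : f.range ≠ ⊤) :
    ∃ s ∈ Subgroup.normalizer (f.range : Set S), s ∉ f.range := by
  haveI : Fact (Nat.Prime 2) := ⟨Nat.prime_two⟩
  haveI : Group.IsNilpotent S := hS.isP.isNilpotent
  exact SetLike.exists_of_lt
    (Group.normalizerCondition_of_isNilpotent f.range (lt_top_iff_ne_top.2 hne))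

theorem relIndex_eq_two [Finite S] (hne : f.range ≠ ⊤) :
    f.range.relIndex (Subgroup.normalizer (f.range : Set S)) = 2 := by
  obtain ⟨s, hsN, hsP⟩ := exists_normalizer_element hS hne
  set N := Subgroup.normalizer (f.range : Set S)
  have hPN : f.range ≤ N := Subgroup.le_normalizer
  have key : ∀ b ∈ N, b ∉ f.range → b * s ∈ f.range := by
    intro b hbN hbP
    by_contra h
    obtain ⟨c₁, ψ₁, i₁, e₁, w₁, a₁, v₁⟩ := flip hS hbN hbP
    obtain ⟨c₂, ψ₂, i₂, e₂, w₂, a₂', v₂⟩ := flip hS hsN hsP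
    -- the product of two flips fixes the classes
    have hcB : c₁ * c₂ ∈ f.range := by
      by_contra hn
      have hc₁ : c₁ ∈ N := by
        rw [show c₁ = b * (c₁⁻¹ * b)⁻¹ by group]
        exact mul_mem hbN (inv_mem (hPN i₁))
      have hc₂ : c₂ ∈ N := by
        rw [show c₂ = s * (c₂⁻¹ * s)⁻¹ by group]
        exact mul_mem hsN (inv_mem (hPN i₂))
      obtain ⟨c₃, ψ₃, ⟨g, hg⟩, e₃, w₃, a₃, v₃⟩ := flip hS (mul_mem hc₁ hc₂) hn
      have hψ : ∀ x, ψ₁ (ψ₂ x) = ψ₃ (g * x * g⁻¹) := fun x => hS.inj (by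
        rw [← e₁, ← e₂, ← e₃, map_mul, map_mul, map_inv, hg]; group)
      obtain ⟨-, hp1, hb1⟩ := aut_invariant ψ₁
      have hu3 : PhiEq u1 (ψ₁ (ψ₂ u1)) := by
        have h1 : InPhi (ψ₁ ((a1 * u1)⁻¹ * ψ₂ u1)) := hp1 _ v₂
        rw [map_mul, map_inv, map_mul] at h1
        exact (show ∀ p q r : W, PhiEq a1 p → PhiEq (a1 * u1) q → InPhi ((p * q)⁻¹ * r) → PhiEq u1 r by
          intro p q r hp hq hr
          have h' : PhiEq u1 (p * q) := by
            have := rot_refl (a1⁻¹ * p) ((a1 * u1)⁻¹ * q) hp hq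
            rwa [mul_inv_cancel_left, mul_inv_cancel_left] at this
          show InPhi _
          rw [show u1⁻¹ * r = (u1⁻¹ * (p * q)) * ((p * q)⁻¹ * r) by group]
          exact phi_mul _ _ h' hr)
          _ _ _ a₁ v₁ h1
      obtain ⟨-, hp3, hb3⟩ := aut_invariant ψ₃
      rw [hψ] at hu3
      rcases gen_W g with ⟨bb, hbb⟩
      cases bb
      · have h2 : InPhi (u1⁻¹ * (g * u1 * g⁻¹)) := conj_phiEq g u1 (by simpa using hbb) bases.2.1
        have h3 := hp3 _ h2
        rw [map_mul, map_inv] at h3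
        exact (show ∀ p r : W, InPhi ((a1 * u1)⁻¹ * p) → InPhi (p⁻¹ * r) → ¬ InPhi (u1⁻¹ * r) by
          intro p r hp hr hu
          have := phi_mul _ _ (phi_mul _ _ hp hr) (phi_inv _ hu)
          rw [show (a1 * u1)⁻¹ * p * (p⁻¹ * r) * (u1⁻¹ * r)⁻¹ = (a1 * u1)⁻¹ * u1 by group] at this
          exact absurd this (by decide +kernel)) _ _ v₃ h3 hu3
      · have h2 : InPhi (u2⁻¹ * (g * u1 * g⁻¹)) := (show ∀ g : W, InBase (sw * g) →
          InPhi (u2⁻¹ * (g * u1 * g⁻¹)) by decide +kernel) g (by simpa using hbb)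
        have h3 := hp3 _ h2
        rw [map_mul, map_inv] at h3
        have hu2' : InPhi ((a2 * u2)⁻¹ * ψ₃ u2) := by
          have h4 := (swap_factor _ w₃ (ψ₃ u1)).2.2 v₃
          rwa [← map_inv, ← map_mul, ← map_mul, bases.2.2.2.2.2.2.1] at h4
        exact (show ∀ p r : W, InPhi ((a2 * u2)⁻¹ * p) → InPhi (p⁻¹ * r) → ¬ InPhi (u1⁻¹ * r) by
          intro p r hp hr hu
          have := phi_mul _ _ (phi_mul _ _ hp hr) (phi_inv _ hu)
          rw [show (a2 * u2)⁻¹ * p * (p⁻¹ * r) * (u1⁻¹ * r)⁻¹ = (a2 * u2)⁻¹ * u1 by group] at this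
          exact absurd this (by decide +kernel)) _ _ hu2' h3 hu3
    refine h ?_
    have hc₂ : c₂ ∈ N := by
      rw [show c₂ = s * (c₂⁻¹ * s)⁻¹ by group]
      exact mul_mem hsN (inv_mem (hPN i₂))
    rw [show b * s = c₁ * c₂ * ((c₂⁻¹ * (c₁⁻¹ * b) * c₂) * (c₂⁻¹ * s)) by group]
    exact mul_mem hcB (mul_mem ((Subgroup.mem_normalizer_iff''.1 hc₂ _).1 i₁) i₂)
  show (f.range.subgroupOf N).index = 2
  rw [Subgroup.index_eq_two_iff]
  refine ⟨⟨s, hsN⟩, fun b => ?_⟩
  by_cases hb : (b : S) ∈ f.range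
  · refine Or.inr ⟨Subgroup.mem_subgroupOf.2 hb, fun h => hsP ?_⟩
    simpa using mul_mem (inv_mem hb) (Subgroup.mem_subgroupOf.1 h)
  · exact Or.inl ⟨Subgroup.mem_subgroupOf.2 (key b b.2 hb), fun h => hb (Subgroup.mem_subgroupOf.1 h)⟩

theorem normalizer_normal_elementary [Finite S] (V : Subgroup S) (hVP : V ≤ f.range)
    (hn : ∀ g ∈ f.range, ∀ v ∈ V, g * v * g⁻¹ ∈ V) (h2 : ∀ v ∈ V, v * v = 1)
    (hab : ∀ v ∈ V, ∀ v' ∈ V, Commute v v') (h16 : Nat.card V = 16) :
    Subgroup.normalizer (V : Set S) = f.range := by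
  classical
  set V0 := V.comap f with hV0
  have hcard : Nat.card V0 = 16 := by
    rw [← h16, ← Nat.card_congr (Subgroup.equivMapOfInjective V0 f hS.inj).toEquiv.symm,
      hV0, Subgroup.map_comap_eq, inf_eq_right.2 hVP]
  have hconjmem : ∀ g x, x ∈ V0 → g * x * g⁻¹ ∈ V0 := fun g x hx => by
    show f (g * x * g⁻¹) ∈ V
    rw [map_mul, map_mul, map_inv]
    exact hn _ ⟨g, rfl⟩ _ hx
  have hcomm : ∀ x y, x ∈ V0 → y ∈ V0 → Commute x y := fun x y hx hy => hS.inj (by
    rw [map_mul, map_mul]; exact (hab _ hx _ hy).eq)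
  have hin : ∀ x ∈ V0, InV false x ∨ InV true x := fun x hx =>
    elem_normal x (hS.inj (by rw [map_mul, map_one]; exact h2 _ hx))
      fun g => hcomm _ _ hx (hconjmem g x hx)
  obtain ⟨b, hb⟩ : ∃ b, ∀ x, x ∈ V0 ↔ InV b x := by
    have hsub : ∃ b, ∀ x ∈ V0, InV b x := by
      by_contra h
      push Not at h
      obtain ⟨x, hx, hx'⟩ := h true
      obtain ⟨y, hy, hy'⟩ := h false
      obtain ⟨g, hg⟩ := elem_normal_pair x ((hin x hx).resolve_right hx') hx' y
        ((hin y hy).resolve_left hy') hy'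
      exact hg (hcomm _ _ (hconjmem g x hx) hy)
    obtain ⟨b, hb⟩ := hsub
    refine ⟨b, fun x => ⟨hb x, fun hx => ?_⟩⟩
    exact mem_of_card_le (fun y => y ∈ V0) (InV b) hb
      (by rw [card_InV]; exact hcard.ge) x hx
  have hPN : f.range ≤ Subgroup.normalizer (V : Set S) := fun g hg => by
    rw [Subgroup.mem_normalizer_iff]
    refine fun x => ⟨hn g hg x, fun h => ?_⟩
    simpa [mul_assoc] using hn g⁻¹ (inv_mem hg) _ h
  refine le_antisymm ?_ hPN
  by_contra hnot
  set M := Subgroup.normalizer (V : Set S)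
  haveI : Fact (Nat.Prime 2) := ⟨Nat.prime_two⟩
  haveI : Group.IsNilpotent M := (hS.isP.to_subgroup M).isNilpotent
  have hlt : f.range.subgroupOf M < ⊤ := by
    rw [lt_top_iff_ne_top, Ne, Subgroup.subgroupOf_eq_top]
    exact hnot
  obtain ⟨c, hc, hcP⟩ := SetLike.exists_of_lt
    (Group.normalizerCondition_of_isNilpotent (f.range.subgroupOf M) hlt)
  have hcN : (c : S) ∈ Subgroup.normalizer (f.range : Set S) := by
    rw [Subgroup.mem_normalizer_iff]
    intro x
    by_cases hxM : x ∈ M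
    · exact Subgroup.mem_normalizer_iff.1 hc ⟨x, hxM⟩
    · refine iff_of_false (fun h => hxM (hPN h)) (fun h => hxM ?_)
      have := mul_mem (mul_mem (inv_mem c.2) (hPN h)) c.2
      rwa [show (c : S)⁻¹ * (c * x * (c : S)⁻¹) * c = x by group] at this
  obtain ⟨c', ψ, hc', hψ, -, ha, hu⟩ := flip hS hcN hcP
  have hc'M : c' ∈ M := by
    rw [show c' = c * (c'⁻¹ * c)⁻¹ by group]
    exact mul_mem c.2 (inv_mem (hPN hc'))
  have hpres : ∀ x, InV b x → InV b (ψ x) := fun x hx => by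
    rw [← hb] at hx ⊢
    show f (ψ x) ∈ V
    rw [← hψ]
    exact (Subgroup.mem_normalizer_iff.1 hc'M _).1 hx
  cases b
  · exact (flip_moves.2.2 _).1 hu (hpres u1 flip_moves.1)
  · have hm : PhiEq u1 (ψ (a1 * u1)) := by
      rw [map_mul]
      have := rot_refl
        (a1⁻¹ * ψ a1) ((a1 * u1)⁻¹ * ψ u1) ha hu
      rwa [mul_inv_cancel_left, mul_inv_cancel_left] at this
    exact (flip_moves.2.2 _).2 hm (hpres _ flip_moves.2.1)

/-- A generator of the normalizer over `P`, in normal form. -/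
theorem exists_normal_form [Finite S] (hne : f.range ≠ ⊤) :
    ∃ (s : S) (ψ : W ≃* W) (h : W) (q : Bool), s ∈ Subgroup.normalizer (f.range : Set S) ∧
      s ∉ f.range ∧ (∀ x, s * f x * s⁻¹ = f (ψ x)) ∧ ψ sw = sw ∧ ψ a1 = a1 ∧
      ψ u1 = a1 * u1 * (if q then z2 else 1) ∧ s * s = f h ∧
      (h = a1 * a2 ∨ h = a1 * a2 * zc) := by
  obtain ⟨c, hcN, hcP⟩ := exists_normalizer_element hS hne
  obtain ⟨c₀, ψ₀, hi, e₀, hw, ha, hu⟩ := flip hS hcN hcP
  have hc₀N : c₀ ∈ Subgroup.normalizer (f.range : Set S) := by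
    rw [show c₀ = c * (c₀⁻¹ * c)⁻¹ by group]
    exact mul_mem hcN (inv_mem (Subgroup.le_normalizer hi))
  have hc₀P : c₀ ∉ f.range := fun h => hcP (by
    rw [show c = c₀ * (c₀⁻¹ * c) by group]; exact mul_mem h hi)
  have hsw2 : ψ₀ sw * ψ₀ sw = 1 := by rw [← map_mul, bases.2.2.2.2.2.2.2, map_one]
  obtain ⟨g₁, hg₁, e₁⟩ := invol_outside _ hw hsw2
  -- conjugation keeps classes
  have hkeep : ∀ g x y : W, InBase g → InBase y → PhiEq y x → PhiEq y (g * x * g⁻¹) :=
    fun g x y hg hy h => by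
      have h1 := conj_phiEq g y hg hy
      have h2 : g * (y⁻¹ * x) * g⁻¹ = y⁻¹ * x := by
        rw [phi_comm g _ hg h, mul_inv_cancel_right]
      show InPhi _
      rw [show y⁻¹ * (g * x * g⁻¹) = (y⁻¹ * (g * y * g⁻¹)) * (g * (y⁻¹ * x) * g⁻¹) by group, h2]
      exact phi_mul _ _ h1 h
  have ha₁ := hkeep g₁ _ a1 hg₁ bases.1 ha
  have hu₁ := hkeep g₁ _ (a1 * u1) hg₁ (base_mul _ _ bases.1 bases.2.1).1 hu
  have hza : ψ₀ a1 * ψ₀ a1 = z1 := by
    have : ∀ x : W, PhiEq a1 x → x * x = z1 := by decide +kernel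
    exact this _ ha
  obtain ⟨g₂, hg₂w, hg₂, hg₂a⟩ := normalize_rot _ ha₁
    ((show ∀ x : W, PhiEq a1 x → x * x = z1 by decide +kernel) _ ha₁)
  have hu₂ := hkeep g₂ _ (a1 * u1) hg₂ (base_mul _ _ bases.1 bases.2.1).1 hu₁
  obtain ⟨g₃, hg₃w, hg₃a, hg₃, hg₃u⟩ := normalize_refl _ hu₂ (by
    have h1 : ψ₀ u1 * ψ₀ u1 = 1 := by
      rw [← map_mul, show u1 * u1 = 1 by decide +kernel, map_one]
    rw [show g₂ * (g₁ * ψ₀ u1 * g₁⁻¹) * g₂⁻¹ * (g₂ * (g₁ * ψ₀ u1 * g₁⁻¹) * g₂⁻¹)
      = g₂ * (g₁ * (ψ₀ u1 * ψ₀ u1) * g₁⁻¹) * g₂⁻¹ by group, h1]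
    group)
  set g := g₃ * g₂ * g₁
  obtain ⟨ψ, hψdef⟩ : ∃ ψ : W ≃* W, ψ = ψ₀.trans (MulAut.conj g) := ⟨_, rfl⟩
  set s := f g * c₀
  have hψ : ∀ x, s * f x * s⁻¹ = f (ψ x) := fun x => by
    rw [show s * f x * s⁻¹ = f g * (c₀ * f x * c₀⁻¹) * (f g)⁻¹ by simp only [s]; group, e₀, hψdef,
      ← map_inv, ← map_mul, ← map_mul]
    rfl
  have hψa : ∀ x, ψ x = g₃ * (g₂ * (g₁ * ψ₀ x * g₁⁻¹) * g₂⁻¹) * g₃⁻¹ := fun x => by
    rw [hψdef]
    show g * ψ₀ x * g⁻¹ = _
    simp only [g]; group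
  have hψw : ψ sw = sw := by rw [hψa, e₁, hg₂w, hg₃w]
  have hsN : s ∈ Subgroup.normalizer (f.range : Set S) :=
    mul_mem (Subgroup.le_normalizer ⟨g, rfl⟩) hc₀N
  have hsP : s ∉ f.range := fun h => hc₀P (by
    rw [show c₀ = (f g)⁻¹ * s by simp [s]]; exact mul_mem (inv_mem ⟨g, rfl⟩) h)
  obtain ⟨p, hp⟩ : ∃ p : Bool, ψ a1 = a1 * (if p then z2 else 1) := by
    rcases hg₂a with e | e
    · exact ⟨false, by rw [hψa, e, hg₃a, if_neg (by decide), mul_one]⟩
    · refine ⟨true, ?_⟩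
      rw [hψa, e, if_pos rfl]
      have h1 : g₃ * z2 * g₃⁻¹ = z2 := by
        rw [phi_comm g₃ z2 hg₃ (Or.inr (Or.inr (Or.inl rfl))), mul_inv_cancel_right]
      rw [show g₃ * (a1 * z2) * g₃⁻¹ = (g₃ * a1 * g₃⁻¹) * (g₃ * z2 * g₃⁻¹) by group, hg₃a, h1]
  obtain ⟨q, hq⟩ : ∃ q : Bool, ψ u1 = a1 * u1 * (if q then z2 else 1) := by
    rcases hg₃u with e | e
    · exact ⟨false, by rw [hψa, e, if_neg (by decide), mul_one]⟩
    · exact ⟨true, by rw [hψa, e, if_pos rfl]⟩
  -- the square of `s`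
  have hs2 : s * s ∈ f.range := by
    have hidx := relIndex_eq_two hS hne
    have := Subgroup.mul_mem_iff_of_index_two
      (hidx : (f.range.subgroupOf (Subgroup.normalizer (f.range : Set S))).index = 2)
      (a := ⟨s, hsN⟩) (b := ⟨s, hsN⟩)
    exact Subgroup.mem_subgroupOf.1 (this.2 Iff.rfl)
  obtain ⟨h, hh⟩ := hs2
  have hsq : ∀ x, h * x * h⁻¹ = ψ (ψ x) := fun x => hS.inj (by
    rw [map_mul, map_mul, map_inv, hh, ← hψ, ← hψ]; group)
  have hψz2 : ψ z2 = z2 := by
    rw [show z2 = sw * (a1 * a1) * sw⁻¹ by decide +kernel, map_mul, map_mul, map_mul, map_inv, hψw, hp]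
    cases p <;> decide +kernel
  have hha : h * a1 * h⁻¹ = a1 := by
    rw [hsq, hp, map_mul, hp]
    cases p <;> simp only [Bool.false_eq_true, if_false, if_true, map_one, hψz2] <;> decide +kernel
  have hhu : h * u1 * h⁻¹ = z1 * (if p then z2 else 1) * u1 := by
    rw [hsq, hq, map_mul, map_mul, hp, hq]
    cases p <;> cases q <;>
      simp only [Bool.false_eq_true, if_false, if_true, map_one, hψz2] <;> decide +kernel
  obtain ⟨hp0, hh'⟩ := square_flip h (by rw [hsq, hψw, hψw]) hha p hhu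
  refine ⟨s, ψ, h, q, hsN, hsP, hψ, hψw, ?_, hq, hh.symm, hh'⟩
  rw [hp, hp0, if_neg (by decide), mul_one]

/-- The normalizer modulo the centre is again `D8 ≀ 2`. -/
theorem normalizer_quotient [Finite S] (hne : f.range ≠ ⊤) :
    ∃ (_ : ((Subgroup.center S).subgroupOf (Subgroup.normalizer (f.range : Set S))).Normal),
      Nonempty (W ≃* ↥(Subgroup.normalizer (f.range : Set S)) ⧸
        (Subgroup.center S).subgroupOf (Subgroup.normalizer (f.range : Set S))) := by
  classical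
  set N := Subgroup.normalizer (f.range : Set S)
  set Z := (Subgroup.center S).subgroupOf N
  have hZn : Z.Normal := ⟨fun x hx g => by
    have hx' : (x : S) ∈ Subgroup.center S := hx
    have e : g * x * g⁻¹ = x := Subtype.ext (by
      simp only [Subgroup.coe_mul, Subgroup.coe_inv]
      rw [Subgroup.mem_center_iff.1 hx' g, mul_inv_cancel_right])
    rw [e]; exact hx⟩
  refine ⟨hZn, ?_⟩
  obtain ⟨hC, hcenter⟩ := center_eq hS
  obtain ⟨s, ψ, h, q, hsN, hsP, hψ, hψw, hψa, hψu, hss, hh⟩ := exists_normal_form hS hne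
  have hPN : f.range ≤ N := Subgroup.le_normalizer
  let F : W →* ↥N := f.codRestrict N fun x => hPN ⟨x, rfl⟩
  let π := QuotientGroup.mk' Z
  let φ : W →* ↥N ⧸ Z := π.comp F
  have hker : ∀ x : W, x = 1 ∨ x = zc → φ x = 1 := fun x hx =>
    (QuotientGroup.eq_one_iff _).2 (Subgroup.mem_subgroupOf.2 ((hcenter _).2 (by
      show f x = 1 ∨ f x = f zc
      rcases hx with rfl | rfl
      · exact Or.inl (map_one f)
      · exact Or.inr rfl)))
  set σ := π ⟨s, hsN⟩ with hσ
  have hconj : ∀ x, σ * φ x * σ⁻¹ = φ (ψ x) := fun x => by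
    show π ⟨s, hsN⟩ * π (F x) * (π ⟨s, hsN⟩)⁻¹ = π (F (ψ x))
    rw [← map_inv, ← map_mul, ← map_mul]
    exact congrArg π (Subtype.ext (hψ x))
  have hσ2 : σ * σ = φ h := by
    rw [hσ, ← map_mul]
    exact congrArg π (Subtype.ext hss)
  have hψu2 : ψ u2 = a2 * u2 * (if q then z1 else 1) := by
    rw [← bases.2.2.2.2.2.2.1, map_mul, map_mul, map_inv, hψw, hψu]
    cases q <;> decide +kernel
  have hψt : ψ u1⁻¹ = (a1 * u1 * (if q then z2 else 1))⁻¹ := by rw [map_inv, hψu]
  set k : W := u1 * (a1 * u1 * (if q then z2 else 1))⁻¹ with hk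
  have htst : φ u1 * σ * (φ u1)⁻¹ = φ k * σ := by
    rw [hk, map_mul φ u1, ← hψt, ← hconj, map_inv]; group
  set r : W := u1 * u2 * sw with hr
  have htrt : φ u1 * φ r * (φ u1)⁻¹ = φ sw := by
    rw [← map_inv, ← map_mul, ← map_mul]
    exact congrArg φ (by decide +kernel)
  have hσw : Commute σ (φ sw) := by
    refine mul_inv_eq_iff_eq_mul.1 ?_
    rw [hconj, hψw]
  have hψk : φ (ψ k) = φ k := by
    have hz2 : ψ z2 = z2 := by
      rw [show z2 = sw * (a1 * a1) * sw⁻¹ by decide +kernel, map_mul, map_mul, map_mul, map_inv, hψw,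
        hψa]
    rw [hk, map_mul ψ, map_inv ψ, map_mul ψ, map_mul ψ, hψa, hψu]
    cases q <;> simp only [Bool.false_eq_true, if_false, if_true, map_one, hz2]
    · exact congrArg φ (by decide +kernel)
    · exact congrArg φ (by decide +kernel)
  have hgens : Gens σ (φ r) (φ u1) := by
    refine ⟨?_, ?_, ?_, ?_, ?_, ?_, ?_⟩
    · rw [show σ ^ 4 = (σ * σ) * (σ * σ) by rw [← pow_two σ, ← pow_add], hσ2, ← map_mul]
      exact hker _ (by rcases hh with rfl | rfl <;> decide +kernel)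
    · rw [← map_mul]
      exact hker _ (by decide +kernel)
    · rw [← map_mul]
      exact hker _ (by decide +kernel)
    · rw [show φ r * σ * (φ r)⁻¹ = φ r * (σ * φ r⁻¹ * σ⁻¹) * (σ * σ) * σ⁻¹ by rw [map_inv]; group,
        hconj, hσ2, ← map_mul, ← map_mul, hker, one_mul]
      rw [map_inv, hr, map_mul, map_mul, hψu, hψu2, hψw]
      rcases hh with rfl | rfl <;> cases q <;> decide +kernel
    · show Commute σ (φ u1 * σ * (φ u1)⁻¹)
      rw [htst]
      refine Commute.mul_right ?_ (Commute.refl σ)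
      refine mul_inv_eq_iff_eq_mul.1 ?_
      rw [hconj, hψk]
    · show Commute (φ r) (φ u1 * φ r * (φ u1)⁻¹)
      rw [htrt]
      show φ r * φ sw = φ sw * φ r
      rw [← map_mul, ← map_mul]
      exact congrArg φ (by decide +kernel)
    · show Commute σ (φ u1 * φ r * (φ u1)⁻¹)
      rw [htrt]; exact hσw
  obtain ⟨Φ, hΦs, hΦr, hΦt, -⟩ := exists_hom hgens
  have mσ : σ ∈ Φ.range := ⟨_, hΦs⟩
  have mu : φ u1 ∈ Φ.range := ⟨_, hΦt⟩
  have mr : φ r ∈ Φ.range := ⟨_, hΦr⟩
  have mw : φ sw ∈ Φ.range := htrt ▸ mul_mem (mul_mem mu mr) (inv_mem mu)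
  have mk' : φ k ∈ Φ.range := by
    have h1 : φ u1 * σ * (φ u1)⁻¹ * σ⁻¹ = φ k := by rw [htst, mul_inv_cancel_right]
    exact h1 ▸ mul_mem (mul_mem (mul_mem mu mσ) (inv_mem mu)) (inv_mem mσ)
  have mu2 : φ u2 ∈ Φ.range := by
    have h1 : φ sw * φ u1 * (φ sw)⁻¹ = φ u2 := by
      rw [← map_inv, ← map_mul, ← map_mul, bases.2.2.2.2.2.2.1]
    exact h1 ▸ mul_mem (mul_mem mw mu) (inv_mem mw)
  have ma : φ a1 ∈ Φ.range := by
    cases q
    · have e : k⁻¹ = a1 := by rw [hk]; decide +kernel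
      rw [← e, map_inv]; exact inv_mem mk'
    · have e : φ a1 = φ k := by
        have e1 : a1 = k * zc := by rw [hk]; decide +kernel
        rw [e1, map_mul, hker zc (Or.inr rfl), mul_one]
      exact e ▸ mk'
  have mall : ∀ x, φ x ∈ Φ.range := by
    have ma2 : φ a2 ∈ Φ.range := by
      have h1 : φ sw * φ a1 * (φ sw)⁻¹ = φ a2 := by
        rw [← map_inv, ← map_mul, ← map_mul, bases.2.2.2.2.2.1]
      exact h1 ▸ mul_mem (mul_mem mw ma) (inv_mem mw)
    have hb : ∀ x, InBase x → φ x ∈ Φ.range := fun x hx => by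
      obtain ⟨i, j, l, m, rfl⟩ := base_gen x hx
      simp only [map_mul, map_pow]
      exact mul_mem (mul_mem (pow_mem ma _) (pow_mem mu _)) (mul_mem (pow_mem ma2 _) (pow_mem mu2 _))
    intro x
    obtain ⟨b, hb'⟩ := gen_W x
    cases b
    · exact hb x (by simpa using hb')
    · rw [show x = sw * (sw * x) by rw [← mul_assoc, bases.2.2.2.2.2.2.2, one_mul], map_mul]
      exact mul_mem mw (hb _ (by simpa using hb'))
  have hidx := relIndex_eq_two hS hne
  have hsurj : Function.Surjective Φ := by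
    intro y
    obtain ⟨n, rfl⟩ := QuotientGroup.mk'_surjective Z y
    by_cases hn : (n : S) ∈ f.range
    · obtain ⟨x, hx⟩ := hn
      have hFx : F x = n := Subtype.ext hx
      exact hFx ▸ mall x
    · have h1 := Subgroup.mul_mem_iff_of_index_two
        (hidx : (f.range.subgroupOf N).index = 2) (a := n) (b := ⟨s, hsN⟩)
      simp only [Subgroup.mem_subgroupOf, Subgroup.coe_mul] at h1
      obtain ⟨x, hx⟩ := h1.2 (iff_of_false hn hsP)
      have hFx : F x = n * ⟨s, hsN⟩ := Subtype.ext hx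
      have h2 : π n = φ x * σ⁻¹ := by
        show π n = π (F x) * (π ⟨s, hsN⟩)⁻¹
        rw [hFx, map_mul, mul_inv_cancel_right]
      show π n ∈ Φ.range
      rw [h2]
      exact mul_mem (mall x) (inv_mem mσ)
  have hcardN : Nat.card N = 256 := by
    have h1 := (f.range.subgroupOf N).card_mul_index
    rw [Nat.card_congr (Subgroup.subgroupOfEquivOfLe hPN).toEquiv,
      ← Nat.card_congr (MonoidHom.ofInjective hS.inj).toEquiv, card_W] at h1
    have h2 : (f.range.subgroupOf N).index = 2 := hidx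
    rw [h2] at h1
    omega
  have hcardZ : Nat.card Z = 2 := by
    rw [Nat.card_congr (Subgroup.subgroupOfEquivOfLe (fun x hx => ?_)).toEquiv]
    · have hset : (Subgroup.center S : Set S) = {1, f zc} := by
        ext x; simp [hcenter x]
      have h1 := Nat.card_coe_set_eq (Subgroup.center S : Set S)
      refine (h1.trans ?_)
      rw [hset, Set.ncard_pair]
      exact fun e => absurd (hS.inj (e.symm.trans (map_one f).symm)) (by decide +kernel)
    · rcases (hcenter x).1 hx with rfl | rfl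
      · exact one_mem _
      · exact hPN ⟨zc, rfl⟩
  have hcardQ : Nat.card (↥N ⧸ Z) = 128 := by
    have h1 := Z.card_eq_card_quotient_mul_card_subgroup
    rw [hcardN, hcardZ] at h1
    omega
  exact ⟨MulEquiv.ofBijective Φ ((Nat.bijective_iff_surjective_and_card _).2
    ⟨hsurj, card_W.trans hcardQ.symm⟩)⟩

end CfsgLib.TwoFusion.DihWr
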