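/-
The automorphism group of a Sylow 2-subgroup of a Suzuki group.
-/
import Cfsg.Prelude.Def_Solvable
import Cfsg.Prelude.Def_Classification
import Cfsg.Agent.Lib.Cores.PCore
import Cfsg.Agent.Lib.Suzuki.SylowTwo

set_option autoImplicit false

namespace CfsgLib.TwoFusion.SzAut

open CfsgLib.Suzuki

variable {F : Type*} [Field F] {m : ℕ}

/-- The exponent group of the Galois group. -/
abbrev K (m : ℕ) := ZMod (2 * m + 1)

/-- The Galois automorphism `x ↦ x ^ (2 ^ u)`. -/
def pw (u : K m) (x : F) : F := x ^ 2 ^ u.val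

section
variable (h : Hyp F m)
include h

theorem pow_card_self (x : F) : x ^ 2 ^ (2 * m + 1) = x := by
  have := h.finite
  have : Fintype F := Fintype.ofFinite F
  rw [← h.card, Nat.card_eq_fintype_card]
  exact FiniteField.pow_card x

theorem pow_mod (x : F) (a : ℕ) : x ^ 2 ^ (a % (2 * m + 1)) = x ^ 2 ^ a := by
  conv_rhs => rw [← Nat.div_add_mod a (2 * m + 1)]
  induction a / (2 * m + 1) with
  | zero => rw [Nat.mul_zero, Nat.zero_add]
  | succ k ih =>
    rw [show (2 * m + 1) * (k + 1) + a % (2 * m + 1)
        = (2 * m + 1) + ((2 * m + 1) * k + a % (2 * m + 1)) by ring, pow_add, pow_mul, pow_card_self h, ih]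

theorem pw_pw (u v : K m) (x : F) : pw u (pw v x) = pw (u + v) x := by
  rw [pw, pw, pw, ← pow_mul, ← pow_add, ZMod.val_add, pow_mod h, add_comm u.val]

theorem pw_add (u : K m) (x y : F) : pw u (x + y) = pw u x + pw u y := by
  have := h.charP
  exact add_pow_char_pow x y 2 u.val

theorem th_eq_pw (x : F) : th m x = pw ((m + 1 : ℕ) : K m) x := by
  rw [th, pw, ZMod.val_natCast, pow_mod h]

theorem sq_eq_pw (x : F) : x ^ 2 = pw (1 : K m) x := by
  rw [pw, show (1 : K m) = ((1 : ℕ) : K m) from Nat.cast_one.symm, ZMod.val_natCast, pow_mod h, pow_one]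

/-- Coefficients of an additive map. -/
theorem coeff_unique (c : K m → F) (hc : ∀ x : F, ∑ u, c u * pw u x = 0) : c = 0 := by
  classical
  have := h.finite
  have : Fintype F := Fintype.ofFinite F
  let p : Polynomial F := ∑ u : K m, Polynomial.C (c u) * Polynomial.X ^ 2 ^ u.val
  have hp : p = 0 := by
    refine Polynomial.eq_zero_of_natDegree_lt_card_of_eval_eq_zero p (f := id) Function.injective_id
      (fun x => ?_) ?_
    · simp only [p, id, Polynomial.eval_finsetSum, Polynomial.eval_mul, Polynomial.eval_C,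
        Polynomial.eval_pow, Polynomial.eval_X]
      exact hc x
    · rw [← Nat.card_eq_fintype_card, h.card]
      refine lt_of_le_of_lt (Polynomial.natDegree_sum_le_of_forall_le _ _ (n := 2 ^ (2 * m))
        fun u _ => (Polynomial.natDegree_C_mul_X_pow_le _ _).trans
          (Nat.pow_le_pow_right two_pos (Nat.le_of_lt_succ (ZMod.val_lt u)))) ?_
      exact Nat.pow_lt_pow_right one_lt_two (Nat.lt_succ_self _)
  funext u
  have h1 := congrArg (fun q : Polynomial F => q.coeff (2 ^ u.val)) hp
  simp only [p, Polynomial.finsetSum_coeff, Polynomial.coeff_C_mul, Polynomial.coeff_X_pow,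
    Polynomial.coeff_zero] at h1
  rw [Finset.sum_eq_single u] at h1
  · simpa using h1
  · intro v _ hv
    rw [if_neg fun e => hv (ZMod.val_injective _ (Nat.pow_right_injective le_rfl e)).symm, mul_zero]
  · simp

/-- The additive map with given coefficients. -/
def lin (c : K m → F) : F →+ F :=
  AddMonoidHom.mk' (fun x => ∑ u, c u * pw u x) fun x y => by
    simp only [pw_add h, mul_add, Finset.sum_add_distrib]

theorem lin_injective : Function.Injective (lin h) := by
  intro c d e
  refine sub_eq_zero.1 (coeff_unique h _ fun x => ?_)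
  have hx : ∑ u, c u * pw u x = ∑ u, d u * pw u x := DFunLike.congr_fun e x
  simp only [Pi.sub_apply, sub_mul, Finset.sum_sub_distrib, hx, sub_self]

theorem card_addHom : Nat.card (F →+ F) = 2 ^ ((2 * m + 1) ^ 2) := by
  classical
  have := h.finite
  have := h.charP
  have : Fintype F := Fintype.ofFinite F
  letI : Algebra (ZMod 2) F := ZMod.algebra F 2
  let b := Module.finBasis (ZMod 2) F
  have hF : Nat.card F = 2 ^ Module.finrank (ZMod 2) F := by
    rw [Module.natCard_eq_pow_finrank (K := ZMod 2), Nat.card_eq_fintype_card, ZMod.card]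
  have hn : Module.finrank (ZMod 2) F = 2 * m + 1 :=
    (Nat.pow_right_injective le_rfl (hF.symm.trans h.card))
  rw [Nat.card_congr ((AddMonoidHom.toZModLinearMapEquiv 2).toEquiv.trans (b.constr ℕ).symm.toEquiv),
    Nat.card_fun, Nat.card_fin, h.card, hn, ← pow_mul, pow_two]

theorem lin_surjective : Function.Surjective (lin h) := by
  have := h.finite
  haveI : Finite (F →+ F) := Finite.of_injective _ DFunLike.coe_injective
  refine ((Nat.bijective_iff_injective_and_card _).2 ⟨lin_injective h, ?_⟩).2
  rw [Nat.card_fun, card_addHom h, h.card, Nat.card_eq_fintype_card, ZMod.card, ← pow_mul, pow_two]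

theorem pw_injective (u : K m) : Function.Injective (pw u : F → F) := fun x y e => by
  have h1 := congrArg (pw (-u)) e
  rw [pw_pw h, pw_pw h, neg_add_cancel] at h1
  simpa [pw] using h1

/-- An additive map compatible with `a ↦ θ(a) a` is semilinear. -/
theorem semilinear (A B : F →+ F) (hA : Function.Injective A)
    (hAB : ∀ a, th m (A a) * A a = B (th m a * a)) :
    ∃ (l : F) (i : K m), l ≠ 0 ∧ ∀ a, A a = l * pw i a := by
  classical
  obtain ⟨α, rfl⟩ := lin_surjective h A
  obtain ⟨β, rfl⟩ := lin_surjective h B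
  set t : K m := ((m + 1 : ℕ) : K m) with ht
  have h2t : t + t = 1 := by
    rw [ht, ← Nat.cast_add, show m + 1 + (m + 1) = 1 + (2 * m + 1) by ring, Nat.cast_add,
      ZMod.natCast_self, add_zero, Nat.cast_one]
  let c : K m → K m → F := fun u v => th m (α (u - t)) * α v + if u = v + t then β v else 0
  have hQ : ∀ a, ∑ u, ∑ v, c u v * (pw u a * pw v a) = 0 := by
    intro a
    have e1 : th m (lin h α a) * lin h α a = ∑ u, ∑ v, th m (α (u - t)) * α v * (pw u a * pw v a) := by
      show th m (∑ u, α u * pw u a) * (∑ v, α v * pw v a) = _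
      rw [th_eq_pw h]
      let P : F →+ F := AddMonoidHom.mk' (pw ((m + 1 : ℕ) : K m)) (pw_add h _)
      show P (∑ u, α u * pw u a) * _ = _
      rw [map_sum]
      rw [← Equiv.sum_comp (Equiv.subRight t) fun u => P (α u * pw u a), Finset.sum_mul]
      refine Finset.sum_congr rfl fun u _ => ?_
      rw [Finset.mul_sum]
      refine Finset.sum_congr rfl fun v _ => ?_
      show pw t (α (u - t) * pw (u - t) a) * (α v * pw v a) = _
      rw [← th_eq_pw h, th_mul, th_eq_pw h (pw (u - t) a), pw_pw h, ← ht, add_sub_cancel]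
      ring
    have e2 : lin h β (th m a * a) = ∑ u, ∑ v, (if u = v + t then β v else 0) * (pw u a * pw v a) := by
      rw [Finset.sum_comm]
      show ∑ v, β v * pw v (th m a * a) = _
      refine Finset.sum_congr rfl fun v _ => ?_
      rw [Finset.sum_eq_single (v + t) (fun u _ hu => by rw [if_neg hu, zero_mul]) (by simp), if_pos rfl]
      rw [show pw v (th m a * a) = pw v (th m a) * pw v a from mul_pow _ _ _, th_eq_pw h, pw_pw h]
    simp only [c, add_mul, Finset.sum_add_distrib]
    rw [← e1, ← e2, hAB, h.add_self]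
  -- polarisation
  have hsym : ∀ u v, c u v + c v u = 0 := by
    intro u v
    have hb : ∀ x y : F, ∑ u, (∑ v, (c u v + c v u) * pw v y) * pw u x = 0 := by
      intro x y
      have e := hQ (x + y)
      simp only [pw_add h, add_mul, mul_add, Finset.sum_add_distrib, hQ x, hQ y, zero_add, add_zero] at e
      rw [Finset.sum_comm (f := fun u v => c u v * (pw u y * pw v x)), ← Finset.sum_add_distrib] at e
      rw [← e]
      refine Finset.sum_congr rfl fun u _ => ?_
      rw [Finset.sum_mul, ← Finset.sum_add_distrib]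
      refine Finset.sum_congr rfl fun v _ => ?_
      ring
    have h1 : (fun v => c u v + c v u) = 0 := coeff_unique h _ fun y =>
      congrFun (coeff_unique h (fun u => ∑ v, (c u v + c v u) * pw v y) fun x => hb x y) u
    exact congrFun h1 v
  have hdiag : ∀ u, c u u = 0 := by
    have h1 : ∀ a, ∑ u, c u u * pw (u + 1) a = 0 := by
      intro a
      have e := hQ a
      rw [← Finset.sum_product' (s := Finset.univ) (t := Finset.univ)
        (f := fun u v => c u v * (pw u a * pw v a)),
        ← Finset.sum_filter_add_sum_filter_not _ (fun p : K m × K m => p.1 = p.2)] at e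
      have h0 : ∑ p ∈ (Finset.univ ×ˢ Finset.univ).filter (fun p : K m × K m => ¬ p.1 = p.2),
          c p.1 p.2 * (pw p.1 a * pw p.2 a) = 0 := by
        refine Finset.sum_involution (fun p _ => (p.2, p.1)) (fun p _ => ?_) (fun p hp _ hne => ?_)
          (fun p hp => ?_) (fun p _ => rfl)
        · show c p.1 p.2 * (pw p.1 a * pw p.2 a) + c p.2 p.1 * (pw p.2 a * pw p.1 a) = 0
          rw [mul_comm (pw p.2 a), ← add_mul, hsym, zero_mul]
        · exact (Finset.mem_filter.1 hp).2 (congrArg Prod.fst hne).symm
        · exact Finset.mem_filter.2 ⟨by simp, fun e => (Finset.mem_filter.1 hp).2 e.symm⟩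
      rw [h0, add_zero] at e
      rw [← e]
      refine Finset.sum_bij (fun u _ => (u, u)) (fun u _ => by simp) (fun u _ v _ e => congrArg Prod.fst e)
        (fun p hp => ⟨p.1, Finset.mem_univ _, Prod.ext rfl (Finset.mem_filter.1 hp).2⟩) fun u _ => ?_
      rw [← pw_pw h, ← sq_eq_pw h, pw, pow_two, mul_pow]
      rfl
    intro u
    have h2 : (fun u => c (u - 1) (u - 1)) = 0 := coeff_unique h _ fun a => by
      rw [← h1 a, ← Equiv.sum_comp (Equiv.subRight (1 : K m)) (fun u => c u u * pw (u + 1) a)]
      exact Finset.sum_congr rfl fun u _ => by simp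
    have h3 := congrFun h2 (u + 1)
    simpa using h3
  have ht0 : t ≠ 0 := fun e => by
    rw [e, add_zero] at h2t
    have : Fact (1 < 2 * m + 1) := ⟨by have := h.one_le; omega⟩
    exact zero_ne_one h2t
  have hnext : ∀ i k, α i ≠ 0 → α k ≠ 0 → i ≠ k → k = i + 1 := by
    intro i k hi hk hik
    have hd := hdiag (i + t)
    simp only [c, add_sub_cancel_right, if_neg (fun e : i + t = i + t + t => ht0 (left_eq_add.1 e)),
      add_zero] at hd
    have hit : α (i + t) = 0 := (mul_eq_zero.1 hd).resolve_left (th_ne_zero hi)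
    have hne : ¬ i + t = k + t := fun e => hik (add_right_cancel e)
    by_contra hk1
    have hne2 : ¬ k = i + t + t := by rwa [add_assoc, h2t]
    have hs := hsym (i + t) k
    simp only [c, add_sub_cancel_right, if_neg hne, if_neg hne2, add_zero, hit, mul_zero] at hs
    exact hk ((mul_eq_zero.1 hs).resolve_left (th_ne_zero hi))
  obtain ⟨i, hi⟩ : ∃ i, α i ≠ 0 := by
    by_contra hall
    push Not at hall
    have h01 : lin h α 1 = lin h α 0 := by
      show ∑ u, α u * pw u 1 = ∑ u, α u * pw u 0
      simp [hall]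
    exact one_ne_zero (hA h01)
  refine ⟨α i, i, hi, fun a => ?_⟩
  show ∑ k, α k * pw k a = _
  refine Finset.sum_eq_single i (fun k _ hki => ?_) (by simp)
  by_contra hne
  have hk : α k ≠ 0 := fun e => hne (by rw [e, zero_mul])
  have h1 := hnext i k hi hk (Ne.symm hki)
  have h2 := hnext k i hk hi hki
  have h3 : ((2 : ℕ) : K m) = ((0 : ℕ) : K m) := by
    push_cast
    rw [h1] at h2
    linear_combination -h2
  rw [ZMod.natCast_eq_natCast_iff', Nat.mod_eq_of_lt (by have := h.one_le; omega), Nat.zero_mod] at h3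
  omega

/-! ### Automorphisms of the root group -/

/-- The element of the root group with given coordinates. -/
def el (a b : F) : h.U := ⟨h.u a b, h.u_mem_U a b⟩

theorem el_mul (a b c e : F) : el h a b * el h c e = el h (a + c) (b + e + th m a * c) :=
  Subtype.ext (h.u_mul a b c e)

theorem el_inj {a b a' b' : F} (e : el h a b = el h a' b') : a = a' ∧ b = b' :=
  h.u_injective (congrArg Subtype.val e)

theorem el_surj (x : h.U) : ∃ a b, el h a b = x := by
  obtain ⟨a, b, e⟩ := x.2
  exact ⟨a, b, Subtype.ext e.symm⟩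

/-- The class of an element modulo the centre. -/
noncomputable def co (x : h.U) : F := (el_surj h x).choose

theorem co_el (a b : F) : co h (el h a b) = a :=
  (el_inj h (el_surj h (el h a b)).choose_spec.choose_spec).1

/-- The second coordinate. -/
noncomputable def co2 (x : h.U) : F := (el_surj h x).choose_spec.choose

theorem co2_el (a b : F) : co2 h (el h a b) = b :=
  (el_inj h (el_surj h (el h a b)).choose_spec.choose_spec).2

theorem co_mul (x y : h.U) : co h (x * y) = co h x + co h y := by
  obtain ⟨a, b, rfl⟩ := el_surj h x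
  obtain ⟨c, e, rfl⟩ := el_surj h y
  rw [el_mul, co_el, co_el, co_el]

theorem el_sq (a b : F) : el h a b * el h a b = el h 0 (th m a * a) := by
  rw [el_mul, h.add_self, h.add_self, zero_add]

theorem aut_center (φ : MulAut h.U) (b : F) : co h (φ (el h 0 b)) = 0 := by
  obtain ⟨a, ha⟩ := h.th_mul_self_bijective.2 b
  rw [← show th m a * a = b from ha, ← el_sq h a 0, map_mul]
  obtain ⟨c, e, he⟩ := el_surj h (φ (el h a 0))
  rw [← he, el_sq, co_el]

/-- The map induced modulo the centre. -/
noncomputable def act (φ : MulAut h.U) : F →+ F :=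
  AddMonoidHom.mk' (fun a => co h (φ (el h a 0))) fun a c => by
    have e : el h (a + c) 0 = el h a 0 * el h c 0 * el h 0 (th m a * c) := by
      rw [el_mul, el_mul, add_zero, zero_add, h.th_add, mul_zero]
      simp [h.add_self]
    rw [e, map_mul, map_mul, co_mul, co_mul, aut_center, add_zero]

theorem co_aut (φ : MulAut h.U) (x : h.U) : co h (φ x) = act h φ (co h x) := by
  obtain ⟨a, b, rfl⟩ := el_surj h x
  have e : el h a b = el h a 0 * el h 0 b := by
    rw [el_mul, add_zero, zero_add, mul_zero, add_zero]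
  conv_lhs => rw [e, map_mul, co_mul, aut_center, add_zero]
  rw [co_el]
  rfl

/-- The action modulo the centre. -/
noncomputable def Φ : MulAut h.U →* Function.End F where
  toFun φ := (act h φ : F → F)
  map_one' := funext fun a => co_el h a 0
  map_mul' φ ψ := by
    funext a
    show co h (φ (ψ (el h a 0))) = act h φ (act h ψ a)
    rw [co_aut]
    rfl

theorem act_semilinear (φ : MulAut h.U) : ∃ (l : F) (i : K m), l ≠ 0 ∧ ∀ a, act h φ a = l * pw i a := by
  have hinj : Function.Injective (act h φ) := by
    intro a c e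
    have e1 : co h (φ.symm (φ (el h a 0))) = co h (φ.symm (φ (el h c 0))) := by
      rw [co_aut, co_aut h φ.symm]
      exact congrArg _ e
    rwa [MulEquiv.symm_apply_apply, MulEquiv.symm_apply_apply, co_el, co_el] at e1
  have hex : ∀ b, ∃ b', φ (el h 0 b) = el h 0 b' := fun b => by
    obtain ⟨a, b', e⟩ := el_surj h (φ (el h 0 b))
    have h0 := aut_center h φ b
    rw [← e, co_el] at h0
    exact ⟨b', by rw [← e, h0]⟩
  choose g hg using hex
  let B : F →+ F := AddMonoidHom.mk' g fun b b' => by
    have e : el h 0 (b + b') = el h 0 b * el h 0 b' := by rw [el_mul, add_zero, mul_zero, add_zero]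
    have e2 := hg (b + b')
    rw [e, map_mul, hg, hg, el_mul, add_zero, mul_zero, add_zero] at e2
    exact (el_inj h e2).2.symm
  refine semilinear h (act h φ) B hinj fun a => ?_
  obtain ⟨c, e, he⟩ := el_surj h (φ (el h a 0))
  have h1 : φ (el h a 0 * el h a 0) = el h 0 (g (th m a * a)) := by rw [el_sq, hg]
  rw [map_mul, ← he, el_sq] at h1
  have hc : act h φ a = c := by
    show co h (φ (el h a 0)) = c
    rw [← he, co_el]
  rw [hc]
  exact (el_inj h h1).2

/-- The kernel automorphism given by an additive map. -/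
noncomputable def shear (f : F →+ F) : MulAut h.U :=
  have hf : ∀ x : h.U, ∀ a b, el h a b = x → el h a b * el h 0 (f a) = x * el h 0 (f (co h x)) := by
    rintro _ a b rfl
    rw [co_el]
  { toFun := fun x => x * el h 0 (f (co h x))
    invFun := fun x => x * el h 0 (f (co h x))
    left_inv := fun x => by
      obtain ⟨a, b, rfl⟩ := el_surj h x
      simp only [co_el, el_mul, add_zero, mul_zero]
      rw [add_assoc, h.add_self, add_zero]
    right_inv := fun x => by
      obtain ⟨a, b, rfl⟩ := el_surj h x
      simp only [co_el, el_mul, add_zero, mul_zero]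
      rw [add_assoc, h.add_self, add_zero]
    map_mul' := fun x y => by
      obtain ⟨a, b, rfl⟩ := el_surj h x
      obtain ⟨c, e, rfl⟩ := el_surj h y
      simp only [co_el, el_mul, add_zero, mul_zero, map_add]
      congr 1
      ring }

theorem shear_el (f : F →+ F) (a b : F) : shear h f (el h a b) = el h a (b + f a) := by
  show el h a b * el h 0 (f (co h (el h a b))) = _
  rw [co_el, el_mul, add_zero, mul_zero, add_zero]

theorem mem_ker_iff (φ : MulAut h.U) : φ ∈ (Φ h).ker ↔ ∃ f : F →+ F, φ = shear h f := by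
  constructor
  · intro hφ
    have hact : ∀ a, act h φ a = a := fun a => by
      have hk : Φ h φ = 1 := hφ
      exact congrFun hk a
    have hfix : ∀ b, φ (el h 0 b) = el h 0 b := by
      intro b
      obtain ⟨a, ha⟩ := h.th_mul_self_bijective.2 b
      obtain ⟨c, e, he⟩ := el_surj h (φ (el h a 0))
      have hc : c = a := by
        rw [← hact a]
        show c = co h (φ (el h a 0))
        rw [← he, co_el]
      rw [← show th m a * a = b from ha, ← el_sq h a 0, map_mul, ← he, hc, el_sq, el_sq]
    have hex : ∀ a, ∃ b, φ (el h a 0) = el h a b := fun a => by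
      obtain ⟨c, e, he⟩ := el_surj h (φ (el h a 0))
      have hc : c = a := by
        rw [← hact a]
        show c = co h (φ (el h a 0))
        rw [← he, co_el]
      exact ⟨e, by rw [← he, hc]⟩
    choose g hg using hex
    let f : F →+ F := AddMonoidHom.mk' g fun a c => by
      have h1 : φ (el h a 0 * el h c 0) = φ (el h (a + c) 0 * el h 0 (th m a * c)) := by
        rw [el_mul, el_mul]
        simp
      rw [map_mul, map_mul, hg, hg, hg, hfix, el_mul, el_mul, mul_zero, add_zero] at h1
      have h2 := (el_inj h h1).2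
      linear_combination -h2
    refine ⟨f, MulEquiv.ext fun x => ?_⟩
    obtain ⟨a, b, rfl⟩ := el_surj h x
    have e : el h a b = el h a 0 * el h 0 b := by
      rw [el_mul, add_zero, zero_add, mul_zero, add_zero]
    conv_lhs => rw [e, map_mul, hg, hfix, el_mul, add_zero, mul_zero, add_zero]
    rw [shear_el, add_comm]
    rfl
  · rintro ⟨f, rfl⟩
    rw [MonoidHom.mem_ker]
    funext a
    show co h (shear h f (el h a 0)) = a
    rw [shear_el, co_el]

theorem shear_injective : Function.Injective (shear h) := fun f g e => AddMonoidHom.ext fun a => by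
  have e1 := MulEquiv.congr_fun e (el h a 0)
  rw [shear_el, shear_el] at e1
  simpa using (el_inj h e1).2

theorem card_ker : Nat.card (Φ h).ker = 2 ^ ((2 * m + 1) ^ 2) := by
  rw [← card_addHom h]
  refine (Nat.card_congr (Equiv.ofBijective
    (fun f : F →+ F => (⟨shear h f, (mem_ker_iff h _).2 ⟨f, rfl⟩⟩ : (Φ h).ker))
    ⟨fun f g e => shear_injective h (congrArg Subtype.val e), fun x => ?_⟩)).symm
  obtain ⟨f, hf⟩ := (mem_ker_iff h _).1 x.2
  exact ⟨f, Subtype.ext hf.symm⟩

theorem ker_elementary :
    IsMulCommutative (Φ h).ker ∧ ∀ x ∈ (Φ h).ker, x ^ 2 = 1 := by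
  refine ⟨⟨⟨fun x y => Subtype.ext ?_⟩⟩, fun x hx => ?_⟩
  · obtain ⟨f, hf⟩ := (mem_ker_iff h _).1 x.2
    obtain ⟨g, hg⟩ := (mem_ker_iff h _).1 y.2
    show (x : MulAut h.U) * y = y * x
    rw [hf, hg]
    refine MulEquiv.ext fun z => ?_
    obtain ⟨a, b, rfl⟩ := el_surj h z
    show shear h f (shear h g (el h a b)) = shear h g (shear h f (el h a b))
    rw [shear_el, shear_el, shear_el, shear_el, add_right_comm]
  · obtain ⟨f, rfl⟩ := (mem_ker_iff h _).1 hx
    rw [pow_two]
    refine MulEquiv.ext fun z => ?_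
    obtain ⟨a, b, rfl⟩ := el_surj h z
    show shear h f (shear h f (el h a b)) = el h a b
    rw [shear_el, shear_el, add_assoc, h.add_self, add_zero]

/-- The semilinear automorphisms. -/
theorem exists_semilinear (l : F) (hl : l ≠ 0) (i : K m) :
    ∃ φ : MulAut h.U, ∀ a, act h φ a = l * pw i a := by
  have := h.finite
  have hth : ∀ x, th m (pw i x) = pw i (th m x) := fun x => by
    rw [th_eq_pw h, th_eq_pw h x, pw_pw h, pw_pw h, add_comm]
  let g : h.U → h.U := fun x =>
    el h (l * pw i (co h x)) (th m l * l * pw i (co2 h x))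
  have hg : ∀ a b, g (el h a b) = el h (l * pw i a) (th m l * l * pw i b) := by
    intro a b
    simp only [g, co_el, co2_el]
  let φ₀ : h.U →* h.U := MonoidHom.mk' g fun x y => by
    obtain ⟨a, b, rfl⟩ := el_surj h x
    obtain ⟨c, e, rfl⟩ := el_surj h y
    rw [el_mul, hg, hg, hg, el_mul, th_mul, hth]
    simp only [pw_add h]
    rw [show pw i (th m a * c) = pw i (th m a) * pw i c from mul_pow _ _ _]
    congr 1 <;> ring
  have hinj : Function.Injective φ₀ := by
    intro x y e
    obtain ⟨a, b, rfl⟩ := el_surj h x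
    obtain ⟨c, d, rfl⟩ := el_surj h y
    change g (el h a b) = g (el h c d) at e
    rw [hg, hg] at e
    obtain ⟨e1, e2⟩ := el_inj h e
    rw [pw_injective h i (mul_left_cancel₀ hl e1),
      pw_injective h i (mul_left_cancel₀ (mul_ne_zero (th_ne_zero hl) hl) e2)]
  haveI := h.finite_group
  refine ⟨MulEquiv.ofBijective φ₀ (Finite.injective_iff_bijective.1 hinj), fun a => ?_⟩
  show co h (g (el h a 0)) = _
  rw [hg, co_el]

theorem card_range : Nat.card (Set.range (Φ h)) = (2 * m + 1) * (2 ^ (2 * m + 1) - 1) := by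
  classical
  have := h.finite
  let f : Fˣ × K m → Set.range (Φ h) := fun p =>
    ⟨fun a => (p.1 : F) * pw p.2 a, (exists_semilinear h _ p.1.ne_zero p.2).choose,
      by funext a; exact (exists_semilinear h _ p.1.ne_zero p.2).choose_spec a⟩
  have hf : Function.Bijective f := by
    constructor
    · rintro ⟨l, i⟩ ⟨l', i'⟩ e
      have e' : (fun a => (l : F) * pw i a) = fun a => (l' : F) * pw i' a := congrArg Subtype.val e
      have hll : (l : F) = l' := by simpa [pw] using congrFun e' 1
      have hsum : ∀ (u : K m) (a : F), ∑ v, (if v = u then (l : F) else 0) * pw v a = l * pw u a :=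
        fun u a => by rw [Finset.sum_eq_single u (fun v _ hv => by rw [if_neg hv, zero_mul]) (by simp), if_pos rfl]
      have h2 : (fun v => (if v = i then (l : F) else 0) - if v = i' then (l : F) else 0) = 0 :=
        coeff_unique h _ fun a => by
          simp only [sub_mul, Finset.sum_sub_distrib, hsum, sub_eq_zero]
          rw [hll]
          exact hll ▸ congrFun e' a
      refine Prod.ext (Units.ext hll) ?_
      by_contra hii
      have h3 := congrFun h2 i
      simp only [if_pos, if_neg hii, sub_zero, Pi.zero_apply] at h3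
      exact l.ne_zero h3
    · rintro ⟨g, φ, rfl⟩
      obtain ⟨l, i, hl, hli⟩ := act_semilinear h φ
      exact ⟨(Units.mk0 l hl, i), Subtype.ext (by funext a; exact (hli a).symm)⟩
  rw [← Nat.card_congr (Equiv.ofBijective f hf), Nat.card_prod, h.card_units,
    Nat.card_eq_fintype_card, ZMod.card, mul_comm]

theorem card_aut :
    Nat.card (MulAut h.U) = 2 ^ ((2 * m + 1) ^ 2) * ((2 * m + 1) * (2 ^ (2 * m + 1) - 1)) := by
  rw [← card_ker h, ← card_range h]
  have h1 := (Φ h).ker.card_eq_card_quotient_mul_card_subgroup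
  rw [h1, mul_comm]
  congr 1
  refine Nat.card_congr (Equiv.ofBijective (fun x => Quotient.liftOn' x
    (fun φ => (⟨Φ h φ, φ, rfl⟩ : Set.range (Φ h))) fun a b hab => ?_) ⟨?_, ?_⟩)
  · rw [QuotientGroup.leftRel_apply, MonoidHom.mem_ker, map_mul] at hab
    refine Subtype.ext ?_
    calc Φ h a = Φ h a * (Φ h a⁻¹ * Φ h b) := by rw [hab, mul_one]
      _ = Φ h b := by rw [← mul_assoc, ← map_mul, mul_inv_cancel, map_one, one_mul]
  · rintro ⟨a⟩ ⟨b⟩ e
    refine Quotient.sound' (QuotientGroup.leftRel_apply.2 ?_)
    have e' : Φ h a = Φ h b := congrArg Subtype.val e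
    rw [MonoidHom.mem_ker, map_mul, ← e', ← map_mul, inv_mul_cancel, map_one]
  · rintro ⟨_, φ, rfl⟩
    exact ⟨Quotient.mk'' φ, rfl⟩

theorem pCore_eq_ker : Cfsg.pCore 2 (MulAut h.U) = (Φ h).ker := by
  haveI := h.finite_group
  haveI : Fact (Nat.Prime 2) := ⟨Nat.prime_two⟩
  haveI : Finite (MulAut h.U) := Finite.of_injective _ DFunLike.coe_injective
  have hker : IsPGroup 2 (Φ h).ker := IsPGroup.of_card (n := (2 * m + 1) ^ 2) (card_ker h)
  refine le_antisymm ?_ (CfsgLib.Cores.le_pCore hker)
  -- a 2-group of odd index modulo the kernel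
  set P := Cfsg.pCore 2 (MulAut h.U) with hP
  have hsup : IsPGroup 2 ↥(P ⊔ (Φ h).ker) :=
    (CfsgLib.Cores.isPGroup_pCore 2 _).to_sup_of_normal_right hker
  obtain ⟨k, hk⟩ := hsup.exists_card_eq
  have hdvd : 2 ^ k ∣ 2 ^ ((2 * m + 1) ^ 2) * ((2 * m + 1) * (2 ^ (2 * m + 1) - 1)) := by
    rw [← hk, ← card_aut h]; exact Subgroup.card_subgroup_dvd_card _
  have hodd : Odd ((2 * m + 1) * (2 ^ (2 * m + 1) - 1)) :=
    (odd_two_mul_add_one m).mul (Nat.Even.sub_odd Nat.one_le_two_pow
      (Nat.even_pow.2 ⟨even_two, by omega⟩) odd_one)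
  have hcop : Nat.Coprime (2 ^ k) ((2 * m + 1) * (2 ^ (2 * m + 1) - 1)) :=
    Nat.Coprime.pow_left k (Nat.coprime_two_left.2 hodd)
  have hle : 2 ^ k ≤ 2 ^ ((2 * m + 1) ^ 2) :=
    Nat.le_of_dvd (by positivity) (hcop.dvd_of_dvd_mul_right hdvd)
  have heq : (Φ h).ker = P ⊔ (Φ h).ker :=
    Subgroup.eq_of_le_of_card_ge le_sup_right (by rw [hk, card_ker h]; exact hle)
  exact le_sup_left.trans heq.ge

end

end CfsgLib.TwoFusion.SzAut
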